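/-
The `p`-fusion system of the alternating group of degree `n` is simple when `n ≥ 6`, `p² ≤ n` and `n ≡ 0, 1 mod p`.
-/
import Cfsg.Agent.Lib.Fusion.AltF6
import Cfsg.Agent.Lib.Fusion.AltF7

set_option autoImplicit false
set_option linter.unusedSectionVars false
set_option linter.unusedVariables false
set_option linter.unusedSimpArgs false
set_option linter.style.haveILetI false

namespace Cfsg.Agent.Lib.Fusion.AltF

open Equiv Equiv.Perm Cfsg Cfsg.Agent.Lib.Fusion

section Orbit

variable {M' : Type*} [Fintype M'] [DecidableEq M'] {p : ℕ} [hp : Fact p.Prime]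

theorem exists_orbit_finset {W' : Subgroup (Perm M')} (hW' : IsPGroup p W') (o₀ : M') :
    ∃ (O : Finset M') (k : ℕ), O.card = p ^ k ∧ ∀ w ∈ W', ∀ o ∈ O, w o ∈ O := by
  classical
  obtain ⟨k, hk⟩ := hW'.card_orbit (α := M') o₀
  refine ⟨Finset.univ.filter (fun o => o ∈ MulAction.orbit W' o₀), k, ?_, ?_⟩
  · rw [← hk, Nat.card_eq_fintype_card]
    exact (Fintype.card_subtype _).symm
  · intro w hw o ho
    rw [Finset.mem_filter] at ho ⊢
    refine ⟨Finset.mem_univ _, ?_⟩
    obtain ⟨g, hg⟩ := ho.2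
    refine ⟨⟨w, hw⟩ * g, ?_⟩
    rw [← hg]
    exact mul_smul _ _ _

end Orbit

section Final

variable {M' R' R Y : Type*} [Fintype M'] [DecidableEq M'] [Fintype R'] [DecidableEq R'] [Fintype R] [DecidableEq R]
  [Fintype Y] [DecidableEq Y] {p : ℕ} [hp : Fact p.Prime]

theorem alt_map_eq (e : Pts (Pts M' R' p) R p ≃ Y) :
    alternatingGroup Y = (alternatingGroup (Pts (Pts M' R' p) R p)).map (e.permCongrHom.toMonoidHom) := by
  ext x'
  constructor
  · intro h
    refine ⟨e.permCongrHom.symm x', ?_, e.permCongrHom.apply_symm_apply x'⟩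
    show sign (e.permCongrHom.symm x') = 1
    have h1 : sign x' = 1 := h
    have h2 : e.permCongrHom (e.permCongrHom.symm x') = x' := e.permCongrHom.apply_symm_apply x'
    rw [← h2] at h1
    rwa [show sign (e.permCongrHom (e.permCongrHom.symm x')) = sign (e.permCongrHom.symm x') from sign_permCongr e _] at h1
  · rintro ⟨x, hx, rfl⟩
    show sign (e.permCongr x) = 1
    rw [sign_permCongr]
    exact hx

theorem exists_card_split (X : Type*) [Fintype X] [DecidableEq X] (p : ℕ) [hp : Fact p.Prime] :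
    ∃ u, (Fintype.card X).factorial = p ^ padicValNat p (Fintype.card X).factorial * u ∧ ¬ p ∣ u := by
  have h0 : (Fintype.card X).factorial ≠ 0 := Nat.factorial_ne_zero _
  obtain ⟨u, hu⟩ := pow_padicValNat_dvd (p := p) (n := (Fintype.card X).factorial)
  refine ⟨u, hu, fun hd => ?_⟩
  obtain ⟨v, rfl⟩ := hd
  apply pow_succ_padicValNat_not_dvd (p := p) h0
  refine ⟨v, ?_⟩
  conv_lhs => rw [hu]
  ring

/-- The theorem for `p` odd. -/
theorem simple_odd [Subsingleton R] [Nonempty M'] (hp2 : p ≠ 2) {W' : Subgroup (Perm M')} (hW' : Good p W')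
    (hm : p ≤ Fintype.card (Pts M' R' p)) (hR' : Fintype.card R' < p) (hR : Fintype.card R < p)
    (e : Pts (Pts M' R' p) R p ≃ Y) (S : Sylow p (alternatingGroup Y)) :
    (groupFusionSystem (S : Subgroup (alternatingGroup Y))).IsSimple p := by
  classical
  have hpp := hp.out
  have hp3 : 3 ≤ p := by
    have := hpp.two_le
    omega
  have hm3 : 3 ≤ Fintype.card (Pts M' R' p) := hp3.trans hm
  set W : Subgroup (Perm (Pts M' R' p)) := wr W' with hW
  have hWg : Good p W := good_wr hW' hR'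
  have hpow : ∀ x ∈ W, x ^ p ^ padicValNat p (Fintype.card (Pts M' R' p)).factorial = 1 := isPGroup_of_card hWg.card
  have hWA : (wr W : Subgroup (Perm (Pts (Pts M' R' p) R p))) ≤ alternatingGroup _ := wr_le_alt hp2 hpow
  have hQQ : (QQ W : Subgroup (Perm (Pts (Pts M' R' p) R p))) = wr W := inf_eq_left.2 hWA
  have hcQ : Nat.card (QQ W : Subgroup (Perm (Pts (Pts M' R' p) R p))) = p ^ padicValNat p (Fintype.card (Pts (Pts M' R' p) R p)).factorial := by
    rw [hQQ]
    exact card_wr_eq hWg.card hR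
  obtain ⟨u, hu, hud⟩ := exists_card_split (Pts (Pts M' R' p) R p) p
  obtain ⟨o₀⟩ := ‹Nonempty M'›
  obtain ⟨O, k, hOc, hO⟩ := exists_orbit_finset (IsPGroup.of_card (isPGroup_of_card hW'.card |> fun _ => hW'.card)) o₀
  haveI : Nontrivial (Pts (Pts M' R' p) R p) := by
    rw [← Fintype.one_lt_card_iff_nontrivial]
    have := three_p_le_card (R := R) (p := p) hm3
    have := hpp.two_le
    omega
  have hAc : 2 * Nat.card (alternatingGroup (Pts (Pts M' R' p) R p)) = (Fintype.card (Pts (Pts M' R' p) R p)).factorial := by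
    rw [two_mul_nat_card_alternatingGroup, Nat.card_perm, Nat.card_eq_fintype_card]
  obtain ⟨u', rfl⟩ : 2 ∣ u := by
    have h1 : 2 ∣ p ^ padicValNat p (Fintype.card (Pts (Pts M' R' p) R p)).factorial * u := by
      rw [← hu, ← hAc]
      exact dvd_mul_right _ _
    refine (Nat.Coprime.dvd_mul_left ?_).1 h1
    exact Nat.Coprime.pow_right _ ((Nat.coprime_primes Nat.prime_two hpp).2 (Ne.symm hp2))
  have hcard : Nat.card (alternatingGroup (Pts (Pts M' R' p) R p)) = Nat.card (QQ W : Subgroup (Perm (Pts (Pts M' R' p) R p))) * u' := by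
    rw [hcQ]
    have h1 : 2 * Nat.card (alternatingGroup (Pts (Pts M' R' p) R p)) = 2 * (p ^ padicValNat p (Fintype.card (Pts (Pts M' R' p) R p)).factorial * u') := by
      rw [hAc]
      conv_lhs => rw [hu]
      ring
    exact Nat.eq_of_mul_eq_mul_left (by norm_num) h1
  have hne : (QQ W : Subgroup (Perm (Pts (Pts M' R' p) R p))) ≠ ⊥ := by
    obtain ⟨i⟩ : Nonempty (Pts M' R' p) := Fintype.card_pos_iff.1 (by omega)
    intro h
    have h1 : (cc i : Perm (Pts (Pts M' R' p) R p)) ∈ (QQ W : Subgroup (Perm (Pts (Pts M' R' p) R p))) :=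
      ⟨bb_mem_wr W _, sign_of_pow hp2 (bb_pow_p _)⟩
    rw [h] at h1
    have h2 : (cc i : Perm (Pts (Pts M' R' p) R p)) = 1 := h1
    have h3 := card_support_cc (R := R) (p := p) i
    rw [h2] at h3
    simp only [Equiv.Perm.support_one, Finset.card_empty] at h3
    exact hpp.ne_zero h3.symm
  refine isSimple_of_local_equiv e.permCongrHom (alternatingGroup (Pts (Pts M' R' p) R p)) (QQ W) (alternatingGroup Y) (alt_map_eq e)
    inf_le_right hne (IsPGroup.of_card hcQ) (m := u') (fun h => hud (h.mul_left 2)) hcard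
    {BB, RS O} ?_ ?_ ?_ ?_ S
  · rintro _ (rfl | rfl)
    · rw [hQQ]
      rintro _ ⟨f, rfl⟩
      exact bb_mem_wr W f
    · rw [hQQ]
      exact RS_le W' O
  · rintro _ (rfl | rfl) y hy hc
    · have h1 : y ∈ (RS ∅ : Subgroup (Perm (Pts (Pts M' R' p) R p))) :=
        mem_RS_of_comm (fun r hr => hc r (mem_RS_empty.1 hr))
      exact mem_RS_empty.1 h1
    · exact mem_RS_of_comm hc
  · intro x hx hxN
    rw [hQQ] at hxN ⊢
    have h1 := hK_odd (R := R) hp2 hW' hm hO hOc hx hxN
    refine Subgroup.closure_mono ?_ h1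
    rintro w ⟨h1, h2, h3⟩
    refine ⟨h1, h2, ?_⟩
    rcases h3 with h3 | h3
    · exact ⟨BB, Or.inl rfl, h3⟩
    · exact ⟨RS O, Or.inr rfl, h3⟩
  · intro T hTQ hT1 hT
    exact closed_odd hp2 hm3 hWg hR hTQ hT1 hT

theorem card_QQ_two {M : Type*} [Fintype M] [DecidableEq M] [Nonempty M] (W : Subgroup (Perm M)) :
    2 * Nat.card (QQ W : Subgroup (Perm (Pts M R 2))) = Nat.card (wr W : Subgroup (Perm (Pts M R 2))) := by
  obtain ⟨i⟩ := ‹Nonempty M›
  let f : (wr W : Subgroup (Perm (Pts M R 2))) →* ℤˣ := (sign).comp (wr W : Subgroup (Perm (Pts M R 2))).subtype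
  have hr : f.range = ⊤ := by
    rw [eq_top_iff]
    intro u _
    rcases Int.units_eq_one_or u with rfl | rfl
    · exact Subgroup.one_mem _
    · refine ⟨⟨cc i, bb_mem_wr W _⟩, ?_⟩
      show sign (cc i : Perm (Pts M R 2)) = -1
      rw [sign_cc, affP_one_one]
  have h1 := Subgroup.card_mul_index f.ker
  rw [Subgroup.index_ker, hr, Subgroup.card_top, Nat.card_eq_fintype_card (α := ℤˣ), Fintype.card_units_int] at h1
  have h2 : Nat.card f.ker = Nat.card (QQ W : Subgroup (Perm (Pts M R 2))) := by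
    refine Nat.card_congr ⟨fun x => ⟨x.1.1, x.1.2, x.2⟩, fun y => ⟨⟨y.1, y.2.1⟩, y.2.2⟩, fun x => rfl, fun y => rfl⟩
  rw [← h2, ← h1, mul_comm]

/-- The theorem for `p = 2`. -/
theorem simple_two [Subsingleton R'] {W' : Subgroup (Perm M')} (hW' : Good 2 W')
    (hm3 : 3 ≤ Fintype.card (Pts M' R' 2)) (hR' : Fintype.card R' < 2) (hR : Fintype.card R < 2)
    (e : Pts (Pts M' R' 2) R 2 ≃ Y) (S : Sylow 2 (alternatingGroup Y)) :
    (groupFusionSystem (S : Subgroup (alternatingGroup Y))).IsSimple 2 := by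
  classical
  set W : Subgroup (Perm (Pts M' R' 2)) := wr W' with hW
  have hWg : Good 2 W := good_wr hW' hR'
  haveI : Nonempty (Pts M' R' 2) := Fintype.card_pos_iff.1 (by omega)
  have hcQ : 2 * Nat.card (QQ W : Subgroup (Perm (Pts (Pts M' R' 2) R 2))) = 2 ^ padicValNat 2 (Fintype.card (Pts (Pts M' R' 2) R 2)).factorial := by
    rw [card_QQ_two, card_wr_eq hWg.card hR]
  obtain ⟨u, hu, hud⟩ := exists_card_split (Pts (Pts M' R' 2) R 2) 2
  haveI : Nontrivial (Pts (Pts M' R' 2) R 2) := by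
    rw [← Fintype.one_lt_card_iff_nontrivial]
    have := three_p_le_card (R := R) (p := 2) hm3
    omega
  have hAc : 2 * Nat.card (alternatingGroup (Pts (Pts M' R' 2) R 2)) = (Fintype.card (Pts (Pts M' R' 2) R 2)).factorial := by
    rw [two_mul_nat_card_alternatingGroup, Nat.card_perm, Nat.card_eq_fintype_card]
  have hcard : Nat.card (alternatingGroup (Pts (Pts M' R' 2) R 2)) = Nat.card (QQ W : Subgroup (Perm (Pts (Pts M' R' 2) R 2))) * u := by
    have h1 : 2 * Nat.card (alternatingGroup (Pts (Pts M' R' 2) R 2)) = 2 * (Nat.card (QQ W : Subgroup (Perm (Pts (Pts M' R' 2) R 2))) * u) := by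
      rw [hAc, hu, ← mul_assoc, hcQ]
    exact Nat.eq_of_mul_eq_mul_left (by norm_num) h1
  have hpow : ∀ x ∈ (QQ W : Subgroup (Perm (Pts (Pts M' R' 2) R 2))), ∃ k : ℕ, x ^ 2 ^ k = 1 := fun x hx =>
    ⟨_, pow_mem_wr (isPGroup_of_card hWg.card) x hx.1⟩
  have hne : (QQ W : Subgroup (Perm (Pts (Pts M' R' 2) R 2))) ≠ ⊥ := by
    obtain ⟨i⟩ := ‹Nonempty (Pts M' R' 2)›
    obtain ⟨k, hk, -⟩ := exists_third hm3 i i
    intro h
    have h1 := bb_diff_mem (R := R) (p := 2) W k i
    rw [h] at h1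
    have h2 : (bb (Pi.single k 1 - Pi.single i 1) : Perm (Pts (Pts M' R' 2) R 2)) = bb 0 := by
      rw [bb_zero]
      exact h1
    have h3 := congrFun (mon_inj h2).2.2 k
    simp [Pi.single_eq_of_ne hk] at h3
  have hsn : ∀ {y : Perm (Pts (Pts M' R' 2) R 2)}, y ∈ alternatingGroup (Pts (Pts M' R' 2) R 2) →
      y ∈ Subgroup.normalizer ((QQ W : Subgroup (Perm (Pts (Pts M' R' 2) R 2))) : Set (Perm (Pts (Pts M' R' 2) R 2))) → y ∈ (QQ W : Subgroup (Perm (Pts (Pts M' R' 2) R 2))) :=
    fun hy hy' => sn_QQ hm3 hWg hR hy hy'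
  refine isSimple_of_local_equiv e.permCongrHom (alternatingGroup (Pts (Pts M' R' 2) R 2)) (QQ W) (alternatingGroup Y) (alt_map_eq e)
    inf_le_right hne (fun x => by
      obtain ⟨k, hk⟩ := hpow x.1 x.2
      exact ⟨k, Subtype.ext hk⟩) hud hcard
    {QQ W} ?_ ?_ ?_ ?_ S
  · rintro _ rfl
    exact le_rfl
  · rintro _ rfl y hy hc
    refine hsn hy (Subgroup.mem_normalizer_fintype (fun q hq => ?_))
    have e2 : y * q * y⁻¹ = q := by
      rw [← hc q hq]
      group
    rwa [e2]
  · intro x hx hxN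
    have hxQ := hsn hx hxN
    obtain ⟨k, hk⟩ := hpow x hxQ
    exact Subgroup.subset_closure ⟨hx, hxN, _, rfl, Subgroup.subset_closure ⟨hx, hxN, k, hk⟩⟩
  · intro T hTQ hT1 hT
    exact closed_two hm3 hWg hR (fun f hf0 hfW hs => hP_wr W' f hf0 hs) hTQ hT1 hT

end Final

/-- **The alternating groups.** -/
theorem simple_alt (n p : ℕ) (hn : 6 ≤ n) [hp : Fact p.Prime] (hnp : p ^ 2 ≤ n) (hb : n % p ≤ 1)
    (S : Sylow p (alternatingGroup (Fin n))) :
    (groupFusionSystem (S : Subgroup (alternatingGroup (Fin n)))).IsSimple p := by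
  classical
  have hpp := hp.out
  have h2p := hpp.two_le
  set m := n / p with hm
  set r := n % p with hr
  set m' := m / p with hm'
  set r' := m % p with hr'
  have hn1 : p * m + r = n := Nat.div_add_mod n p
  have hn2 : p * m' + r' = m := Nat.div_add_mod m p
  have hrp : r < p := by omega
  have hr'p : r' < p := Nat.mod_lt _ hpp.pos
  have hmp : p ≤ m := by
    by_contra h
    push Not at h
    have h1 : p * m ≤ p * (p - 1) := Nat.mul_le_mul_left _ (by omega)
    have h2 : p * (p - 1) + p = p ^ 2 := by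
      obtain ⟨q, rfl⟩ : ∃ q, p = q + 1 := ⟨p - 1, by omega⟩
      simp only [Nat.add_sub_cancel]
      ring
    nlinarith
  have hm'1 : 1 ≤ m' := by
    rw [hm']
    exact (Nat.one_le_div_iff hpp.pos).2 hmp
  haveI : Nonempty (Fin m') := ⟨⟨0, by omega⟩⟩
  have hcM : Fintype.card (Pts (Fin m') (Fin r') p) = m := by
    rw [card_pts]
    simp only [Fintype.card_fin]
    exact hn2
  have hcX : Fintype.card (Pts (Pts (Fin m') (Fin r') p) (Fin r) p) = n := by
    rw [card_pts, hcM]
    simp only [Fintype.card_fin]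
    exact hn1
  have hcY : Fintype.card (Pts (Pts (Fin m') (Fin r') p) (Fin r) p) = Fintype.card (Fin n) := by
    rw [hcX, Fintype.card_fin]
  let e : Pts (Pts (Fin m') (Fin r') p) (Fin r) p ≃ Fin n := Fintype.equivOfCardEq hcY
  obtain ⟨W', hW'⟩ := exists_good p m' (Fin m') (by simp)
  haveI : Subsingleton (Fin r) := by
    apply Fintype.card_le_one_iff_subsingleton.1
    simp only [Fintype.card_fin]
    exact hb
  by_cases hp2 : p = 2
  · subst hp2
    haveI : Subsingleton (Fin r') := by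
      apply Fintype.card_le_one_iff_subsingleton.1
      simp only [Fintype.card_fin]
      omega
    exact simple_two hW' (by rw [hcM]; omega) (by simpa using hr'p) (by simpa using hrp) e S
  · exact simple_odd hp2 hW' (by rw [hcM]; exact hmp) (by simpa using hr'p) (by simpa using hrp) e S

end Cfsg.Agent.Lib.Fusion.AltF
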