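/-
A simplicity criterion for the `p`-fusion system of `G / Z(G)`, stated on `G`, used for the projective
classical groups at the defining characteristic.
-/
import Cfsg.Agent.Lib.Fusion.SelfNorm

set_option autoImplicit false
set_option linter.unusedSectionVars false
set_option linter.unusedVariables false
set_option linter.unusedSimpArgs false
set_option linter.style.haveILetI false

namespace Cfsg.Agent.Lib.Fusion

open Cfsg Cfsg.FusionSystem

section
variable {G : Type*} [Group G] [Finite G] {p : ℕ} [hp : Fact p.Prime]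

/-- The projection. -/
abbrev piZ : G →* G ⧸ Subgroup.center G := QuotientGroup.mk' _

theorem piZ_surj : Function.Surjective (piZ (G := G)) := QuotientGroup.mk'_surjective _

theorem piZ_eq {a b : G} : piZ a = piZ b ↔ a⁻¹ * b ∈ Subgroup.center G := QuotientGroup.eq

theorem piZ_eq_one {a : G} : piZ a = 1 ↔ a ∈ Subgroup.center G := QuotientGroup.eq_one_iff a

variable {U₀ : Subgroup G} {e : ℕ}

/-- Two `p`-elements in the same coset of the centre are equal. -/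
theorem eq_of_mul_center_Z (hZp : ∀ z ∈ Subgroup.center G, ∀ k : ℕ, z ^ p ^ k = 1 → z = 1) {a b : G} {k : ℕ}
    (ha : a ^ p ^ k = 1) (hb : b ^ p ^ k = 1) (h : a⁻¹ * b ∈ Subgroup.center G) : a = b := by
  have h1 : b = a * (a⁻¹ * b) := by group
  have hc : Commute a (a⁻¹ * b) := (Subgroup.mem_center_iff.1 h a)
  have h2 : (a⁻¹ * b) ^ p ^ k = 1 := by
    have h3 : b ^ p ^ k = (a * (a⁻¹ * b)) ^ p ^ k := by rw [← h1]
    rw [hc.mul_pow, ha, one_mul, hb] at h3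
    exact h3.symm
  have h4 := hZp _ h _ h2
  rw [h1, h4, mul_one]

theorem conj_eq_of_mul_center_Z (hUe : ∀ u ∈ U₀, u ^ p ^ e = 1) (hZp : ∀ z ∈ Subgroup.center G, ∀ k : ℕ, z ^ p ^ k = 1 → z = 1)
    {m u u' : G} (hu : u ∈ U₀) (hu' : u' ∈ U₀) (h : (m * u * m⁻¹)⁻¹ * u' ∈ Subgroup.center G) : m * u * m⁻¹ = u' := by
  refine eq_of_mul_center_Z hZp (k := e) ?_ (hUe u' hu') h
  have e1 : (m * u * m⁻¹) ^ p ^ e = m * u ^ p ^ e * m⁻¹ := by
    rw [conj_pow]
  rw [e1, hUe u hu, mul_one, mul_inv_cancel]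

theorem conj_mem_of_piZ (hUe : ∀ u ∈ U₀, u ^ p ^ e = 1) (hZp : ∀ z ∈ Subgroup.center G, ∀ k : ℕ, z ^ p ^ k = 1 → z = 1)
    {m u : G} (hu : u ∈ U₀) (h : piZ (m * u * m⁻¹) ∈ U₀.map piZ) : m * u * m⁻¹ ∈ U₀ := by
  obtain ⟨u', hu', e1⟩ := h
  have : (m * u * m⁻¹)⁻¹ * u' ∈ Subgroup.center G := piZ_eq.1 e1.symm
  rw [conj_eq_of_mul_center_Z hUe hZp hu hu' this]
  exact hu'

theorem comm_of_piZ (hUe : ∀ u ∈ U₀, u ^ p ^ e = 1) (hZp : ∀ z ∈ Subgroup.center G, ∀ k : ℕ, z ^ p ^ k = 1 → z = 1)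
    {m u : G} (hu : u ∈ U₀) (h : piZ u * piZ m = piZ m * piZ u) : u * m = m * u := by
  have h1 : (m * u * m⁻¹)⁻¹ * u ∈ Subgroup.center G := by
    apply piZ_eq.1
    simp only [map_mul, map_inv]
    rw [← h]
    group
  have h2 := conj_eq_of_mul_center_Z hUe hZp hu hu h1
  calc u * m = m * u * m⁻¹ * m := by rw [h2]
    _ = m * u := by group

theorem mem_normalizer_of_piZ (hUe : ∀ u ∈ U₀, u ^ p ^ e = 1) (hZp : ∀ z ∈ Subgroup.center G, ∀ k : ℕ, z ^ p ^ k = 1 → z = 1)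
    {m : G} (h : piZ m ∈ Subgroup.normalizer ((U₀.map piZ : Subgroup (G ⧸ Subgroup.center G)) : Set (G ⧸ Subgroup.center G))) :
    m ∈ Subgroup.normalizer (U₀ : Set G) := by
  have key : ∀ m : G, piZ m ∈ Subgroup.normalizer ((U₀.map piZ : Subgroup (G ⧸ Subgroup.center G)) : Set (G ⧸ Subgroup.center G)) →
      ∀ u ∈ U₀, m * u * m⁻¹ ∈ U₀ := by
    intro m h u hu
    refine conj_mem_of_piZ hUe hZp hu ?_
    have h2 := (Subgroup.mem_normalizer_iff.1 h (piZ u)).1 ⟨u, hu, rfl⟩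
    simpa only [map_mul, map_inv] using h2
  rw [Subgroup.mem_normalizer_iff]
  intro u
  refine ⟨fun hu => key m h u hu, fun hu => ?_⟩
  have h3 := key m⁻¹ (by rw [map_inv]; exact Subgroup.inv_mem _ h) _ hu
  have e1 : m⁻¹ * (m * u * m⁻¹) * m⁻¹⁻¹ = u := by group
  rwa [e1] at h3

end

/-- **The criterion.** -/
theorem isSimple_of_cover {G : Type*} [Group G] [Finite G] {p : ℕ} [hp : Fact p.Prime]
    (U₀ : Subgroup G) (hU1 : U₀ ≠ ⊥) {e : ℕ} (hUe : ∀ u ∈ U₀, u ^ p ^ e = 1)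
    (hZp : ∀ z ∈ Subgroup.center G, ∀ k : ℕ, z ^ p ^ k = 1 → z = 1)
    (hNp : ∀ m ∈ Subgroup.normalizer (U₀ : Set G), ∀ k : ℕ, m ^ p ^ k ∈ Subgroup.center G →
      ∃ z ∈ Subgroup.center G, m * z ∈ U₀)
    (RR : Set (Subgroup G)) (hR : ∀ R ∈ RR, R ≤ U₀)
    (hRc : ∀ R ∈ RR, ∀ y, (∀ r ∈ R, r * y = y * r) → ∃ z ∈ Subgroup.center G, y * z ∈ R)
    (hK : ∀ m ∈ Subgroup.normalizer (U₀ : Set G), m ∈ Subgroup.closure {w | w ∈ Subgroup.normalizer (U₀ : Set G) ∧
      ∃ R ∈ RR, w ∈ Subgroup.closure {g | g ∈ Subgroup.normalizer (R : Set G) ∧ ∃ j : ℕ, g ^ p ^ j = 1}})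
    (hcl : ∀ T : Subgroup G, T ≤ U₀ → T ≠ ⊥ → (∀ t ∈ T, ∀ h, h * t * h⁻¹ ∈ U₀ → h * t * h⁻¹ ∈ T) → U₀ ≤ T)
    (S : Sylow p (G ⧸ Subgroup.center G)) :
    (groupFusionSystem (S : Subgroup (G ⧸ Subgroup.center G))).IsSimple p := by
  classical
  set Gb := G ⧸ Subgroup.center G with hGb
  set UU : Subgroup Gb := U₀.map piZ with hUU
  have hpU : IsPGroup p UU := by
    rintro ⟨_, u, hu, rfl⟩
    refine ⟨e, Subtype.ext ?_⟩
    show piZ u ^ p ^ e = 1
    rw [← map_pow, hUe u hu, map_one]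
  have hmemN : ∀ y ∈ Subgroup.normalizer ((UU : Subgroup Gb) : Set Gb), ∀ k : ℕ, y ^ p ^ k = 1 → y ∈ UU := by
    intro y hy k hk
    obtain ⟨m, rfl⟩ := piZ_surj y
    have hm := mem_normalizer_of_piZ hUe hZp hy
    have hz : m ^ p ^ k ∈ Subgroup.center G := piZ_eq_one.1 (by rw [map_pow, hk])
    obtain ⟨z, hz1, hz2⟩ := hNp m hm k hz
    refine ⟨_, hz2, ?_⟩
    rw [map_mul, piZ_eq_one.2 hz1, mul_one]
  obtain ⟨P, hP⟩ : ∃ P : Sylow p Gb, (P : Subgroup Gb) = UU := by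
    obtain ⟨P, hP⟩ := hpU.exists_le_sylow
    refine ⟨P, ?_⟩
    by_contra hne
    have hlt : UU < P := lt_of_le_of_ne hP (Ne.symm hne)
    obtain ⟨g, hg, hgU⟩ := exists_mem_normalizerIn_not_mem P.isPGroup' hlt
    obtain ⟨k, hk⟩ := P.isPGroup' ⟨g, hg.1⟩
    have hk' : g ^ p ^ k = 1 := congrArg Subtype.val hk
    exact hgU (hmemN _ hg.2 _ hk')
  obtain ⟨k, hk'⟩ := MulAction.exists_smul_eq Gb P S
  have hk : ∀ x, x ∈ (S : Subgroup Gb) ↔ k⁻¹ * x * k ∈ UU := by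
    intro x
    rw [← hk', mem_smul_sylow, hP]
  have hUU1 : UU ≠ ⊥ := by
    intro h
    apply hU1
    rw [eq_bot_iff]
    intro u hu
    have h1 : piZ u ∈ UU := ⟨u, hu, rfl⟩
    rw [h] at h1
    have h2 : piZ u = 1 := h1
    have h3 := piZ_eq_one.1 h2
    have h4 := hZp u h3 e (hUe u hu)
    rw [h4]
    exact Subgroup.one_mem _
  refine isSimple_gfs_of_gen S ?_ ?_ ?_
  · intro hbot
    apply hUU1
    rw [eq_bot_iff]
    intro x hx
    have h1 : k * x * k⁻¹ ∈ (S : Subgroup Gb) := by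
      rw [hk]
      have e1 : k⁻¹ * (k * x * k⁻¹) * k = x := by group
      rwa [e1]
    rw [hbot] at h1
    have h2 : k * x * k⁻¹ = 1 := h1
    have e3 : x = k⁻¹ * (k * x * k⁻¹) * k := by group
    rw [e3, h2]
    simp
  · intro T hT
    by_cases hne : T = ⊥
    · exact Or.inl hne
    right
    set T₀ := cj k⁻¹ T with hT₀
    have hmem : ∀ x, x ∈ T₀ ↔ k * x * k⁻¹ ∈ T := by
      intro x
      rw [hT₀, mem_cj, inv_inv]
    have hT₀U : T₀ ≤ UU := by
      intro x hx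
      have h1 := hT.1 ((hmem x).1 hx)
      have h2 := (hk _).1 h1
      have e1 : k⁻¹ * (k * x * k⁻¹) * k = x := by group
      rwa [e1] at h2
    have key : ∀ x ∈ T₀, ∀ h, h * x * h⁻¹ ∈ UU → h * x * h⁻¹ ∈ T₀ := by
      intro x hx h hh
      rw [hmem]
      have e1 : k * (h * x * h⁻¹) * k⁻¹ = (k * h * k⁻¹) * (k * x * k⁻¹) * (k * h * k⁻¹)⁻¹ := by group
      rw [e1]
      refine PSLF.mem_of_stronglyClosed hT ((hmem x).1 hx) ?_
      rw [← e1, hk]
      have e2 : k⁻¹ * (k * (h * x * h⁻¹) * k⁻¹) * k = h * x * h⁻¹ := by group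
      rwa [e2]
    have hT₀ne : T₀ ≠ ⊥ := by
      intro h
      apply hne
      rw [eq_bot_iff]
      intro x hx
      have h1 : k⁻¹ * x * k ∈ T₀ := by
        rw [hmem]
        have e1 : k * (k⁻¹ * x * k) * k⁻¹ = x := by group
        rwa [e1]
      rw [h] at h1
      have h2 : k⁻¹ * x * k = 1 := h1
      have e3 : x = k * (k⁻¹ * x * k) * k⁻¹ := by group
      rw [e3, h2]
      simp
    -- lift to `G`
    let T₁ : Subgroup G := (T₀.comap piZ) ⊓ U₀
    have hT₁U : T₁ ≤ U₀ := inf_le_right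
    have hT₁ne : T₁ ≠ ⊥ := by
      intro h
      apply hT₀ne
      rw [eq_bot_iff]
      intro x hx
      obtain ⟨u, hu, rfl⟩ := hT₀U hx
      have h1 : u ∈ T₁ := ⟨hx, hu⟩
      rw [h] at h1
      have h2 : u = 1 := h1
      rw [h2, map_one]
      exact Subgroup.one_mem _
    have hT₁cl : ∀ t ∈ T₁, ∀ h, h * t * h⁻¹ ∈ U₀ → h * t * h⁻¹ ∈ T₁ := by
      intro t ht h hh
      refine ⟨?_, hh⟩
      have h1 : piZ h * piZ t * (piZ h)⁻¹ ∈ UU := by
        refine ⟨_, hh, ?_⟩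
        simp only [map_mul, map_inv]
      have h2 := key _ ht.1 _ h1
      show piZ (h * t * h⁻¹) ∈ T₀
      simpa only [map_mul, map_inv] using h2
    have hUT := hcl T₁ hT₁U hT₁ne hT₁cl
    apply le_antisymm hT.1
    intro x hx
    obtain ⟨u, hu, e1⟩ := (hk x).1 hx
    have h1 := (hUT hu).1
    have h1' : piZ u ∈ T₀ := h1
    rw [e1] at h1'
    have h2 := (hmem _).1 h1'
    have e2 : k * (k⁻¹ * x * k) * k⁻¹ = x := by group
    rwa [e2] at h2
  · -- the automizer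
    set H := Subgroup.closure (CentricGen S) with hH
    let A : Subgroup Gb := (H.comap (S : Subgroup Gb).normalizerMonoidHom).map (Subgroup.normalizer ((S : Subgroup Gb) : Set Gb)).subtype
    let Φ : G →* Gb := (MulAut.conj k).toMonoidHom.comp piZ
    have hΦ : ∀ m, Φ m = k * piZ m * k⁻¹ := fun m => rfl
    have hNS : ∀ m, m ∈ Subgroup.normalizer (U₀ : Set G) → Φ m ∈ Subgroup.normalizer ((S : Subgroup Gb) : Set Gb) := by
      intro m hm
      rw [Subgroup.mem_normalizer_iff]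
      intro h
      rw [hk, hk, hΦ]
      have e1 : k⁻¹ * (k * piZ m * k⁻¹ * h * (k * piZ m * k⁻¹)⁻¹) * k = piZ m * (k⁻¹ * h * k) * (piZ m)⁻¹ := by group
      rw [e1]
      have hm' : piZ m ∈ Subgroup.normalizer ((UU : Subgroup Gb) : Set Gb) := by
        rw [Subgroup.mem_normalizer_iff]
        intro y
        constructor
        · rintro ⟨u, hu, rfl⟩
          exact ⟨_, (Subgroup.mem_normalizer_iff.1 hm u).1 hu, by simp only [map_mul, map_inv]⟩
        · rintro ⟨u, hu, e2⟩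
          have h3 : m⁻¹ * u * m ∈ U₀ := by
            rw [Subgroup.mem_normalizer_iff.1 hm]
            have e3 : m * (m⁻¹ * u * m) * m⁻¹ = u := by group
            rwa [e3]
          refine ⟨_, h3, ?_⟩
          simp only [map_mul, map_inv]
          rw [e2]
          group
      exact (Subgroup.mem_normalizer_iff.1 hm') _
    have hRc' : ∀ R ∈ RR, (groupFusionSystem (S : Subgroup Gb)).IsCentric (cj k (R.map piZ)) := by
      intro R hRR
      refine ⟨fun x hx => (hk x).2 ((Subgroup.map_mono (hR R hRR)) (mem_cj.1 hx)), fun Q hQ y hy => ?_⟩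
      obtain ⟨g, rfl⟩ := exists_eq_cj_of_isConj hQ
      rw [mem_cj, mem_cj]
      obtain ⟨y₀, hy₀⟩ := piZ_surj (k⁻¹ * (g⁻¹ * y * g) * k)
      have hcomm : ∀ r ∈ R, r * y₀ = y₀ * r := by
        intro r hr
        have hrU := hR R hRR hr
        refine comm_of_piZ hUe hZp hrU ?_
        rw [hy₀]
        have h1 : g * (k * piZ r * k⁻¹) * g⁻¹ ∈ cj g (cj k (R.map piZ)) := conj_mem_cj (conj_mem_cj ⟨r, hr, rfl⟩)
        have h2 := Subgroup.mem_centralizer_iff.1 hy.2 _ h1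
        calc piZ r * (k⁻¹ * (g⁻¹ * y * g) * k) = (g * k)⁻¹ * ((g * (k * piZ r * k⁻¹) * g⁻¹) * y) * (g * k) := by group
          _ = (g * k)⁻¹ * (y * (g * (k * piZ r * k⁻¹) * g⁻¹)) * (g * k) := by rw [h2]
          _ = _ := by group
      obtain ⟨z, hz, hyz⟩ := hRc R hRR y₀ hcomm
      rw [← hy₀]
      refine ⟨_, hyz, ?_⟩
      rw [map_mul, piZ_eq_one.2 hz, mul_one]
    have hgen : ∀ w, w ∈ Subgroup.normalizer (U₀ : Set G) → (∃ R ∈ RR, w ∈ Subgroup.closure {g | g ∈ Subgroup.normalizer (R : Set G) ∧ ∃ j : ℕ, g ^ p ^ j = 1}) → Φ w ∈ A := by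
      rintro w hw ⟨R, hRR, hwR⟩
      have hxN := hNS w hw
      refine ⟨⟨Φ w, hxN⟩, Subgroup.subset_closure ⟨cj k (R.map piZ), hRc' R hRR, Φ w, ?_, fun y => rfl⟩, rfl⟩
      have hle : Subgroup.closure {g | g ∈ Subgroup.normalizer (R : Set G) ∧ ∃ j : ℕ, g ^ p ^ j = 1} ≤
          (Subgroup.closure {g : Gb | g ∈ Subgroup.normalizer ((cj k (R.map piZ) : Subgroup Gb) : Set Gb) ∧ ∃ j : ℕ, orderOf g = p ^ j}).comap Φ := by
        rw [Subgroup.closure_le]
        rintro g ⟨hg1, j, hj⟩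
        apply Subgroup.subset_closure
        refine ⟨?_, ?_⟩
        · rw [hΦ]
          refine mem_normalizer_cj ?_
          rw [Subgroup.mem_normalizer_iff]
          intro y
          constructor
          · rintro ⟨u, hu, rfl⟩
            exact ⟨_, (Subgroup.mem_normalizer_iff.1 hg1 u).1 hu, by simp only [map_mul, map_inv]⟩
          · rintro ⟨u, hu, e2⟩
            have h3 : g⁻¹ * u * g ∈ R := by
              rw [Subgroup.mem_normalizer_iff.1 hg1]
              have e3 : g * (g⁻¹ * u * g) * g⁻¹ = u := by group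
              rwa [e3]
            refine ⟨_, h3, ?_⟩
            simp only [map_mul, map_inv]
            rw [e2]
            group
        · have h1 : (Φ g) ^ p ^ j = 1 := by
            rw [← map_pow, hj, map_one]
          obtain ⟨i, -, hi⟩ := (Nat.dvd_prime_pow hp.out).1 (orderOf_dvd_of_pow_eq_one h1)
          exact ⟨i, hi⟩
      exact hle hwR
    intro α hα
    obtain ⟨x, hx⟩ := (mem_autGroup_gfs le_rfl).1 hα
    have hxS : ∀ y ∈ (S : Subgroup Gb), x * y * x⁻¹ ∈ (S : Subgroup Gb) := by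
      intro y hy
      rw [← hx ⟨y, hy⟩]
      exact (α ⟨y, hy⟩).2
    have hxS' : ∀ h, x * h * x⁻¹ ∈ (S : Subgroup Gb) → h ∈ (S : Subgroup Gb) := by
      intro h hh'
      have h1 := hx (α⁻¹ ⟨_, hh'⟩)
      rw [MulAut.apply_inv_self] at h1
      have h2 : x * h * x⁻¹ = x * ((α⁻¹ ⟨_, hh'⟩ : (S : Subgroup Gb)) : Gb) * x⁻¹ := h1
      have h3 : h = ((α⁻¹ ⟨_, hh'⟩ : (S : Subgroup Gb)) : Gb) := by
        have := congrArg (fun t => x⁻¹ * t * x) h2
        simpa [mul_assoc] using this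
      rw [h3]
      exact (α⁻¹ ⟨_, hh'⟩).2
    have hxN : x ∈ Subgroup.normalizer ((S : Subgroup Gb) : Set Gb) :=
      Subgroup.mem_normalizer_iff.2 (fun h => ⟨hxS h, hxS' h⟩)
    have hx₁ : k⁻¹ * x * k ∈ Subgroup.normalizer ((UU : Subgroup Gb) : Set Gb) := by
      rw [Subgroup.mem_normalizer_iff]
      intro y
      have e1 : y ∈ UU ↔ k * y * k⁻¹ ∈ (S : Subgroup Gb) := by
        rw [hk]
        have e2 : k⁻¹ * (k * y * k⁻¹) * k = y := by group
        rw [e2]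
      rw [e1, Subgroup.mem_normalizer_iff.1 hxN, hk]
      have e2 : k⁻¹ * (x * (k * y * k⁻¹) * x⁻¹) * k = k⁻¹ * x * k * y * (k⁻¹ * x * k)⁻¹ := by group
      rw [e2]
    obtain ⟨m, hm⟩ := piZ_surj (k⁻¹ * x * k)
    have hmN : m ∈ Subgroup.normalizer (U₀ : Set G) := mem_normalizer_of_piZ hUe hZp (by rw [hm]; exact hx₁)
    have hxΦ : x = Φ m := by
      rw [hΦ, hm]
      group
    have hmA : m ∈ A.comap Φ := by
      have hle : Subgroup.closure {w | w ∈ Subgroup.normalizer (U₀ : Set G) ∧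
          ∃ R ∈ RR, w ∈ Subgroup.closure {g | g ∈ Subgroup.normalizer (R : Set G) ∧ ∃ j : ℕ, g ^ p ^ j = 1}} ≤ A.comap Φ := by
        rw [Subgroup.closure_le]
        rintro w ⟨hw1, hw2⟩
        exact hgen w hw1 hw2
      exact hle (hK m hmN)
    have hmem : x ∈ A := by
      rw [hxΦ]
      exact hmA
    obtain ⟨⟨x', hN⟩, hHm, hxe⟩ := hmem
    have hxe' : x' = x := hxe
    subst hxe'
    have hαeq : α = (S : Subgroup Gb).normalizerMonoidHom ⟨x', hN⟩ := by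
      ext y
      exact hx y
    rw [hαeq]
    exact hHm

end Cfsg.Agent.Lib.Fusion
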