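import Mathlib
import Cfsg.Agent.Lib.Transfer.Frattini

/-!
# Higman's theorem on Suzuki 2-groups: basics

`KG ρ`: `G` is a finite 2-group with at least two involutions and `ρ : K →* MulAut G`, `K`
commutative, is regular on the involutions.
-/

namespace Cfsg.Agent.Lib.Fusion.Hig

open Subgroup

universe u v

section Comm
variable {G : Type*} [Group G]

/-- the commutator `x⁻¹ y⁻¹ x y` -/
def cm (x y : G) : G := x⁻¹ * y⁻¹ * x * y

lemma mul_eq_mul_cm (x y : G) : y * x = x * y * cm y x := by unfold cm; group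

lemma conj_eq_mul_cm (x y : G) : y⁻¹ * x * y = x * cm x y := by unfold cm; group

lemma cm_eq_one_iff {x y : G} : cm x y = 1 ↔ x * y = y * x := by
  unfold cm
  constructor
  · intro h
    have : x * y = y * x * (x⁻¹ * y⁻¹ * x * y) := by group
    rw [this, h, mul_one]
  · intro h
    have : x⁻¹ * y⁻¹ * x * y = (y * x)⁻¹ * (x * y) := by group
    rw [this, h]; group

lemma cm_inv_eq (x y : G) : (cm x y)⁻¹ = cm y x := by unfold cm; group

lemma cm_one_left (y : G) : cm 1 y = 1 := by unfold cm; group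
lemma cm_one_right (y : G) : cm y 1 = 1 := by unfold cm; group
lemma cm_self (y : G) : cm y y = 1 := by unfold cm; group

lemma mem_center_iff' {z : G} : z ∈ center G ↔ ∀ g, z * g = g * z := by
  rw [Subgroup.mem_center_iff]
  exact ⟨fun h g => (h g).symm, fun h g => (h g).symm⟩

lemma cm_of_center {z : G} (hz : z ∈ center G) (y : G) : cm z y = 1 :=
  cm_eq_one_iff.mpr (mem_center_iff'.mp hz y)

lemma cm_of_center' {z : G} (hz : z ∈ center G) (y : G) : cm y z = 1 :=
  cm_eq_one_iff.mpr (mem_center_iff'.mp hz y).symm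

lemma center_comm {z : G} (hz : z ∈ center G) (y : G) : z * y = y * z := mem_center_iff'.mp hz y

/-- if `x²` and `[x,y]` are central then `[x,y]² = 1`. -/
lemma cm_sq_of_central {x y : G} (hxx : x * x ∈ center G) (hc : cm x y ∈ center G) :
    cm x y * cm x y = 1 := by
  have h1 : y⁻¹ * (x * x) * y = x * x := by
    rw [mul_assoc, center_comm hxx y, ← mul_assoc]; group
  have h2 : y⁻¹ * (x * x) * y = (y⁻¹ * x * y) * (y⁻¹ * x * y) := by group
  rw [h2, conj_eq_mul_cm] at h1
  have h3 : x * cm x y * (x * cm x y) = x * x * (cm x y * cm x y) := by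
    rw [mul_assoc x, ← mul_assoc (cm x y), center_comm hc x]; group
  rw [h3] at h1
  simpa using h1

/-- if `[x',x]` is central, `(x x')² = x² x'² [x',x]`. -/
lemma mul_sq_of_central {x x' : G} (hc : cm x' x ∈ center G) :
    (x * x') * (x * x') = (x * x) * (x' * x') * cm x' x := by
  have h : x' * x = x * x' * cm x' x := mul_eq_mul_cm x x'
  calc (x * x') * (x * x') = x * (x' * x) * x' := by group
    _ = x * (x * x' * cm x' x) * x' := by rw [h]
    _ = x * x * x' * (cm x' x * x') := by group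
    _ = x * x * x' * (x' * cm x' x) := by rw [center_comm hc x']
    _ = _ := by group

lemma cm_mul_left_of_central {x x' y : G} (hc : cm x y ∈ center G) :
    cm (x * x') y = cm x y * cm x' y := by
  have h : cm (x * x') y = x'⁻¹ * cm x y * x' * cm x' y := by unfold cm; group
  rw [h, mul_assoc x'⁻¹, center_comm hc x']; group

lemma cm_mul_right_of_central {x y y' : G} (hc : cm x y ∈ center G) :
    cm x (y * y') = cm x y * cm x y' := by
  have h : cm x (y * y') = cm x y' * (y'⁻¹ * cm x y * y') := by unfold cm; group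
  have h2 : y'⁻¹ * cm x y * y' = cm x y := by
    rw [mul_assoc y'⁻¹, center_comm hc y']; group
  rw [h, h2]
  exact (center_comm hc _).symm

/-- `[u²,y] = u⁻¹ a u a` with `a = [u,y]`. -/
lemma cm_sq_left (u y : G) : cm (u * u) y = cm u y * cm (cm u y) u * cm u y := by
  unfold cm; group

lemma cm_conj_map {H : Type*} [Group H] (f : G →* H) (x y : G) : f (cm x y) = cm (f x) (f y) := by
  unfold cm; simp

end Comm

/-- any nontrivial element of a 2-group has an involution as a power -/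
lemma exists_inv_pow {G : Type*} [Group G] (h2 : IsPGroup 2 G) {x : G} (hx : x ≠ 1) :
    ∃ m : ℕ, x ^ m ≠ 1 ∧ x ^ m * x ^ m = 1 := by
  classical
  have hex : ∃ t : ℕ, x ^ (2 ^ t) = 1 := h2 x
  have h0 : Nat.find hex ≠ 0 := by
    intro h
    have := Nat.find_spec hex
    rw [h] at this
    simp at this
    exact hx this
  obtain ⟨s, hs⟩ := Nat.exists_eq_succ_of_ne_zero h0
  refine ⟨2 ^ s, ?_, ?_⟩
  · exact Nat.find_min hex (by omega)
  · have := Nat.find_spec hex
    rw [hs] at this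
    rw [← pow_add, ← two_mul, ← pow_succ']
    exact this

section KG

variable {K : Type*} [CommGroup K] {G : Type*} [Group G]

/-- the basic hypothesis of Higman's theorem -/
structure KG (ρ : K →* MulAut G) : Prop where
  fin : Finite G
  two : IsPGroup 2 G
  ex : ∃ x y : G, x ≠ y ∧ x ≠ 1 ∧ x * x = 1 ∧ y ≠ 1 ∧ y * y = 1
  reg : ∀ x y : G, x ≠ 1 → x * x = 1 → y ≠ 1 → y * y = 1 → ∃! k : K, ρ k x = y

/-- invariant subgroups -/
def KInv (ρ : K →* MulAut G) (R : Subgroup G) : Prop := ∀ k x, x ∈ R → ρ k x ∈ R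

variable {ρ : K →* MulAut G}

lemma rho_inv_apply (ρ : K →* MulAut G) (k : K) (x : G) : ρ k (ρ k⁻¹ x) = x := by
  rw [← MulAut.mul_apply, ← map_mul, mul_inv_cancel, map_one]; rfl

lemma rho_inv_apply' (ρ : K →* MulAut G) (k : K) (x : G) : ρ k⁻¹ (ρ k x) = x := by
  rw [← MulAut.mul_apply, ← map_mul, inv_mul_cancel, map_one]; rfl

lemma rho_mul_apply (ρ : K →* MulAut G) (k l : K) (x : G) : ρ (k * l) x = ρ k (ρ l x) := by
  rw [map_mul, MulAut.mul_apply]

lemma rho_one_apply (ρ : K →* MulAut G) (x : G) : ρ 1 x = x := by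
  rw [map_one]; rfl

lemma rho_cm (ρ : K →* MulAut G) (k : K) (x y : G) : ρ k (cm x y) = cm (ρ k x) (ρ k y) :=
  cm_conj_map (ρ k).toMonoidHom x y

lemma KG.central (h : KG ρ) {x : G} (hx : x * x = 1) : x ∈ center G := by
  classical
  by_cases h1 : x = 1
  · rw [h1]; exact one_mem _
  haveI := h.fin
  haveI : Nontrivial G := ⟨⟨x, 1, h1⟩⟩
  haveI := h.two.center_nontrivial
  obtain ⟨z, hz⟩ := exists_ne (1 : center G)
  have hz' : (z : G) ≠ 1 := fun h => hz (Subtype.ext h)
  obtain ⟨m, hm1, hm2⟩ := exists_inv_pow h.two hz'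
  obtain ⟨k, hk, -⟩ := h.reg _ _ hm1 hm2 h1 hx
  rw [← hk, mem_center_iff']
  intro g
  have hzm : (z : G) ^ m ∈ center G := pow_mem z.2 m
  have := center_comm hzm (ρ k⁻¹ g)
  have h2 := congrArg (ρ k) this
  rw [map_mul, map_mul, rho_inv_apply] at h2
  exact h2

/-- the elementary abelian group of all `x` with `x² = 1` -/
def Om (h : KG ρ) : Subgroup G where
  carrier := {x | x * x = 1}
  one_mem' := by simp
  mul_mem' := by
    intro a b ha hb
    simp only [Set.mem_ofPred_eq] at *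
    calc a * b * (a * b) = a * (b * a) * b := by group
      _ = a * (a * b) * b := by rw [← center_comm (h.central ha) b]
      _ = (a * a) * (b * b) := by group
      _ = 1 := by rw [ha, hb, one_mul]
  inv_mem' := by
    intro a ha
    simp only [Set.mem_ofPred_eq] at *
    have : a⁻¹ = a := by
      rw [inv_eq_iff_mul_eq_one]; exact ha
    rw [this]; exact ha

@[simp] lemma mem_Om (h : KG ρ) {x : G} : x ∈ Om h ↔ x * x = 1 := Iff.rfl

instance Om_normal (h : KG ρ) : (Om h).Normal := by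
  refine ⟨fun x hx g => ?_⟩
  rw [mem_Om] at *
  have := center_comm (h.central hx) g⁻¹
  calc g * x * g⁻¹ * (g * x * g⁻¹) = g * (x * x) * g⁻¹ := by group
    _ = 1 := by rw [hx]; group

lemma Om_kinv (h : KG ρ) : KInv ρ (Om h) := by
  intro k x hx
  rw [mem_Om] at *
  rw [← map_mul, hx, map_one]

lemma center_kinv (ρ : K →* MulAut G) : KInv ρ (center G) := by
  intro k x hx
  rw [mem_center_iff']
  intro g
  have := congrArg (ρ k) (center_comm hx (ρ k⁻¹ g))
  rwa [map_mul, map_mul, rho_inv_apply] at this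

lemma KG.exists_ne_one (h : KG ρ) : ∃ k : K, k ≠ 1 := by
  obtain ⟨x, y, hxy, hx1, hx2, hy1, hy2⟩ := h.ex
  obtain ⟨k, hk, -⟩ := h.reg x y hx1 hx2 hy1 hy2
  refine ⟨k, ?_⟩
  rintro rfl
  rw [rho_one_apply] at hk
  exact hxy hk

/-- `ρ k x = x` for `k ≠ 1` forces `x = 1`. -/
lemma KG.fix_free (h : KG ρ) {k : K} (hk : k ≠ 1) {x : G} (hx : ρ k x = x) : x = 1 := by
  by_contra hx1
  obtain ⟨m, hm1, hm2⟩ := exists_inv_pow h.two hx1
  obtain ⟨l, -, hl⟩ := h.reg _ _ hm1 hm2 hm1 hm2
  have h1 : k = l := hl k (by show ρ k (x ^ m) = x ^ m; rw [map_pow, hx])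
  have h2 : 1 = l := hl 1 (rho_one_apply ρ _)
  exact hk (h1.trans h2.symm)

lemma KG.smul_inj (h : KG ρ) {k l : K} {x : G} (hx : x ≠ 1) (hkl : ρ k x = ρ l x) : k = l := by
  by_contra hne
  have h1 : k⁻¹ * l ≠ 1 := by
    intro h2
    apply hne
    have := mul_eq_one_iff_eq_inv.mp h2
    exact inv_injective this
  apply hx
  apply h.fix_free h1
  rw [rho_mul_apply, ← hkl, rho_inv_apply']

/-- coprime-type lemma: `k ≠ 1` fixing the left coset `y R` forces `y ∈ R`. -/
lemma KG.coset_fix (h : KG ρ) {k : K} (hk : k ≠ 1) {R : Subgroup G} (hR : KInv ρ R) {y : G}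
    (hy : y⁻¹ * ρ k y ∈ R) : y ∈ R := by
  haveI := h.fin
  let f : R → R := fun m => ⟨(m : G) * (ρ k m)⁻¹, R.mul_mem m.2 (R.inv_mem (hR k _ m.2))⟩
  have hf : Function.Injective f := by
    intro a b hab
    have h1 : (a : G) * (ρ k a)⁻¹ = (b : G) * (ρ k b)⁻¹ := congrArg Subtype.val hab
    have h2 : ρ k ((b : G)⁻¹ * a) = (b : G)⁻¹ * a := by
      rw [map_mul, map_inv]
      have : (b : G)⁻¹ * a = (ρ k b)⁻¹ * ρ k a := by
        have h3 : (b : G)⁻¹ * ((a : G) * (ρ k a)⁻¹) * ρ k a = (b : G)⁻¹ * a := by group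
        have h4 : (b : G)⁻¹ * ((b : G) * (ρ k b)⁻¹) * ρ k a = (ρ k b)⁻¹ * ρ k a := by group
        rw [← h3, h1, h4]
      rw [this]
    have h3 := h.fix_free hk h2
    apply Subtype.ext
    exact (inv_mul_eq_one.mp h3).symm
  have hs : Function.Surjective f := Finite.injective_iff_surjective.mp hf
  obtain ⟨m, hm⟩ := hs ⟨_, hy⟩
  have hm' : (m : G) * (ρ k m)⁻¹ = y⁻¹ * ρ k y := congrArg Subtype.val hm
  have h1 : ρ k (y * m) = y * m := by
    rw [map_mul]
    have : ρ k y = y * ((m : G) * (ρ k m)⁻¹) := by rw [hm']; group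
    rw [this]; group
  have h2 := h.fix_free hk h1
  have h3 : y = (m : G)⁻¹ := eq_inv_of_mul_eq_one_left h2
  rw [h3]
  exact R.inv_mem m.2

/-- A nontrivial invariant subgroup contains all involutions. -/
lemma KG.om_le (h : KG ρ) {R : Subgroup G} (hR : KInv ρ R) {x : G} (hx : x ∈ R) (hx1 : x ≠ 1)
    {w : G} (hw : w * w = 1) : w ∈ R := by
  by_cases hw1 : w = 1
  · rw [hw1]; exact one_mem _
  obtain ⟨m, hm1, hm2⟩ := exists_inv_pow h.two hx1
  obtain ⟨k, hk, -⟩ := h.reg _ _ hm1 hm2 hw1 hw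
  rw [← hk]
  exact hR k _ (pow_mem hx m)

/-- the restricted action -/
def subAct (ρ : K →* MulAut G) (R : Subgroup G) (hR : KInv ρ R) : K →* MulAut R where
  toFun k :=
    { toFun := fun x => ⟨ρ k x, hR k _ x.2⟩
      invFun := fun x => ⟨ρ k⁻¹ x, hR k⁻¹ _ x.2⟩
      left_inv := fun x => Subtype.ext (rho_inv_apply' ρ k x)
      right_inv := fun x => Subtype.ext (rho_inv_apply ρ k x)
      map_mul' := fun x y => Subtype.ext (map_mul (ρ k) _ _) }
  map_one' := by
    ext x
    exact rho_one_apply ρ _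
  map_mul' := by
    intro a b
    ext x
    exact rho_mul_apply ρ a b _

@[simp] lemma subAct_apply (ρ : K →* MulAut G) (R : Subgroup G) (hR : KInv ρ R) (k : K) (x : R) :
    ((subAct ρ R hR k x : R) : G) = ρ k x := rfl

lemma KG.sub (h : KG ρ) {R : Subgroup G} (hR : KInv ρ R) {x : G} (hx : x ∈ R) (hx1 : x ≠ 1) :
    KG (subAct ρ R hR) := by
  haveI := h.fin
  refine ⟨inferInstance, h.two.to_subgroup R, ?_, ?_⟩
  · obtain ⟨a, b, hab, ha1, ha2, hb1, hb2⟩ := h.ex
    refine ⟨⟨a, h.om_le hR hx hx1 ha2⟩, ⟨b, h.om_le hR hx hx1 hb2⟩, ?_, ?_, ?_, ?_, ?_⟩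
    · intro hh; exact hab (congrArg Subtype.val hh)
    · intro hh; exact ha1 (congrArg Subtype.val hh)
    · exact Subtype.ext ha2
    · intro hh; exact hb1 (congrArg Subtype.val hh)
    · exact Subtype.ext hb2
  · intro a b ha1 ha2 hb1 hb2
    have ha1' : (a : G) ≠ 1 := fun hh => ha1 (Subtype.ext hh)
    have hb1' : (b : G) ≠ 1 := fun hh => hb1 (Subtype.ext hh)
    have ha2' : (a : G) * a = 1 := congrArg Subtype.val ha2
    have hb2' : (b : G) * b = 1 := congrArg Subtype.val hb2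
    obtain ⟨k, hk, hu⟩ := h.reg _ _ ha1' ha2' hb1' hb2'
    refine ⟨k, Subtype.ext hk, fun l hl => hu l ?_⟩
    exact congrArg Subtype.val hl

/-- the induced action on a quotient -/
def quotAct (ρ : K →* MulAut G) (N : Subgroup G) [N.Normal] (hN : KInv ρ N) : K →* MulAut (G ⧸ N) where
  toFun k :=
    { toFun := QuotientGroup.map N N (ρ k).toMonoidHom (fun x hx => hN k x hx)
      invFun := QuotientGroup.map N N (ρ k⁻¹).toMonoidHom (fun x hx => hN k⁻¹ x hx)
      left_inv := by
        intro x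
        induction x using QuotientGroup.induction_on with
        | H x => exact congrArg _ (rho_inv_apply' ρ k x)
      right_inv := by
        intro x
        induction x using QuotientGroup.induction_on with
        | H x => exact congrArg _ (rho_inv_apply ρ k x)
      map_mul' := fun x y => map_mul _ x y }
  map_one' := by
    ext x
    induction x using QuotientGroup.induction_on with
    | H x => exact congrArg _ (rho_one_apply ρ x)
  map_mul' := by
    intro a b
    ext x
    induction x using QuotientGroup.induction_on with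
    | H x => exact congrArg _ (rho_mul_apply ρ a b x)

@[simp] lemma quotAct_mk (ρ : K →* MulAut G) (N : Subgroup G) [N.Normal] (hN : KInv ρ N) (k : K) (x : G) :
    quotAct ρ N hN k (x : G ⧸ N) = ((ρ k x : G) : G ⧸ N) := rfl

/-- `Ω₁(Z(G/N))`, pulled back to `G`. -/
def omc (H : Type*) [Group H] : Subgroup H where
  carrier := {x | x ∈ center H ∧ x * x = 1}
  one_mem' := ⟨one_mem _, by simp⟩
  mul_mem' := by
    rintro a b ⟨ha, ha2⟩ ⟨hb, hb2⟩
    refine ⟨mul_mem ha hb, ?_⟩
    calc a * b * (a * b) = a * (b * a) * b := by group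
      _ = a * (a * b) * b := by rw [← center_comm ha b]
      _ = (a * a) * (b * b) := by group
      _ = 1 := by rw [ha2, hb2, one_mul]
  inv_mem' := by
    rintro a ⟨ha, ha2⟩
    have : a⁻¹ = a := by rw [inv_eq_iff_mul_eq_one]; exact ha2
    rw [this]
    exact ⟨ha, ha2⟩

def upper (N : Subgroup G) [N.Normal] : Subgroup G := (omc (G ⧸ N)).comap (QuotientGroup.mk' N)

lemma mem_upper {N : Subgroup G} [N.Normal] {x : G} :
    x ∈ upper N ↔ x * x ∈ N ∧ ∀ y, cm x y ∈ N := by
  show ((x : G ⧸ N) ∈ center (G ⧸ N) ∧ (x : G ⧸ N) * (x : G ⧸ N) = 1) ↔ _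
  rw [← QuotientGroup.mk_mul, QuotientGroup.eq_one_iff, and_comm]
  refine and_congr_right fun _ => ?_
  rw [mem_center_iff']
  constructor
  · intro h y
    rw [← QuotientGroup.eq_one_iff]
    have : ((cm x y : G) : G ⧸ N) = cm (x : G ⧸ N) (y : G ⧸ N) := cm_conj_map (QuotientGroup.mk' N) x y
    rw [this, cm_eq_one_iff]
    exact h y
  · intro h g
    induction g using QuotientGroup.induction_on with
    | H y =>
      have : ((cm x y : G) : G ⧸ N) = cm (x : G ⧸ N) (y : G ⧸ N) := cm_conj_map (QuotientGroup.mk' N) x y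
      rw [← cm_eq_one_iff, ← this, QuotientGroup.eq_one_iff]
      exact h y

lemma le_upper {N : Subgroup G} [N.Normal] : N ≤ upper N := by
  intro x hx
  rw [mem_upper]
  refine ⟨mul_mem hx hx, fun y => ?_⟩
  have hn : y⁻¹ * x⁻¹ * y ∈ N := by
    have := ‹N.Normal›.conj_mem _ (inv_mem hx) y⁻¹
    simpa using this
  have : cm x y = x⁻¹ * (y⁻¹ * x * y) := by unfold cm; group
  rw [this]
  refine mul_mem (inv_mem hx) ?_
  have h2 := ‹N.Normal›.conj_mem _ hx y⁻¹
  simpa using h2

instance upper_normal (N : Subgroup G) [N.Normal] : (upper N).Normal := by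
  refine ⟨fun x hx g => ?_⟩
  rw [mem_upper] at *
  refine ⟨?_, fun y => ?_⟩
  · have h := ‹N.Normal›.conj_mem _ hx.1 g
    have e : g * x * g⁻¹ * (g * x * g⁻¹) = g * (x * x) * g⁻¹ := by group
    rw [e]; exact h
  · have h := ‹N.Normal›.conj_mem _ (hx.2 (g⁻¹ * y * g)) g
    have e : cm (g * x * g⁻¹) y = g * cm x (g⁻¹ * y * g) * g⁻¹ := by unfold cm; group
    rw [e]; exact h

lemma upper_kinv {N : Subgroup G} [N.Normal] (hN : KInv ρ N) : KInv ρ (upper N) := by
  intro k x hx
  rw [mem_upper] at *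
  refine ⟨?_, fun y => ?_⟩
  · rw [← map_mul]; exact hN k _ hx.1
  · have := hN k _ (hx.2 (ρ k⁻¹ y))
    rwa [rho_cm, rho_inv_apply] at this

/-- A normal subgroup strictly above `N` meets `upper N` outside `N`. -/
lemma exists_upper_of_lt (h2 : IsPGroup 2 G) [Finite G] {N T : Subgroup G} [N.Normal] [T.Normal]
    {t : G} (ht : t ∈ T) (htN : t ∉ N) : ∃ x ∈ T, x ∉ N ∧ x ∈ upper N := by
  haveI : Fact (Nat.Prime 2) := ⟨Nat.prime_two⟩
  let T' : Subgroup (G ⧸ N) := T.map (QuotientGroup.mk' N)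
  haveI : T'.Normal := Subgroup.Normal.map ‹T.Normal› _ (QuotientGroup.mk'_surjective N)
  have hT' : T' ≠ ⊥ := by
    intro hh
    have : (t : G ⧸ N) ∈ T' := Subgroup.mem_map_of_mem _ ht
    rw [hh, Subgroup.mem_bot, QuotientGroup.eq_one_iff] at this
    exact htN this
  have hq : IsPGroup 2 (G ⧸ N) := h2.to_quotient N
  obtain ⟨z, hz, hz1, hzc, hzp⟩ := Cfsg.Agent.Lib.Transfer.exists_central_of_normal hq hT'
  obtain ⟨x, hx, rfl⟩ := Subgroup.mem_map.mp hz
  refine ⟨x, hx, ?_, ?_⟩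
  · intro hh
    apply hz1
    exact (QuotientGroup.eq_one_iff x).mpr hh
  · show ((x : G ⧸ N) ∈ center (G ⧸ N) ∧ (x : G ⧸ N) * (x : G ⧸ N) = 1)
    refine ⟨?_, ?_⟩
    · rw [Subgroup.mem_center_iff]; exact hzc
    · have : ((QuotientGroup.mk' N) x) ^ 2 = 1 := hzp
      rw [pow_two] at this
      exact this

end KG

end Cfsg.Agent.Lib.Fusion.Hig
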