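import Cfsg.Agent.Lib.Fusion.Hig9

/-!
# Higman's theorem: the orders.
-/

namespace Cfsg.Agent.Lib.Fusion.Hig

open Subgroup

universe u v

section Quad

open MvPolynomial in
/-- An anisotropic quadratic map between `𝔽₂`-vector spaces has `dim A ≤ 2 dim B` (Chevalley–Warning). -/
theorem quad_dim_bound {A B : Type*} [AddCommGroup A] [AddCommGroup B] [Module (ZMod 2) A]
    [Module (ZMod 2) B] [Module.Finite (ZMod 2) A] [Module.Finite (ZMod 2) B] (Q : A → B)
    (β : A → A → B) (hQ : ∀ u v, Q (u + v) = Q u + Q v + β u v)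
    (hβl : ∀ u v w, β (u + v) w = β u w + β v w) (hβr : ∀ u v w, β u (v + w) = β u v + β u w)
    (hQ0 : ∀ u, Q u = 0 → u = 0) : Module.finrank (ZMod 2) A ≤ 2 * Module.finrank (ZMod 2) B := by
  classical
  haveI : Fact (Nat.Prime 2) := ⟨Nat.prime_two⟩
  by_contra hlt
  push Not at hlt
  set m := Module.finrank (ZMod 2) A with hm
  set n := Module.finrank (ZMod 2) B with hn
  let b := Module.finBasis (ZMod 2) A
  let c := Module.finBasis (ZMod 2) B
  have hβ0l : ∀ w, β 0 w = 0 := by
    intro w
    have := hβl 0 0 w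
    rw [add_zero] at this
    exact (add_eq_left.mp this.symm)
  have hβ0r : ∀ w, β w 0 = 0 := by
    intro w
    have := hβr w 0 0
    rw [add_zero] at this
    exact (add_eq_left.mp this.symm)
  have hQ00 : Q 0 = 0 := by
    have := hQ 0 0
    rw [add_zero, hβ0l, add_zero] at this
    exact (add_eq_left.mp this.symm)
  -- scalars
  have hQs : ∀ (t : ZMod 2) u, Q (t • u) = t • Q u := by
    intro t u
    fin_cases t
    · show Q ((0 : ZMod 2) • u) = (0 : ZMod 2) • Q u
      rw [zero_smul, zero_smul, hQ00]
    · show Q ((1 : ZMod 2) • u) = (1 : ZMod 2) • Q u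
      rw [one_smul, one_smul]
  have hβs : ∀ (t s : ZMod 2) u v, β (t • u) (s • v) = (t * s) • β u v := by
    intro t s u v
    fin_cases t <;> fin_cases s
    · show β ((0 : ZMod 2) • u) ((0 : ZMod 2) • v) = ((0 : ZMod 2) * 0) • β u v
      simp [hβ0l]
    · show β ((0 : ZMod 2) • u) ((1 : ZMod 2) • v) = ((0 : ZMod 2) * 1) • β u v
      simp [hβ0l]
    · show β ((1 : ZMod 2) • u) ((0 : ZMod 2) • v) = ((1 : ZMod 2) * 0) • β u v
      simp [hβ0r]
    · show β ((1 : ZMod 2) • u) ((1 : ZMod 2) • v) = ((1 : ZMod 2) * 1) • β u v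
      simp
  -- expansion
  have hexp : ∀ (x : Fin m → ZMod 2) (s : Finset (Fin m)), Q (∑ i ∈ s, x i • b i) =
      ∑ i ∈ s, x i • Q (b i) + ∑ i ∈ s, ∑ j ∈ s.filter (· < i), (x i * x j) • β (b i) (b j) := by
    intro x s
    induction s using Finset.induction_on_max with
    | empty => simp [hQ00]
    | insert a s ha ih =>
      have hna : a ∉ s := fun h => lt_irrefl _ (ha a h)
      rw [Finset.sum_insert hna, Finset.sum_insert hna, Finset.sum_insert hna, hQ, hQs, ih]
      have h1 : β (x a • b a) (∑ i ∈ s, x i • b i) = ∑ j ∈ s, (x a * x j) • β (b a) (b j) := by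
        have : ∀ t : Finset (Fin m), β (x a • b a) (∑ i ∈ t, x i • b i)
            = ∑ j ∈ t, (x a * x j) • β (b a) (b j) := by
          intro t
          induction t using Finset.induction_on with
          | empty => simp [hβ0r]
          | insert i t hi ih2 =>
            rw [Finset.sum_insert hi, Finset.sum_insert hi, hβr, hβs, ih2]
        exact this s
      rw [h1]
      have h2 : (insert a s).filter (· < a) = s := by
        ext j
        simp only [Finset.mem_filter, Finset.mem_insert]
        constructor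
        · rintro ⟨rfl | h3, h4⟩
          · exact absurd h4 (lt_irrefl _)
          · exact h3
        · intro h3
          exact ⟨Or.inr h3, ha j h3⟩
      have h3 : ∀ i ∈ s, (insert a s).filter (· < i) = s.filter (· < i) := by
        intro i hi
        ext j
        simp only [Finset.mem_filter, Finset.mem_insert]
        constructor
        · rintro ⟨rfl | h3, h4⟩
          · exact absurd (ha i hi) (not_lt.mpr h4.le)
          · exact ⟨h3, h4⟩
        · rintro ⟨h3, h4⟩
          exact ⟨Or.inr h3, h4⟩
      have h4 : ∑ i ∈ s, ∑ j ∈ (insert a s).filter (· < i), (x i * x j) • β (b i) (b j)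
          = ∑ i ∈ s, ∑ j ∈ s.filter (· < i), (x i * x j) • β (b i) (b j) :=
        Finset.sum_congr rfl (fun i hi => by rw [h3 i hi])
      rw [h2, h4]
      abel
  -- the polynomials
  let f : Fin n → MvPolynomial (Fin m) (ZMod 2) := fun l =>
    ∑ i, C (c.repr (Q (b i)) l) * X i +
      ∑ i, ∑ j ∈ Finset.univ.filter (· < i), C (c.repr (β (b i) (b j)) l) * (X i * X j)
  have hdeg : ∀ l, (f l).totalDegree ≤ 2 := by
    intro l
    refine (totalDegree_add _ _).trans (max_le ?_ ?_)
    · refine (totalDegree_finset_sum _ _).trans (Finset.sup_le fun i _ => ?_)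
      refine (totalDegree_mul _ _).trans ?_
      rw [totalDegree_C, totalDegree_X]
      norm_num
    · refine (totalDegree_finset_sum _ _).trans (Finset.sup_le fun i _ => ?_)
      refine (totalDegree_finset_sum _ _).trans (Finset.sup_le fun j _ => ?_)
      refine (totalDegree_mul _ _).trans ?_
      rw [totalDegree_C]
      refine (zero_add _).le.trans ((totalDegree_mul _ _).trans ?_)
      rw [totalDegree_X, totalDegree_X]
  have heval : ∀ (x : Fin m → ZMod 2) l, eval x (f l) = c.repr (Q (∑ i, x i • b i)) l := by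
    intro x l
    rw [hexp x Finset.univ]
    simp only [f, map_add, map_sum, map_mul, eval_C, eval_X, Finsupp.add_apply, Finsupp.coe_finset_sum,
      Finset.sum_apply, map_smul, Finsupp.smul_apply, smul_eq_mul]
    congr 1
    · exact Finset.sum_congr rfl fun i _ => mul_comm _ _
    · refine Finset.sum_congr rfl fun i _ => Finset.sum_congr rfl fun j _ => ?_
      exact mul_comm _ _
  have hdvd := char_dvd_card_solutions_of_sum_lt (K := ZMod 2) (σ := Fin m) (ι := Fin n) (s := Finset.univ)
    (f := f) 2 (by
      have h1 : ∑ i : Fin n, (f i).totalDegree ≤ ∑ _i : Fin n, 2 :=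
        Finset.sum_le_sum fun i _ => hdeg i
      simp only [Finset.sum_const, Finset.card_univ, Fintype.card_fin, smul_eq_mul] at h1
      rw [Fintype.card_fin]
      omega)
  have hone : ∀ inst : Fintype { x : Fin m → ZMod 2 // ∀ i ∈ (Finset.univ : Finset (Fin n)), eval x (f i) = 0 },
      @Fintype.card _ inst = 1 := by
    intro inst
    rw [Fintype.card_eq_one_iff]
    refine ⟨⟨0, fun l _ => ?_⟩, ?_⟩
    · rw [heval]
      simp [hQ00]
    · rintro ⟨x, hx⟩
      apply Subtype.ext
      have h1 : Q (∑ i, x i • b i) = 0 := by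
        apply c.repr.injective
        ext l
        rw [← heval, hx l (Finset.mem_univ l)]
        simp
      have h2 := hQ0 _ h1
      have h3 : ∀ i, x i = 0 := by
        have := (Fintype.linearIndependent_iff.mp b.linearIndependent) x h2
        exact this
      funext i
      exact h3 i
  rw [hone _] at hdvd
  exact absurd hdvd (by norm_num)

/-- A free action of a finite group: its order divides the size of the set. -/
theorem free_dvd {K X : Type*} [Group K] [Finite K] [Finite X] [MulAction K X]
    (hfree : ∀ (k : K) (x : X), k • x = x → k = 1) : Nat.card K ∣ Nat.card X := by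
  classical
  have e := MulAction.selfEquivSigmaOrbitsQuotientStabilizer K X
  haveI : Fintype (Quotient (MulAction.orbitRel K X)) := Fintype.ofFinite _
  rw [Nat.card_congr e, Nat.card_sigma]
  apply Finset.dvd_sum
  intro ω _
  have h1 : MulAction.stabilizer K ω.out = ⊥ := by
    rw [eq_bot_iff]
    intro k hk
    exact hfree k _ hk
  rw [h1]
  have h2 := Subgroup.card_eq_card_quotient_mul_card_subgroup (⊥ : Subgroup K)
  rw [Subgroup.card_bot, mul_one] at h2
  rw [← h2]

lemma dvd_of_pow_sub_one_dvd {n m : ℕ} (hn : 0 < n) (h : (2 ^ n - 1) ∣ (2 ^ m - 1)) : n ∣ m := by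
  have h1 : ((2 : ℤ) ^ n - 1) ∣ 2 ^ m - 1 := by
    have := Int.natCast_dvd_natCast.mpr h
    rw [Nat.cast_sub Nat.one_le_two_pow, Nat.cast_sub Nat.one_le_two_pow] at this
    simpa using this
  have h2 := two_pow_reduce n m hn
  have h3 : ((2 : ℤ) ^ n - 1) ∣ 2 ^ (m % n) - 1 := by
    have := dvd_sub h1 h2
    have e : (2 : ℤ) ^ m - 1 - (2 ^ m - 2 ^ (m % n)) = 2 ^ (m % n) - 1 := by ring
    rwa [e] at this
  have hlt : m % n < n := Nat.mod_lt _ hn
  have h4 : (2 : ℤ) ^ (m % n) - 1 = 0 := by
    apply Int.eq_zero_of_abs_lt_dvd h3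
    have h5 : (2 : ℤ) ^ (m % n) * 2 ≤ 2 ^ n := by
      rw [← pow_succ]
      exact pow_le_pow_right₀ (by norm_num) hlt
    have h6 : (1 : ℤ) ≤ 2 ^ (m % n) := one_le_pow₀ (by norm_num)
    rw [abs_lt]
    constructor <;> linarith
  have h7 : (2 : ℤ) ^ (m % n) = 1 := by linarith
  have h8 : m % n = 0 := by
    by_contra hne
    have : (2 : ℤ) ≤ 2 ^ (m % n) := by
      calc (2 : ℤ) = 2 ^ 1 := by norm_num
        _ ≤ _ := pow_le_pow_right₀ (by norm_num) (by omega)
    linarith
  exact Nat.dvd_of_mod_eq_zero h8

end Quad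

section

variable {K : Type v} [CommGroup K] {G : Type u} [Group G] {ρ : K →* MulAut G}

/-- The centre is the set of involutions. -/
lemma KG.center_sq (h : KG ρ) (hnc : ∃ x y : G, x * y ≠ y * x) {z : G} (hz : z ∈ center G) :
    z * z = 1 := by
  by_contra hz2
  obtain ⟨a, b, hab⟩ := hnc
  exact hab (h.comm_of_center ⟨z, hz, hz2⟩ a b)

/-- **The orders**. -/
theorem KG.card_eq (h : KG ρ) (hnc : ∃ x y : G, x * y ≠ y * x) :
    Nat.card G = Nat.card (center G) ^ 2 ∨ Nat.card G = Nat.card (center G) ^ 3 := by
  classical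
  haveI := h.fin
  haveI : Fact (Nat.Prime 2) := ⟨Nat.prime_two⟩
  obtain ⟨h4, hcm⟩ := higman_main _ G ρ h rfl hnc
  have hcen : ∀ z ∈ center G, z * z = 1 := fun z hz => h.center_sq hnc hz
  obtain ⟨F, fld, ⟨D⟩⟩ := h.exists_FD
  haveI : Finite F := D.finite
  haveI : Fintype F := Fintype.ofFinite F
  have h11 : (1 : F) ≠ 0 := one_ne_zero
  have h22 : (2 : F) = 0 := by
    have := D.two 1
    rwa [one_add_one_eq_two] at this
  haveI : CharP F 2 := CharTwo.of_one_ne_zero_of_two_eq_zero h11 h22
  letI : Algebra (ZMod 2) F := ZMod.algebra F 2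
  haveI : Module.Finite (ZMod 2) F := Module.Finite.of_finite
  -- the quotient
  let U := G ⧸ center G
  have hUc : ∀ a b : U, a * b = b * a := by
    intro a b
    induction a using QuotientGroup.induction_on with
    | H x =>
    induction b using QuotientGroup.induction_on with
    | H y =>
    have : (x : U) ∈ center U := mk_mem_center_iff.mpr (fun y => h.central (hcm x y))
    exact center_comm this _
  letI cU : CommGroup U := { (inferInstance : Group U) with mul_comm := hUc }
  have hU2 : ∀ a : U, a * a = 1 := by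
    intro a
    induction a using QuotientGroup.induction_on with
    | H x => exact mk_sq_iff.mpr (h.central (h4 x))
  let A := Additive U
  have hA2 : ∀ x : A, (2 : ℕ) • x = 0 := by
    intro x
    rw [two_nsmul]
    exact hU2 (Additive.toMul x)
  letI mA : Module (ZMod 2) A := AddCommGroup.zmodModule hA2
  haveI : Finite A := inferInstanceAs (Finite U)
  haveI : Module.Finite (ZMod 2) A := Module.Finite.of_finite
  -- representatives
  let o : A → G := fun u => (Additive.toMul u : U).out
  have ho : ∀ u : A, ((o u : G) : U) = Additive.toMul u := fun u => QuotientGroup.out_eq' _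
  have hoz : ∀ (x : G) (u : A), ((x : G) : U) = Additive.toMul u → ∃ z ∈ center G, o u = x * z := by
    intro x u hx
    have h1 : ((x : G) : U) = ((o u : G) : U) := by rw [ho, hx]
    rw [QuotientGroup.eq] at h1
    exact ⟨_, h1, by group⟩
  have hsqz : ∀ x z : G, z ∈ center G → (x * z) * (x * z) = x * x := by
    intro x z hz
    rw [mul_sq_of_central (by rw [cm_of_center hz]; exact one_mem _), hcen z hz, mul_one,
      cm_of_center hz, mul_one]
  have hcm1 : ∀ x x' y y' : G, cm x' x ∈ center G → cm y' y ∈ center G → True := fun _ _ _ _ _ _ => trivial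
  have hcmz : ∀ x y z z' : G, z ∈ center G → z' ∈ center G → cm (y * z') (x * z) = cm y x := by
    intro x y z z' hz hz'
    have hc : ∀ a b : G, cm a b ∈ center G := fun a b => h.central (hcm a b)
    rw [cm_mul_left_of_central (hc _ _), cm_of_center hz', mul_one, cm_mul_right_of_central (hc _ _),
      cm_of_center' hz, mul_one]
  let Q : A → F := fun u => D.ν (o u * o u)
  let β : A → A → F := fun u v => D.ν (cm (o v) (o u))
  have hc : ∀ a b : G, cm a b ∈ center G := fun a b => h.central (hcm a b)
  have hmulo : ∀ u v : A, ∃ z ∈ center G, o (u + v) = o u * o v * z := by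
    intro u v
    apply hoz
    rw [QuotientGroup.mk_mul, ho, ho]
    rfl
  have hbd := quad_dim_bound (A := A) (B := F) Q β
    (by
      intro u v
      obtain ⟨z, hz, hz2⟩ := hmulo u v
      show D.ν (o (u + v) * o (u + v)) = D.ν (o u * o u) + D.ν (o v * o v) + D.ν (cm (o v) (o u))
      rw [hz2, hsqz _ _ hz, mul_sq_of_central (hc _ _), D.ν_mul (by
          have e : (o u * o u * (o v * o v)) * (o u * o u * (o v * o v)) =
              (o u * o u * (o u * o u)) * (o v * o v * (o v * o v)) := by
            have hv : o v * o v ∈ center G := h.central (h4 _)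
            have hu : o u * o u ∈ center G := h.central (h4 _)
            calc (o u * o u * (o v * o v)) * (o u * o u * (o v * o v))
                = o u * o u * ((o v * o v) * (o u * o u)) * (o v * o v) := by group
              _ = o u * o u * ((o u * o u) * (o v * o v)) * (o v * o v) := by rw [center_comm hv]
              _ = _ := by group
          rw [e, h4, h4, one_mul]) (hcm _ _), D.ν_mul (h4 _) (h4 _)])
    (by
      intro u v w
      obtain ⟨z, hz, hz2⟩ := hmulo u v
      show D.ν (cm (o w) (o (u + v))) = D.ν (cm (o w) (o u)) + D.ν (cm (o w) (o v))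
      rw [hz2, cm_mul_right_of_central (hc _ _), cm_of_center' hz, mul_one,
        cm_mul_right_of_central (hc _ _), D.ν_mul (hcm _ _) (hcm _ _)])
    (by
      intro u v w
      obtain ⟨z, hz, hz2⟩ := hmulo v w
      show D.ν (cm (o (v + w)) (o u)) = D.ν (cm (o v) (o u)) + D.ν (cm (o w) (o u))
      rw [hz2, cm_mul_left_of_central (hc _ _), cm_of_center hz, mul_one,
        cm_mul_left_of_central (hc _ _), D.ν_mul (hcm _ _) (hcm _ _)])
    (by
      intro u hu
      have h1 : o u * o u = 1 := D.ν_eq_zero (h4 _) hu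
      have h2 : o u ∈ center G := h.central h1
      have h3 : Additive.toMul u = 1 := by
        rw [← ho, QuotientGroup.eq_one_iff]
        exact h2
      exact h3)
  set m := Module.finrank (ZMod 2) A with hm
  set n := Module.finrank (ZMod 2) F with hn
  have hcardU : Nat.card U = 2 ^ m := by
    haveI : Fintype A := Fintype.ofFinite A
    have h1 := Module.card_eq_pow_finrank (K := ZMod 2) (V := A)
    rw [ZMod.card] at h1
    rw [← h1, ← Nat.card_eq_fintype_card]
    rfl
  have hcardF : Nat.card F = 2 ^ n := by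
    have h1 := Module.card_eq_pow_finrank (K := ZMod 2) (V := F)
    rw [ZMod.card] at h1
    rw [← h1, Nat.card_eq_fintype_card]
  have hcardZ : Nat.card (center G) = Nat.card F := by
    symm
    apply Nat.card_congr
    refine Equiv.ofBijective (fun a => (⟨D.ι a, h.central (D.ι_sq a)⟩ : center G)) ⟨?_, ?_⟩
    · intro a b hab
      exact D.ι_inj (congrArg Subtype.val hab)
    · rintro ⟨z, hz⟩
      obtain ⟨a, ha⟩ := D.ι_surj z (hcen z hz)
      exact ⟨a, Subtype.ext ha⟩
  have hn0 : 0 < n := by
    rcases Nat.eq_zero_or_pos n with h0 | h0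
    · rw [h0, pow_zero] at hcardF
      have : 1 < Nat.card F := Finite.one_lt_card
      omega
    · exact h0
  -- `U` is nontrivial
  have hm0 : 0 < m := by
    rcases Nat.eq_zero_or_pos m with h0 | h0
    · exfalso
      rw [h0, pow_zero] at hcardU
      obtain ⟨a, b, hab⟩ := hnc
      haveI : Subsingleton U := (Nat.card_eq_one_iff_unique.mp hcardU).1
      have h1 : (a : U) = 1 := Subsingleton.elim _ _
      rw [QuotientGroup.eq_one_iff] at h1
      exact hab (center_comm h1 b)
    · exact h0
  -- the free action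
  haveI : Finite Fˣ := inferInstance
  haveI : Finite K := Finite.of_injective _ D.κ.injective
  let X := {u : U // u ≠ 1}
  let ρ' := quotAct ρ (center G) (center_kinv ρ)
  have hne : ∀ (k : K) (u : U), u ≠ 1 → ρ' k u ≠ 1 := by
    intro k u hu hh
    apply hu
    have h1 := congrArg (ρ' k⁻¹) hh
    rwa [rho_inv_apply', map_one] at h1
  letI actX : MulAction K X :=
    { smul := fun k x => ⟨ρ' k x.1, hne k x.1 x.2⟩
      one_smul := fun x => Subtype.ext (rho_one_apply ρ' x.1)
      mul_smul := fun a b x => Subtype.ext (rho_mul_apply ρ' a b x.1) }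
  have hfree := free_dvd (K := K) (X := X) (by
    intro k x hx
    by_contra hk
    have h1 : ρ' k x.1 = x.1 := congrArg Subtype.val hx
    have hx2 := x.2
    obtain ⟨y, hy⟩ := QuotientGroup.mk_surjective x.1
    apply hx2
    rw [← hy]
    rw [← hy] at h1
    rw [QuotientGroup.eq_one_iff]
    apply h.coset_fix hk (center_kinv ρ)
    rw [← QuotientGroup.eq]
    exact h1.symm)
  have hcardK : Nat.card K = 2 ^ n - 1 := by
    rw [Nat.card_congr D.κ.toEquiv, Nat.card_eq_fintype_card, Fintype.card_units,
      ← Nat.card_eq_fintype_card, hcardF]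
  have hcardX : Nat.card X = 2 ^ m - 1 := by
    rw [← hcardU]
    haveI : Fintype U := Fintype.ofFinite U
    rw [Nat.card_eq_fintype_card, Nat.card_eq_fintype_card]
    exact Set.card_ne_eq (1 : U)
  rw [hcardK, hcardX] at hfree
  obtain ⟨j, hj⟩ := dvd_of_pow_sub_one_dvd hn0 hfree
  have hG : Nat.card G = 2 ^ m * 2 ^ n := by
    have h1 : Nat.card G = Nat.card (G ⧸ center G) * Nat.card (center G) :=
      Subgroup.card_eq_card_quotient_mul_card_subgroup _
    rw [h1, hcardZ, hcardF]
    exact congrArg (· * 2 ^ n) hcardU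
  rw [hcardZ, hcardF, hG]
  have hj12 : j = 1 ∨ j = 2 := by
    have hj0 : 0 < j := by
      rcases Nat.eq_zero_or_pos j with h0 | h0
      · rw [h0, mul_zero] at hj; omega
      · exact h0
    have hj3 : j ≤ 2 := by
      by_contra hh
      push Not at hh
      have : n * 3 ≤ n * j := Nat.mul_le_mul_left _ hh
      omega
    omega
  rcases hj12 with rfl | rfl
  · left
    rw [hj, mul_one, pow_two]
  · right
    rw [hj, ← pow_add, ← pow_mul]
    have : n * 2 + n = n * 3 := by ring
    rw [this]

/-- The exponent. -/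
theorem KG.exponent_eq (h : KG ρ) (hnc : ∃ x y : G, x * y ≠ y * x) : Monoid.exponent G = 4 := by
  obtain ⟨h4, -⟩ := higman_main _ G ρ h rfl hnc
  have hd : Monoid.exponent G ∣ 4 := by
    apply Monoid.exponent_dvd_of_forall_pow_eq_one
    intro x
    have : x ^ 4 = (x * x) * (x * x) := by
      rw [show (4 : ℕ) = 2 + 2 from rfl, pow_add, pow_two]
    rw [this]
    exact h4 x
  have hdiv : Monoid.exponent G ∈ Nat.divisors 4 := Nat.mem_divisors.mpr ⟨hd, by norm_num⟩
  have h4d : Nat.divisors 4 = {1, 2, 4} := by decide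
  rw [h4d] at hdiv
  simp only [Finset.mem_insert, Finset.mem_singleton] at hdiv
  have hall2 : Monoid.exponent G ≠ 1 ∧ Monoid.exponent G ≠ 2 := by
    have key : ∀ e, e ∣ 2 → Monoid.exponent G = e → False := by
      intro e he hh
      obtain ⟨a, b, hab⟩ := hnc
      have h2 : ∀ x : G, x * x = 1 := by
        intro x
        have h3 : x ^ e = 1 := by
          rw [← hh]; exact Monoid.pow_exponent_eq_one x
        obtain ⟨c, hc⟩ := he
        have : x ^ 2 = 1 := by rw [hc, pow_mul, h3, one_pow]
        rwa [pow_two] at this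
      apply hab
      have h5 : (a * b) * (a * b) = 1 := h2 _
      calc a * b = a * b * (b * a * (b * a)) := by rw [h2 (b * a), mul_one]
        _ = a * (b * b) * a * (b * a) := by group
        _ = b * a := by rw [h2 b, mul_one, h2 a, one_mul]
    exact ⟨fun hh => key 1 (by norm_num) hh, fun hh => key 2 (by norm_num) hh⟩
  rcases hdiv with h1 | h1 | h1
  · exact absurd h1 hall2.1
  · exact absurd h1 hall2.2
  · exact h1

end

end Cfsg.Agent.Lib.Fusion.Hig
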