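import Cfsg.Agent.Lib.Fusion.Hig10
import Cfsg.Prelude.Def_LieRecognition

/-!
# Higman's theorem: interface with `Cfsg.IsSuzukiTwoGroup`.
-/

namespace Cfsg.Agent.Lib.Fusion.Hig

open Subgroup

universe u

theorem suzuki_kg {P : Type u} [Group P] (hP : Cfsg.IsSuzukiTwoGroup P) :
    ∃ (K : Type u) (_ : CommGroup K) (ρ : K →* MulAut P), KG ρ := by
  obtain ⟨hfin, h2, -, hex, K₀, hcyc, hreg⟩ := hP
  letI cg : CommGroup K₀ := IsCyclic.commGroup
  let ρ : K₀ →* MulAut P :=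
    { toFun := fun k => (k : MulAut P)
      map_one' := rfl
      map_mul' := fun _ _ => rfl }
  exact ⟨K₀, cg, ρ, ⟨hfin, h2, hex, hreg⟩⟩

end Cfsg.Agent.Lib.Fusion.Hig
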