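import Cfsg.Agent.Lib.Fusion.Hig1

/-!
# Higman's theorem: the field and Hua's lemma
-/

namespace Cfsg.Agent.Lib.Fusion.Hig

open Subgroup

universe u v

section Hua

/-- Hua's lemma in characteristic two. -/
theorem hua_field {F : Type*} [Field F] [Finite F] (h2 : ∀ a : F, a + a = 0) (B : F → F → F)
    (hl : ∀ a b c, B (a + b) c = B a c + B b c) (hr : ∀ a b c, B a (b + c) = B a b + B a c)
    (halt : ∀ a, B a a = 0) (hscale : ∀ c a b : F, c ≠ 0 → B (c * a) (c * b) = c * B a b) :
    ∀ a b, B a b = 0 := by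
  have cancel : ∀ a b : F, a + b = 0 → a = b := by
    intro a b h
    have : a = a + (b + b) := by rw [h2, add_zero]
    rw [this, ← add_assoc, h, zero_add]
  have h0l : ∀ c, B 0 c = 0 := by
    intro c
    have := hl 0 0 c
    rw [add_zero] at this
    have h3 : B 0 c + B 0 c = B 0 c := this.symm
    rwa [h2, eq_comm] at h3
  have h0r : ∀ c, B c 0 = 0 := by
    intro c
    have := hr c 0 0
    rw [add_zero] at this
    have h3 : B c 0 + B c 0 = B c 0 := this.symm
    rwa [h2, eq_comm] at h3
  have hsymm : ∀ a b, B a b = B b a := by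
    intro a b
    have := halt (a + b)
    rw [hl, hr, hr, halt, halt, zero_add, add_zero] at this
    exact cancel _ _ this
  let h : F → F := fun t => B 1 t
  have hadd : ∀ s t, h (s + t) = h s + h t := fun s t => hr 1 s t
  have h1 : h 1 = 0 := halt 1
  have hinv : ∀ t : F, t ≠ 0 → h t = t * h t⁻¹ := by
    intro t ht
    show B 1 t = t * B 1 t⁻¹
    rw [hsymm, ← hscale t 1 t⁻¹ ht, mul_one, mul_inv_cancel₀ ht]
  have hsq : ∀ t, h (t * t) = 0 := by
    intro t
    by_cases ht0 : t = 0
    · rw [ht0, mul_zero]; exact h0r 1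
    by_cases ht1 : t = 1
    · rw [ht1, mul_one]; exact h1
    have hs : t + 1 ≠ 0 := fun hh => ht1 (cancel _ _ hh)
    have hinvs : (t * (t + 1))⁻¹ = t⁻¹ + (t + 1)⁻¹ := by
      have h3 : t + 1 + t = 1 := by
        rw [add_comm t 1, add_assoc, h2, add_zero]
      field_simp
      exact h3.symm
    have h4 : h (t * (t + 1)) = h t := by
      rw [hinv _ (mul_ne_zero ht0 hs), hinvs, hadd]
      have e1 := hinv t ht0
      have e2 := hinv (t + 1) hs
      rw [hadd, h1, add_zero] at e2
      calc t * (t + 1) * (h t⁻¹ + h (t + 1)⁻¹)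
          = (t + 1) * (t * h t⁻¹) + t * ((t + 1) * h (t + 1)⁻¹) := by ring
        _ = (t + 1) * h t + t * h t := by rw [← e1, ← e2]
        _ = ((t + t) + 1) * h t := by ring
        _ = h t := by rw [h2, zero_add, one_mul]
    have h5 : t * (t + 1) = t * t + t := by ring
    rw [h5, hadd] at h4
    have h6 : h (t * t) + h t + h t = h t + h t := by rw [h4]
    rwa [add_assoc, h2, add_zero] at h6
  have hsurj : Function.Surjective (fun t : F => t * t) := by
    apply Finite.injective_iff_surjective.mp
    intro x y hxy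
    simp only at hxy
    apply cancel
    have : (x + y) * (x + y) = 0 := by
      have e : (x + y) * (x + y) = x * x + y * y + (x * y + x * y) := by ring
      rw [e, h2, add_zero, hxy, h2]
    exact mul_self_eq_zero.mp this
  have hall : ∀ t, h t = 0 := by
    intro t
    obtain ⟨s, rfl⟩ := hsurj t
    exact hsq s
  intro a b
  by_cases ha : a = 0
  · rw [ha]; exact h0l b
  have := hscale a 1 (a⁻¹ * b) ha
  rw [mul_one, ← mul_assoc, mul_inv_cancel₀ ha, one_mul] at this
  rw [this]
  have h7 : B 1 (a⁻¹ * b) = 0 := hall _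
  rw [h7, mul_zero]

/-- General form of Hua's lemma: `A` with a surjective equivariant additive `θ : A → F`, and a
biadditive alternating equivariant form vanishing on the kernel of `θ`. -/
theorem hua_general {K : Type*} [CommGroup K] {F : Type*} [Field F] [Finite F] (h2 : ∀ a : F, a + a = 0)
    (κ : K ≃* Fˣ) {A : Type*} [Group A] (θ : A → F) (hθm : ∀ x y, θ (x * y) = θ x + θ y)
    (hθs : Function.Surjective θ) (act : K → A → A) (hθa : ∀ k x, θ (act k x) = κ k * θ x)
    (B : A → A → F) (hl : ∀ x x' y, B (x * x') y = B x y + B x' y)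
    (hr : ∀ x y y', B x (y * y') = B x y + B x y') (halt : ∀ x, B x x = 0)
    (hact : ∀ k x y, B (act k x) (act k y) = κ k * B x y)
    (hk : ∀ x, θ x = 0 → ∀ y, B x y = 0) : ∀ x y, B x y = 0 := by
  classical
  have cancel : ∀ a b : F, a + b = 0 → a = b := by
    intro a b h
    have : a = a + (b + b) := by rw [h2, add_zero]
    rw [this, ← add_assoc, h, zero_add]
  have hθ1 : θ 1 = 0 := by
    have := hθm 1 1
    rw [mul_one] at this
    have h3 : θ 1 + θ 1 = θ 1 := this.symm
    rwa [h2, eq_comm] at h3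
  have hθi : ∀ x, θ x⁻¹ = θ x := by
    intro x
    have := hθm x⁻¹ x
    rw [inv_mul_cancel, hθ1] at this
    exact cancel _ _ this.symm
  have hsymm : ∀ a b, B a b = B b a := by
    intro a b
    have := halt (a * b)
    rw [hl, hr, hr, halt, halt, zero_add, add_zero] at this
    exact cancel _ _ this
  have hk' : ∀ y, θ y = 0 → ∀ x, B x y = 0 := by
    intro y hy x
    rw [hsymm]; exact hk y hy x
  choose s hs using hθs
  -- a rewriting lemma: `B` only depends on `θ`
  have hdep : ∀ x x' y y', θ x = θ x' → θ y = θ y' → B x y = B x' y' := by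
    intro x x' y y' hx hy
    have h5 : θ (x'⁻¹ * x) = 0 := by rw [hθm, hθi, hx, h2]
    have h6 : θ (y'⁻¹ * y) = 0 := by rw [hθm, hθi, hy, h2]
    have h7 : B (x' * (x'⁻¹ * x)) (y' * (y'⁻¹ * y)) = B x' y' := by
      rw [hl, hr, hk _ h5, hk' _ h6, add_zero, add_zero]
    simpa using h7
  have main := hua_field h2 (fun a b => B (s a) (s b))
    (by
      intro a b c
      show B (s (a + b)) (s c) = B (s a) (s c) + B (s b) (s c)
      rw [← hl]
      exact hdep _ _ _ _ (by rw [hθm, hs, hs, hs]) rfl)
    (by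
      intro a b c
      show B (s a) (s (b + c)) = B (s a) (s b) + B (s a) (s c)
      rw [← hr]
      exact hdep _ _ _ _ rfl (by rw [hθm, hs, hs, hs]))
    (fun a => halt _)
    (by
      intro c a b hc
      show B (s (c * a)) (s (c * b)) = c * B (s a) (s b)
      obtain ⟨k, hk⟩ := κ.surjective (Units.mk0 c hc)
      have hk2 : ((κ k : Fˣ) : F) = c := by rw [hk]; rfl
      rw [← hk2, ← hact]
      exact hdep _ _ _ _ (by rw [hθa, hs, hs]) (by rw [hθa, hs, hs]))
  intro x y
  have : B (s (θ x)) (s (θ y)) = 0 := main (θ x) (θ y)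
  rw [← this]
  exact hdep _ _ _ _ (hs _).symm (hs _).symm

end Hua

section FieldConstr

variable {K : Type v} [CommGroup K] {A : Type*} [Group A]

/-- The additive structure on `K ∪ {0}`. -/
@[reducible] noncomputable def mkAdd (ι : WithZero K ≃ A) (h0 : ι 0 = 1)
    (hexp : ∀ x : A, x * x = 1) : AddCommGroup (WithZero K) :=
  have hc : ∀ x y : A, x * y = y * x := by
    intro x y
    have h2 : x * x = 1 := hexp _
    have h3 : y * y = 1 := hexp _
    calc x * y = x * y * (y * x * (y * x)) := by rw [hexp (y * x), mul_one]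
      _ = x * (y * y) * x * (y * x) := by group
      _ = y * x := by rw [h3, mul_one, h2, one_mul]
  letI i1 : Add (WithZero K) := ⟨fun a b => ι.symm (ι a * ι b)⟩
  letI i2 : Neg (WithZero K) := ⟨fun a => a⟩
  { AddGroup.ofLeftAxioms (G := WithZero K)
      (by
        intro a b c
        show ι.symm (ι (ι.symm (ι a * ι b)) * ι c) = ι.symm (ι a * ι (ι.symm (ι b * ι c)))
        rw [Equiv.apply_symm_apply, Equiv.apply_symm_apply, mul_assoc])
      (by
        intro a
        show ι.symm (ι 0 * ι a) = a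
        rw [h0, one_mul, Equiv.symm_apply_apply])
      (by
        intro a
        show ι.symm (ι a * ι a) = 0
        rw [hexp, ← h0, Equiv.symm_apply_apply]) with
    add_comm := by
      intro a b
      show ι.symm (ι a * ι b) = ι.symm (ι b * ι a)
      rw [hc] }

/-- The ring structure on `K ∪ {0}` coming from an elementary abelian group on which `K` acts
regularly. -/
@[reducible] noncomputable def mkRing (ρ : K →* MulAut A) (ι : WithZero K ≃ A) (h0 : ι 0 = 1)
    (hexp : ∀ x : A, x * x = 1)
    (hsmul : ∀ (k : K) a, ι ((k : WithZero K) * a) = ρ k (ι a)) : CommRing (WithZero K) :=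
  letI := mkAdd ι h0 hexp
  { (inferInstance : CommMonoidWithZero (WithZero K)), mkAdd ι h0 hexp with
    left_distrib := by
      intro c a b
      show c * ι.symm (ι a * ι b) = ι.symm (ι (c * a) * ι (c * b))
      induction c using WithZero.recZeroCoe with
      | zero =>
        rw [zero_mul, zero_mul, zero_mul, h0, one_mul, ← h0, Equiv.symm_apply_apply]
      | coe k =>
        rw [hsmul, hsmul, ← map_mul (ρ k)]
        apply ι.injective
        rw [hsmul, Equiv.apply_symm_apply, Equiv.apply_symm_apply]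
    right_distrib := by
      intro a b c
      show ι.symm (ι a * ι b) * c = ι.symm (ι (a * c) * ι (b * c))
      rw [mul_comm _ c, mul_comm a c, mul_comm b c]
      induction c using WithZero.recZeroCoe with
      | zero =>
        rw [zero_mul, zero_mul, zero_mul, h0, one_mul, ← h0, Equiv.symm_apply_apply]
      | coe k =>
        rw [hsmul, hsmul, ← map_mul (ρ k)]
        apply ι.injective
        rw [hsmul, Equiv.apply_symm_apply, Equiv.apply_symm_apply] }

/-- Existence of the field, abstractly. -/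
theorem exists_field_of_regular (ρ : K →* MulAut A) (hexp : ∀ x : A, x * x = 1) {e : A} (he : e ≠ 1)
    (hreg : ∀ x y : A, x ≠ 1 → y ≠ 1 → ∃! k : K, ρ k x = y) :
    ∃ (F : Type v) (_ : Field F) (ι : F → A) (κ : K ≃* Fˣ),
      (∀ a b, ι (a + b) = ι a * ι b) ∧ Function.Bijective ι ∧ ∀ k a, ρ k (ι a) = ι (κ k * a) := by
  classical
  let f : WithZero K → A := fun a => WithZero.recZeroCoe 1 (fun k => ρ k e) a
  have f0 : f 0 = 1 := rfl
  have fk : ∀ k : K, f (k : WithZero K) = ρ k e := fun k => rfl
  have hne : ∀ k : K, ρ k e ≠ 1 := by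
    intro k hk
    apply he
    have := congrArg (ρ k⁻¹) hk
    rwa [rho_inv_apply', map_one] at this
  have fbij : Function.Bijective f := by
    constructor
    · intro a b hab
      induction a using WithZero.recZeroCoe with
      | zero =>
        induction b using WithZero.recZeroCoe with
        | zero => rfl
        | coe l =>
          rw [f0, fk] at hab
          exact absurd hab.symm (hne l)
      | coe k =>
        induction b using WithZero.recZeroCoe with
        | zero =>
          rw [f0, fk] at hab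
          exact absurd hab (hne k)
        | coe l =>
          rw [fk, fk] at hab
          obtain ⟨m, -, hm⟩ := hreg e (ρ k e) he (hne k)
          have h1 := hm k rfl
          have h2 := hm l hab.symm
          rw [h1, h2]
    · intro x
      by_cases hx : x = 1
      · exact ⟨0, by rw [hx, f0]⟩
      · obtain ⟨k, hk, -⟩ := hreg e x he hx
        exact ⟨k, by rw [fk, hk]⟩
  let ι : WithZero K ≃ A := Equiv.ofBijective f fbij
  have hι : ∀ a, ι a = f a := fun a => rfl
  have hsmul : ∀ (k : K) a, ι ((k : WithZero K) * a) = ρ k (ι a) := by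
    intro k a
    induction a using WithZero.recZeroCoe with
    | zero =>
      rw [mul_zero, hι, f0, map_one]
    | coe l =>
      rw [← WithZero.coe_mul, hι, hι, fk, fk, rho_mul_apply]
  letI rng : CommRing (WithZero K) := mkRing ρ ι f0 hexp hsmul
  letI fld : Field (WithZero K) := Field.ofIsUnitOrEqZero (by
    intro a
    induction a using WithZero.recZeroCoe with
    | zero => exact Or.inr rfl
    | coe k =>
      refine Or.inl (IsUnit.of_mul_eq_one ((k⁻¹ : K) : WithZero K) ?_)
      show (((k * k⁻¹ : K)) : WithZero K) = 1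
      rw [mul_inv_cancel]; rfl)
  let κ0 : K →* (WithZero K)ˣ :=
    { toFun := fun k => Units.mk0 (k : WithZero K) WithZero.coe_ne_zero
      map_one' := Units.ext rfl
      map_mul' := fun a b => Units.ext rfl }
  have κbij : Function.Bijective κ0 := by
    constructor
    · intro a b hab
      have : ((a : K) : WithZero K) = (b : K) := congrArg Units.val hab
      exact WithZero.coe_injective this
    · intro u
      have hu : (u : WithZero K) ≠ 0 := u.ne_zero
      obtain ⟨k, hk⟩ := WithZero.ne_zero_iff_exists.mp hu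
      exact ⟨k, Units.ext hk⟩
  refine ⟨WithZero K, fld, ι, MulEquiv.ofBijective κ0 κbij, ?_, fbij, ?_⟩
  · intro a b
    show ι (ι.symm (ι a * ι b)) = ι a * ι b
    rw [Equiv.apply_symm_apply]
  · intro k a
    exact (hsmul k a).symm

end FieldConstr

section FD

variable {K : Type v} [CommGroup K] {G : Type*} [Group G]

/-- field data attached to `ρ`. -/
structure FD (ρ : K →* MulAut G) (F : Type*) [Field F] where
  ι : F → G
  κ : K ≃* Fˣ
  ι_add : ∀ a b, ι (a + b) = ι a * ι b
  ι_inj : Function.Injective ι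
  ι_sq : ∀ a, ι a * ι a = 1
  ι_surj : ∀ x, x * x = 1 → ∃ a, ι a = x
  ι_smul : ∀ k a, ρ k (ι a) = ι (κ k * a)

theorem KG.exists_FD {ρ : K →* MulAut G} (h : KG ρ) :
    ∃ (F : Type v) (_ : Field F), Nonempty (FD ρ F) := by
  classical
  let R := Om h
  have hR : KInv ρ R := Om_kinv h
  obtain ⟨x, y, hxy, hx1, hx2, hy1, hy2⟩ := h.ex
  have hexp : ∀ a : R, a * a = 1 := fun a => Subtype.ext a.2
  have he : (⟨x, hx2⟩ : R) ≠ 1 := fun hh => hx1 (congrArg Subtype.val hh)
  obtain ⟨F, fld, ι, κ, h1, h2, h3⟩ := exists_field_of_regular (subAct ρ R hR) hexp he (by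
    intro a b ha hb
    have ha1 : (a : G) ≠ 1 := fun hh => ha (Subtype.ext hh)
    have hb1 : (b : G) ≠ 1 := fun hh => hb (Subtype.ext hh)
    obtain ⟨k, hk, hu⟩ := h.reg _ _ ha1 a.2 hb1 b.2
    exact ⟨k, Subtype.ext hk, fun l hl => hu l (congrArg Subtype.val hl)⟩)
  refine ⟨F, fld, ⟨⟨fun a => (ι a : G), κ, ?_, ?_, ?_, ?_, ?_⟩⟩⟩
  · intro a b
    rw [h1]; rfl
  · intro a b hab
    exact h2.1 (Subtype.ext hab)
  · intro a
    exact (ι a).2
  · intro z hz
    obtain ⟨a, ha⟩ := h2.2 ⟨z, hz⟩
    exact ⟨a, by rw [ha]⟩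
  · intro k a
    have := h3 k a
    exact congrArg Subtype.val this

namespace FD
variable {ρ : K →* MulAut G} {F : Type*} [Field F] (D : FD ρ F)
include D

lemma ι_zero : D.ι 0 = 1 := by
  have := D.ι_add 0 0
  rw [add_zero] at this
  exact (mul_eq_left.mp this.symm)

lemma two (a : F) : a + a = 0 := by
  apply D.ι_inj
  rw [D.ι_add, D.ι_sq, D.ι_zero]

lemma cancel {a b : F} (h : a + b = 0) : a = b := by
  have : a = a + (b + b) := by rw [D.two, add_zero]
  rw [this, ← add_assoc, h, zero_add]

lemma finite [Finite G] : Finite F := Finite.of_injective _ D.ι_inj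

lemma ι_eq_one {a : F} (h : D.ι a = 1) : a = 0 := by
  apply D.ι_inj
  rw [h, D.ι_zero]

/-- the partial inverse of `ι` -/
noncomputable def ν (x : G) : F := Function.invFun D.ι x

@[simp] lemma ν_ι (a : F) : D.ν (D.ι a) = a := Function.leftInverse_invFun D.ι_inj a

lemma ι_ν {x : G} (hx : x * x = 1) : D.ι (D.ν x) = x := by
  obtain ⟨a, rfl⟩ := D.ι_surj x hx
  rw [ν_ι]

lemma ν_one : D.ν 1 = 0 := by
  rw [← D.ι_zero, ν_ι]

lemma ν_mul {x y : G} (hx : x * x = 1) (hy : y * y = 1) : D.ν (x * y) = D.ν x + D.ν y := by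
  obtain ⟨a, rfl⟩ := D.ι_surj x hx
  obtain ⟨b, rfl⟩ := D.ι_surj y hy
  rw [← D.ι_add, ν_ι, ν_ι, ν_ι]

lemma ν_smul {x : G} (hx : x * x = 1) (k : K) : D.ν (ρ k x) = D.κ k * D.ν x := by
  obtain ⟨a, rfl⟩ := D.ι_surj x hx
  rw [D.ι_smul, ν_ι, ν_ι]

lemma ν_eq_zero {x : G} (hx : x * x = 1) (h0 : D.ν x = 0) : x = 1 := by
  rw [← D.ι_ν hx, h0, D.ι_zero]

lemma ν_inj {x y : G} (hx : x * x = 1) (hy : y * y = 1) (hxy : D.ν x = D.ν y) : x = y := by
  rw [← D.ι_ν hx, ← D.ι_ν hy, hxy]

end FD

end FD

end Cfsg.Agent.Lib.Fusion.Hig
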