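import Cfsg.Agent.Lib.Fusion.Hig2

/-!
# Higman's theorem: if `Z(G)` is not elementary abelian, `G` is abelian.
-/

namespace Cfsg.Agent.Lib.Fusion.Hig

open Subgroup

universe u v

section Homocyclic

variable {K : Type*} [CommGroup K] {G : Type*} [Group G] {ρ : K →* MulAut G}

theorem KG.homocyclic (h : KG ρ) {A : Subgroup G} (hA : KInv ρ A)
    (hAc : ∀ a ∈ A, ∀ b ∈ A, a * b = b * a) {a₀ : G} (ha₀ : a₀ ∈ A) (ha₀1 : a₀ ≠ 1) :
    ∃ s : ℕ, (∀ a ∈ A, a ^ (2 ^ s) * a ^ (2 ^ s) = 1) ∧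
      (∀ w : G, w * w = 1 → ∃ a ∈ A, a ^ (2 ^ s) = w) ∧
      (∀ a ∈ A, a ^ (2 ^ s) = 1 → ∃ b ∈ A, a = b * b) := by
  classical
  haveI := h.fin
  haveI : Fact (Nat.Prime 2) := ⟨Nat.prime_two⟩
  obtain ⟨m, hm⟩ := IsPGroup.iff_card.mp h.two
  have hex : ∃ t : ℕ, ∀ a ∈ A, a ^ (2 ^ t) = 1 := by
    refine ⟨m, fun a _ => ?_⟩
    rw [← hm]
    exact pow_card_eq_one'
  have h0 : Nat.find hex ≠ 0 := by
    intro hh
    have := Nat.find_spec hex a₀ ha₀
    rw [hh] at this
    simp at this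
    exact ha₀1 this
  obtain ⟨s, hs⟩ := Nat.exists_eq_succ_of_ne_zero h0
  have hs1 : ∀ a ∈ A, a ^ (2 ^ s) * a ^ (2 ^ s) = 1 := by
    intro a ha
    have := Nat.find_spec hex a ha
    rw [hs] at this
    rw [← pow_add, ← two_mul, ← pow_succ']
    exact this
  have hmin : ¬ ∀ a ∈ A, a ^ (2 ^ s) = 1 := Nat.find_min hex (by omega)
  push Not at hmin
  obtain ⟨a₁, ha₁, ha₁1⟩ := hmin
  have hs2 : ∀ w : G, w * w = 1 → ∃ a ∈ A, a ^ (2 ^ s) = w := by
    intro w hw
    by_cases hw1 : w = 1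
    · exact ⟨1, one_mem _, by rw [hw1, one_pow]⟩
    obtain ⟨k, hk, -⟩ := h.reg _ _ ha₁1 (hs1 a₁ ha₁) hw1 hw
    exact ⟨ρ k a₁, hA k _ ha₁, by rw [← map_pow, hk]⟩
  refine ⟨s, hs1, hs2, ?_⟩
  letI cg : CommGroup A := { (inferInstance : Group A) with
    mul_comm := fun a b => Subtype.ext (hAc a a.2 b b.2) }
  let f₁ : A →* A := powMonoidHom 2
  let f₂ : A →* A := powMonoidHom (2 ^ s)
  have hker : f₁.ker = f₂.range := by
    ext a
    rw [MonoidHom.mem_ker, MonoidHom.mem_range]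
    constructor
    · intro ha
      have ha' : (a : G) * a = 1 := by
        have : (a : A) ^ 2 = 1 := ha
        rw [pow_two] at this
        exact congrArg Subtype.val this
      obtain ⟨b, hb, hb2⟩ := hs2 a ha'
      refine ⟨⟨b, hb⟩, Subtype.ext ?_⟩
      exact hb2
    · rintro ⟨b, rfl⟩
      show (b ^ (2 ^ s)) ^ 2 = 1
      apply Subtype.ext
      show ((b : G) ^ (2 ^ s)) ^ 2 = 1
      rw [pow_two]
      exact hs1 b b.2
  have hle : f₁.range ≤ f₂.ker := by
    rintro _ ⟨b, rfl⟩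
    rw [MonoidHom.mem_ker]
    show (b ^ 2) ^ (2 ^ s) = 1
    apply Subtype.ext
    show ((b : G) ^ 2) ^ (2 ^ s) = 1
    rw [← pow_mul, mul_comm, pow_mul, pow_two]
    exact hs1 b b.2
  have hc1 : Nat.card f₁.ker * Nat.card f₁.range = Nat.card A := by
    rw [← Subgroup.index_ker, Subgroup.card_mul_index]
  have hc2 : Nat.card f₂.ker * Nat.card f₂.range = Nat.card A := by
    rw [← Subgroup.index_ker, Subgroup.card_mul_index]
  have hpos : 0 < Nat.card f₂.range := Nat.card_pos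
  have heq : Nat.card f₁.range = Nat.card f₂.ker := by
    rw [hker] at hc1
    have : Nat.card f₂.range * Nat.card f₁.range = Nat.card f₂.range * Nat.card f₂.ker := by
      rw [hc1, mul_comm, hc2]
    exact Nat.eq_of_mul_eq_mul_left hpos this
  have hEq : f₁.range = f₂.ker := Subgroup.eq_of_le_of_card_ge hle heq.ge
  intro a ha ha1
  have : (⟨a, ha⟩ : A) ∈ f₂.ker := by
    rw [MonoidHom.mem_ker]
    exact Subtype.ext ha1
  rw [← hEq] at this
  obtain ⟨b, hb⟩ := this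
  refine ⟨b, b.2, ?_⟩
  have h3 : (b : A) ^ 2 = ⟨a, ha⟩ := hb
  have h4 : ((b : G)) ^ 2 = a := congrArg Subtype.val h3
  rw [← h4, pow_two]

lemma KG.mem_center_of_sq_eq (h : KG ρ) {x b : G} (hb : b ∈ center G) (hx : x * x = b * b) :
    x ∈ center G := by
  have h1 : (x * b⁻¹) * (x * b⁻¹) = 1 := by
    have hb' : b⁻¹ ∈ center G := inv_mem hb
    calc (x * b⁻¹) * (x * b⁻¹) = x * (b⁻¹ * x) * b⁻¹ := by group
      _ = x * (x * b⁻¹) * b⁻¹ := by rw [center_comm hb' x]
      _ = (x * x) * (b⁻¹ * b⁻¹) := by group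
      _ = 1 := by rw [hx]; group
  have h2 := h.central h1
  have : x = (x * b⁻¹) * b := by group
  rw [this]
  exact mul_mem h2 hb

end Homocyclic

/-- the "height" map -/
def th {G : Type*} [Group G] (s : ℕ) (x : G) : G := (x * x) ^ (2 ^ s)

section CS

variable {K : Type*} [CommGroup K] {G : Type*} [Group G]

lemma mk_mem_center_iff {N : Subgroup G} [N.Normal] {x : G} :
    (x : G ⧸ N) ∈ center (G ⧸ N) ↔ ∀ y, cm x y ∈ N := by
  rw [mem_center_iff']
  constructor
  · intro h y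
    rw [← QuotientGroup.eq_one_iff]
    have : ((cm x y : G) : G ⧸ N) = cm (x : G ⧸ N) (y : G ⧸ N) := cm_conj_map (QuotientGroup.mk' N) x y
    rw [this, cm_eq_one_iff]
    exact h y
  · intro h g
    induction g using QuotientGroup.induction_on with
    | H y =>
      have : ((cm x y : G) : G ⧸ N) = cm (x : G ⧸ N) (y : G ⧸ N) := cm_conj_map (QuotientGroup.mk' N) x y
      rw [← cm_eq_one_iff, ← this, QuotientGroup.eq_one_iff]
      exact h y

lemma mk_sq_iff {N : Subgroup G} [N.Normal] {x : G} :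
    (x : G ⧸ N) * (x : G ⧸ N) = 1 ↔ x * x ∈ N := by
  rw [← QuotientGroup.mk_mul, QuotientGroup.eq_one_iff]

/-- the setting of the claim: `Z(G)` has height `s ≥ 1`. -/
structure CS (ρ : K →* MulAut G) (s : ℕ) : Prop where
  h : KG ρ
  hs0 : s ≠ 0
  hs1 : ∀ a ∈ center G, a ^ (2 ^ s) * a ^ (2 ^ s) = 1
  hs2 : ∀ w : G, w * w = 1 → ∃ a ∈ center G, a ^ (2 ^ s) = w
  hs3 : ∀ a ∈ center G, a ^ (2 ^ s) = 1 → ∃ b ∈ center G, a = b * b

namespace CS

variable {ρ : K →* MulAut G} {s : ℕ} (C : CS ρ s)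
include C

lemma th_center {z : G} (hz : z ∈ center G) : th s z = 1 := by
  unfold th
  have := C.hs1 z hz
  rw [← pow_two, ← pow_mul, mul_comm, pow_mul, pow_two]
  exact this

lemma th_sq {x : G} (hx : x * x ∈ center G) : th s x * th s x = 1 := C.hs1 _ hx

lemma th_inv {x : G} (hx : x * x ∈ center G) : th s x⁻¹ = th s x := by
  unfold th
  have h1 : x⁻¹ * x⁻¹ = (x * x)⁻¹ := by group
  rw [h1, inv_pow, inv_eq_iff_mul_eq_one]
  exact C.hs1 _ hx

lemma th_one_center {x : G} (hx : x * x ∈ center G) (h1 : th s x = 1) : x ∈ center G := by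
  obtain ⟨b, hb, hb2⟩ := C.hs3 _ hx h1
  exact C.h.mem_center_of_sq_eq hb hb2

omit C in
lemma th_smul (k : K) (x : G) : th s (ρ k x) = ρ k (th s x) := by
  unfold th
  rw [map_pow, map_mul]

lemma th_mul {x y : G} (hx : x * x ∈ center G) (hy : y * y ∈ center G) (hc : cm y x ∈ center G) :
    th s (x * y) = th s x * th s y := by
  unfold th
  have hc2 : cm y x * cm y x = 1 := cm_sq_of_central hy hc
  rw [mul_sq_of_central hc]
  have hcm1 : Commute (x * x * (y * y)) (cm y x) := by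
    show _ * _ = _ * _
    exact (center_comm hc _).symm
  have hcm2 : Commute (x * x) (y * y) := by
    show _ * _ = _ * _
    exact center_comm hx _
  rw [hcm1.mul_pow, hcm2.mul_pow]
  have h3 : (cm y x) ^ (2 ^ s) = 1 := by
    obtain ⟨t, rfl⟩ := Nat.exists_eq_succ_of_ne_zero C.hs0
    rw [pow_succ', pow_mul, pow_two, hc2, one_pow]
  rw [h3, mul_one]

lemma th_mul_center {x z : G} (hx : x * x ∈ center G) (hz : z ∈ center G) :
    th s (x * z) = th s x := by
  rw [C.th_mul hx (mul_mem hz hz) (by rw [cm_of_center hz]; exact one_mem _), C.th_center hz, mul_one]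

lemma mem_center_of_th_eq {x y : G} (hx : x * x ∈ center G) (hy : y * y ∈ center G)
    (hc : cm y⁻¹ x ∈ center G) (hxy : th s x = th s y) : x * y⁻¹ ∈ center G := by
  have hy' : y⁻¹ * y⁻¹ ∈ center G := by
    have : y⁻¹ * y⁻¹ = (y * y)⁻¹ := by group
    rw [this]; exact inv_mem hy
  have h1 : th s (x * y⁻¹) = 1 := by
    rw [C.th_mul hx hy' hc, C.th_inv hy, hxy]
    exact C.th_sq hy
  have hc2 : cm y⁻¹ x * cm y⁻¹ x = 1 := cm_sq_of_central hy' hc
  refine C.th_one_center ?_ h1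
  rw [mul_sq_of_central hc]
  exact mul_mem (mul_mem hx hy') hc

/-- the upper central elements: values of `th` -/
lemma exists_W (hnc : ∃ x y : G, x * y ≠ y * x) : ∃ x ∈ upper (center G), x ∉ center G := by
  haveI := C.h.fin
  obtain ⟨x, y, hxy⟩ := hnc
  have hx : x ∉ center G := fun hh => hxy (center_comm hh y)
  obtain ⟨u, -, hu1, hu2⟩ := exists_upper_of_lt (T := ⊤) C.h.two (mem_top x) hx
  exact ⟨u, hu2, hu1⟩

lemma W_sq {x : G} (hx : x ∈ upper (center G)) : x * x ∈ center G := (mem_upper.mp hx).1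
lemma W_cm {x : G} (hx : x ∈ upper (center G)) (y : G) : cm x y ∈ center G := (mem_upper.mp hx).2 y

omit C in
lemma W_cm' {x : G} (hx : x ∈ upper (center G)) (y : G) : cm y x ∈ center G := by
  rw [← cm_inv_eq]; exact inv_mem ((mem_upper.mp hx).2 y)

lemma th_surj {x₀ : G} (hx₀ : x₀ ∈ upper (center G)) (hx₀1 : x₀ ∉ center G) {w : G} (hw : w * w = 1) :
    ∃ x ∈ upper (center G), th s x = w := by
  by_cases hw1 : w = 1
  · exact ⟨1, one_mem _, by rw [hw1]; unfold th; simp⟩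
  have hne : th s x₀ ≠ 1 := fun hh => hx₀1 (C.th_one_center (W_sq C hx₀) hh)
  obtain ⟨k, hk, -⟩ := C.h.reg _ _ hne (C.th_sq (W_sq C hx₀)) hw1 hw
  refine ⟨ρ k x₀, upper_kinv (center_kinv ρ) k _ hx₀, ?_⟩
  rw [th_smul, hk]

/-- Every element whose square is central is in `W`. -/
lemma mem_W_of_sq {x₀ : G} (hx₀ : x₀ ∈ upper (center G)) (hx₀1 : x₀ ∉ center G) {x : G}
    (hx : x * x ∈ center G) : x ∈ upper (center G) := by
  obtain ⟨w, hw, hw2⟩ := C.th_surj hx₀ hx₀1 (C.th_sq hx)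
  have h1 : x * w⁻¹ ∈ center G :=
    C.mem_center_of_th_eq hx (W_sq C hw) (W_cm C (inv_mem hw) x) hw2.symm
  have h2 : x = (x * w⁻¹) * w := by group
  rw [h2]
  exact mul_mem (le_upper h1) hw

/-- The quotient by the centre still satisfies the hypotheses. -/
lemma kg_quot {x₀ : G} (hx₀ : x₀ ∈ upper (center G)) (hx₀1 : x₀ ∉ center G) :
    KG (quotAct ρ (center G) (center_kinv ρ)) := by
  haveI := C.h.fin
  refine ⟨inferInstance, C.h.two.to_quotient _, ?_, ?_⟩
  · obtain ⟨w₁, w₂, hne, h11, h12, h21, h22⟩ := C.h.ex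
    obtain ⟨x₁, hx₁, hx₁w⟩ := C.th_surj hx₀ hx₀1 h12
    obtain ⟨x₂, hx₂, hx₂w⟩ := C.th_surj hx₀ hx₀1 h22
    refine ⟨(x₁ : G ⧸ center G), (x₂ : G ⧸ center G), ?_, ?_, ?_, ?_, ?_⟩
    · intro hh
      rw [QuotientGroup.eq] at hh
      apply hne
      rw [← hx₁w, ← hx₂w]
      have : x₂ = x₁ * (x₁⁻¹ * x₂) := by group
      rw [this, C.th_mul_center (W_sq C hx₁) hh]
    · intro hh
      rw [QuotientGroup.eq_one_iff] at hh
      apply h11
      rw [← hx₁w]
      exact C.th_center hh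
    · exact mk_sq_iff.mpr (W_sq C hx₁)
    · intro hh
      rw [QuotientGroup.eq_one_iff] at hh
      apply h21
      rw [← hx₂w]
      exact C.th_center hh
    · exact mk_sq_iff.mpr (W_sq C hx₂)
  · intro m m' hm1 hm2 hm'1 hm'2
    induction m using QuotientGroup.induction_on with
    | H x =>
    induction m' using QuotientGroup.induction_on with
    | H x' =>
    have hx := mk_sq_iff.mp hm2
    have hx' := mk_sq_iff.mp hm'2
    have hxZ : x ∉ center G := fun hh => hm1 ((QuotientGroup.eq_one_iff x).mpr hh)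
    have hx'Z : x' ∉ center G := fun hh => hm'1 ((QuotientGroup.eq_one_iff x').mpr hh)
    have hxW := C.mem_W_of_sq hx₀ hx₀1 hx
    have hx'W := C.mem_W_of_sq hx₀ hx₀1 hx'
    have ht1 : th s x ≠ 1 := fun hh => hxZ (C.th_one_center hx hh)
    have ht2 : th s x' ≠ 1 := fun hh => hx'Z (C.th_one_center hx' hh)
    obtain ⟨k, hk, hu⟩ := C.h.reg _ _ ht1 (C.th_sq hx) ht2 (C.th_sq hx')
    simp only at hk hu
    refine ⟨k, ?_, ?_⟩
    · show quotAct ρ (center G) (center_kinv ρ) k (x : G ⧸ center G) = x'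
      rw [quotAct_mk, eq_comm, QuotientGroup.eq]
      have hkx : ρ k x ∈ upper (center G) := upper_kinv (center_kinv ρ) k _ hxW
      have h1 : ρ k x * x'⁻¹ ∈ center G :=
        C.mem_center_of_th_eq (W_sq C hkx) hx' (W_cm C (inv_mem hx'W) _) (by rw [th_smul, hk])
      have h2 : x'⁻¹ * ρ k x = x'⁻¹ * (ρ k x * x'⁻¹) * x' := by group
      rw [h2, mul_assoc, center_comm h1 x', ← mul_assoc]
      simpa using h1
    · intro l hl
      apply hu
      have hl' : quotAct ρ (center G) (center_kinv ρ) l (x : G ⧸ center G) = x' := hl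
      rw [quotAct_mk, QuotientGroup.eq] at hl'
      have hkx : ρ l x ∈ upper (center G) := upper_kinv (center_kinv ρ) l _ hxW
      have : x' = ρ l x * ((ρ l x)⁻¹ * x') := by group
      rw [this, C.th_mul_center (W_sq C hkx) hl', th_smul]

end CS

end CS

end Cfsg.Agent.Lib.Fusion.Hig
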