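import Cfsg.Agent.Lib.Fusion.Hig3

/-!
# Higman's theorem: if `Z(G)` is not elementary abelian, `G` is abelian (final part).
-/

namespace Cfsg.Agent.Lib.Fusion.Hig

open Subgroup

universe u v

namespace CS

variable {K : Type v} [CommGroup K] {G : Type*} [Group G] {ρ : K →* MulAut G} {s : ℕ} (C : CS ρ s)
include C

lemma false_of_noncomm_quot {x₀ : G} (hx₀ : x₀ ∈ upper (center G)) (hx₀1 : x₀ ∉ center G)
    (hZ₂ : ∀ z ∈ center (G ⧸ center G), z * z = 1)
    (hM : ∃ a b : G, (a : G ⧸ center G) * (b : G ⧸ center G) ≠ (b : G ⧸ center G) * (a : G ⧸ center G)) :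
    False := by
  haveI := C.h.fin
  have hW : ∀ x, (∀ y, cm x y ∈ center G) → x ∈ upper (center G) := by
    intro x hx
    have := hZ₂ _ (mk_mem_center_iff.mpr hx)
    exact mem_upper.mpr ⟨mk_sq_iff.mp this, hx⟩
  obtain ⟨a, b, hab⟩ := hM
  have ha : a ∉ upper (center G) := by
    intro hh
    apply hab
    have := mk_mem_center_iff.mpr (W_cm C hh)
    exact center_comm this _
  obtain ⟨u, -, hu1, hu2⟩ := exists_upper_of_lt (T := ⊤) (N := upper (center G)) C.h.two (mem_top a) ha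
  obtain ⟨hu21, hu22⟩ := mem_upper.mp hu2
  apply hu1
  apply hW
  intro y
  set a := cm u y with ha_def
  have ha : a ∈ upper (center G) := hu22 y
  have hc1 : cm (u * u) y ∈ center G := W_cm C hu21 y
  have hc1s : cm (u * u) y * cm (u * u) y = 1 := cm_sq_of_central (W_sq C hu21) hc1
  have hc2 : cm a u ∈ center G := W_cm C ha u
  have hc2s : cm a u * cm a u = 1 := cm_sq_of_central (W_sq C ha) hc2
  have hid : cm (u * u) y = a * a * cm a u := by
    rw [cm_sq_left, ← ha_def, mul_assoc a, center_comm hc2 a]; group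
  have hww : a * a = cm (u * u) y * cm a u := by
    rw [hid, mul_assoc, hc2s, mul_one]
  have hw2 : (a * a) * (a * a) = 1 := by
    rw [hww]
    calc cm (u * u) y * cm a u * (cm (u * u) y * cm a u)
        = cm (u * u) y * (cm a u * cm (u * u) y) * cm a u := by group
      _ = cm (u * u) y * (cm (u * u) y * cm a u) * cm a u := by rw [center_comm hc2]
      _ = (cm (u * u) y * cm (u * u) y) * (cm a u * cm a u) := by group
      _ = 1 := by rw [hc1s, hc2s, one_mul]
  obtain ⟨b', hb', hb2⟩ := C.hs2 _ hw2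
  obtain ⟨t, ht⟩ := Nat.exists_eq_succ_of_ne_zero C.hs0
  have h3 : a * a = b' ^ (2 ^ t) * b' ^ (2 ^ t) := by
    rw [← hb2, ht, pow_succ', two_mul, pow_add]
  exact C.h.mem_center_of_sq_eq (pow_mem hb' _) h3

lemma comm_of_comm_quot {x₀ : G} (hx₀ : x₀ ∈ upper (center G)) (hx₀1 : x₀ ∉ center G)
    (hKG : KG (quotAct ρ (center G) (center_kinv ρ)))
    (hM : ∀ a b : G ⧸ center G, a * b = b * a) : ∀ x y : G, x * y = y * x := by
  classical
  haveI := C.h.fin
  haveI : Fact (Nat.Prime 2) := ⟨Nat.prime_two⟩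
  by_contra hnc
  push Not at hnc
  obtain ⟨x₁, y₁, hxy₁⟩ := hnc
  have hMc : ∀ x y : G, cm x y ∈ center G := by
    intro x y
    have : (x : G ⧸ center G) ∈ center (G ⧸ center G) := mem_center_iff'.mpr (fun g => hM _ g)
    exact mk_mem_center_iff.mp this y
  have hx₁1 : (x₁ : G ⧸ center G) ≠ 1 := by
    intro hh
    rw [QuotientGroup.eq_one_iff] at hh
    exact hxy₁ (center_comm hh y₁)
  obtain ⟨s₂, hs21, hs22, hs23⟩ := hKG.homocyclic (A := ⊤) (fun _ _ _ => mem_top _)
    (fun a _ b _ => hM a b) (mem_top _) hx₁1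
  set e₂ := 2 ^ s₂ with he₂
  have hWe : ∀ x : G, x ^ e₂ ∈ upper (center G) := by
    intro x
    apply C.mem_W_of_sq hx₀ hx₀1
    rw [← mk_sq_iff]
    have := hs21 (x : G ⧸ center G) (mem_top _)
    rwa [← QuotientGroup.mk_pow] at this
  obtain ⟨F, fld, ⟨D⟩⟩ := C.h.exists_FD
  haveI : Finite F := D.finite
  obtain ⟨m, hm⟩ := IsPGroup.iff_card.mp C.h.two
  have hex : ∃ t : ℕ, ∀ x y : G, (cm x y) ^ (2 ^ t) = 1 := by
    refine ⟨m, fun a _ => ?_⟩
    rw [← hm]
    exact pow_card_eq_one'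
  have h0 : Nat.find hex ≠ 0 := by
    intro hh
    have := Nat.find_spec hex x₁ y₁
    rw [hh] at this
    simp only [pow_zero, pow_one] at this
    exact hxy₁ (cm_eq_one_iff.mp this)
  obtain ⟨t', ht'⟩ := Nat.exists_eq_succ_of_ne_zero h0
  set e' := 2 ^ t' with he'
  have hB2 : ∀ x y : G, (cm x y) ^ e' * (cm x y) ^ e' = 1 := by
    intro x y
    have := Nat.find_spec hex x y
    rw [ht'] at this
    rw [← pow_add, ← two_mul, he', ← pow_succ']
    exact this
  have hmin : ¬ ∀ x y : G, (cm x y) ^ e' = 1 := Nat.find_min hex (by omega)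
  push Not at hmin
  obtain ⟨x₂, y₂, hne⟩ := hmin
  have hcomm : ∀ (a b : G), a ∈ center G → Commute a b := fun a b ha => center_comm ha b
  have hmain := hua_general D.two D.κ (A := G) (fun x => D.ν (th s (x ^ e₂)))
    (by
      intro x y
      show D.ν (th s ((x * y) ^ e₂)) = D.ν (th s (x ^ e₂)) + D.ν (th s (y ^ e₂))
      have hz : (x ^ e₂ * y ^ e₂)⁻¹ * (x * y) ^ e₂ ∈ center G := by
        rw [← QuotientGroup.eq, QuotientGroup.mk_mul, QuotientGroup.mk_pow, QuotientGroup.mk_pow,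
          QuotientGroup.mk_pow, QuotientGroup.mk_mul, (show Commute (x : G ⧸ center G) y from hM _ _).mul_pow]
      have h1 : (x * y) ^ e₂ = (x ^ e₂ * y ^ e₂) * ((x ^ e₂ * y ^ e₂)⁻¹ * (x * y) ^ e₂) := by group
      have hxW := hWe x
      have hyW := hWe y
      have hxyW := mul_mem hxW hyW
      rw [h1, C.th_mul_center (W_sq C hxyW) hz, C.th_mul (W_sq C hxW) (W_sq C hyW) (W_cm C hyW _),
        D.ν_mul (C.th_sq (W_sq C hxW)) (C.th_sq (W_sq C hyW))])
    (by
      intro a
      by_cases hw1 : D.ι a = 1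
      · refine ⟨1, ?_⟩
        show D.ν (th s ((1 : G) ^ e₂)) = a
        have h1 : th s ((1 : G) ^ e₂) = 1 := by unfold th; simp
        rw [h1, D.ν_one, D.ι_eq_one hw1]
      · obtain ⟨w₁, hw₁, hw₁2⟩ := C.th_surj hx₀ hx₀1 (D.ι_sq a)
        obtain ⟨m', -, hm'⟩ := hs22 (w₁ : G ⧸ center G) (mk_sq_iff.mpr (W_sq C hw₁))
        induction m' using QuotientGroup.induction_on with
        | H x =>
        refine ⟨x, ?_⟩
        show D.ν (th s (x ^ e₂)) = a
        rw [← QuotientGroup.mk_pow, QuotientGroup.eq] at hm'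
        have h1 : w₁ = x ^ e₂ * ((x ^ e₂)⁻¹ * w₁) := by group
        rw [h1, C.th_mul_center (W_sq C (hWe x)) hm'] at hw₁2
        rw [hw₁2, D.ν_ι])
    (fun k x => ρ k x)
    (by
      intro k x
      show D.ν (th s ((ρ k x) ^ e₂)) = _ * D.ν (th s (x ^ e₂))
      rw [← map_pow, th_smul, D.ν_smul (C.th_sq (W_sq C (hWe x)))])
    (fun x y => D.ν ((cm x y) ^ e'))
    (by
      intro x x' y
      show D.ν ((cm (x * x') y) ^ e') = D.ν ((cm x y) ^ e') + D.ν ((cm x' y) ^ e')
      rw [cm_mul_left_of_central (hMc x y), (hcomm _ _ (hMc x y)).mul_pow, D.ν_mul (hB2 _ _) (hB2 _ _)])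
    (by
      intro x y y'
      show D.ν ((cm x (y * y')) ^ e') = D.ν ((cm x y) ^ e') + D.ν ((cm x y') ^ e')
      rw [cm_mul_right_of_central (hMc x y), (hcomm _ _ (hMc x y)).mul_pow, D.ν_mul (hB2 _ _) (hB2 _ _)])
    (by
      intro x
      show D.ν ((cm x x) ^ e') = 0
      rw [cm_self, one_pow, D.ν_one])
    (by
      intro k x y
      show D.ν ((cm (ρ k x) (ρ k y)) ^ e') = _ * D.ν ((cm x y) ^ e')
      rw [← rho_cm, ← map_pow, D.ν_smul (hB2 _ _)])
    (by
      intro x hx y
      show D.ν ((cm x y) ^ e') = 0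
      have h1 : th s (x ^ e₂) = 1 := D.ν_eq_zero (C.th_sq (W_sq C (hWe x))) hx
      have h2 : x ^ e₂ ∈ center G := C.th_one_center (W_sq C (hWe x)) h1
      have h3 : (x : G ⧸ center G) ^ e₂ = 1 := by
        rw [← QuotientGroup.mk_pow, QuotientGroup.eq_one_iff]; exact h2
      obtain ⟨m', -, hm'⟩ := hs23 _ (mem_top _) h3
      induction m' using QuotientGroup.induction_on with
      | H v =>
      rw [← QuotientGroup.mk_mul, eq_comm, QuotientGroup.eq] at hm'
      have h4 : x = (v * v) * ((v * v)⁻¹ * x) := by group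
      have h5 : cm x y = cm v y * cm v y := by
        rw [h4, cm_mul_left_of_central (hMc _ y), cm_of_center hm', mul_one,
          cm_mul_left_of_central (hMc _ y)]
      rw [h5, (hcomm _ _ (hMc v y)).mul_pow, hB2, D.ν_one])
  apply hne
  exact D.ν_eq_zero (hB2 _ _) (hmain x₂ y₂)

end CS

/-- **Claim**: if the centre of `G` is not elementary abelian then `G` is abelian. -/
theorem claimC {K : Type v} [CommGroup K] : ∀ (n : ℕ) (G : Type u) [Group G] (ρ : K →* MulAut G),
    KG ρ → Nat.card G = n → (∃ z ∈ center G, z * z ≠ 1) → ∀ x y : G, x * y = y * x := by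
  intro n
  induction n using Nat.strong_induction_on with
  | _ n ih =>
  intro G _ ρ h hn hz
  obtain ⟨z, hz, hz2⟩ := hz
  by_contra hnc
  push Not at hnc
  haveI := h.fin
  have hz1 : z ≠ 1 := by
    rintro rfl
    simp at hz2
  obtain ⟨s, hs1, hs2, hs3⟩ := h.homocyclic (center_kinv ρ) (fun a ha b _ => center_comm ha b) hz hz1
  have hs0 : s ≠ 0 := by
    rintro rfl
    have := hs1 z hz
    simp only [pow_zero, pow_one] at this
    exact hz2 this
  have C : CS ρ s := ⟨h, hs0, hs1, hs2, hs3⟩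
  obtain ⟨x₀, hx₀, hx₀1⟩ := C.exists_W hnc
  have hKG := C.kg_quot hx₀ hx₀1
  have hcard : Nat.card (G ⧸ center G) < n := by
    have h1 : Nat.card G = Nat.card (G ⧸ center G) * Nat.card (center G) :=
      Subgroup.card_eq_card_quotient_mul_card_subgroup _
    have h2 : 1 < Nat.card (center G) := by
      rw [Subgroup.one_lt_card_iff_ne_bot]
      intro hh
      rw [hh, Subgroup.mem_bot] at hz
      exact hz1 hz
    have h3 : 0 < Nat.card (G ⧸ center G) := Nat.card_pos
    rw [← hn, h1]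
    nlinarith
  by_cases hM : ∀ a b : G ⧸ center G, a * b = b * a
  · obtain ⟨a, b, hab⟩ := hnc
    exact hab (C.comm_of_comm_quot hx₀ hx₀1 hKG hM a b)
  · have hZ₂ : ∀ w ∈ center (G ⧸ center G), w * w = 1 := by
      intro w hw
      by_contra hw2
      exact hM (ih _ hcard (G ⧸ center G) _ hKG rfl ⟨w, hw, hw2⟩)
    apply C.false_of_noncomm_quot hx₀ hx₀1 hZ₂
    push Not at hM
    obtain ⟨a, b, hab⟩ := hM
    induction a using QuotientGroup.induction_on with
    | H a =>
    induction b using QuotientGroup.induction_on with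
    | H b =>
    exact ⟨a, b, hab⟩

/-- The claim, without the counting parameter. -/
theorem KG.comm_of_center {K : Type v} [CommGroup K] {G : Type u} [Group G] {ρ : K →* MulAut G}
    (h : KG ρ) (hz : ∃ z ∈ center G, z * z ≠ 1) : ∀ x y : G, x * y = y * x :=
  claimC _ G ρ h rfl hz

end Cfsg.Agent.Lib.Fusion.Hig
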