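import Mathlib

/-!
# Higman's theorem: finite field lemmas
-/

namespace Cfsg.Agent.Lib.Fusion.Hig

open Finset

section Idem

/-- An additive family of idempotent additive maps, stable under conjugation by scalars, consists of
`0` and `1` only. -/
theorem idem_family {F : Type*} [Field F] [Finite F] (h2 : ∀ a : F, a + a = 0) (A : Set (F → F))
    (hadd : ∀ π ∈ A, ∀ a b, π (a + b) = π a + π b)
    (hclosed : ∀ π ∈ A, ∀ π' ∈ A, (fun a => π a + π' a) ∈ A)
    (hidem : ∀ π ∈ A, ∀ a, π (π a) = π a)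
    (hconj : ∀ π ∈ A, ∀ c : F, c ≠ 0 → (fun a => c * π (c⁻¹ * a)) ∈ A) :
    ∀ π ∈ A, (∀ a, π a = 0) ∨ (∀ a, π a = a) := by
  classical
  have cancel : ∀ a b : F, a + b = 0 → a = b := by
    intro a b h
    have : a = a + (b + b) := by rw [h2, add_zero]
    rw [this, ← add_assoc, h, zero_add]
  have hzero : ∀ π ∈ A, π 0 = 0 := by
    intro π hπ
    have := hadd π hπ 0 0
    rw [add_zero] at this
    have h3 : π 0 + π 0 = π 0 := this.symm
    rwa [h2, eq_comm] at h3
  have hcomm : ∀ π ∈ A, ∀ π' ∈ A, ∀ a, π (π' a) = π' (π a) := by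
    intro π hπ π' hπ' a
    have h1 : π (π a + π' a) + π' (π a + π' a) = π a + π' a := hidem _ (hclosed π hπ π' hπ') a
    rw [hadd π hπ, hadd π' hπ', hidem π hπ, hidem π' hπ'] at h1
    have h3 : π a + π (π' a) + (π' (π a) + π' a) + (π a + π' a) = π (π' a) + π' (π a) := by
      have e : π a + π (π' a) + (π' (π a) + π' a) + (π a + π' a)
          = (π a + π a) + (π' a + π' a) + (π (π' a) + π' (π a)) := by ring
      rw [e, h2, h2]; simp
    rw [h1, h2] at h3
    exact cancel _ _ h3.symm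
  -- the support `S v`
  let S : F → Set (F → F) := fun v => {π | π ∈ A ∧ π v ≠ 0}
  haveI : Fintype F := Fintype.ofFinite F
  have hfin : ∀ v, (S v).Finite := fun v => Set.toFinite _
  have hne : (univ.filter (fun v : F => v ≠ 0)).Nonempty := ⟨1, by simp⟩
  obtain ⟨v, hv, hmin⟩ := Finset.exists_min_image _ (fun v => (S v).ncard) hne
  have hv0 : v ≠ 0 := by simpa using hv
  have hmin' : ∀ w : F, w ≠ 0 → (S v).ncard ≤ (S w).ncard := fun w hw => hmin w (by simpa using hw)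
  have heig : ∀ π ∈ A, π v = 0 ∨ π v = v := by
    intro π hπ
    by_cases h0 : π v = 0
    · exact Or.inl h0
    right
    by_contra hne2
    have hv2 : v + π v ≠ 0 := fun hh => hne2 (cancel _ _ hh).symm
    have hlt : (S (v + π v)).ncard < (S v).ncard := by
      apply Set.ncard_lt_ncard _ (hfin v)
      refine ⟨?_, ?_⟩
      · rintro π' ⟨hπ', h3⟩
        refine ⟨hπ', ?_⟩
        intro h4
        apply h3
        rw [hadd π' hπ', h4, zero_add, hcomm π' hπ' π hπ, h4, hzero π hπ]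
      · intro hsub
        have : π ∈ S v := ⟨hπ, h0⟩
        have h5 := hsub this
        apply h5.2
        rw [hadd π hπ, hidem π hπ, h2]
    exact absurd (hmin' _ hv2) (by omega)
  have heig2 : ∀ π ∈ A, ∀ w, π w = 0 ∨ π w = w := by
    intro π hπ w
    by_cases hw : w = 0
    · left; rw [hw]; exact hzero π hπ
    set c := w * v⁻¹ with hc
    have hc0 : c ≠ 0 := mul_ne_zero hw (inv_ne_zero hv0)
    have hcv : c * v = w := by rw [hc, mul_assoc, inv_mul_cancel₀ hv0, mul_one]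
    have h1 := hconj π hπ c⁻¹ (inv_ne_zero hc0)
    rcases heig _ h1 with h3 | h3
    · left
      replace h3 : c⁻¹ * π (c⁻¹⁻¹ * v) = 0 := h3
      rw [inv_inv, hcv] at h3
      have := mul_eq_zero.mp h3
      rcases this with h4 | h4
      · exact absurd h4 (inv_ne_zero hc0)
      · exact h4
    · right
      replace h3 : c⁻¹ * π (c⁻¹⁻¹ * v) = v := h3
      rw [inv_inv, hcv] at h3
      have h5 : π w = c * (c⁻¹ * π w) := by rw [← mul_assoc, mul_inv_cancel₀ hc0, one_mul]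
      rw [h5, h3, hcv]
  intro π hπ
  by_cases hall : ∀ a, π a = 0
  · exact Or.inl hall
  right
  push Not at hall
  obtain ⟨w', hw'⟩ := hall
  have hw'2 : π w' = w' := (heig2 π hπ w').resolve_left hw'
  have hw'0 : w' ≠ 0 := by
    intro h
    rw [h] at hw'
    exact hw' (hzero π hπ)
  intro a
  rcases heig2 π hπ a with h3 | h3
  · by_cases ha : a = 0
    · rw [ha]; exact hzero π hπ
    exfalso
    rcases heig2 π hπ (a + w') with h4 | h4
    · rw [hadd π hπ, h3, hw'2, zero_add] at h4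
      exact hw'0 h4
    · rw [hadd π hπ, h3, hw'2, zero_add] at h4
      apply ha
      have h5 : a + w' + w' = w' + w' := by rw [← h4]
      rwa [add_assoc, h2, add_zero] at h5
  · exact h3

end Idem

section Fourier

/-- Fourier inversion on `Fˣ`. -/
theorem fourier_inv {F : Type*} [Field F] [Fintype F] [DecidableEq F] (f : Fˣ → F)
    (hf : ∀ m : ℕ, ∑ a : Fˣ, f a * ((a⁻¹ : Fˣ) : F) ^ m = 0) (x : Fˣ) : f x = 0 := by
  classical
  set N := Fintype.card Fˣ with hN
  have hsum : ∑ m ∈ range N, (∑ a : Fˣ, f a * ((a⁻¹ : Fˣ) : F) ^ m) * (x : F) ^ m = 0 := by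
    apply Finset.sum_eq_zero
    intro m _
    rw [hf m, zero_mul]
  have h1 : ∑ m ∈ range N, (∑ a : Fˣ, f a * ((a⁻¹ : Fˣ) : F) ^ m) * (x : F) ^ m
      = ∑ a : Fˣ, f a * ∑ m ∈ range N, (((a⁻¹ * x : Fˣ) : F)) ^ m := by
    simp_rw [Finset.sum_mul, Finset.mul_sum]
    rw [Finset.sum_comm]
    refine Finset.sum_congr rfl fun a _ => Finset.sum_congr rfl fun m _ => ?_
    rw [Units.val_mul, mul_pow, mul_assoc]
  rw [h1] at hsum
  rw [Finset.sum_eq_single x] at hsum
  · have h3 : ∑ m ∈ range N, (((x⁻¹ * x : Fˣ) : F)) ^ m = (N : F) := by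
      simp
    rw [h3] at hsum
    have h4 : (N : F) = -1 := by
      rw [hN, Fintype.card_units, Nat.cast_sub Fintype.card_pos, FiniteField.cast_card_eq_zero,
        Nat.cast_one, zero_sub]
    rw [h4, mul_neg, mul_one, neg_eq_zero] at hsum
    exact hsum
  · intro a _ hax
    have ht : ((a⁻¹ * x : Fˣ) : F) ≠ 1 := by
      intro h
      have h5 : a⁻¹ * x = 1 := Units.ext h
      apply hax
      exact inv_mul_eq_one.mp h5
    have hp : ((a⁻¹ * x : Fˣ) : F) ^ N = 1 := by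
      rw [← Units.val_pow_eq_pow_val, hN, pow_card_eq_one, Units.val_one]
    have h6 : (∑ m ∈ range N, ((a⁻¹ * x : Fˣ) : F) ^ m) * (((a⁻¹ * x : Fˣ) : F) - 1) = 0 := by
      rw [geom_sum_mul, hp, sub_self]
    have h7 := (mul_eq_zero.mp h6).resolve_right (sub_ne_zero.mpr ht)
    rw [h7, mul_zero]
  · intro h; exact absurd (mem_univ x) h

end Fourier

section Arith

theorem two_pow_add_inj : ∀ a c b d : ℕ, 2 ^ a + 2 ^ c = 2 ^ b + 2 ^ d →
    (a = b ∧ c = d) ∨ (a = d ∧ c = b)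
  | 0, 0, b, d, h => by
    have hb := Nat.two_pow_pos b
    have hd := Nat.two_pow_pos d
    simp only [pow_zero] at h
    have h1 : 2 ^ b = 1 := by omega
    have h2 : 2 ^ d = 1 := by omega
    have h3 : b = 0 := by simpa using h1
    have h4 : d = 0 := by simpa using h2
    left; exact ⟨h3.symm, h4.symm⟩
  | 0, c + 1, 0, 0, h => by
    have := Nat.two_pow_pos c
    simp only [pow_zero, pow_succ] at h
    omega
  | 0, c + 1, 0, d + 1, h => by
    simp only [pow_zero] at h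
    have h1 : 2 ^ (c + 1) = 2 ^ (d + 1) := by omega
    have := Nat.pow_right_injective (le_refl 2) h1
    left; exact ⟨rfl, this⟩
  | 0, c + 1, b + 1, 0, h => by
    simp only [pow_zero] at h
    have h1 : 2 ^ (c + 1) = 2 ^ (b + 1) := by omega
    have := Nat.pow_right_injective (le_refl 2) h1
    right; exact ⟨rfl, this⟩
  | 0, c + 1, b + 1, d + 1, h => by
    simp only [pow_zero, pow_succ] at h
    omega
  | a + 1, 0, 0, 0, h => by
    have := Nat.two_pow_pos a
    simp only [pow_zero, pow_succ] at h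
    omega
  | a + 1, 0, 0, d + 1, h => by
    simp only [pow_zero] at h
    have h1 : 2 ^ (a + 1) = 2 ^ (d + 1) := by omega
    have := Nat.pow_right_injective (le_refl 2) h1
    right; exact ⟨this, rfl⟩
  | a + 1, 0, b + 1, 0, h => by
    simp only [pow_zero] at h
    have h1 : 2 ^ (a + 1) = 2 ^ (b + 1) := by omega
    have := Nat.pow_right_injective (le_refl 2) h1
    left; exact ⟨this, rfl⟩
  | a + 1, 0, b + 1, d + 1, h => by
    simp only [pow_zero, pow_succ] at h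
    omega
  | a + 1, c + 1, 0, 0, h => by
    have := Nat.two_pow_pos a
    have := Nat.two_pow_pos c
    simp only [pow_zero, pow_succ] at h
    omega
  | a + 1, c + 1, 0, d + 1, h => by
    simp only [pow_zero, pow_succ] at h
    omega
  | a + 1, c + 1, b + 1, 0, h => by
    simp only [pow_zero, pow_succ] at h
    omega
  | a + 1, c + 1, b + 1, d + 1, h => by
    have h1 : 2 ^ a + 2 ^ c = 2 ^ b + 2 ^ d := by
      simp only [pow_succ] at h
      omega
    rcases two_pow_add_inj a c b d h1 with ⟨h2, h3⟩ | ⟨h2, h3⟩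
    · left; exact ⟨by omega, by omega⟩
    · right; exact ⟨by omega, by omega⟩

lemma two_pow_reduce (n m : ℕ) (hn : 0 < n) : ((2 : ℤ) ^ n - 1) ∣ 2 ^ m - 2 ^ (m % n) := by
  conv_lhs => skip
  have h1 : (2 : ℤ) ^ m = ((2 : ℤ) ^ n) ^ (m / n) * 2 ^ (m % n) := by
    rw [← pow_mul, ← pow_add, Nat.div_add_mod]
  rw [h1]
  have h2 : ((2 : ℤ) ^ n) ^ (m / n) * 2 ^ (m % n) - 2 ^ (m % n)
      = (((2 : ℤ) ^ n) ^ (m / n) - 1) * 2 ^ (m % n) := by ring
  rw [h2]
  apply Dvd.dvd.mul_right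
  exact sub_one_dvd_pow_sub_one _ _ |> fun h => by simpa using h

theorem exp_unique {n i j i₀ j₀ : ℕ} (hi : i < n) (hj : j < n) (hi₀ : i₀ < n) (hj₀ : j₀ < n)
    (hi₀0 : i₀ ≠ 0) (h : (2 ^ n - 1) ∣ (2 ^ i - 1) * 2 ^ j + (2 ^ n - 2) * ((2 ^ i₀ - 1) * 2 ^ j₀)) :
    i = i₀ ∧ j = j₀ := by
  have hn : 0 < n := by omega
  have hn2 : 2 ≤ n := by omega
  have h2n : (4 : ℕ) ≤ 2 ^ n := by
    calc 4 = 2 ^ 2 := by norm_num
      _ ≤ 2 ^ n := Nat.pow_le_pow_right (by norm_num) hn2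
  have hQ : ((2 ^ n - 1 : ℕ) : ℤ) = (2 : ℤ) ^ n - 1 := by
    rw [Nat.cast_sub (by omega)]; simp
  have hh : ((2 : ℤ) ^ n - 1) ∣ ((2 ^ i - 1) * 2 ^ j + (2 ^ n - 2) * ((2 ^ i₀ - 1) * 2 ^ j₀) : ℤ) := by
    have := Int.natCast_dvd_natCast.mpr h
    rw [hQ] at this
    have e1 : (((2 ^ i - 1 : ℕ)) : ℤ) = (2 : ℤ) ^ i - 1 := by
      rw [Nat.cast_sub Nat.one_le_two_pow]; simp
    have e2 : (((2 ^ i₀ - 1 : ℕ)) : ℤ) = (2 : ℤ) ^ i₀ - 1 := by
      rw [Nat.cast_sub Nat.one_le_two_pow]; simp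
    have e3 : (((2 ^ n - 2 : ℕ)) : ℤ) = (2 : ℤ) ^ n - 2 := by
      rw [Nat.cast_sub (by omega)]; simp
    push_cast [e1, e2, e3] at this
    exact this
  set a := (i + j) % n with ha
  set b := (i₀ + j₀) % n with hb
  have ha' : a < n := Nat.mod_lt _ hn
  have hb' : b < n := Nat.mod_lt _ hn
  have hD : ((2 : ℤ) ^ n - 1) ∣ (2 ^ a + 2 ^ j₀ - 2 ^ b - 2 ^ j : ℤ) := by
    have h3 := two_pow_reduce n (i + j) hn
    have h4 := two_pow_reduce n (i₀ + j₀) hn
    have e : (2 ^ a + 2 ^ j₀ - 2 ^ b - 2 ^ j : ℤ)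
        = ((2 ^ i - 1) * 2 ^ j + (2 ^ n - 2) * ((2 ^ i₀ - 1) * 2 ^ j₀))
          - (2 ^ (i + j) - 2 ^ a) + (2 ^ (i₀ + j₀) - 2 ^ b)
          - (2 ^ n - 1) * ((2 ^ i₀ - 1) * 2 ^ j₀) := by
      rw [pow_add, pow_add]; ring
    rw [e]
    exact dvd_sub (dvd_add (dvd_sub hh h3) h4) (dvd_mul_right _ _)
  -- size bounds
  have hle : ∀ x, x < n → (2 : ℤ) ^ x * 2 ≤ 2 ^ n := by
    intro x hx
    rw [← pow_succ]
    exact pow_le_pow_right₀ (by norm_num) hx
  have hpos : ∀ x : ℕ, (1 : ℤ) ≤ 2 ^ x := fun x => one_le_pow₀ (by norm_num)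
  have hzero : (2 ^ a + 2 ^ j₀ - 2 ^ b - 2 ^ j : ℤ) = 0 := by
    apply Int.eq_zero_of_abs_lt_dvd hD
    have h5 := hle a ha'
    have h6 := hle j₀ hj₀
    have h7 := hle b hb'
    have h8 := hle j hj
    have h9 := hpos a
    have h10 := hpos j₀
    have h11 := hpos b
    have h12 := hpos j
    rw [abs_lt]
    constructor <;> linarith
  have hnat : 2 ^ a + 2 ^ j₀ = 2 ^ b + 2 ^ j := by
    have : ((2 ^ a + 2 ^ j₀ : ℕ) : ℤ) = ((2 ^ b + 2 ^ j : ℕ) : ℤ) := by
      push_cast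
      linarith
    exact_mod_cast this
  rcases two_pow_add_inj _ _ _ _ hnat with ⟨h3, h4⟩ | ⟨h3, h4⟩
  · subst h4
    refine ⟨?_, rfl⟩
    have h5 : i ≡ i₀ [MOD n] := by
      apply Nat.ModEq.add_right_cancel' j₀
      exact h3
    rw [Nat.ModEq, Nat.mod_eq_of_lt hi, Nat.mod_eq_of_lt hi₀] at h5
    exact h5
  · exfalso
    apply hi₀0
    have h5 : i₀ + j₀ ≡ 0 + j₀ [MOD n] := by
      show (i₀ + j₀) % n = (0 + j₀) % n
      rw [zero_add, Nat.mod_eq_of_lt hj₀]
      exact h4.symm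
    have h6 : i₀ ≡ 0 [MOD n] := Nat.ModEq.add_right_cancel' j₀ h5
    rw [Nat.ModEq, Nat.mod_eq_of_lt hi₀, Nat.zero_mod] at h6
    exact h6

end Arith

section Expansion

variable {F : Type*} [Field F] [Fintype F] [CharP F 2]

/-- Additive maps on a finite field of characteristic two are linearized polynomials. -/
theorem additive_expansion {n : ℕ} (hn : Fintype.card F = 2 ^ n) (ψ : F → F)
    (hψ : ∀ a b, ψ (a + b) = ψ a + ψ b) :
    ∃ c : Fin n → F, ∀ x, ψ x = ∑ i, c i * x ^ (2 ^ (i : ℕ)) := by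
  classical
  haveI : Fact (Nat.Prime 2) := ⟨Nat.prime_two⟩
  have hn0 : 0 < n := by
    rcases Nat.eq_zero_or_pos n with h | h
    · subst h
      have := Fintype.one_lt_card (α := F)
      simp [hn] at this
    · exact h
  let pw : Fin n → (F →* F) := fun i => powMonoidHom (2 ^ (i : ℕ))
  have hinj : Function.Injective pw := by
    intro i j hij
    by_contra hne
    obtain ⟨g, hg⟩ := IsCyclic.exists_generator (α := Fˣ)
    have hord : orderOf g = 2 ^ n - 1 := by
      rw [orderOf_eq_card_of_forall_mem_zpowers hg, Nat.card_eq_fintype_card, Fintype.card_units, hn]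
    have key : ∀ i j : Fin n, (i : ℕ) < j → pw i ≠ pw j := by
      intro i j hlt hh
      have h1 : (g : F) ^ (2 ^ (i : ℕ)) = (g : F) ^ (2 ^ (j : ℕ)) := congrFun (congrArg DFunLike.coe hh) (g : F)
      have h2 : g ^ (2 ^ (i : ℕ)) = g ^ (2 ^ (j : ℕ)) := Units.ext (by simpa using h1)
      have hjn : (j : ℕ) < n := j.2
      have hlt2 : 2 ^ (i : ℕ) < 2 ^ (j : ℕ) := Nat.pow_lt_pow_right (by norm_num) hlt
      have hj2 : 2 ^ (j : ℕ) < 2 ^ n - 1 := by
        obtain ⟨r, hr⟩ : ∃ r, n = (j : ℕ) + 1 + r := ⟨n - (j + 1), by omega⟩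
        have h3 : 2 ^ n = 2 ^ (j : ℕ) * 2 * 2 ^ r := by
          have h30 : 2 ^ n = 2 ^ ((j : ℕ) + 1 + r) := congrArg _ hr
          rw [h30, pow_add, pow_succ]
        have h4 : 1 ≤ 2 ^ r := Nat.one_le_two_pow
        have h5 : 2 ≤ 2 ^ (j : ℕ) := by
          have : 1 ≤ (j : ℕ) := by omega
          calc 2 = 2 ^ 1 := by norm_num
            _ ≤ _ := Nat.pow_le_pow_right (by norm_num) this
        have h6 : 2 ^ (j : ℕ) * 2 ≤ 2 ^ n := by
          rw [h3]; exact Nat.le_mul_of_pos_right _ (by omega)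
        omega
      have h7 : 2 ^ (i : ℕ) = 2 ^ (j : ℕ) := pow_injOn_Iio_orderOf (x := g)
        (show 2 ^ (i : ℕ) < orderOf g by rw [hord]; omega)
        (show 2 ^ (j : ℕ) < orderOf g by rw [hord]; omega) h2
      omega
    rcases lt_or_gt_of_ne (fun h : (i : ℕ) = j => hne (Fin.ext h)) with h | h
    · exact key i j h hij
    · exact key j i h hij.symm
  have hli := (linearIndependent_monoidHom F F).comp pw hinj
  letI : Algebra (ZMod 2) F := ZMod.algebra F 2
  let v : Fin n → (F →ₗ[ZMod 2] F) := fun i =>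
    AddMonoidHom.toZModLinearMap 2 (AddMonoidHom.mk' (fun x : F => x ^ (2 ^ (i : ℕ)))
      (fun a b => add_pow_char_pow a b 2 (i : ℕ)))
  have hvli : LinearIndependent F v := by
    apply LinearIndependent.of_comp (LinearMap.ltoFun (ZMod 2) F F F)
    have e : ⇑(LinearMap.ltoFun (ZMod 2) F F F) ∘ v = (fun f : F →* F => (f : F → F)) ∘ pw := by
      funext i x
      rfl
    rw [e]
    exact hli
  haveI : Nonempty (Fin n) := ⟨⟨0, hn0⟩⟩
  have hfr : Module.finrank (ZMod 2) F = n := by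
    have h1 := Module.card_eq_pow_finrank (K := ZMod 2) (V := F)
    rw [hn, ZMod.card] at h1
    exact (Nat.pow_right_injective (le_refl 2) h1).symm
  have hspan := hvli.span_eq_top_of_card_eq_finrank (by
    rw [Module.finrank_linearMap_self, hfr, Fintype.card_fin])
  let ψ' : F →ₗ[ZMod 2] F := AddMonoidHom.toZModLinearMap 2 (AddMonoidHom.mk' ψ hψ)
  have hmem : ψ' ∈ Submodule.span F (Set.range v) := by rw [hspan]; trivial
  obtain ⟨c, hc⟩ := (Submodule.mem_span_range_iff_exists_fun F).mp hmem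
  refine ⟨c, fun x => ?_⟩
  have := congrArg (fun f : F →ₗ[ZMod 2] F => f x) hc
  simp only [LinearMap.sum_apply, LinearMap.smul_apply] at this
  exact this.symm

/-- **Lemma X**: an additive map `ψ` such that `ψ(a)/a` always lies in the kernel of a nonzero additive
map is a scalar. -/
theorem lemmaX {n : ℕ} (hn : Fintype.card F = 2 ^ n) (ψ lam : F → F)
    (hψ : ∀ a b, ψ (a + b) = ψ a + ψ b) (hlam : ∀ a b, lam (a + b) = lam a + lam b)
    (hne : ∃ x, lam x ≠ 0) (hX : ∀ a, a ≠ 0 → lam (ψ a / a) = 0) : ∃ c, ∀ a, ψ a = c * a := by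
  classical
  haveI : Fact (Nat.Prime 2) := ⟨Nat.prime_two⟩
  obtain ⟨c, hc⟩ := additive_expansion hn ψ hψ
  obtain ⟨d, hd⟩ := additive_expansion hn lam hlam
  have hn0 : 0 < n := by
    rcases Nat.eq_zero_or_pos n with h | h
    · subst h
      have := Fintype.one_lt_card (α := F)
      simp [hn] at this
    · exact h
  obtain ⟨x, hx⟩ := hne
  obtain ⟨j₀, hj₀⟩ : ∃ j, d j ≠ 0 := by
    by_contra hh
    push Not at hh
    apply hx
    rw [hd]
    simp [hh]
  have hq : Fintype.card F - 1 = 2 ^ n - 1 := by rw [hn]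
  have key : ∀ a : Fˣ, ∑ j : Fin n, ∑ i : Fin n,
      d j * (c i) ^ (2 ^ (j : ℕ)) * (a : F) ^ ((2 ^ (i : ℕ) - 1) * 2 ^ (j : ℕ)) = 0 := by
    intro a
    have h1 := hX a a.ne_zero
    have h2 : ψ a / a = ∑ i : Fin n, c i * (a : F) ^ (2 ^ (i : ℕ) - 1) := by
      rw [hc, Finset.sum_div]
      refine Finset.sum_congr rfl fun i _ => ?_
      have h3 : (a : F) ^ (2 ^ (i : ℕ)) = (a : F) ^ (2 ^ (i : ℕ) - 1) * a := by
        rw [← pow_succ]
        congr 1
        have := Nat.one_le_two_pow (n := (i : ℕ))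
        omega
      rw [h3, ← mul_assoc, mul_div_assoc, div_self a.ne_zero, mul_one]
    rw [h2, hd] at h1
    rw [← h1]
    refine Finset.sum_congr rfl fun j _ => ?_
    rw [sum_pow_char_pow, Finset.mul_sum]
    refine Finset.sum_congr rfl fun i _ => ?_
    rw [mul_pow, ← pow_mul, mul_assoc]
  have hall : ∀ i₀ : Fin n, (i₀ : ℕ) ≠ 0 → c i₀ = 0 := by
    intro i₀ hi₀
    set E₀ := (2 ^ (i₀ : ℕ) - 1) * 2 ^ (j₀ : ℕ) with hE₀
    have h1 : ∑ a : Fˣ, (a : F) ^ ((2 ^ n - 2) * E₀) * (∑ j : Fin n, ∑ i : Fin n,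
        d j * (c i) ^ (2 ^ (j : ℕ)) * (a : F) ^ ((2 ^ (i : ℕ) - 1) * 2 ^ (j : ℕ))) = 0 := by
      apply Finset.sum_eq_zero
      intro a _
      rw [key a, mul_zero]
    have h2 : ∑ a : Fˣ, (a : F) ^ ((2 ^ n - 2) * E₀) * (∑ j : Fin n, ∑ i : Fin n,
        d j * (c i) ^ (2 ^ (j : ℕ)) * (a : F) ^ ((2 ^ (i : ℕ) - 1) * 2 ^ (j : ℕ)))
        = ∑ j : Fin n, ∑ i : Fin n, d j * (c i) ^ (2 ^ (j : ℕ)) *
          ∑ a : Fˣ, (a : F) ^ ((2 ^ (i : ℕ) - 1) * 2 ^ (j : ℕ) + (2 ^ n - 2) * E₀) := by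
      simp_rw [Finset.mul_sum]
      rw [Finset.sum_comm]
      refine Finset.sum_congr rfl fun j _ => ?_
      rw [Finset.sum_comm]
      refine Finset.sum_congr rfl fun i _ => ?_
      refine Finset.sum_congr rfl fun a _ => ?_
      rw [pow_add]
      ring
    rw [h2] at h1
    simp_rw [FiniteField.sum_pow_units, hq] at h1
    rw [Finset.sum_eq_single j₀, Finset.sum_eq_single i₀] at h1
    · rw [if_pos, mul_neg, mul_one, neg_eq_zero] at h1
      · have h3 := (mul_eq_zero.mp h1).resolve_left hj₀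
        exact pow_eq_zero_iff (by positivity) |>.mp h3
      · have : (2 ^ (i₀ : ℕ) - 1) * 2 ^ (j₀ : ℕ) + (2 ^ n - 2) * E₀ = (2 ^ n - 1) * E₀ := by
          rw [← hE₀]
          have h4 : 2 ≤ 2 ^ n := by
            calc 2 = 2 ^ 1 := by norm_num
              _ ≤ 2 ^ n := Nat.pow_le_pow_right (by norm_num) hn0
          have h5 : 2 ^ n - 1 = (2 ^ n - 2) + 1 := by omega
          rw [h5]
          ring
        rw [this]
        exact dvd_mul_right _ _
    · intro i _ hne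
      rw [if_neg, mul_zero]
      intro hdv
      have := exp_unique i.2 j₀.2 i₀.2 j₀.2 hi₀ hdv
      exact hne (Fin.ext this.1)
    · intro h; exact absurd (mem_univ i₀) h
    · intro j _ hne
      apply Finset.sum_eq_zero
      intro i _
      rw [if_neg, mul_zero]
      intro hdv
      have := exp_unique i.2 j.2 i₀.2 j₀.2 hi₀ hdv
      exact hne (Fin.ext this.2)
    · intro h; exact absurd (mem_univ j₀) h
  refine ⟨c ⟨0, hn0⟩, fun a => ?_⟩
  rw [hc, Finset.sum_eq_single (⟨0, hn0⟩ : Fin n)]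
  · simp
  · intro i _ hi
    rw [hall i (fun h => hi (Fin.ext h)), zero_mul]
  · intro h; exact absurd (mem_univ _) h

end Expansion

end Cfsg.Agent.Lib.Fusion.Hig
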