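import Cfsg.Agent.Lib.Fusion.Hig4
import Cfsg.Agent.Lib.Fusion.Hig5

/-!
# Higman's theorem: the case where `W = Ω₁(Z(G/Ω))` (pulled back) is abelian.
-/

namespace Cfsg.Agent.Lib.Fusion.Hig

open Subgroup

universe u v

section

variable {K : Type v} [CommGroup K] {G : Type u} [Group G]

/-- The data of the case where `W` is abelian. -/
structure CII (ρ : K →* MulAut G) (F : Type*) [Field F] where
  h : KG ρ
  D : FD ρ F
  hZ : ∀ z ∈ center G, z * z = 1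
  x₀ : G
  hx₀ : x₀ ∈ upper (Om h)
  hx₀1 : x₀ * x₀ ≠ 1
  hWc : ∀ a ∈ upper (Om h), ∀ b ∈ upper (Om h), a * b = b * a

namespace CII

variable {ρ : K →* MulAut G} {F : Type*} [Field F] (E : CII ρ F)

/-- the subgroup `W` -/
abbrev W : Subgroup G := upper (Om E.h)

/-- the centraliser of `W` -/
def C : Subgroup G := Subgroup.centralizer (E.W : Set G)

include E

lemma mem_C {y : G} : y ∈ E.C ↔ ∀ w ∈ E.W, cm w y = 1 := by
  unfold C
  rw [Subgroup.mem_centralizer_iff]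
  refine forall₂_congr fun w hw => ?_
  rw [cm_eq_one_iff]

lemma Om_le_W {x : G} (hx : x * x = 1) : x ∈ E.W := le_upper (show x ∈ Om E.h from hx)

lemma W_sq {w : G} (hw : w ∈ E.W) : (w * w) * (w * w) = 1 := (mem_upper.mp hw).1

lemma W_cm_sq {w : G} (hw : w ∈ E.W) (y : G) : cm w y * cm w y = 1 := (mem_upper.mp hw).2 y

lemma central {x : G} (hx : x * x = 1) : x ∈ center G := E.h.central hx

lemma W_cm_center {w : G} (hw : w ∈ E.W) (y : G) : cm w y ∈ center G := E.central (E.W_cm_sq hw y)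

lemma W_sq_center {w : G} (hw : w ∈ E.W) : w * w ∈ center G := E.central (E.W_sq hw)

lemma W_kinv : KInv ρ E.W := upper_kinv (Om_kinv E.h)

lemma mem_W_of_sq_one {x w : G} (hw : w ∈ E.W) (hx : (x * w) * (x * w) = 1) : x ∈ E.W := by
  have : x = (x * w) * w⁻¹ := by group
  rw [this]
  exact mul_mem (E.Om_le_W hx) (inv_mem hw)

/-- squaring `W → Ω` is surjective -/
lemma sq_surj {ω : G} (hω : ω * ω = 1) : ∃ w ∈ E.W, w * w = ω := by
  by_cases h1 : ω = 1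
  · exact ⟨1, one_mem _, by rw [h1, one_mul]⟩
  obtain ⟨k, hk, -⟩ := E.h.reg _ _ E.hx₀1 (E.W_sq E.hx₀) h1 hω
  refine ⟨ρ k E.x₀, E.W_kinv k _ E.hx₀, ?_⟩
  rw [← map_mul]
  exact hk

/-- two elements of `W` with the same square differ by an element of `Ω`. -/
lemma W_eq_mul {w w' : G} (hw : w ∈ E.W) (hw' : w' ∈ E.W) (he : w * w = w' * w') :
    (w * w'⁻¹) * (w * w'⁻¹) = 1 := by
  have h1 : w'⁻¹ * w = w * w'⁻¹ := E.hWc _ (inv_mem hw') _ hw
  calc (w * w'⁻¹) * (w * w'⁻¹) = w * (w'⁻¹ * w) * w'⁻¹ := by group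
    _ = w * (w * w'⁻¹) * w'⁻¹ := by rw [h1]
    _ = (w * w) * (w'⁻¹ * w'⁻¹) := by group
    _ = 1 := by rw [he]; group

lemma cm_congr {w w' : G} (hw : w ∈ E.W) (hw' : w' ∈ E.W) (he : w * w = w' * w') (y : G) :
    cm w y = cm w' y := by
  have h1 := E.W_eq_mul hw hw' he
  have h2 : w = (w * w'⁻¹) * w' := by group
  have h3 : w * w'⁻¹ ∈ center G := E.central h1
  calc cm w y = cm ((w * w'⁻¹) * w') y := by rw [← h2]
    _ = cm (w * w'⁻¹) y * cm w' y := cm_mul_left_of_central (by rw [cm_of_center h3]; exact one_mem _)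
    _ = cm w' y := by rw [cm_of_center h3, one_mul]

/-- the `ψ` map, `ψ y a = ν [r a, y]` where `(r a)² = ι a`. -/
noncomputable def ψ (y : G) (a : F) : F :=
  E.D.ν (cm (Classical.choose (E.sq_surj (E.D.ι_sq a))) y)

lemma psi_eq {y : G} {a : F} {w : G} (hw : w ∈ E.W) (he : w * w = E.D.ι a) :
    E.ψ y a = E.D.ν (cm w y) := by
  have h1 := Classical.choose_spec (E.sq_surj (E.D.ι_sq a))
  unfold ψ
  rw [E.cm_congr h1.1 hw (h1.2.trans he.symm) y]

lemma psi_eq' {y : G} {w : G} (hw : w ∈ E.W) : E.ψ y (E.D.ν (w * w)) = E.D.ν (cm w y) :=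
  E.psi_eq hw (E.D.ι_ν (E.W_sq hw)).symm

lemma iota_psi {y : G} {a : F} {w : G} (hw : w ∈ E.W) (he : w * w = E.D.ι a) :
    E.D.ι (E.ψ y a) = cm w y := by
  rw [E.psi_eq hw he, E.D.ι_ν (E.W_cm_sq hw y)]

lemma psi_add_right (y : G) (a b : F) : E.ψ y (a + b) = E.ψ y a + E.ψ y b := by
  obtain ⟨w, hw, hwa⟩ := E.sq_surj (E.D.ι_sq a)
  obtain ⟨w', hw', hwb⟩ := E.sq_surj (E.D.ι_sq b)
  have h1 : (w * w') * (w * w') = E.D.ι (a + b) := by
    rw [E.D.ι_add, ← hwa, ← hwb]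
    calc (w * w') * (w * w') = w * (w' * w) * w' := by group
      _ = w * (w * w') * w' := by rw [E.hWc _ hw' _ hw]
      _ = _ := by group
  rw [E.psi_eq (mul_mem hw hw') h1, E.psi_eq hw hwa, E.psi_eq hw' hwb,
    cm_mul_left_of_central (E.W_cm_center hw y), E.D.ν_mul (E.W_cm_sq hw y) (E.W_cm_sq hw' y)]

lemma psi_zero_right (y : G) : E.ψ y 0 = 0 := by
  have := E.psi_add_right y 0 0
  rw [add_zero] at this
  exact (add_eq_left.mp this.symm)

lemma psi_mul_left (y y' : G) (a : F) : E.ψ (y * y') a = E.ψ y a + E.ψ y' a := by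
  obtain ⟨w, hw, hwa⟩ := E.sq_surj (E.D.ι_sq a)
  rw [E.psi_eq hw hwa, E.psi_eq hw hwa, E.psi_eq hw hwa,
    cm_mul_right_of_central (E.W_cm_center hw y), E.D.ν_mul (E.W_cm_sq hw y) (E.W_cm_sq hw y')]

lemma psi_one_left (a : F) : E.ψ 1 a = 0 := by
  obtain ⟨w, hw, hwa⟩ := E.sq_surj (E.D.ι_sq a)
  rw [E.psi_eq hw hwa, cm_one_right, E.D.ν_one]

lemma psi_inv_left (y : G) (a : F) : E.ψ y⁻¹ a = E.ψ y a := by
  have := E.psi_mul_left y⁻¹ y a
  rw [inv_mul_cancel, E.psi_one_left] at this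
  exact E.D.cancel this.symm

lemma psi_smul (k : K) (y : G) (a : F) : E.ψ (ρ k y) (E.D.κ k * a) = E.D.κ k * E.ψ y a := by
  obtain ⟨w, hw, hwa⟩ := E.sq_surj (E.D.ι_sq a)
  have h1 : (ρ k w) * (ρ k w) = E.D.ι (E.D.κ k * a) := by
    rw [← map_mul, hwa, E.D.ι_smul]
  rw [E.psi_eq (E.W_kinv k _ hw) h1, E.psi_eq hw hwa, ← rho_cm, E.D.ν_smul (E.W_cm_sq hw y)]

lemma psi_smul' (k : K) (y : G) (a : F) : E.ψ y (E.D.κ k * a) = E.D.κ k * E.ψ (ρ k⁻¹ y) a := by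
  have := E.psi_smul k (ρ k⁻¹ y) a
  rwa [rho_inv_apply] at this

lemma psi_eq_zero_iff {y : G} : (∀ a, E.ψ y a = 0) ↔ y ∈ E.C := by
  rw [mem_C]
  constructor
  · intro h w hw
    have h1 := h (E.D.ν (w * w))
    rw [E.psi_eq' hw] at h1
    exact E.D.ν_eq_zero (E.W_cm_sq hw y) h1
  · intro h a
    obtain ⟨w, hw, hwa⟩ := E.sq_surj (E.D.ι_sq a)
    rw [E.psi_eq hw hwa, h w hw, E.D.ν_one]

lemma psi_congr {y y' : G} (h : y'⁻¹ * y ∈ E.C) (a : F) : E.ψ y a = E.ψ y' a := by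
  have e : y = y' * (y'⁻¹ * y) := by group
  rw [e, E.psi_mul_left, E.psi_eq_zero_iff.mpr h a, add_zero]

lemma W_le_C : E.W ≤ E.C := by
  intro w hw
  rw [mem_C]
  intro w' hw'
  exact cm_eq_one_iff.mpr (E.hWc _ hw' _ hw)

lemma C_kinv : KInv ρ E.C := by
  intro k y hy
  rw [mem_C] at *
  intro w hw
  have := hy _ (E.W_kinv k⁻¹ _ hw)
  have h2 := congrArg (ρ k) this
  rwa [rho_cm, rho_inv_apply, map_one] at h2

instance C_normal : E.C.Normal := by
  unfold C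
  exact Subgroup.normal_centralizer

lemma x₀_ne_one : E.x₀ ≠ 1 := by
  intro h
  apply E.hx₀1
  rw [h, one_mul]

lemma C_comm : ∀ a ∈ E.C, ∀ b ∈ E.C, a * b = b * a := by
  have h1 : KG (subAct ρ E.C E.C_kinv) := E.h.sub E.C_kinv (E.W_le_C E.hx₀) E.x₀_ne_one
  have h2 := h1.comm_of_center ⟨⟨E.x₀, E.W_le_C E.hx₀⟩, ?_, ?_⟩
  · intro a ha b hb
    exact congrArg Subtype.val (h2 ⟨a, ha⟩ ⟨b, hb⟩)
  · rw [mem_center_iff']
    intro g
    apply Subtype.ext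
    show E.x₀ * (g : G) = g * E.x₀
    exact cm_eq_one_iff.mp ((E.mem_C.mp g.2) _ E.hx₀)
  · intro hh
    exact E.hx₀1 (congrArg Subtype.val hh)

lemma mem_W_of_C_sq {x : G} (hx : x ∈ E.C) (hxx : (x * x) * (x * x) = 1) : x ∈ E.W := by
  obtain ⟨w, hw, hw2⟩ := E.sq_surj hxx
  have h1 : (x * w⁻¹) * (x * w⁻¹) = 1 := by
    have h3 : w⁻¹ * x = x * w⁻¹ := E.C_comm _ (E.W_le_C (inv_mem hw)) _ hx
    calc (x * w⁻¹) * (x * w⁻¹) = x * (w⁻¹ * x) * w⁻¹ := by group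
      _ = x * (x * w⁻¹) * w⁻¹ := by rw [h3]
      _ = (x * x) * (w⁻¹ * w⁻¹) := by group
      _ = 1 := by rw [← hw2]; group
  have : x = (x * w⁻¹) * w := by group
  rw [this]
  exact mul_mem (E.Om_le_W h1) hw

lemma sq_mem_C (y : G) : y * y ∈ E.C := by
  rw [mem_C]
  intro w hw
  rw [cm_mul_right_of_central (E.W_cm_center hw y)]
  exact E.W_cm_sq hw y

lemma cm_mem_C (y y' : G) : cm y y' ∈ E.C := by
  rw [mem_C]
  intro w hw
  have h1 : ∀ a, cm w a⁻¹ = cm w a := by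
    intro a
    have h2 : cm w (a⁻¹ * a) = 1 := by rw [inv_mul_cancel, cm_one_right]
    have h3 : a⁻¹ * a = a⁻¹ * a := rfl
    have h4 : cm w (a⁻¹ * a) = cm w a * cm w a⁻¹ := by
      rw [cm_mul_right_of_central (E.W_cm_center hw _)]
      exact center_comm (E.W_cm_center hw _) _
    rw [h4] at h2
    have h5 := E.W_cm_sq hw a
    calc cm w a⁻¹ = (cm w a * cm w a) * cm w a⁻¹ := by rw [h5, one_mul]
      _ = cm w a * (cm w a * cm w a⁻¹) := by group
      _ = cm w a := by rw [h2, mul_one]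
  have hc : ∀ a, cm w a ∈ center G := E.W_cm_center hw
  unfold cm
  show cm w (y⁻¹ * y'⁻¹ * y * y') = 1
  rw [cm_mul_right_of_central (hc _), cm_mul_right_of_central (hc _), cm_mul_right_of_central (hc _),
    h1, h1]
  have h5 := E.W_cm_sq hw y
  have h6 := E.W_cm_sq hw y'
  calc cm w y * cm w y' * cm w y * cm w y' = cm w y * (cm w y' * cm w y) * cm w y' := by group
    _ = cm w y * (cm w y * cm w y') * cm w y' := by rw [center_comm (hc y')]
    _ = (cm w y * cm w y) * (cm w y' * cm w y') := by group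
    _ = 1 := by rw [h5, h6, one_mul]

/-- there are elements outside `C`. -/
lemma exists_not_C : ∃ y, y ∉ E.C := by
  haveI := E.h.fin
  by_contra hh
  push Not at hh
  apply E.hx₀1
  apply E.hZ
  rw [Subgroup.mem_center_iff]
  intro g
  exact (cm_eq_one_iff.mp ((E.mem_C.mp (hh g)) _ E.hx₀)).symm

/-- **Case (a)**: `C ≠ W` is impossible. -/
theorem false_of_C_ne_W {d₀ : G} (hd₀ : d₀ ∈ E.C) (hd₀W : d₀ ∉ E.W) : False := by
  classical
  haveI := E.h.fin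
  haveI : Finite F := E.D.finite
  -- an element of `C` outside `W` with square in `W`
  obtain ⟨t, htC, htW, htt⟩ : ∃ t ∈ E.C, t ∉ E.W ∧ t * t ∈ E.W := by
    have hex : ∃ j : ℕ, d₀ ^ (2 ^ j) ∈ E.W := by
      obtain ⟨j, hj⟩ := E.h.two d₀
      exact ⟨j, by rw [hj]; exact one_mem _⟩
    have h0 : Nat.find hex ≠ 0 := by
      intro hh
      have := Nat.find_spec hex
      rw [hh] at this
      simp only [pow_zero, pow_one] at this
      exact hd₀W this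
    obtain ⟨s, hs⟩ := Nat.exists_eq_succ_of_ne_zero h0
    refine ⟨d₀ ^ (2 ^ s), pow_mem hd₀ _, Nat.find_min hex (by omega), ?_⟩
    have := Nat.find_spec hex
    rw [hs, pow_succ', two_mul, pow_add] at this
    exact this
  have hett : ((t * t) * (t * t)) * ((t * t) * (t * t)) = 1 := E.W_sq htt
  have he1 : (t * t) * (t * t) ≠ 1 := fun hh => htW (E.mem_W_of_C_sq htC hh)
  -- every involution is a fourth power from `C`
  have hω : ∀ ω : G, ω * ω = 1 → ∃ d ∈ E.C, d * d = ω := by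
    intro ω hω
    by_cases h1 : ω = 1
    · exact ⟨1, one_mem _, by rw [h1, one_mul]⟩
    obtain ⟨k, hk, -⟩ := E.h.reg _ _ he1 hett h1 hω
    have hkt : ρ k t ∈ E.C := E.C_kinv k _ htC
    refine ⟨ρ k t * ρ k t, mul_mem hkt hkt, ?_⟩
    rw [← hk]
    simp only [map_mul]
  have hsq : ∀ x ∈ E.W, ∃ d ∈ E.C, d * d = x := by
    intro x hx
    by_cases h1 : (x * x) = 1
    · exact hω x h1
    obtain ⟨k, hk, -⟩ := E.h.reg _ _ he1 hett h1 (E.W_sq hx)
    have hkt : ρ k t ∈ E.C := E.C_kinv k _ htC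
    set d₁ := ρ k t with hd₁
    have hd₁W : d₁ * d₁ ∈ E.W := by
      rw [hd₁, ← map_mul]
      exact E.W_kinv k _ htt
    have he : x * x = (d₁ * d₁) * (d₁ * d₁) := by
      rw [← hk]
      simp only [map_mul, hd₁]
    obtain ⟨d₂, hd₂, hd₂2⟩ := hω _ (E.W_eq_mul hx hd₁W he)
    refine ⟨d₁ * d₂, mul_mem hkt hd₂, ?_⟩
    have h3 : d₂ * d₁ = d₁ * d₂ := E.C_comm _ hd₂ _ hkt
    have h4 : x = (x * (d₁ * d₁)⁻¹) * (d₁ * d₁) := by group
    rw [h4, ← hd₂2]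
    calc d₁ * d₂ * (d₁ * d₂) = d₁ * (d₂ * d₁) * d₂ := by group
      _ = d₁ * (d₁ * d₂) * d₂ := by rw [h3]
      _ = (d₁ * d₁) * (d₂ * d₂) := by group
      _ = (d₂ * d₂) * (d₁ * d₁) := E.hWc _ hd₁W _ (by rw [hd₂2]; exact E.Om_le_W (E.W_eq_mul hx hd₁W he))
  -- idempotence
  have hidem : ∀ y a, E.ψ y (E.ψ y a) = E.ψ y a := by
    intro y a
    obtain ⟨x, hx, hxa⟩ := E.sq_surj (E.D.ι_sq a)
    obtain ⟨d₁, hd₁, hd₁x⟩ := hsq x hx
    set A := cm d₁ y with hA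
    have hAC : A ∈ E.C := by
      have : A = d₁⁻¹ * (y⁻¹ * d₁ * y) := by rw [hA]; unfold cm; group
      rw [this]
      refine mul_mem (inv_mem hd₁) ?_
      have := E.C_normal.conj_mem _ hd₁ y⁻¹
      simpa using this
    have hAAx : A * A = cm x y := by
      rw [← hd₁x, cm_sq_left, ← hA, cm_eq_one_iff.mpr (E.C_comm _ hAC _ hd₁), mul_one]
    have hAAs : (A * A) * (A * A) = 1 := by
      rw [hAAx]; exact E.W_cm_sq hx y
    have hAW : A ∈ E.W := E.mem_W_of_C_sq hAC hAAs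
    have h1 : E.ψ y a = E.D.ν (A * A) := by
      rw [hAAx]; exact E.psi_eq hx hxa
    have h2 : A * A = E.D.ι (E.ψ y a) := by
      rw [h1, E.D.ι_ν hAAs]
    -- `A^y = A⁻¹`
    have hyy : cm d₁ (y * y) = 1 := cm_eq_one_iff.mpr (E.C_comm _ hd₁ _ (E.sq_mem_C y))
    have h3 : cm d₁ (y * y) = A * (y⁻¹ * A * y) := by rw [hA]; unfold cm; group
    rw [h3] at hyy
    have h4 : y⁻¹ * A * y = A⁻¹ := eq_inv_of_mul_eq_one_right hyy
    have h5 : cm A y = A * A := by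
      have e1 : cm A y = A⁻¹ * (y⁻¹ * A * y) := by unfold cm; group
      rw [e1, h4]
      have e2 : A⁻¹ * A⁻¹ = (A * A)⁻¹ := by group
      rw [e2, inv_eq_iff_mul_eq_one]
      exact hAAs
    rw [E.psi_eq hAW h2, h5, ← h1]
  have hfam := idem_family E.D.two (Set.range E.ψ)
    (by
      rintro _ ⟨y, rfl⟩ a b
      exact E.psi_add_right y a b)
    (by
      rintro _ ⟨y, rfl⟩ _ ⟨y', rfl⟩
      exact ⟨y * y', funext fun a => E.psi_mul_left y y' a⟩)
    (by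
      rintro _ ⟨y, rfl⟩ a
      exact hidem y a)
    (by
      rintro _ ⟨y, rfl⟩ c hc
      obtain ⟨k, hk⟩ := E.D.κ.surjective (Units.mk0 c hc)
      have hk2 : ((E.D.κ k : Fˣ) : F) = c := by rw [hk]; rfl
      refine ⟨ρ k y, funext fun a => ?_⟩
      have h1 := E.psi_smul k y (c⁻¹ * a)
      rw [hk2, ← mul_assoc, mul_inv_cancel₀ hc, one_mul] at h1
      exact h1)
  obtain ⟨y, hy⟩ := E.exists_not_C
  have hid : ∀ y, y ∉ E.C → ∀ a, E.ψ y a = a := by
    intro y hy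
    rcases hfam _ ⟨y, rfl⟩ with h1 | h1
    · exact absurd (E.psi_eq_zero_iff.mp h1) hy
    · exact h1
  obtain ⟨k, hk⟩ := E.h.exists_ne_one
  have hky : ρ k y ∉ E.C := by
    intro hh
    apply hy
    have := E.C_kinv k⁻¹ _ hh
    rwa [rho_inv_apply'] at this
  apply hy
  apply E.h.coset_fix hk E.C_kinv
  rw [← E.psi_eq_zero_iff]
  intro a
  rw [E.psi_mul_left, E.psi_inv_left, hid y hy, hid _ hky, E.D.two]

end CII

end

end Cfsg.Agent.Lib.Fusion.Hig
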