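import Cfsg.Agent.Lib.Fusion.Hig6

/-!
# Higman's theorem: the case `C_G(W) = W`: coordinates and the form `bf`.
-/

namespace Cfsg.Agent.Lib.Fusion.Hig

open Subgroup

universe u v

section Annih

variable {F : Type*} [Field F] [Fintype F] [CharP F 2]

lemma exists_annihilator (ζ : F → F) (hζ : ∀ a b, ζ (a + b) = ζ a + ζ b)
    (hns : ¬ Function.Surjective ζ) :
    ∃ lam : F → F, (∀ a b, lam (a + b) = lam a + lam b) ∧ (∃ x, lam x ≠ 0) ∧ ∀ t, lam (ζ t) = 0 := by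
  classical
  haveI : Fact (Nat.Prime 2) := ⟨Nat.prime_two⟩
  letI : Algebra (ZMod 2) F := ZMod.algebra F 2
  let ζ' : F →ₗ[ZMod 2] F := AddMonoidHom.toZModLinearMap 2 (AddMonoidHom.mk' ζ hζ)
  have hp : LinearMap.range ζ' < ⊤ := by
    rw [lt_top_iff_ne_top]
    intro hh
    apply hns
    intro y
    have : y ∈ LinearMap.range ζ' := by rw [hh]; trivial
    obtain ⟨x, hx⟩ := this
    exact ⟨x, hx⟩
  obtain ⟨f, hf, hle⟩ := Submodule.exists_le_ker_of_lt_top _ hp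
  refine ⟨fun x => algebraMap (ZMod 2) F (f x), ?_, ?_, ?_⟩
  · intro a b
    simp
  · by_contra hh
    push Not at hh
    apply hf
    ext x
    have := hh x
    simpa using this
  · intro t
    have : ζ t ∈ LinearMap.range ζ' := ⟨t, rfl⟩
    have h2 := hle this
    rw [LinearMap.mem_ker] at h2
    simp only [h2, map_zero]

end Annih

section

variable {K : Type v} [CommGroup K] {G : Type u} [Group G]

namespace CII

variable {ρ : K →* MulAut G} {F : Type*} [Field F] (E : CII ρ F)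

include E

lemma exists_not_W (hCW : E.C ≤ E.W) : ∃ y, y ∉ E.W := by
  obtain ⟨y, hy⟩ := E.exists_not_C
  exact ⟨y, fun h => hy (E.W_le_C h)⟩

/-- Coordinates on a minimal invariant subgroup above `W`. -/
theorem exists_coord (hCW : E.C ≤ E.W) :
    ∃ (Y : Subgroup G) (c : G → F), KInv ρ Y ∧ E.W ≤ Y ∧ (∃ y₀ ∈ Y, y₀ ∉ E.W) ∧
      (∀ y y', c (y * y') = c y + c y') ∧ (∀ y ∈ E.W, c y = 0) ∧ (∀ y ∈ Y, c y = 0 → y ∈ E.W) ∧
      (∀ t, ∃ y ∈ Y, c y = t) ∧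
      (∀ y ∈ Y, y ∉ E.W → ∀ y' ∈ Y, y' ∉ E.W → ∃ k, y'⁻¹ * ρ k y ∈ E.W) := by
  classical
  haveI := E.h.fin
  haveI : Finite F := E.D.finite
  haveI : Fintype F := Fintype.ofFinite F
  have hWn : E.W.Normal := inferInstance
  let 𝒮 : Set (Subgroup G) := {Y | KInv ρ Y ∧ E.W ≤ Y ∧ ∃ y ∈ Y, y ∉ E.W}
  have hne : 𝒮.Nonempty := by
    obtain ⟨y, hy⟩ := E.exists_not_W hCW
    exact ⟨⊤, fun _ _ _ => mem_top _, le_top, y, mem_top _, hy⟩
  obtain ⟨Y, hY⟩ := (Set.toFinite 𝒮).exists_minimal hne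
  obtain ⟨hYinv, hWY, y₀, hy₀, hy₀W⟩ := hY.prop
  have hy₀C : y₀ ∉ E.C := fun h => hy₀W (hCW h)
  -- a nonzero Fourier coefficient
  obtain ⟨m, hm⟩ : ∃ m : ℕ, ∑ a : Fˣ, E.ψ y₀ a * ((a⁻¹ : Fˣ) : F) ^ m ≠ 0 := by
    by_contra hh
    push Not at hh
    apply hy₀C
    rw [← E.psi_eq_zero_iff]
    intro a
    by_cases ha : a = 0
    · rw [ha]; exact E.psi_zero_right _
    have := fourier_inv (fun u : Fˣ => E.ψ y₀ u) hh (Units.mk0 a ha)
    exact this
  let c : G → F := fun y => ∑ a : Fˣ, E.ψ y a * ((a⁻¹ : Fˣ) : F) ^ m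
  have hcadd : ∀ y y', c (y * y') = c y + c y' := by
    intro y y'
    show ∑ a : Fˣ, E.ψ (y * y') a * _ = ∑ a : Fˣ, _ + ∑ a : Fˣ, _
    rw [← Finset.sum_add_distrib]
    refine Finset.sum_congr rfl fun a _ => ?_
    rw [E.psi_mul_left, add_mul]
  have hc1 : c 1 = 0 := by
    have := hcadd 1 1
    rw [mul_one] at this
    exact (add_eq_left.mp this.symm)
  have hcinv : ∀ y, c y⁻¹ = c y := by
    intro y
    have := hcadd y⁻¹ y
    rw [inv_mul_cancel, hc1] at this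
    exact E.D.cancel this.symm
  have hcW : ∀ y ∈ E.W, c y = 0 := by
    intro y hy
    apply Finset.sum_eq_zero
    intro a _
    rw [E.psi_eq_zero_iff.mpr (E.W_le_C hy), zero_mul]
  have hctw : ∀ k y, c (ρ k y) = E.D.κ k * (((E.D.κ k)⁻¹ : Fˣ) : F) ^ m * c y := by
    intro k y
    show ∑ a : Fˣ, E.ψ (ρ k y) a * _ = _ * ∑ a : Fˣ, _
    rw [Finset.mul_sum]
    refine Fintype.sum_equiv (Equiv.mulLeft (E.D.κ k)).symm _ _ ?_
    intro a
    have h1 : (a : F) = E.D.κ k * ((Equiv.mulLeft (E.D.κ k)).symm a : Fˣ) := by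
      simp
    have h2 : a⁻¹ = (E.D.κ k)⁻¹ * ((Equiv.mulLeft (E.D.κ k)).symm a)⁻¹ := by
      simp
    rw [h2, h1, E.psi_smul, Units.val_mul, mul_pow]
    simp only [Units.val_inv_eq_inv_val]
    ring_nf
  have hcne : ∀ k, E.D.κ k * (((E.D.κ k)⁻¹ : Fˣ) : F) ^ m ≠ 0 := by
    intro k
    exact mul_ne_zero (Units.ne_zero _) (pow_ne_zero _ (Units.ne_zero _))
  -- the kernel in `Y`
  let T : Subgroup G :=
    { carrier := {y | y ∈ Y ∧ c y = 0}
      one_mem' := ⟨one_mem _, hc1⟩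
      mul_mem' := by
        rintro a b ⟨ha, ha0⟩ ⟨hb, hb0⟩
        refine ⟨mul_mem ha hb, ?_⟩
        rw [hcadd, ha0, hb0, add_zero]
      inv_mem' := by
        rintro a ⟨ha, ha0⟩
        exact ⟨inv_mem ha, by rw [hcinv, ha0]⟩ }
  have hker : ∀ y ∈ Y, c y = 0 → y ∈ E.W := by
    intro y hy hy0
    by_contra hyW
    have hT : T ∈ 𝒮 := by
      refine ⟨?_, ?_, y, ⟨hy, hy0⟩, hyW⟩
      · rintro k a ⟨ha, ha0⟩
        exact ⟨hYinv k _ ha, by rw [hctw, ha0, mul_zero]⟩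
      · intro w hw
        exact ⟨hWY hw, hcW w hw⟩
    have hle : T ≤ Y := fun a ha => ha.1
    have := hY.le_of_le hT hle
    have h3 := this hy₀
    exact hm h3.2
  have hcy₀ : c y₀ ≠ 0 := hm
  -- bijectivity of `k ↦ c (ρ k y₀)`
  have hΦne : ∀ k, c (ρ k y₀) ≠ 0 := by
    intro k
    rw [hctw]
    exact mul_ne_zero (hcne k) hcy₀
  have hΦinj : ∀ k l, c (ρ k y₀) = c (ρ l y₀) → k = l := by
    intro k l hkl
    by_contra hne
    have h1 : l⁻¹ * k ≠ 1 := by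
      intro h2
      exact hne (inv_mul_eq_one.mp h2).symm
    have h2 : (ρ l y₀)⁻¹ * ρ k y₀ ∈ E.W := by
      apply hker _ (mul_mem (inv_mem (hYinv l _ hy₀)) (hYinv k _ hy₀))
      rw [hcadd, hcinv, hkl, E.D.two]
    have h3 : y₀⁻¹ * ρ (l⁻¹ * k) y₀ ∈ E.W := by
      have := E.W_kinv l⁻¹ _ h2
      rw [map_mul, map_inv, rho_inv_apply'] at this
      rwa [rho_mul_apply]
    exact hy₀W (E.h.coset_fix h1 E.W_kinv h3)
  let Φ : Fˣ → Fˣ := fun v => Units.mk0 (c (ρ (E.D.κ.symm v) y₀)) (hΦne _)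
  have hΦi : Function.Injective Φ := by
    intro v w hvw
    have h1 : c (ρ (E.D.κ.symm v) y₀) = c (ρ (E.D.κ.symm w) y₀) := congrArg Units.val hvw
    exact E.D.κ.symm.injective (hΦinj _ _ h1)
  have hΦs : Function.Surjective Φ := Finite.injective_iff_surjective.mp hΦi
  have hsurj0 : ∀ t : F, t ≠ 0 → ∃ k, c (ρ k y₀) = t := by
    intro t ht
    obtain ⟨v, hv⟩ := hΦs (Units.mk0 t ht)
    exact ⟨E.D.κ.symm v, congrArg Units.val hv⟩
  refine ⟨Y, c, hYinv, hWY, ⟨y₀, hy₀, hy₀W⟩, hcadd, hcW, hker, ?_, ?_⟩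
  · intro t
    by_cases ht : t = 0
    · exact ⟨1, one_mem _, by rw [ht, hc1]⟩
    obtain ⟨k, hk⟩ := hsurj0 t ht
    exact ⟨ρ k y₀, hYinv k _ hy₀, hk⟩
  · intro y hy hyW y' hy' hy'W
    have hcy : c y ≠ 0 := fun h => hyW (hker y hy h)
    have hcy' : c y' ≠ 0 := fun h => hy'W (hker y' hy' h)
    obtain ⟨k₁, hk₁⟩ := hsurj0 _ hcy
    obtain ⟨k₂, hk₂⟩ := hsurj0 _ hcy'
    have h1 : (ρ k₁ y₀)⁻¹ * y ∈ E.W := by
      apply hker _ (mul_mem (inv_mem (hYinv _ _ hy₀)) hy)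
      rw [hcadd, hcinv, hk₁, E.D.two]
    have h2 : y'⁻¹ * ρ k₂ y₀ ∈ E.W := by
      apply hker _ (mul_mem (inv_mem hy') (hYinv _ _ hy₀))
      rw [hcadd, hcinv, hk₂, E.D.two]
    obtain ⟨l, hl⟩ : ∃ l, l * k₁ = k₂ := ⟨k₂ * k₁⁻¹, by rw [mul_assoc, inv_mul_cancel, mul_one]⟩
    refine ⟨l, ?_⟩
    have h3 : y'⁻¹ * ρ l y = (y'⁻¹ * ρ k₂ y₀) * ρ l ((ρ k₁ y₀)⁻¹ * y) := by
      rw [map_mul (ρ l), map_inv (ρ l), ← rho_mul_apply ρ l k₁ y₀, hl]
      group
    rw [h3]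
    exact mul_mem h2 (E.W_kinv _ _ h1)

/-- the polar form -/
noncomputable def bf (y u : G) : F := E.D.ν (cm y u * cm y u)

lemma W_mul_sq {a b : G} (ha : a ∈ E.W) (hb : b ∈ E.W) : (a * b) * (a * b) = (a * a) * (b * b) := by
  calc (a * b) * (a * b) = a * (b * a) * b := by group
    _ = a * (a * b) * b := by rw [E.hWc _ hb _ ha]
    _ = _ := by group

lemma W_mul_om_sq {a c : G} (hc : c * c = 1) : (a * c) * (a * c) = a * a := by
  rw [mul_sq_of_central (by rw [cm_of_center (E.central hc)]; exact one_mem _), hc, mul_one,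
    cm_of_center (E.central hc), mul_one]

lemma bf_sq (hCW : E.C ≤ E.W) (y u : G) : (cm y u * cm y u) * (cm y u * cm y u) = 1 :=
  E.W_sq (hCW (E.cm_mem_C y u))

lemma bf_mul_right (hCW : E.C ≤ E.W) (y u u' : G) : E.bf y (u * u') = E.bf y u + E.bf y u' := by
  unfold bf
  set A := cm y u with hA
  set B := cm y u' with hB
  have hAW : A ∈ E.W := hCW (E.cm_mem_C y u)
  have hBW : B ∈ E.W := hCW (E.cm_mem_C y u')
  have h1 : cm y (u * u') = B * (A * cm A u') := by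
    rw [hA, hB]; unfold cm; group
  have hc := E.W_cm_sq hAW u'
  have h2 : cm y (u * u') * cm y (u * u') = (A * A) * (B * B) := by
    rw [h1]
    have : B * (A * cm A u') = (B * A) * cm A u' := by group
    rw [this, E.W_mul_om_sq hc, E.W_mul_sq hBW hAW]
    exact E.hWc _ (mul_mem hBW hBW) _ (mul_mem hAW hAW)
  rw [h2, E.D.ν_mul (E.W_sq hAW) (E.W_sq hBW)]

lemma bf_mul_left (hCW : E.C ≤ E.W) (y y' u : G) : E.bf (y * y') u = E.bf y u + E.bf y' u := by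
  unfold bf
  set A := cm y u with hA
  set B := cm y' u with hB
  have hAW : A ∈ E.W := hCW (E.cm_mem_C y u)
  have hBW : B ∈ E.W := hCW (E.cm_mem_C y' u)
  have h1 : cm (y * y') u = (A * cm A y') * B := by
    rw [hA, hB]; unfold cm; group
  have hc := E.W_cm_sq hAW y'
  have h2 : cm (y * y') u * cm (y * y') u = (A * A) * (B * B) := by
    rw [h1]
    have h3 : (A * cm A y') * B = (A * B) * cm A y' := by
      rw [mul_assoc, center_comm (E.W_cm_center hAW y'), mul_assoc]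
    rw [h3, E.W_mul_om_sq hc, E.W_mul_sq hAW hBW]
  rw [h2, E.D.ν_mul (E.W_sq hAW) (E.W_sq hBW)]

lemma bf_of_W {w : G} (hw : w ∈ E.W) (u : G) : E.bf w u = 0 := by
  unfold bf
  rw [E.W_cm_sq hw u, E.D.ν_one]

lemma bf_smul (hCW : E.C ≤ E.W) (k : K) (y u : G) : E.bf (ρ k y) (ρ k u) = E.D.κ k * E.bf y u := by
  unfold bf
  rw [← rho_cm, ← map_mul, E.D.ν_smul (E.bf_sq hCW y u)]

/-- Polarisation of the fourth power. -/
lemma fourth_mul (hCW : E.C ≤ E.W) (y u : G) :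
    ((y * u) * (y * u)) * ((y * u) * (y * u)) =
      ((y * y) * (y * y)) * (((u * u) * (u * u)) * (cm u y * cm u y)) := by
  have hyW : y * y ∈ E.W := hCW (E.sq_mem_C y)
  have huW : u * u ∈ E.W := hCW (E.sq_mem_C u)
  set A := cm u y with hA
  have hAW : A ∈ E.W := hCW (E.cm_mem_C u y)
  have hc := E.W_cm_sq hAW u
  have h1 : (y * u) * (y * u) = (y * y) * ((u * u) * (A * cm A u)) := by
    rw [hA]; unfold cm; group
  have hAc : A * cm A u ∈ E.W := mul_mem hAW (E.Om_le_W hc)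
  rw [h1, E.W_mul_sq hyW (mul_mem huW hAc), E.W_mul_sq huW hAc, E.W_mul_om_sq hc]

lemma bf_psi (hCW : E.C ≤ E.W) {y : G} (hy : (y * y) * (y * y) = 1) (u : G) :
    E.ψ y (E.bf y u) = E.bf y u := by
  set a := cm y u with ha
  have haW : a ∈ E.W := hCW (E.cm_mem_C y u)
  have h1 : E.bf y u = E.D.ν (a * a) := rfl
  rw [h1, E.psi_eq' haW]
  have h2 : cm (y * y) u = a * cm a y * a := cm_sq_left y u
  rw [cm_of_center (E.central hy)] at h2
  have h3 : a * cm a y * a = (a * a) * cm a y := by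
    rw [mul_assoc a, center_comm (E.W_cm_center haW y) a, mul_assoc]
  rw [h3] at h2
  have h4 : cm a y = a * a := by
    have h5 := E.W_sq haW
    have h6 : (a * a) * ((a * a) * cm a y) = (a * a) * 1 := by rw [← h2]
    rw [← mul_assoc, h5, one_mul, mul_one] at h6
    exact h6
  rw [h4]

end CII

end

end Cfsg.Agent.Lib.Fusion.Hig
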