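import Cfsg.Agent.Lib.Fusion.Hig7

/-!
# Higman's theorem: the final contradiction in the case `C_G(W) = W`, and the main theorem.
-/

namespace Cfsg.Agent.Lib.Fusion.Hig

open Subgroup Finset

universe u v

lemma even_card_of_translation {F : Type*} [Field F] [DecidableEq F] (h2 : ∀ a : F, a + a = 0)
    (A : Finset F) {a₁ : F} (ha₁ : a₁ ≠ 0) (hA : ∀ x ∈ A, x + a₁ ∈ A) : Even A.card := by
  have h1 : ∑ x ∈ A, (1 : ZMod 2) = 0 := by
    refine Finset.sum_involution (fun x _ => x + a₁) ?_ ?_ hA ?_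
    · intro a _
      decide
    · intro a _ _ hh
      apply ha₁
      exact (add_eq_left.mp hh)
    · intro a _
      rw [add_assoc, h2, add_zero]
  rw [Finset.sum_const, nsmul_one] at h1
  exact (ZMod.natCast_eq_zero_iff_even).mp h1

section

variable {K : Type v} [CommGroup K] {G : Type u} [Group G]

namespace CII

variable {ρ : K →* MulAut G} {F : Type*} [Field F] (E : CII ρ F)

include E

lemma rho_inj_mod {y : G} (hy : y ∉ E.W) {k l : K} (h : (ρ l y)⁻¹ * ρ k y ∈ E.W) : k = l := by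
  by_contra hne
  have h1 : l⁻¹ * k ≠ 1 := by
    intro h2
    exact hne (inv_mul_eq_one.mp h2).symm
  have h3 : y⁻¹ * ρ (l⁻¹ * k) y ∈ E.W := by
    have := E.W_kinv l⁻¹ _ h
    rw [map_mul, map_inv, rho_inv_apply'] at this
    rwa [rho_mul_apply]
  exact hy (E.h.coset_fix h1 E.W_kinv h3)

lemma not_W_smul {y : G} (hy : y ∉ E.W) (k : K) : ρ k y ∉ E.W := by
  intro hh
  apply hy
  have := E.W_kinv k⁻¹ _ hh
  rwa [rho_inv_apply'] at this

/-- The case `Y = G` of the final contradiction. -/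
theorem false_of_top (hCW : E.C ≤ E.W) (c : G → F) (hcadd : ∀ y y', c (y * y') = c y + c y')
    (hcW : ∀ y ∈ E.W, c y = 0) (hker : ∀ y, c y = 0 → y ∈ E.W) (hsurj : ∀ t, ∃ y, c y = t) : False := by
  classical
  haveI := E.h.fin
  haveI : Finite F := E.D.finite
  haveI : Fintype F := Fintype.ofFinite F
  have h11 : (1 : F) ≠ 0 := one_ne_zero
  have h22 : (2 : F) = 0 := by
    have := E.D.two 1
    rwa [one_add_one_eq_two] at this
  haveI : CharP F 2 := CharTwo.of_one_ne_zero_of_two_eq_zero h11 h22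
  obtain ⟨n, -, hn⟩ : ∃ n : ℕ+, Nat.Prime 2 ∧ Fintype.card F = 2 ^ (n : ℕ) := by
    obtain ⟨n, hn1, hn2⟩ := FiniteField.card F 2
    exact ⟨n, hn1, hn2⟩
  have hc1 : c 1 = 0 := hcW 1 (one_mem _)
  have hcinv : ∀ y, c y⁻¹ = c y := by
    intro y
    have := hcadd y⁻¹ y
    rw [inv_mul_cancel, hc1] at this
    exact E.D.cancel this.symm
  -- an element of order 8
  obtain ⟨y₁, hy₁⟩ : ∃ y₁ : G, (y₁ * y₁) * (y₁ * y₁) ≠ 1 := by
    by_contra hh
    push Not at hh
    obtain ⟨y, hy⟩ := E.exists_not_W hCW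
    apply hy
    rw [mem_upper]
    refine ⟨hh y, fun u => ?_⟩
    have h1 := E.fourth_mul hCW y u
    rw [hh (y * u), hh u, hh y, one_mul, one_mul] at h1
    exact (cm_inv_eq u y ▸ (by
      have h5 := h1.symm
      show (cm u y)⁻¹ * (cm u y)⁻¹ = 1
      have h6 : (cm u y)⁻¹ * (cm u y)⁻¹ = (cm u y * cm u y)⁻¹ := by group
      rw [h6, h5, inv_one]) : cm y u * cm y u = 1)
  have hy₁W : y₁ ∉ E.W := fun hh => hy₁ (E.W_sq hh)
  have hy₁yW : y₁ * y₁ ∈ E.W := hCW (E.sq_mem_C y₁)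
  set a₁ := E.D.ν ((y₁ * y₁) * (y₁ * y₁)) with ha₁
  have ha₁0 : a₁ ≠ 0 := fun hh => hy₁ (E.D.ν_eq_zero (E.W_sq hy₁yW) hh)
  have hψ₁ : E.ψ y₁ a₁ = 0 := by
    rw [ha₁, E.psi_eq' hy₁yW, cm_eq_one_iff.mpr (by group), E.D.ν_one]
  choose s hs using hsurj
  have hψs : ∀ (u : G) (a : F), E.ψ u a = E.ψ (s (c u)) a := by
    intro u a
    apply E.psi_congr
    apply E.W_le_C
    apply hker
    rw [hcadd, hcinv, hs, E.D.two]
  let ζ : F → F := fun t => E.ψ (s t) a₁
  have hζadd : ∀ t t', ζ (t + t') = ζ t + ζ t' := by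
    intro t t'
    show E.ψ (s (t + t')) a₁ = E.ψ (s t) a₁ + E.ψ (s t') a₁
    rw [← E.psi_mul_left]
    rw [E.psi_congr (y := s (t + t')) (y' := s t * s t') ?_ a₁]
    apply E.W_le_C
    apply hker
    rw [hcadd, hcinv, hcadd, hs, hs, hs, E.D.two]
  have hζ0 : ζ 0 = 0 := by
    have := hζadd 0 0
    rw [add_zero] at this
    exact (add_eq_left.mp this.symm)
  have hζy : ζ (c y₁) = 0 := by
    show E.ψ (s (c y₁)) a₁ = 0
    rw [← hψs, hψ₁]
  have hcy₁ : c y₁ ≠ 0 := fun hh => hy₁W (hker _ hh)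
  have hns : ¬ Function.Surjective ζ := by
    intro hs2
    have := (Finite.injective_iff_surjective.mpr hs2) (hζy.trans hζ0.symm)
    exact hcy₁ this
  obtain ⟨lam, hlam, ⟨x₁, hx₁⟩, hlamζ⟩ := exists_annihilator ζ hζadd hns
  have hlamψ : ∀ u, lam (E.ψ u a₁) = 0 := by
    intro u
    rw [hψs]
    exact hlamζ _
  have hX : ∃ c₀, ∀ a, E.ψ y₁ a = c₀ * a := by
    apply lemmaX hn (E.ψ y₁) (fun a => lam (a₁ * a)) (E.psi_add_right y₁)
    · intro a b
      show lam (a₁ * (a + b)) = _ + _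
      rw [mul_add, hlam]
    · refine ⟨a₁⁻¹ * x₁, ?_⟩
      show lam (a₁ * (a₁⁻¹ * x₁)) ≠ 0
      rw [← mul_assoc, mul_inv_cancel₀ ha₁0, one_mul]
      exact hx₁
    · intro a ha
      show lam (a₁ * (E.ψ y₁ a / a)) = 0
      obtain ⟨k, hk⟩ := E.D.κ.surjective (Units.mk0 (a * a₁⁻¹) (mul_ne_zero ha (inv_ne_zero ha₁0)))
      have hk2 : ((E.D.κ k : Fˣ) : F) = a * a₁⁻¹ := by rw [hk]; rfl
      have hk3 : ((E.D.κ k : Fˣ) : F) * a₁ = a := by
        rw [hk2, mul_assoc, inv_mul_cancel₀ ha₁0, mul_one]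
      have h1 := E.psi_smul' k y₁ a₁
      rw [hk3] at h1
      have h2 : a₁ * (E.ψ y₁ a / a) = E.ψ (ρ k⁻¹ y₁) a₁ := by
        rw [h1, ← hk3]
        have hk0 : ((E.D.κ k : Fˣ) : F) ≠ 0 := Units.ne_zero _
        field_simp
      rw [h2]
      exact hlamψ _
  obtain ⟨c₀, hc₀⟩ := hX
  have hc₀0 : c₀ = 0 := by
    have := hc₀ a₁
    rw [hψ₁] at this
    exact (mul_eq_zero.mp this.symm).resolve_right ha₁0
  apply hy₁W
  apply hCW
  rw [← E.psi_eq_zero_iff]
  intro a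
  rw [hc₀, hc₀0, zero_mul]

/-- The case of a proper minimal `Y`. -/
theorem false_of_proper (hCW : E.C ≤ E.W) {Y : Subgroup G} (c : G → F) (hYinv : KInv ρ Y)
    (hWY : E.W ≤ Y) {y₀ : G} (hy₀ : y₀ ∈ Y) (hy₀W : y₀ ∉ E.W)
    (hcadd : ∀ y y', c (y * y') = c y + c y')
    (hcW : ∀ y ∈ E.W, c y = 0) (hker : ∀ y ∈ Y, c y = 0 → y ∈ E.W) (hsurj : ∀ t, ∃ y ∈ Y, c y = t)
    (htrans : ∀ y ∈ Y, y ∉ E.W → ∀ y' ∈ Y, y' ∉ E.W → ∃ k, y'⁻¹ * ρ k y ∈ E.W)
    (hsq : ∀ y ∈ Y, (y * y) * (y * y) = 1) : False := by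
  classical
  haveI := E.h.fin
  haveI : Finite F := E.D.finite
  haveI : Fintype F := Fintype.ofFinite F
  have hc1 : c 1 = 0 := hcW 1 (one_mem _)
  have hcinv : ∀ y, c y⁻¹ = c y := by
    intro y
    have := hcadd y⁻¹ y
    rw [inv_mul_cancel, hc1] at this
    exact E.D.cancel this.symm
  -- (1) nonzero fixed points
  have hfix : ∀ y ∈ Y, y ∉ E.W → ∃ a, a ≠ 0 ∧ E.ψ y a = a := by
    intro y hy hyW
    by_contra hno
    push Not at hno
    have hinj : Function.Injective (fun a : F => a + E.ψ y a) := by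
      intro a b hab
      replace hab : a + E.ψ y a = b + E.ψ y b := hab
      by_contra hne
      have hne2 : a + b ≠ 0 := fun h => hne (E.D.cancel h)
      apply hno (a + b) hne2
      rw [E.psi_add_right]
      have h1 : a + E.ψ y a + (b + E.ψ y b) = 0 := by rw [hab, E.D.two]
      have h2 : a + b + (E.ψ y a + E.ψ y b) = 0 := by
        rw [← h1]; ring
      exact (E.D.cancel h2).symm
    have hsur := Finite.injective_iff_surjective.mp hinj
    obtain ⟨a, ha⟩ := hsur (E.D.ν (y * y))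
    replace ha : a + E.ψ y a = E.D.ν (y * y) := ha
    obtain ⟨w, hw, hwa⟩ := E.sq_surj (E.D.ι_sq a)
    apply hyW
    apply E.mem_W_of_sq_one hw
    rw [mul_sq_of_central (E.W_cm_center hw y), hwa, ← E.iota_psi hw hwa, mul_assoc, ← E.D.ι_add, ha,
      E.D.ι_ν (hsq y hy)]
    exact hsq y hy
  -- (2) the counting argument
  have hone : ∀ y ∈ Y, y ∉ E.W → E.ψ y 1 ≠ 0 := by
    intro y₁ hy₁ hy₁W hy₁0
    obtain ⟨a₁, ha₁, ha₁2⟩ := hfix y₁ hy₁ hy₁W
    choose! s hsY hs using hsurj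
    let ζ : F → F := fun t => E.ψ (s t) 1
    have hψs : ∀ (u : G) (a : F), u ∈ Y → E.ψ u a = E.ψ (s (c u)) a := by
      intro u a hu
      apply E.psi_congr
      apply E.W_le_C
      apply hker _ (mul_mem (inv_mem (hsY _)) hu)
      rw [hcadd, hcinv, hs, E.D.two]
    have hζadd : ∀ t t', ζ (t + t') = ζ t + ζ t' := by
      intro t t'
      show E.ψ (s (t + t')) 1 = E.ψ (s t) 1 + E.ψ (s t') 1
      rw [← E.psi_mul_left]
      rw [E.psi_congr (y := s (t + t')) (y' := s t * s t') ?_ 1]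
      apply E.W_le_C
      apply hker _ (mul_mem (inv_mem (mul_mem (hsY _) (hsY _))) (hsY _))
      rw [hcadd, hcinv, hcadd, hs, hs, hs, E.D.two]
    have hζ0 : ζ 0 = 0 := by
      have := hζadd 0 0
      rw [add_zero] at this
      exact (add_eq_left.mp this.symm)
    have hct : c y₁ ≠ 0 := fun hh => hy₁W (hker _ hy₁ hh)
    have hζ1 : ζ (c y₁) = 0 := by
      show E.ψ (s (c y₁)) 1 = 0
      rw [← hψs _ _ hy₁, hy₁0]
    let tt : Fˣ → F := fun v => c (ρ (E.D.κ.symm v)⁻¹ y₁)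
    have htt : ∀ v : Fˣ, ζ (tt v) = (v⁻¹ : Fˣ) * E.ψ y₁ v := by
      intro v
      show E.ψ (s (c (ρ (E.D.κ.symm v)⁻¹ y₁))) 1 = _
      rw [← hψs _ _ (hYinv _ _ hy₁)]
      have h1 := E.psi_smul (E.D.κ.symm v)⁻¹ y₁ (v : F)
      have h2 : ((E.D.κ (E.D.κ.symm v)⁻¹ : Fˣ) : F) = (v⁻¹ : Fˣ) := by
        rw [map_inv, MulEquiv.apply_symm_apply]
      rw [h2] at h1
      have h3 : ((v⁻¹ : Fˣ) : F) * (v : F) = 1 := by
        rw [← Units.val_mul, inv_mul_cancel, Units.val_one]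
      rw [h3] at h1
      exact h1
    have httinj : Function.Injective tt := by
      intro v v' hvv
      have h1 : (ρ (E.D.κ.symm v')⁻¹ y₁)⁻¹ * ρ (E.D.κ.symm v)⁻¹ y₁ ∈ E.W := by
        apply hker _ (mul_mem (inv_mem (hYinv _ _ hy₁)) (hYinv _ _ hy₁))
        rw [hcadd, hcinv]
        have h2 : c (ρ (E.D.κ.symm v)⁻¹ y₁) = c (ρ (E.D.κ.symm v')⁻¹ y₁) := hvv
        rw [h2, E.D.two]
      have h3 := E.rho_inj_mod hy₁W h1
      exact E.D.κ.symm.injective (inv_injective h3)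
    let U : Finset Fˣ := univ.filter (fun v : Fˣ => E.ψ y₁ (v : F) = v)
    let S : Finset F := univ.filter (fun t : F => ζ t = 1)
    let A : Finset F := univ.filter (fun a : F => E.ψ y₁ a = a)
    have hA : A = insert 0 (U.image (fun v : Fˣ => (v : F))) := by
      ext a
      simp only [A, U, mem_filter, mem_univ, true_and, mem_insert, mem_image]
      constructor
      · intro h
        by_cases ha : a = 0
        · exact Or.inl ha
        · exact Or.inr ⟨Units.mk0 a ha, h, rfl⟩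
      · rintro (rfl | ⟨v, hv, rfl⟩)
        · exact E.psi_zero_right _
        · exact hv
    have hcardA : A.card = U.card + 1 := by
      rw [hA, Finset.card_insert_of_notMem, Finset.card_image_of_injective _ Units.val_injective]
      intro h0
      obtain ⟨v, -, hv⟩ := mem_image.mp h0
      exact v.ne_zero hv
    have hS : S = U.image tt := by
      ext t
      simp only [S, U, mem_filter, mem_univ, true_and, mem_image]
      constructor
      · intro ht
        have ht0 : t ≠ 0 := by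
          rintro rfl
          rw [hζ0] at ht
          exact zero_ne_one ht
        have hstW : s t ∉ E.W := by
          intro hh
          apply ht0
          rw [← hs t]
          exact hcW _ hh
        obtain ⟨k, hk⟩ := htrans y₁ hy₁ hy₁W (s t) (hsY t) hstW
        refine ⟨E.D.κ k⁻¹, ?_, ?_⟩
        · -- `tt v = t` and the fixed point property
          have h1 : tt (E.D.κ k⁻¹) = t := by
            have h2 : tt (E.D.κ k⁻¹) = c (ρ k y₁) := by
              show c (ρ (E.D.κ.symm (E.D.κ k⁻¹))⁻¹ y₁) = _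
              rw [MulEquiv.symm_apply_apply, inv_inv]
            rw [h2]
            have h3 := hcW _ hk
            rw [hcadd, hcinv, hs] at h3
            exact (E.D.cancel h3).symm
          have h4 := htt (E.D.κ k⁻¹)
          rw [h1, ht] at h4
          have h5 : ((E.D.κ k⁻¹ : Fˣ) : F) * (((E.D.κ k⁻¹)⁻¹ : Fˣ) * E.ψ y₁ (E.D.κ k⁻¹)) = E.ψ y₁ (E.D.κ k⁻¹) := by
            rw [← mul_assoc, ← Units.val_mul, mul_inv_cancel, Units.val_one, one_mul]
          rw [← h4, mul_one] at h5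
          exact h5.symm
        · have h2 : tt (E.D.κ k⁻¹) = c (ρ k y₁) := by
            show c (ρ (E.D.κ.symm (E.D.κ k⁻¹))⁻¹ y₁) = _
            rw [MulEquiv.symm_apply_apply, inv_inv]
          rw [h2]
          have h3 := hcW _ hk
          rw [hcadd, hcinv, hs] at h3
          exact (E.D.cancel h3).symm
      · rintro ⟨v, hv, rfl⟩
        rw [htt, hv, ← Units.val_mul, inv_mul_cancel, Units.val_one]
    have hcardS : S.card = U.card := by
      rw [hS, Finset.card_image_of_injective _ httinj]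
    have heS : Even S.card := by
      apply even_card_of_translation E.D.two S hct
      intro x hx
      simp only [S, mem_filter, mem_univ, true_and] at hx ⊢
      rw [hζadd, hx, hζ1, add_zero]
    have heA : Even A.card := by
      apply even_card_of_translation E.D.two A ha₁
      intro x hx
      simp only [A, mem_filter, mem_univ, true_and] at hx ⊢
      rw [E.psi_add_right, hx, ha₁2]
    rw [hcardA] at heA
    rw [hcardS] at heS
    exact (Nat.not_even_iff_odd.mpr (Even.add_one heS)) heA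
  -- (3)
  have hne : ∀ y ∈ Y, y ∉ E.W → ∀ a, a ≠ 0 → E.ψ y a ≠ 0 := by
    intro y hy hyW a ha hh
    obtain ⟨k, hk⟩ := E.D.κ.surjective (Units.mk0 a ha)
    have hk2 : ((E.D.κ k : Fˣ) : F) = a := by rw [hk]; rfl
    have h1 := E.psi_smul' k y 1
    rw [mul_one, hk2, hh] at h1
    have h2 := (mul_eq_zero.mp h1.symm).resolve_left ha
    exact hone _ (hYinv _ _ hy) (E.not_W_smul hyW _) h2
  -- (4)
  have huniq : ∀ y ∈ Y, y ∉ E.W → ∀ a a', a ≠ 0 → a' ≠ 0 → E.ψ y a = a → E.ψ y a' = a' → a = a' := by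
    intro y hy hyW a a' ha ha' h1 h2
    obtain ⟨k, hk⟩ := E.D.κ.surjective (Units.mk0 a ha)
    obtain ⟨k', hk'⟩ := E.D.κ.surjective (Units.mk0 a' ha')
    have hk2 : ((E.D.κ k : Fˣ) : F) = a := by rw [hk]; rfl
    have hk2' : ((E.D.κ k' : Fˣ) : F) = a' := by rw [hk']; rfl
    have e1 : E.ψ (ρ k⁻¹ y) 1 = 1 := by
      have h3 := E.psi_smul' k y 1
      rw [mul_one, hk2, h1] at h3
      have h4 : a * E.ψ (ρ k⁻¹ y) 1 = a * 1 := by rw [← h3, mul_one]
      exact mul_left_cancel₀ ha h4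
    have e2 : E.ψ (ρ k'⁻¹ y) 1 = 1 := by
      have h3 := E.psi_smul' k' y 1
      rw [mul_one, hk2', h2] at h3
      have h4 : a' * E.ψ (ρ k'⁻¹ y) 1 = a' * 1 := by rw [← h3, mul_one]
      exact mul_left_cancel₀ ha' h4
    have h5 : (ρ k'⁻¹ y)⁻¹ * ρ k⁻¹ y ∈ E.W := by
      by_contra hh
      have hm : (ρ k'⁻¹ y)⁻¹ * ρ k⁻¹ y ∈ Y := mul_mem (inv_mem (hYinv _ _ hy)) (hYinv _ _ hy)
      apply hone _ hm hh
      rw [E.psi_mul_left, E.psi_inv_left, e1, e2, E.D.two]
    have h6 := E.rho_inj_mod hyW h5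
    have h7 : k = k' := inv_injective h6
    rw [← hk2, ← hk2', h7]
  -- (5)
  have hbfψ : ∀ y ∈ Y, ∀ u, E.ψ y (E.bf y u) = E.bf y u := fun y hy u => E.bf_psi hCW (hsq y hy) u
  have hbf1 : ∀ y, E.bf y 1 = 0 := by
    intro y
    unfold bf
    rw [cm_one_right, one_mul, E.D.ν_one]
  let R : Subgroup G :=
    { carrier := {u | ∀ y ∈ Y, E.bf y u = 0}
      one_mem' := fun y _ => hbf1 y
      mul_mem' := by
        intro a b ha hb y hy
        rw [E.bf_mul_right hCW, ha y hy, hb y hy, add_zero]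
      inv_mem' := by
        intro a ha y hy
        have h1 := E.bf_mul_right hCW y a⁻¹ a
        rw [inv_mul_cancel, hbf1, ha y hy, add_zero] at h1
        exact h1.symm }
  have hRinv : KInv ρ R := by
    intro k u hu y hy
    have h1 := E.bf_smul hCW k (ρ k⁻¹ y) u
    rw [rho_inv_apply, hu _ (hYinv _ _ hy), mul_zero] at h1
    exact h1
  -- (6)
  have hnR : ∀ u, u ∉ R → ∀ y ∈ Y, y ∉ E.W → E.bf y u ≠ 0 := by
    intro u hu y₂ hy₂ hy₂W hb₂
    have : ∃ y₁ ∈ Y, E.bf y₁ u ≠ 0 := by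
      by_contra hh
      push Not at hh
      exact hu hh
    obtain ⟨y₁, hy₁, hb₁⟩ := this
    have hy₁W : y₁ ∉ E.W := fun hh => hb₁ (E.bf_of_W hh u)
    have hb₃ : E.bf (y₁ * y₂) u = E.bf y₁ u := by rw [E.bf_mul_left hCW, hb₂, add_zero]
    have h3 := hbfψ (y₁ * y₂) (mul_mem hy₁ hy₂) u
    rw [hb₃, E.psi_mul_left, hbfψ y₁ hy₁ u] at h3
    have h4 : E.ψ y₂ (E.bf y₁ u) = 0 := by
      have h5 : E.bf y₁ u + E.ψ y₂ (E.bf y₁ u) + E.bf y₁ u = E.bf y₁ u + E.bf y₁ u := by rw [h3]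
      rw [E.D.two, add_comm (E.bf y₁ u), add_assoc, E.D.two, add_zero] at h5
      exact h5
    exact hne y₂ hy₂ hy₂W _ hb₁ h4
  have hmulR : ∀ u u', u ∉ R → u' ∉ R → u * u' ∈ R := by
    intro u u' hu hu' y hy
    by_cases hyW : y ∈ E.W
    · exact E.bf_of_W hyW _
    have h1 := huniq y hy hyW _ _ (hnR u hu y hy hyW) (hnR u' hu' y hy hyW) (hbfψ y hy u) (hbfψ y hy u')
    rw [E.bf_mul_right hCW, h1, E.D.two]
  -- (7)
  have hRtop : ∀ u, u ∈ R := by
    intro u
    by_contra hu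
    obtain ⟨k, hk⟩ := E.h.exists_ne_one
    have hku : ρ k u ∉ R := by
      intro hh
      apply hu
      have := hRinv k⁻¹ _ hh
      rwa [rho_inv_apply'] at this
    have hu' : u⁻¹ ∉ R := fun hh => hu (by simpa using inv_mem hh)
    exact hu (E.h.coset_fix hk hRinv (hmulR _ _ hu' hku))
  -- (8)
  apply hy₀W
  rw [mem_upper]
  refine ⟨hsq y₀ hy₀, fun u => ?_⟩
  exact E.D.ν_eq_zero (E.bf_sq hCW y₀ u) (hRtop u y₀ hy₀)

/-- **Case (b)**. -/
theorem false_of_C_le_W (hCW : E.C ≤ E.W)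
    (hIH : ∀ Y : Subgroup G, KInv ρ Y → Y ≠ ⊤ → (∃ x ∈ Y, ∃ y ∈ Y, x * y ≠ y * x) →
      ∀ y ∈ Y, (y * y) * (y * y) = 1) : False := by
  obtain ⟨Y, c, hYinv, hWY, ⟨y₀, hy₀, hy₀W⟩, hcadd, hcW, hker, hsurj, htrans⟩ := E.exists_coord hCW
  by_cases hY : Y = ⊤
  · subst hY
    refine E.false_of_top hCW c hcadd hcW (fun y => hker y (mem_top _)) ?_
    intro t
    obtain ⟨y, -, hy⟩ := hsurj t
    exact ⟨y, hy⟩
  · have hsq := hIH Y hYinv hY (by
      have hy₀C : y₀ ∉ E.C := fun h => hy₀W (hCW h)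
      rw [E.mem_C] at hy₀C
      push Not at hy₀C
      obtain ⟨w, hw, hwy⟩ := hy₀C
      refine ⟨w, hWY hw, y₀, hy₀, ?_⟩
      intro hh
      exact hwy (cm_eq_one_iff.mpr hh))
    exact E.false_of_proper hCW c hYinv hWY hy₀ hy₀W hcadd hcW hker hsurj htrans hsq

end CII

end

end Cfsg.Agent.Lib.Fusion.Hig
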