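import Cfsg.Agent.Lib.Fusion.Hig8

/-!
# Higman's theorem: main theorem.
-/

namespace Cfsg.Agent.Lib.Fusion.Hig

open Subgroup

universe u v

section

variable {K : Type v} [CommGroup K] {G : Type u} [Group G]

lemma KG.sq_mem_centralizer {ρ : K →* MulAut G} (h : KG ρ) {w : G} (hw : w ∈ upper (Om h)) (y : G) :
    cm w (y * y) = 1 := by
  have hw2 := (mem_upper.mp hw).2
  have hc : cm w y ∈ center G := h.central (hw2 y)
  rw [cm_mul_right_of_central hc]
  exact hw2 y

lemma KG.cm_mem_centralizer {ρ : K →* MulAut G} (h : KG ρ) {w : G} (hw : w ∈ upper (Om h)) (y y' : G) :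
    cm w (cm y y') = 1 := by
  have hw2 := (mem_upper.mp hw).2
  have hc : ∀ a, cm w a ∈ center G := fun a => h.central (hw2 a)
  have h1 : ∀ a, cm w a⁻¹ = cm w a := by
    intro a
    have h2 : cm w (a⁻¹ * a) = 1 := by rw [inv_mul_cancel, cm_one_right]
    have h4 : cm w (a⁻¹ * a) = cm w a * cm w a⁻¹ := by
      rw [cm_mul_right_of_central (hc _)]
      exact center_comm (hc _) _
    rw [h4] at h2
    have h5 : cm w a * cm w a = 1 := hw2 a
    calc cm w a⁻¹ = (cm w a * cm w a) * cm w a⁻¹ := by rw [h5, one_mul]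
      _ = cm w a * (cm w a * cm w a⁻¹) := by group
      _ = cm w a := by rw [h2, mul_one]
  show cm w (y⁻¹ * y'⁻¹ * y * y') = 1
  rw [cm_mul_right_of_central (hc _), cm_mul_right_of_central (hc _), cm_mul_right_of_central (hc _),
    h1, h1]
  have h5 : cm w y * cm w y = 1 := hw2 y
  have h6 : cm w y' * cm w y' = 1 := hw2 y'
  calc cm w y * cm w y' * cm w y * cm w y' = cm w y * (cm w y' * cm w y) * cm w y' := by group
    _ = cm w y * (cm w y * cm w y') * cm w y' := by rw [center_comm (hc y')]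
    _ = (cm w y * cm w y) * (cm w y' * cm w y') := by group
    _ = 1 := by rw [h5, h6, one_mul]

/-- **Higman's theorem**, main part: a nonabelian `G` has all squares and commutators in `Ω`. -/
theorem higman_main : ∀ (n : ℕ) (G : Type u) [Group G] (ρ : K →* MulAut G), KG ρ → Nat.card G = n →
    (∃ x y : G, x * y ≠ y * x) → (∀ x : G, (x * x) * (x * x) = 1) ∧ ∀ x y : G, cm x y * cm x y = 1 := by
  intro n
  induction n using Nat.strong_induction_on with
  | _ n ih =>
  intro G _ ρ h hn hnc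
  haveI := h.fin
  have hZ : ∀ z ∈ center G, z * z = 1 := by
    intro z hz
    by_contra hz2
    obtain ⟨a, b, hab⟩ := hnc
    exact hab (h.comm_of_center ⟨z, hz, hz2⟩ a b)
  obtain ⟨a, b, hab⟩ := id hnc
  have ha : a ∉ Om h := fun hh => hab (center_comm (h.central hh) b)
  obtain ⟨x₀, -, hx₀1, hx₀⟩ := exists_upper_of_lt (T := ⊤) (N := Om h) h.two (mem_top a) ha
  have hx₀2 : x₀ * x₀ ≠ 1 := hx₀1
  have hx₀3 : x₀ ≠ 1 := by
    rintro rfl
    exact hx₀2 (by simp)
  have hWinv : KInv ρ (upper (Om h)) := upper_kinv (Om_kinv h)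
  by_cases hWc : ∀ a ∈ upper (Om h), ∀ b ∈ upper (Om h), a * b = b * a
  · exfalso
    obtain ⟨F, fld, ⟨D⟩⟩ := h.exists_FD
    let E : CII ρ F := ⟨h, D, hZ, x₀, hx₀, hx₀2, hWc⟩
    by_cases hCW : E.C ≤ E.W
    · apply E.false_of_C_le_W hCW
      rintro Y hYinv hYtop ⟨p, hp, r, hr, hpr⟩
      have hp1 : p ≠ 1 := by
        rintro rfl
        simp at hpr
      have hKG := h.sub hYinv hp hp1
      have hlt : Nat.card Y < n := by
        rw [← hn]
        exact lt_of_le_of_ne (Subgroup.card_le_card_group Y) (fun hh => hYtop (Subgroup.eq_top_of_card_eq Y hh))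
      have := (ih _ hlt Y _ hKG rfl ⟨⟨p, hp⟩, ⟨r, hr⟩, fun hh => hpr (congrArg Subtype.val hh)⟩).1
      intro y hy
      exact congrArg Subtype.val (this ⟨y, hy⟩)
    · obtain ⟨d, hd, hdW⟩ := SetLike.not_le_iff_exists.mp hCW
      exact E.false_of_C_ne_W hd hdW
  · have hKGW := h.sub hWinv hx₀ hx₀3
    have hZW : ∀ z ∈ center (upper (Om h)), z * z = 1 := by
      intro z hz
      by_contra hz2
      apply hWc
      intro a ha b hb
      exact congrArg Subtype.val (hKGW.comm_of_center ⟨z, hz, hz2⟩ ⟨a, ha⟩ ⟨b, hb⟩)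
    let C : Subgroup G := Subgroup.centralizer (upper (Om h) : Set G)
    have hmemC : ∀ y, (∀ w ∈ upper (Om h), cm w y = 1) → y ∈ C := by
      intro y hy
      rw [Subgroup.mem_centralizer_iff]
      intro w hw
      exact cm_eq_one_iff.mp (hy w hw)
    have hCn : C.Normal := Subgroup.normal_centralizer
    have hC : ∀ y ∈ C, y * y = 1 := by
      intro y hy
      by_contra hy2
      have hyO : y ∉ Om h := hy2
      obtain ⟨x, hxC, hxO, hxW⟩ := exists_upper_of_lt (N := Om h) (T := C) h.two hy hyO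
      apply hxO
      have h1 : (⟨x, hxW⟩ : upper (Om h)) ∈ center (upper (Om h)) := by
        rw [mem_center_iff']
        intro g
        apply Subtype.ext
        exact ((Subgroup.mem_centralizer_iff.mp hxC) g g.2).symm
      exact congrArg Subtype.val (hZW _ h1)
    refine ⟨fun x => hC _ (hmemC _ fun w hw => h.sq_mem_centralizer hw x), fun x y => ?_⟩
    exact hC _ (hmemC _ fun w hw => h.cm_mem_centralizer hw x y)

end

end Cfsg.Agent.Lib.Fusion.Hig
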