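/-
Certificates for the simplicity of the `2`-fusion system of a permutation group on the 24 points
given by tables: a listing of a self-normalizing Sylow subgroup, the class of its central
involution, coset representatives, and a chain of conjugations reaching the whole Sylow subgroup.
-/
import Cfsg.Agent.Lib.Fusion.SelfNorm
import Cfsg.Agent.Lib.M24.M11
import Cfsg.Agent.Lib.Basic.Nilpotent

set_option autoImplicit false
set_option linter.unusedSectionVars false
set_option linter.unusedVariables false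
set_option linter.unusedSimpArgs false
set_option linter.style.haveILetI false

namespace Cfsg.Agent.Lib.Fusion.MathC

open Cfsg Cfsg.Agent.Lib.Golay Cfsg.Agent.Lib.M24 Cfsg.FusionSystem

abbrev Pm := Equiv.Perm GolayPt

/-! ### Digits -/

def dig (d r : ℕ) : ℕ := Nat.add d (Nat.mul 32 r)

lemma look_eq (a i : ℕ) : look a i = a / 32 ^ i % 32 := by
  change (a >>> (5 * i)) &&& 31 = _
  rw [Nat.shiftRight_eq_div_pow]
  have h31 : (31 : ℕ) = 2 ^ 5 - 1 := rfl
  rw [h31, Nat.and_two_pow_sub_one_eq_mod, pow_mul]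
  norm_num

lemma look_lt (a i : ℕ) : look a i < 32 := by
  rw [look_eq]
  exact Nat.mod_lt _ (by norm_num)

lemma dig_eq (d r : ℕ) : dig d r = d + 32 * r := rfl

lemma look_dig_zero {d : ℕ} (r : ℕ) (hd : d < 32) : look (dig d r) 0 = d := by
  rw [look_eq, dig_eq, pow_zero, Nat.div_one]
  omega

lemma look_dig_succ {d : ℕ} (r i : ℕ) (hd : d < 32) : look (dig d r) (i + 1) = look r i := by
  rw [look_eq, look_eq, dig_eq, pow_succ, mul_comm (32 ^ i) 32, ← Nat.div_div_eq_div_mul]
  congr 2
  omega

def encF (f : ℕ → ℕ) : ℕ → ℕ → ℕ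
  | 0, _ => 0
  | n + 1, s => dig (f s) (encF f n (s + 1))

lemma look_encF {f : ℕ → ℕ} (hf : ∀ i, f i < 32) (n s i : ℕ) (hi : i < n) : look (encF f n s) i = f (s + i) := by
  induction n generalizing s i with
  | zero => omega
  | succ n ih =>
    cases i with
    | zero => simpa [encF] using look_dig_zero _ (hf s)
    | succ i =>
      have h1 := ih (s + 1) i (by omega)
      simp only [encF]
      rw [look_dig_succ _ _ (hf s), h1]
      congr 1
      omega

lemma encF_lt {f : ℕ → ℕ} (hf : ∀ i, f i < 32) (n s : ℕ) : encF f n s < 32 ^ n := by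
  induction n generalizing s with
  | zero => simp [encF]
  | succ n ih =>
    simp only [encF, dig_eq, pow_succ]
    have h1 := ih (s + 1)
    have h2 := hf s
    omega

/-- Tables from functions, unfolded for speed. -/
def enc24 (f : ℕ → ℕ) : ℕ :=
  dig (f 0) <| dig (f 1) <| dig (f 2) <| dig (f 3) <| dig (f 4) <| dig (f 5) <| dig (f 6) <| dig (f 7) <|
  dig (f 8) <| dig (f 9) <| dig (f 10) <| dig (f 11) <| dig (f 12) <| dig (f 13) <| dig (f 14) <| dig (f 15) <|
  dig (f 16) <| dig (f 17) <| dig (f 18) <| dig (f 19) <| dig (f 20) <| dig (f 21) <| dig (f 22) <| dig (f 23) 0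

lemma enc24_eq (f : ℕ → ℕ) : enc24 f = encF f 24 0 := rfl

lemma look_enc24 {f : ℕ → ℕ} (hf : ∀ i, f i < 32) {i : ℕ} (hi : i < 24) : look (enc24 f) i = f i := by
  rw [enc24_eq, look_encF hf _ _ _ hi, zero_add]

lemma enc24_lt {f : ℕ → ℕ} (hf : ∀ i, f i < 32) : enc24 f < 2 ^ 120 := by
  rw [enc24_eq]
  have := encF_lt hf 24 0
  norm_num at this ⊢
  exact this

/-- The table of a product. -/
@[irreducible] def mulT (a b : ℕ) : ℕ := enc24 (fun i => look a (look b i))

lemma mulT_lt (a b : ℕ) : mulT a b < 2 ^ 120 := by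
  unfold mulT
  exact enc24_lt (fun _ => look_lt _ _)

lemma look_mulT (a b : ℕ) {i : ℕ} (hi : i < 24) : look (mulT a b) i = look a (look b i) := by
  unfold mulT
  exact look_enc24 (fun _ => look_lt _ _) hi

lemma act_mulT {a b : ℕ} {g h : Pm} (ha : Act a g) (hb : Act b h) : Act (mulT a b) (g * h) := by
  intro p
  rw [look_mulT _ _ (idx_lt p), ← hb p, ← ha (h p)]
  rfl

/-- The table of the identity. -/
@[irreducible] def idT : ℕ := enc24 (fun i => Nat.land i 31)

lemma act_idT : Act idT (1 : Pm) := by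
  intro p
  have h0 : ∀ i : ℕ, Nat.land i 31 < 32 := fun i => Nat.lt_succ_of_le Nat.and_le_right
  unfold idT
  rw [look_enc24 h0 (idx_lt p)]
  have h1 := idx_lt p
  show idx p = (idx p) &&& 31
  have h31 : (31 : ℕ) = 2 ^ 5 - 1 := rfl
  rw [h31, Nat.and_two_pow_sub_one_eq_mod]
  omega

lemma idT_lt : idT < 2 ^ 120 := by
  unfold idT
  exact enc24_lt (fun i => Nat.lt_succ_of_le Nat.and_le_right)

lemma act_unique {a : ℕ} {g g' : Pm} (h : Act a g) (h' : Act a g') : g = g' := by
  apply Equiv.ext
  intro p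
  apply idx_injective
  rw [h, h']

lemma tab_unique {a a' : ℕ} {g : Pm} (ha : a < 2 ^ 120) (ha' : a' < 2 ^ 120) (h : Act a g) (h' : Act a' g) : a = a' :=
  tabKey_inj ha ha' (tabKey_eq h h')

/-! ### Search trees -/

inductive BT
  | L
  | N (l : BT) (k v : ℕ) (r : BT)

namespace BT

noncomputable def find (t : BT) (x : ℕ) : ℕ :=
  BT.rec (motive := fun _ => ℕ) 0
    (fun _ k v _ il ir => Bool.rec (motive := fun _ => ℕ) (Bool.rec (motive := fun _ => ℕ) ir v (Nat.beq x k)) il (Nat.blt x k)) t

def pairs : BT → List (ℕ × ℕ)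
  | L => []
  | N l k v r => l.pairs ++ (k, v) :: r.pairs

lemma find_L (x : ℕ) : find L x = 0 := rfl

lemma find_N (l r : BT) (k v x : ℕ) : find (N l k v r) x =
    Bool.rec (motive := fun _ => ℕ) (Bool.rec (motive := fun _ => ℕ) (find r x) v (Nat.beq x k)) (find l x) (Nat.blt x k) := rfl

lemma mem_of_find {t : BT} {x w : ℕ} (h : find t x = w) (hw : w ≠ 0) : (x, w) ∈ t.pairs := by
  induction t generalizing w with
  | L => rw [find_L] at h; omega
  | N l k v r il ir =>
    rw [find_N] at h
    simp only [pairs, List.mem_append, List.mem_cons]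
    cases h1 : Nat.blt x k with
    | true =>
      rw [h1] at h
      exact Or.inl (il h hw)
    | false =>
      rw [h1] at h
      cases h2 : Nat.beq x k with
      | true =>
        rw [h2] at h
        have : x = k := Nat.eq_of_beq_eq_true h2
        subst this
        have e : w = v := h.symm
        subst e
        exact Or.inr (Or.inl rfl)
      | false =>
        rw [h2] at h
        exact Or.inr (Or.inr (ir h hw))

noncomputable def allN (f : ℕ → ℕ → Bool) (t : BT) : Bool :=
  BT.rec (motive := fun _ => Bool) true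
    (fun _ k v _ il ir => Bool.rec (motive := fun _ => Bool) false (Bool.rec (motive := fun _ => Bool) false ir il) (f k v)) t

lemma allN_spec {f : ℕ → ℕ → Bool} {t : BT} (h : allN f t = true) : ∀ p ∈ t.pairs, f p.1 p.2 = true := by
  induction t with
  | L => simp [pairs]
  | N l k v r il ir =>
    have h0 : allN f (N l k v r) = Bool.rec (motive := fun _ => Bool) false (Bool.rec (motive := fun _ => Bool) false (allN f r) (allN f l)) (f k v) := rfl
    rw [h0] at h
    intro p hp
    simp only [pairs, List.mem_append, List.mem_cons] at hp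
    cases h1 : f k v with
    | false => rw [h1] at h; exact absurd h (by simp)
    | true =>
      rw [h1] at h
      cases h2 : allN f l with
      | false => rw [h2] at h; exact absurd h (by simp)
      | true =>
        rw [h2] at h
        rcases hp with hp | rfl | hp
        · exact il h2 p hp
        · exact h1
        · exact ir h p hp

noncomputable def chk (t : BT) : ℕ → ℕ → Bool :=
  BT.rec (motive := fun _ => ℕ → ℕ → Bool) (fun _ _ => true)
    (fun _ k _ _ il ir lo hi => Nat.blt lo k && (Nat.blt k hi && (il lo k && ir k hi))) t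

lemma chk_spec {t : BT} {lo hi : ℕ} (h : chk t lo hi = true) :
    (∀ p ∈ t.pairs, lo < p.1 ∧ p.1 < hi) ∧ (t.pairs.map Prod.fst).Pairwise (· < ·) := by
  induction t generalizing lo hi with
  | L => simp [pairs]
  | N l k v r il ir =>
    have h0 : chk (N l k v r) lo hi = (Nat.blt lo k && (Nat.blt k hi && (chk l lo k && chk r k hi))) := rfl
    rw [h0] at h
    simp only [Bool.and_eq_true] at h
    obtain ⟨h1, h2, h3, h4⟩ := h
    have hlo : lo < k := blt_sound h1
    have hhi : k < hi := blt_sound h2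
    obtain ⟨a1, a2⟩ := il h3
    obtain ⟨b1, b2⟩ := ir h4
    constructor
    · intro p hp
      simp only [pairs, List.mem_append, List.mem_cons] at hp
      rcases hp with hp | rfl | hp
      · exact ⟨(a1 p hp).1, (a1 p hp).2.trans hhi⟩
      · exact ⟨hlo, hhi⟩
      · exact ⟨hlo.trans (b1 p hp).1, (b1 p hp).2⟩
    · simp only [pairs, List.map_append, List.map_cons]
      rw [List.pairwise_append]
      refine ⟨a2, ?_, ?_⟩
      · rw [List.pairwise_cons]
        refine ⟨?_, b2⟩
        intro x hx
        obtain ⟨p, hp, rfl⟩ := List.mem_map.1 hx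
        exact (b1 p hp).1
      · intro x hx y hy
        obtain ⟨p, hp, rfl⟩ := List.mem_map.1 hx
        have h5 := (a1 p hp).2
        rcases List.mem_cons.1 hy with rfl | hy
        · exact h5
        · obtain ⟨q, hq, rfl⟩ := List.mem_map.1 hy
          exact h5.trans (b1 q hq).1

noncomputable def size (t : BT) : ℕ :=
  BT.rec (motive := fun _ => ℕ) 0 (fun _ _ _ _ il ir => Nat.add (Nat.add il ir) 1) t

lemma size_eq (t : BT) : t.size = t.pairs.length := by
  induction t with
  | L => rfl
  | N l k v r il ir =>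
    have h0 : size (N l k v r) = Nat.add (Nat.add (size l) (size r)) 1 := rfl
    rw [h0, il, ir]
    simp only [pairs, List.length_append, List.length_cons]
    show _ + _ + 1 = _
    omega

/-- Keys of a tree. -/
def keys (t : BT) : List ℕ := t.pairs.map Prod.fst

lemma keys_length (t : BT) : t.keys.length = t.size := by
  rw [keys, List.length_map, size_eq]

lemma mem_keys_of_find {t : BT} {x : ℕ} (h : (Nat.beq (find t x) 0) = false) : x ∈ t.keys := by
  have h1 : find t x ≠ 0 := Nat.ne_of_beq_eq_false h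
  exact List.mem_map.2 ⟨_, mem_of_find rfl h1, rfl⟩

end BT

open BT

/-! ### Levels -/

/-- The check of one node of a tree of elements generated from a root. -/
noncomputable def levOK (t : BT) (gs : List (ℕ × ℕ)) (fwd par : ℕ × ℕ → ℕ → ℕ) (root k v : ℕ) : Bool :=
  Bool.rec (motive := fun _ => Bool)
    (Nat.blt (Nat.mod v 8) gs.length &&
      (Nat.beq (fwd (gs.getD (Nat.mod v 8) (0, 0)) (par (gs.getD (Nat.mod v 8) (0, 0)) k)) k &&
        Nat.beq (Nat.add (Nat.div (find t (par (gs.getD (Nat.mod v 8) (0, 0)) k)) 8) 1) (Nat.div v 8)))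
    (Nat.beq k root) (Nat.beq (Nat.div v 8) 1)

theorem good_of_levOK {t : BT} {gs : List (ℕ × ℕ)} {fwd par : ℕ × ℕ → ℕ → ℕ} {root : ℕ} {P : ℕ → Prop}
    (hroot : P root) (hstep : ∀ p ∈ gs, ∀ y, P y → P (fwd p y))
    (h : allN (levOK t gs fwd par root) t = true) : ∀ q ∈ t.pairs, P q.1 := by
  have key : ∀ n, ∀ q ∈ t.pairs, Nat.div q.2 8 = n → P q.1 := by
    intro n
    induction n using Nat.strong_induction_on with
    | _ n ih =>
      rintro ⟨k, v⟩ hq hn
      have h1 : levOK t gs fwd par root k v = true := allN_spec h _ hq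
      simp only at hn ⊢
      rw [levOK] at h1
      by_cases hv : Nat.beq (Nat.div v 8) 1 = true
      · rw [hv] at h1
        have : k = root := Nat.eq_of_beq_eq_true h1
        rw [this]
        exact hroot
      · have hv' : Nat.beq (Nat.div v 8) 1 = false := Bool.eq_false_iff.2 hv
        rw [hv'] at h1
        have h1' : (Nat.blt (Nat.mod v 8) gs.length &&
          (Nat.beq (fwd (gs.getD (Nat.mod v 8) (0, 0)) (par (gs.getD (Nat.mod v 8) (0, 0)) k)) k &&
            Nat.beq (Nat.add (Nat.div (find t (par (gs.getD (Nat.mod v 8) (0, 0)) k)) 8) 1) (Nat.div v 8))) = true := h1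
        simp only [Bool.and_eq_true] at h1'
        obtain ⟨h2, h3, h4⟩ := h1'
        have hlt := blt_sound h2
        set p := gs.getD (Nat.mod v 8) (0, 0) with hp
        have hpm : p ∈ gs := by
          rw [hp, List.getD_eq_getElem _ _ hlt]
          exact List.getElem_mem _
        have e1 : fwd p (par p k) = k := Nat.eq_of_beq_eq_true h3
        have e2 : Nat.add (Nat.div (find t (par p k)) 8) 1 = Nat.div v 8 := Nat.eq_of_beq_eq_true h4
        have hne : Nat.div v 8 ≠ 1 := by
          intro e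
          apply hv
          rw [e]
          rfl
        have hw : find t (par p k) ≠ 0 := by
          intro e0
          rw [e0] at e2
          apply hne
          rw [← e2]
        have hy := mem_of_find rfl hw
        have hlt2 : Nat.div (find t (par p k)) 8 < n := by
          rw [← hn, ← e2]
          exact Nat.lt_succ_self _
        have := ih _ hlt2 _ hy rfl
        rw [← e1]
        exact hstep p hpm _ this
  intro q hq
  exact key _ q hq rfl

/-! ### Generic facts -/

/-- Lists of pairs of tables of elements of `H`. -/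
def ValidIn (H : Subgroup Pm) (L : List (ℕ × ℕ)) : Prop := ∀ p ∈ L, ∃ g ∈ H, Act p.1 g ∧ Act p.2 g⁻¹

lemma validIn_of_genIn {H : Subgroup Pm} {l : List ℕ} (hH : SM l ≤ H) {L : List (ℕ × ℕ)}
    (h : allL (genIn l) L = true) : ValidIn H L := by
  intro p hp
  obtain ⟨g, hg, h1, h2⟩ := exists_of_genIn (allL_spec h p hp)
  exact ⟨g, hH hg, h1, h2⟩

theorem coset_cover {A : Type*} [Group A] (K U : Subgroup A) (hUK : U ≤ K) [Finite K] {m : ℕ} (r : Fin m → A)
    (hr : ∀ i, r i ∈ K) (hd : ∀ i j, i ≠ j → (r i)⁻¹ * r j ∉ U) (hc : Nat.card K ≤ m * Nat.card U) :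
    ∀ x ∈ K, ∃ i, (r i)⁻¹ * x ∈ U := by
  classical
  haveI : Finite U := Finite.of_injective (fun u : U => (⟨u.1, hUK u.2⟩ : K))
    (fun a b hab => Subtype.ext (congrArg (fun w : K => (w : A)) hab))
  let U' : Subgroup K := U.subgroupOf K
  have hcU' : Nat.card U' = Nat.card U := Nat.card_congr (Subgroup.subgroupOfEquivOfLe hUK).toEquiv
  let φ : Fin m → K ⧸ U' := fun i => QuotientGroup.mk ⟨r i, hr i⟩
  have hinj : Function.Injective φ := by
    intro i j hij
    by_contra hne
    have hij' : ((⟨r i, hr i⟩ : K) : K ⧸ U') = ((⟨r j, hr j⟩ : K) : K ⧸ U') := hij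
    have h5 : (⟨r i, hr i⟩ : K)⁻¹ * ⟨r j, hr j⟩ ∈ U' := QuotientGroup.eq.1 hij'
    exact hd i j hne h5
  haveI : Finite (K ⧸ U') := inferInstance
  have hidx : Nat.card (K ⧸ U') ≤ m := by
    have h1 := Subgroup.card_mul_index U'
    rw [hcU'] at h1
    have hpos : 0 < Nat.card U := Nat.card_pos
    have h2 : U'.index = Nat.card (K ⧸ U') := rfl
    rw [h2] at h1
    rw [← h1, mul_comm m] at hc
    exact Nat.le_of_mul_le_mul_left hc hpos
  have hm : m ≤ Nat.card (K ⧸ U') := by
    have := Nat.card_le_card_of_injective φ hinj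
    rw [Nat.card_fin] at this
    exact this
  have hbij : Function.Bijective φ := (Nat.bijective_iff_injective_and_card φ).2 ⟨hinj, by
    rw [Nat.card_fin]
    omega⟩
  intro x hx
  obtain ⟨i, hi⟩ := hbij.2 (QuotientGroup.mk ⟨x, hx⟩)
  have hi' : ((⟨r i, hr i⟩ : K) : K ⧸ U') = ((⟨x, hx⟩ : K) : K ⧸ U') := hi
  have h5 : (⟨r i, hr i⟩ : K)⁻¹ * ⟨x, hx⟩ ∈ U' := QuotientGroup.eq.1 hi'
  exact ⟨i, h5⟩

theorem class_bound {A : Type*} [Group A] (H : Subgroup A) [Finite H] (z : A) {n : ℕ} (h : Fin n → A) (hh : ∀ i, h i ∈ H)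
    (hd : ∀ i j, i ≠ j → h i * z * (h i)⁻¹ ≠ h j * z * (h j)⁻¹) :
    Nat.card ↥(H ⊓ Subgroup.centralizer {z}) * n ≤ Nat.card H := by
  classical
  let K : Subgroup A := H ⊓ Subgroup.centralizer {z}
  have hKH : K ≤ H := inf_le_left
  let K' : Subgroup H := K.subgroupOf H
  have hcK' : Nat.card K' = Nat.card K := Nat.card_congr (Subgroup.subgroupOfEquivOfLe hKH).toEquiv
  let φ : Fin n → H ⧸ K' := fun i => QuotientGroup.mk ⟨h i, hh i⟩
  have hinj : Function.Injective φ := by
    intro i j hij
    by_contra hne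
    apply hd i j hne
    have hij' : ((⟨h i, hh i⟩ : H) : H ⧸ K') = ((⟨h j, hh j⟩ : H) : H ⧸ K') := hij
    have h1 : (⟨h i, hh i⟩ : H)⁻¹ * ⟨h j, hh j⟩ ∈ K' := QuotientGroup.eq.1 hij'
    have h2 : (h i)⁻¹ * h j ∈ K := h1
    have h3 := Subgroup.mem_centralizer_singleton_iff.1 (Subgroup.mem_inf.1 h2).2
    have h4 : h j * z = h i * z * ((h i)⁻¹ * h j) := by
      have : h j * z = h i * (((h i)⁻¹ * h j) * z) := by group
      rw [this, h3]
      group
    rw [h4]
    group
  have hn : n ≤ K'.index := by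
    have := Nat.card_le_card_of_injective φ hinj
    rw [Nat.card_fin] at this
    exact this
  have h1 := Subgroup.card_mul_index K'
  rw [hcK'] at h1
  rw [← h1]
  exact Nat.mul_le_mul_left _ hn

/-! ### The certificate -/

/-- All checks for a listing of the subgroup generated by `gens`. -/
noncomputable def listOK (t : BT) (gens : List (ℕ × ℕ)) : Bool :=
  chk t 0 (2 ^ 120) && (allN (levOK t gens (fun p y => mulT p.1 y) (fun p k => mulT p.2 k) idT) t &&
    (!(Nat.beq (find t idT) 0) && allN (fun k _ => allL (fun p => !(Nat.beq (find t (mulT p.1 k)) 0) && !(Nat.beq (find t (mulT p.2 k)) 0)) gens) t))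

/-- The subgroup generated by tables. -/
def UU (gens : List (ℕ × ℕ)) : Subgroup Pm := Subgroup.closure {g | ∃ p ∈ gens, Act p.1 g}

variable {H : Subgroup Pm} {gens : List (ℕ × ℕ)} {t : BT}

lemma exists_of_mem_gens (hg : ValidIn H gens) {p : ℕ × ℕ} (hp : p ∈ gens) :
    ∃ g ∈ UU gens, Act p.1 g ∧ Act p.2 g⁻¹ := by
  obtain ⟨g, -, h1, h2⟩ := hg p hp
  exact ⟨g, Subgroup.subset_closure ⟨p, hp, h1⟩, h1, h2⟩

lemma UU_le (hg : ValidIn H gens) : UU gens ≤ H := by
  rw [UU, Subgroup.closure_le]
  rintro g ⟨p, hp, h1⟩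
  obtain ⟨g', hg', h2, -⟩ := hg p hp
  rw [act_unique h1 h2]
  exact hg'

section
variable (hg : ValidIn H gens) (hL : listOK t gens = true)
include hg hL

lemma listOK_parts : chk t 0 (2 ^ 120) = true ∧ allN (levOK t gens (fun p y => mulT p.1 y) (fun p k => mulT p.2 k) idT) t = true ∧
    (Nat.beq (find t idT) 0) = false ∧ allN (fun k _ => allL (fun p => !(Nat.beq (find t (mulT p.1 k)) 0) && !(Nat.beq (find t (mulT p.2 k)) 0)) gens) t = true := by
  have h := hL
  simp only [listOK, Bool.and_eq_true, Bool.not_eq_true'] at h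
  exact ⟨h.1, h.2.1, h.2.2.1, h.2.2.2⟩

theorem keys_spec_lt {k : ℕ} (hk : k ∈ t.keys) : k < 2 ^ 120 := by
  obtain ⟨h1, -, -, -⟩ := listOK_parts hg hL
  obtain ⟨q, hq, rfl⟩ := List.mem_map.1 hk
  exact ((chk_spec h1).1 q hq).2

theorem keys_nodup : t.keys.Nodup := by
  obtain ⟨h1, -, -, -⟩ := listOK_parts hg hL
  exact ((chk_spec h1).2).imp (fun hab => Nat.ne_of_lt hab)

theorem exists_of_key {k : ℕ} (hk : k ∈ t.keys) : ∃ g ∈ UU gens, Act k g := by
  obtain ⟨-, h2, -, -⟩ := listOK_parts hg hL
  obtain ⟨q, hq, rfl⟩ := List.mem_map.1 hk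
  refine good_of_levOK (P := fun k => ∃ g ∈ UU gens, Act k g) ⟨1, (UU gens).one_mem, act_idT⟩ ?_ h2 q hq
  rintro p hp y ⟨g, hg1, hg2⟩
  obtain ⟨x, hx, hx1, -⟩ := exists_of_mem_gens hg hp
  exact ⟨x * g, (UU gens).mul_mem hx hg1, act_mulT hx1 hg2⟩

theorem exists_key {g : Pm} (hgU : g ∈ UU gens) : ∃ k ∈ t.keys, Act k g := by
  obtain ⟨-, -, h3, h4⟩ := listOK_parts hg hL
  have hstep : ∀ p ∈ gens, ∀ k ∈ t.keys, mulT p.1 k ∈ t.keys ∧ mulT p.2 k ∈ t.keys := by
    intro p hp k hk
    obtain ⟨q, hq, rfl⟩ := List.mem_map.1 hk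
    have h5 := allL_spec (allN_spec h4 q hq) p hp
    simp only [Bool.and_eq_true, Bool.not_eq_true'] at h5
    exact ⟨mem_keys_of_find h5.1, mem_keys_of_find h5.2⟩
  induction hgU using Subgroup.closure_induction_left with
  | one => exact ⟨idT, mem_keys_of_find h3, act_idT⟩
  | mul_left x hx y hy ih =>
    obtain ⟨k, hk, hky⟩ := ih
    obtain ⟨p, hp, hpx⟩ := hx
    exact ⟨_, (hstep p hp k hk).1, act_mulT hpx hky⟩
  | inv_mul_cancel x hx y hy ih =>
    obtain ⟨k, hk, hky⟩ := ih
    obtain ⟨p, hp, hpx⟩ := hx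
    obtain ⟨x', -, h1, h2⟩ := hg p hp
    have e := act_unique hpx h1
    rw [e]
    exact ⟨_, (hstep p hp k hk).2, act_mulT h2 hky⟩

theorem card_UU : Nat.card (UU gens) = t.size := by
  classical
  have hch : ∀ u : UU gens, ∃ k : {k // k ∈ t.keys}, Act k.1 u.1 := by
    intro u
    obtain ⟨k, hk, h⟩ := exists_key hg hL u.2
    exact ⟨⟨k, hk⟩, h⟩
  choose F hF using hch
  have hbij : Function.Bijective F := by
    constructor
    · intro a b hab
      apply Subtype.ext
      have h1 := hF a
      rw [hab] at h1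
      exact act_unique h1 (hF b)
    · rintro ⟨k, hk⟩
      obtain ⟨g, hg1, hg2⟩ := exists_of_key hg hL hk
      refine ⟨⟨g, hg1⟩, ?_⟩
      apply Subtype.ext
      exact tab_unique (keys_spec_lt hg hL (F _).2) (keys_spec_lt hg hL hk) (hF ⟨g, hg1⟩) hg2
  rw [Nat.card_eq_of_bijective F hbij, Nat.card_eq_fintype_card,
    Fintype.card_of_subtype t.keys.toFinset (fun x => List.mem_toFinset),
    List.toFinset_card_of_nodup (keys_nodup hg hL), keys_length]

end

/-- Commutation of `UU` from generators. -/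
lemma le_centralizer_of_gens (hg : ValidIn H gens) {z : Pm} {zk : ℕ} (hz : Act zk z) (hzlt : zk < 2 ^ 120)
    (h : allL (fun p => Nat.beq (mulT zk p.1) (mulT p.1 zk)) gens = true) : UU gens ≤ Subgroup.centralizer {z} := by
  rw [UU, Subgroup.closure_le]
  rintro g ⟨p, hp, h1⟩
  have e : mulT zk p.1 = mulT p.1 zk := Nat.eq_of_beq_eq_true (allL_spec h p hp)
  have h2 := act_mulT hz h1
  have h3 := act_mulT h1 hz
  rw [e] at h2
  have h4 := act_unique h2 h3
  exact Subgroup.mem_centralizer_singleton_iff.2 h4.symm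

/-- The center check. -/
noncomputable def centerOK (t : BT) (gens : List (ℕ × ℕ)) (zk : ℕ) : Bool :=
  !(Nat.beq (find t zk) 0) && (!(Nat.beq zk idT) && (allL (fun p => Nat.beq (mulT zk p.1) (mulT p.1 zk)) gens &&
    allN (fun k _ => Nat.beq k idT || (Nat.beq k zk || !allL (fun p => Nat.beq (mulT k p.1) (mulT p.1 k)) gens)) t))

theorem center_eq (hg : ValidIn H gens) (hL : listOK t gens = true) {zk : ℕ} (hc : centerOK t gens zk = true)
    {z : Pm} (hz : Act zk z) {x : Pm} (hxU : x ∈ UU gens) (hx : ∀ u ∈ UU gens, u * x = x * u) : x = 1 ∨ x = z := by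
  simp only [centerOK, Bool.and_eq_true, Bool.not_eq_true'] at hc
  obtain ⟨-, -, -, h4⟩ := hc
  obtain ⟨k, hk, hkx⟩ := exists_key hg hL hxU
  obtain ⟨q, hq, rfl⟩ := List.mem_map.1 hk
  have h5 := allN_spec h4 q hq
  simp only [Bool.or_eq_true, Bool.not_eq_true'] at h5
  rcases h5 with h5 | h5 | h5
  · left
    have e : q.1 = idT := Nat.eq_of_beq_eq_true h5
    rw [e] at hkx
    exact act_unique hkx act_idT
  · right
    have e : q.1 = zk := Nat.eq_of_beq_eq_true h5
    rw [e] at hkx
    exact act_unique hkx hz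
  · exfalso
    have : allL (fun p => Nat.beq (mulT q.1 p.1) (mulT p.1 q.1)) gens = true := by
      rw [allL_iff]
      intro p hp
      obtain ⟨g, hgU, h1, -⟩ := exists_of_mem_gens hg hp
      have h2 := act_mulT hkx h1
      have h3 := act_mulT h1 hkx
      rw [← hx g hgU] at h2
      have : mulT q.1 p.1 = mulT p.1 q.1 := tab_unique (mulT_lt _ _) (mulT_lt _ _) h2 h3
      rw [this]
      exact Nat.beq_refl _
    rw [this] at h5
    exact absurd h5 (by simp)

/-- The check for the class of the central involution. -/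
noncomputable def classOK (t : BT) (gG : List (ℕ × ℕ)) (zk : ℕ) : Bool :=
  chk t 0 (2 ^ 120) && allN (levOK t gG (fun p y => mulT p.1 (mulT y p.2)) (fun p k => mulT p.2 (mulT k p.1)) zk) t

theorem class_count {gG : List (ℕ × ℕ)} (hG : ValidIn H gG) {zk : ℕ} {z : Pm} (hz : Act zk z) (hc : classOK t gG zk = true) :
    Nat.card ↥(H ⊓ Subgroup.centralizer {z}) * t.size ≤ Nat.card H := by
  classical
  simp only [classOK, Bool.and_eq_true] at hc
  obtain ⟨h1, h2⟩ := hc
  have hP : ∀ q ∈ t.pairs, ∃ h ∈ H, Act q.1 (h * z * h⁻¹) := by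
    refine good_of_levOK (P := fun k => ∃ h ∈ H, Act k (h * z * h⁻¹)) ⟨1, H.one_mem, ?_⟩ ?_ h2
    · simpa using hz
    · rintro p hp y ⟨h, hh, hy⟩
      obtain ⟨x, hx, hx1, hx2⟩ := hG p hp
      refine ⟨x * h, H.mul_mem hx hh, ?_⟩
      have := act_mulT hx1 (act_mulT hy hx2)
      have e : x * h * z * (x * h)⁻¹ = x * (h * z * h⁻¹ * x⁻¹) := by group
      rw [e]
      exact this
  have hlen : t.keys.length = t.size := keys_length t
  have hmem : ∀ i : Fin t.size, t.keys[i.1]'(by rw [hlen]; exact i.2) ∈ t.keys := fun i => List.getElem_mem _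
  have hch : ∀ i : Fin t.size, ∃ h ∈ H, Act (t.keys[i.1]'(by rw [hlen]; exact i.2)) (h * z * h⁻¹) := by
    intro i
    obtain ⟨q, hq, e⟩ := List.mem_map.1 (hmem i)
    rw [← e]
    exact hP q hq
  choose h hh hact using hch
  refine class_bound H z h hh ?_
  intro i j hij e
  have h3 := hact i
  rw [e] at h3
  have hlt : ∀ k ∈ t.keys, k < 2 ^ 120 := by
    intro k hk
    obtain ⟨q, hq, rfl⟩ := List.mem_map.1 hk
    exact ((chk_spec h1).1 q hq).2
  have h4 := tab_unique (hlt _ (hmem i)) (hlt _ (hmem j)) h3 (hact j)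
  have hnd : t.keys.Nodup := ((chk_spec h1).2).imp (fun hab => Nat.ne_of_lt hab)
  have h5 := (List.Nodup.getElem_inj_iff hnd).1 h4
  exact hij (Fin.ext h5)

/-- The check for the coset representatives: they commute with `z`, lie in distinct cosets, and each
is trivial or moves the Sylow subgroup. -/
noncomputable def repsOK (t : BT) (gens : List (ℕ × ℕ)) (zk : ℕ) (reps : List (ℕ × ℕ)) : Bool :=
  allL (fun r => Nat.beq (mulT r.1 zk) (mulT zk r.1) &&
    (Nat.beq r.1 idT || !allL (fun p => memB (mulT r.1 (mulT p.1 r.2)) t.keys) gens)) reps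

/-- Distinct cosets. -/
noncomputable def distOK (keys : List ℕ) : List (ℕ × ℕ) → Bool
  | [] => true
  | r :: rs => allL (fun q => !memB (mulT r.2 q.1) keys) rs && distOK keys rs

lemma distOK_spec {keys : List ℕ} {reps : List (ℕ × ℕ)} (h : distOK keys reps = true) :
    reps.Pairwise (fun r q => mulT r.2 q.1 ∉ keys) := by
  induction reps with
  | nil => simp
  | cons r rs ih =>
    simp only [distOK, Bool.and_eq_true] at h
    rw [List.pairwise_cons]
    refine ⟨?_, ih h.2⟩
    intro q hq hmem
    have h1 := allL_spec h.1 q hq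
    rw [Bool.not_eq_true'] at h1
    rw [memB_iff.2 hmem] at h1
    exact absurd h1 (by simp)

/-- A run of the chain of conjugations: each step conjugates a product of two known elements. -/
noncomputable def runC (t : BT) : List ℕ → List ((ℕ × ℕ) × ℕ × ℕ) → List ℕ
  | M, [] => M
  | M, s :: rest =>
    if Nat.blt s.2.1 M.length && Nat.blt s.2.2 M.length &&
        !(Nat.beq (find t (mulT s.1.1 (mulT (mulT (M.getD s.2.1 0) (M.getD s.2.2 0)) s.1.2))) 0) then
      runC t (M ++ [mulT s.1.1 (mulT (mulT (M.getD s.2.1 0) (M.getD s.2.2 0)) s.1.2)]) rest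
    else M

lemma runC_spec {T : Subgroup Pm} (hL : listOK t gens = true) (hg : ValidIn H gens) (hTU : T ≤ UU gens)
    (hcl : ∀ x ∈ T, ∀ h ∈ H, h * x * h⁻¹ ∈ UU gens → h * x * h⁻¹ ∈ T)
    (steps : List ((ℕ × ℕ) × ℕ × ℕ)) (hst : ValidIn H (steps.map Prod.fst)) (M : List ℕ)
    (hM : ∀ a ∈ M, ∃ x ∈ T, Act a x) : ∀ a ∈ runC t M steps, ∃ x ∈ T, Act a x := by
  induction steps generalizing M with
  | nil => simpa [runC] using hM
  | cons s rest ih =>
    have hst' : ValidIn H (rest.map Prod.fst) := fun p hp => hst p (by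
      simp only [List.map_cons, List.mem_cons]
      exact Or.inr hp)
    simp only [runC]
    split_ifs with hc
    · apply ih hst'
      simp only [Bool.and_eq_true, Bool.not_eq_true'] at hc
      obtain ⟨⟨h1, h2⟩, h3⟩ := hc
      intro a ha
      rcases List.mem_append.1 ha with ha | ha
      · exact hM a ha
      · rw [List.mem_singleton] at ha
        rw [ha]
        have hm1 : M.getD s.2.1 0 ∈ M := by
          rw [List.getD_eq_getElem _ _ (blt_sound h1)]
          exact List.getElem_mem _
        have hm2 : M.getD s.2.2 0 ∈ M := by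
          rw [List.getD_eq_getElem _ _ (blt_sound h2)]
          exact List.getElem_mem _
        obtain ⟨x1, hx1, ha1⟩ := hM _ hm1
        obtain ⟨x2, hx2, ha2⟩ := hM _ hm2
        obtain ⟨h, hh, hp1, hp2⟩ := hst s.1 (by simp)
        have hact := act_mulT hp1 (act_mulT (act_mulT ha1 ha2) hp2)
        have hk := mem_keys_of_find h3
        obtain ⟨u, hu, hua⟩ := exists_of_key hg hL hk
        have e := act_unique hua hact
        have hu' : h * (x1 * x2) * h⁻¹ ∈ UU gens := by
          have e2 : h * (x1 * x2) * h⁻¹ = u := by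
            rw [e]
            group
          rw [e2]
          exact hu
        refine ⟨_, hcl _ (T.mul_mem hx1 hx2) h hh hu', ?_⟩
        have e3 : h * (x1 * x2) * h⁻¹ = h * (x1 * x2 * h⁻¹) := by group
        rw [e3]
        exact hact
    · exact hM

/-- The chain reaches the generators. -/
noncomputable def chainOK (t : BT) (gens : List (ℕ × ℕ)) (zk : ℕ) (steps : List ((ℕ × ℕ) × ℕ × ℕ)) : Bool :=
  allL (fun p => memB p.1 (runC t [idT, zk] steps)) gens

/-- **Simplicity from a certificate.** -/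
theorem simple_of_cert {gG reps : List (ℕ × ℕ)} {ZT : BT} {zk : ℕ} {steps : List ((ℕ × ℕ) × ℕ × ℕ)}
    (hg : ValidIn H gens) (hG : ValidIn H gG) (hR : ValidIn H reps) (hst : ValidIn H (steps.map Prod.fst))
    (hL : listOK t gens = true) (hC : centerOK t gens zk = true) (hZ : classOK ZT gG zk = true)
    (hR1 : repsOK t gens zk reps = true) (hR2 : distOK t.keys reps = true) (hchain : chainOK t gens zk steps = true)
    {a m : ℕ} (hsize : t.size = 2 ^ a) (hm : ¬ 2 ∣ m) (hcard : Nat.card H = 2 ^ a * m)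
    (hcount : Nat.card H ≤ reps.length * t.size * ZT.size)
    (S : Sylow 2 H) : (groupFusionSystem (S : Subgroup H)).IsSimple 2 := by
  classical
  haveI : Fact (Nat.Prime 2) := ⟨Nat.prime_two⟩
  have hUH := UU_le hg
  have hC' := hC
  simp only [centerOK, Bool.and_eq_true, Bool.not_eq_true'] at hC'
  obtain ⟨hc1, hc2, hc3, -⟩ := hC'
  have hzk := mem_keys_of_find hc1
  obtain ⟨z, hzU, hz⟩ := exists_of_key hg hL hzk
  have hzlt := keys_spec_lt hg hL hzk
  have hz1 : z ≠ 1 := by
    rintro rfl
    have := tab_unique hzlt idT_lt hz act_idT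
    rw [this] at hc2
    simp at hc2
  have hUz := le_centralizer_of_gens hg hz hzlt hc3
  have hcU : Nat.card (UU gens) = 2 ^ a := by
    rw [card_UU hg hL, hsize]
  have hpU : IsPGroup 2 (UU gens) := IsPGroup.of_card hcU
  refine isSimple_of_selfNorm' H (UU gens) hUH ?_ hpU hm (by rw [hcU, hcard]) ?_ ?_ S
  · intro h
    apply hz1
    rw [h] at hzU
    exact hzU
  · -- the normalizer
    intro x hxH hxN
    have hN := Subgroup.mem_normalizer_iff.1 hxN
    -- `x` centralizes `z`
    have hxz : x * z * x⁻¹ = z := by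
      have h1 : x * z * x⁻¹ ∈ UU gens := (hN z).1 hzU
      have h2 : ∀ u ∈ UU gens, u * (x * z * x⁻¹) = (x * z * x⁻¹) * u := by
        intro u hu
        have h3 : x⁻¹ * u * x ∈ UU gens := by
          rw [hN]
          have e : x * (x⁻¹ * u * x) * x⁻¹ = u := by group
          rwa [e]
        have h4 := Subgroup.mem_centralizer_singleton_iff.1 (hUz h3)
        have e1 : u * (x * z * x⁻¹) = x * ((x⁻¹ * u * x) * z) * x⁻¹ := by group
        have e2 : (x * z * x⁻¹) * u = x * (z * (x⁻¹ * u * x)) * x⁻¹ := by group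
        rw [e1, e2, h4]
      rcases center_eq hg hL hC hz h1 h2 with h3 | h3
      · exfalso
        apply hz1
        have e : z = x⁻¹ * (x * z * x⁻¹) * x := by group
        rw [e, h3]
        group
      · exact h3
    let K : Subgroup Pm := H ⊓ Subgroup.centralizer {z}
    have hxK : x ∈ K := by
      refine Subgroup.mem_inf.2 ⟨hxH, Subgroup.mem_centralizer_singleton_iff.2 ?_⟩
      have e : x * z = (x * z * x⁻¹) * x := by group
      rw [hxz] at e
      exact e
    have hUK : UU gens ≤ K := le_inf hUH hUz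
    have hcount2 := class_count hG hz hZ
    have hcK : Nat.card K ≤ reps.length * Nat.card (UU gens) := by
      rw [card_UU hg hL]
      have hZpos : 0 < ZT.size := by
        rcases Nat.eq_zero_or_pos ZT.size with h0 | h0
        · rw [h0, mul_zero] at hcount
          have : 0 < Nat.card H := Nat.card_pos
          omega
        · exact h0
      exact Nat.le_of_mul_le_mul_right (hcount2.trans hcount) hZpos
    -- the representatives
    have hch : ∀ i : Fin reps.length, ∃ g ∈ H, Act (reps[i.1]).1 g ∧ Act (reps[i.1]).2 g⁻¹ :=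
      fun i => hR _ (List.getElem_mem _)
    choose r hrH hr1 hr2 using hch
    have hRs := fun i : Fin reps.length => allL_spec hR1 (reps[i.1]) (List.getElem_mem _)
    simp only [Bool.and_eq_true, Bool.or_eq_true, Bool.not_eq_true'] at hRs
    have hrK : ∀ i, r i ∈ K := by
      intro i
      refine Subgroup.mem_inf.2 ⟨hrH i, Subgroup.mem_centralizer_singleton_iff.2 ?_⟩
      have e : mulT (reps[i.1]).1 zk = mulT zk (reps[i.1]).1 := Nat.eq_of_beq_eq_true (hRs i).1
      have h2 := act_mulT (hr1 i) hz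
      rw [e] at h2
      exact act_unique h2 (act_mulT hz (hr1 i))
    have hdist := distOK_spec hR2
    have hd1 : ∀ i j : Fin reps.length, i < j → (r i)⁻¹ * r j ∉ UU gens := by
      intro i j hij hmem
      obtain ⟨k, hk, hka⟩ := exists_key hg hL hmem
      have h1 := List.pairwise_iff_getElem.1 hdist i.1 j.1 i.2 j.2 hij
      have h2 := act_mulT (hr2 i) (hr1 j)
      have h3 := tab_unique (keys_spec_lt hg hL hk) (mulT_lt _ _) hka h2
      exact h1 (h3 ▸ hk)
    have hd : ∀ i j : Fin reps.length, i ≠ j → (r i)⁻¹ * r j ∉ UU gens := by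
      intro i j hij hmem
      rcases lt_or_gt_of_ne hij with h | h
      · exact hd1 i j h hmem
      · apply hd1 j i h
        have := (UU gens).inv_mem hmem
        simpa using this
    haveI : Finite K := Finite.of_injective (fun u : K => (⟨u.1, u.2.1⟩ : H))
      (fun a b hab => Subtype.ext (congrArg (fun w : H => (w : Pm)) hab))
    obtain ⟨i, hi⟩ := coset_cover K (UU gens) hUK r hrK hd hcK x hxK
    -- `r i` normalizes
    have hriN : r i ∈ Subgroup.normalizer ((UU gens : Subgroup Pm) : Set Pm) := by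
      have e : r i = x * ((r i)⁻¹ * x)⁻¹ := by group
      rw [e]
      exact Subgroup.mul_mem _ hxN (Subgroup.inv_mem _ (Subgroup.le_normalizer hi))
    rcases (hRs i).2 with h1 | h1
    · have e : (reps[i.1]).1 = idT := Nat.eq_of_beq_eq_true h1
      have h2 := hr1 i
      rw [e] at h2
      have h3 := act_unique h2 act_idT
      rw [h3] at hi
      simpa using hi
    · exfalso
      have : allL (fun p => memB (mulT (reps[i.1]).1 (mulT p.1 (reps[i.1]).2)) t.keys) gens = true := by
        rw [allL_iff]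
        intro p hp
        obtain ⟨g, hgU, h2, h3⟩ := exists_of_mem_gens hg hp
        have h4 := (Subgroup.mem_normalizer_iff.1 hriN g).1 hgU
        obtain ⟨k, hk, hka⟩ := exists_key hg hL h4
        have h5 := act_mulT (hr1 i) (act_mulT h2 (hr2 i))
        have e : r i * g * (r i)⁻¹ = r i * (g * (r i)⁻¹) := by group
        rw [e] at hka
        have h6 := tab_unique (keys_spec_lt hg hL hk) (mulT_lt _ _) hka h5
        rw [memB_iff, ← h6]
        exact hk
      rw [this] at h1
      exact absurd h1 (by simp)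
  · -- closed subgroups
    intro T hTU hTne hTcl
    -- `z ∈ T`
    have hzT : z ∈ T := by
      haveI : Finite (UU gens) := Finite.of_injective (fun u : UU gens => (⟨u.1, hUH u.2⟩ : H))
        (fun a b hab => Subtype.ext (congrArg (fun w : H => (w : Pm)) hab))
      haveI : Group.IsNilpotent (UU gens) := hpU.isNilpotent
      let N : Subgroup (UU gens) := T.subgroupOf (UU gens)
      haveI hNn : N.Normal := by
        constructor
        intro b hb g
        show ((g * b * g⁻¹ : UU gens) : Pm) ∈ T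
        exact hTcl _ hb _ (hUH g.2) (g * b * g⁻¹).2
      have hNne : N ≠ ⊥ := by
        intro h
        apply hTne
        rw [eq_bot_iff]
        intro x hx
        have h1 : (⟨x, hTU hx⟩ : UU gens) ∈ N := hx
        rw [h] at h1
        have h2 : (⟨x, hTU hx⟩ : UU gens) = 1 := h1
        exact congrArg Subtype.val h2
      have hinf := Cfsg.Agent.Lib.Basic.normal_inf_center_ne_bot N hNne
      obtain ⟨⟨y, hyN, hyC⟩, hy1⟩ := Subgroup.ne_bot_iff_exists_ne_one.1 hinf
      have hy2 : ∀ u ∈ UU gens, u * (y : Pm) = (y : Pm) * u := by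
        intro u hu
        have h1 := Subgroup.mem_center_iff.1 hyC ⟨u, hu⟩
        exact congrArg Subtype.val h1
      rcases center_eq hg hL hC hz y.2 hy2 with h3 | h3
      · exfalso
        apply hy1
        apply Subtype.ext
        apply Subtype.ext
        exact h3
      · rw [← h3]
        exact hyN
    have hrun := runC_spec hL hg hTU (fun x hx h hh hu => hTcl x hx h hh hu) steps hst [idT, zk] (by
      intro b hb
      simp only [List.mem_cons, List.not_mem_nil, or_false] at hb
      rcases hb with rfl | rfl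
      · exact ⟨1, T.one_mem, act_idT⟩
      · exact ⟨z, hzT, hz⟩)
    rw [UU, Subgroup.closure_le]
    rintro g ⟨p, hp, hpg⟩
    have h1 := memB_iff.1 (allL_spec hchain p hp)
    obtain ⟨x, hx, hxa⟩ := hrun _ h1
    rw [act_unique hpg hxa]
    exact hx

end Cfsg.Agent.Lib.Fusion.MathC
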