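/-
Upper triangular and unitriangular matrices in `SL_n(K)`.
-/
import Mathlib
import Cfsg.Agent.Lib.Transv.Conj

set_option autoImplicit false
set_option linter.unusedSectionVars false
set_option linter.unusedVariables false
set_option linter.unusedSimpArgs false

namespace Cfsg.Agent.Lib.Fusion.PSLF

open Matrix

/-- A subset of a finite group closed under products, as a subgroup. -/
def ofClosed {G : Type*} [Group G] [Finite G] (A : Set G) (h1 : (1 : G) ∈ A) (hm : ∀ a ∈ A, ∀ b ∈ A, a * b ∈ A) : Subgroup G where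
  carrier := A
  mul_mem' := fun {a b} ha hb => hm a ha b hb
  one_mem' := h1
  inv_mem' := by
    intro a ha
    have hpos := orderOf_pos a
    have e : a⁻¹ = a ^ (orderOf a - 1) := by
      apply inv_eq_of_mul_eq_one_right
      rw [← pow_succ', Nat.sub_add_cancel hpos, pow_orderOf_eq_one]
    rw [e]
    generalize orderOf a - 1 = k
    induction k with
    | zero => simpa using h1
    | succ k ih =>
      rw [pow_succ]
      exact hm _ ih _ ha

variable {K : Type*} [Field K] {n : ℕ}

/-- Upper triangular. -/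
def IsUp (m : Matrix (Fin n) (Fin n) K) : Prop := ∀ i j, j < i → m i j = 0

theorem IsUp.mul {a b : Matrix (Fin n) (Fin n) K} (ha : IsUp a) (hb : IsUp b) : IsUp (a * b) := by
  intro i j hij
  rw [Matrix.mul_apply]
  refine Finset.sum_eq_zero (fun l _ => ?_)
  by_cases h : l < i
  · rw [ha i l h, zero_mul]
  · rw [hb l j (lt_of_lt_of_le hij (not_lt.1 h)), mul_zero]

theorem IsUp.mul_diag {a b : Matrix (Fin n) (Fin n) K} (ha : IsUp a) (hb : IsUp b) (i : Fin n) : (a * b) i i = a i i * b i i := by
  rw [Matrix.mul_apply, Finset.sum_eq_single i]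
  · intro l _ hl
    rcases lt_or_gt_of_ne hl with h | h
    · rw [ha i l h, zero_mul]
    · rw [hb l i h, mul_zero]
  · simp

theorem isUp_one : IsUp (1 : Matrix (Fin n) (Fin n) K) := by
  intro i j hij
  exact Matrix.one_apply_ne hij.ne'

theorem IsUp.pow {a : Matrix (Fin n) (Fin n) K} (ha : IsUp a) (k : ℕ) : IsUp (a ^ k) := by
  induction k with
  | zero => simpa using isUp_one
  | succ k ih =>
    rw [pow_succ]
    exact ih.mul ha

theorem IsUp.pow_diag {a : Matrix (Fin n) (Fin n) K} (ha : IsUp a) (k : ℕ) (i : Fin n) : (a ^ k) i i = a i i ^ k := by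
  induction k with
  | zero => simp
  | succ k ih =>
    rw [pow_succ, (ha.pow k).mul_diag ha, ih, pow_succ]

abbrev SLn (n : ℕ) (K : Type*) [Field K] := Matrix.SpecialLinearGroup (Fin n) K

theorem coe_mul_apply (g h : SLn n K) (i j : Fin n) : (g * h).1 i j = ∑ l, g.1 i l * h.1 l j := by
  rw [Matrix.SpecialLinearGroup.coe_mul, Matrix.mul_apply]

/-- The root elements. -/
def rt (a b : Fin n) (hab : a ≠ b) (t : K) : SLn n K := ⟨Matrix.transvection a b t, Matrix.det_transvection_of_ne a b hab t⟩

variable {a b : Fin n} {hab : a ≠ b} {t s : K}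

theorem rt_val : (rt a b hab t).1 = 1 + Matrix.single a b t := rfl

theorem rt_apply (i j : Fin n) : (rt a b hab t).1 i j = (1 : Matrix (Fin n) (Fin n) K) i j + if a = i ∧ b = j then t else 0 := by
  rw [rt_val, Matrix.add_apply, Matrix.single]
  rfl

theorem rt_mul_apply (g : SLn n K) (i j : Fin n) : (rt a b hab t * g).1 i j = g.1 i j + if i = a then t * g.1 b j else 0 := by
  rw [Matrix.SpecialLinearGroup.coe_mul, rt_val, add_mul, one_mul, Matrix.add_apply]
  split_ifs with h
  · subst h
    rw [Matrix.single_mul_apply_same]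
  · rw [Matrix.single_mul_apply_of_ne _ _ _ _ _ h, add_zero]

theorem mul_rt_apply (g : SLn n K) (i j : Fin n) : (g * rt a b hab t).1 i j = g.1 i j + if j = b then g.1 i a * t else 0 := by
  rw [Matrix.SpecialLinearGroup.coe_mul, rt_val, mul_add, mul_one, Matrix.add_apply]
  split_ifs with h
  · subst h
    rw [Matrix.mul_single_apply_same]
  · rw [Matrix.mul_single_apply_of_ne _ _ _ _ _ h, add_zero]

theorem rt_mul_rt : rt a b hab t * rt a b hab s = rt a b hab (t + s) := by
  apply Subtype.ext
  exact Matrix.transvection_mul_transvection_same a b hab t s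

theorem rt_zero : rt a b hab (0 : K) = 1 := by
  apply Subtype.ext
  exact Matrix.transvection_zero a b

theorem rt_inv : (rt a b hab t)⁻¹ = rt a b hab (-t) := by
  apply inv_eq_of_mul_eq_one_right
  rw [rt_mul_rt, add_neg_cancel, rt_zero]

theorem rt_pow (k : ℕ) : rt a b hab t ^ k = rt a b hab (k • t) := by
  induction k with
  | zero =>
    simp only [pow_zero, zero_smul]
    exact rt_zero.symm
  | succ k ih =>
    rw [pow_succ, ih, rt_mul_rt, succ_nsmul]

section Char

variable [Fintype K] {p : ℕ} [hp : Fact p.Prime] [hc : CharP K p]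

theorem rt_pow_p : rt a b hab t ^ p = 1 := by
  rw [rt_pow]
  have : p • t = 0 := by
    rw [nsmul_eq_mul, CharP.cast_eq_zero, zero_mul]
  rw [this, rt_zero]

/-- Root elements have `p`-power order. -/
theorem rt_orderOf : ∃ k : ℕ, orderOf (rt a b hab t) = p ^ k := by
  obtain ⟨j, -, hj⟩ := (Nat.dvd_prime_pow hp.out).1 (show orderOf (rt a b hab t) ∣ p ^ 1 by
    rw [pow_one]
    exact orderOf_dvd_of_pow_eq_one (rt_pow_p (p := p)))
  exact ⟨j, hj⟩

end Char

/-- The upper triangular subgroup. -/
def B0 (n : ℕ) (K : Type*) [Field K] [Fintype K] : Subgroup (SLn n K) :=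
  ofClosed {g | IsUp g.1} isUp_one (fun a ha b hb => IsUp.mul ha hb)

/-- The unitriangular subgroup. -/
def U0 (n : ℕ) (K : Type*) [Field K] [Fintype K] : Subgroup (SLn n K) :=
  ofClosed {g | IsUp g.1 ∧ ∀ i, g.1 i i = 1} ⟨isUp_one, fun i => Matrix.one_apply_eq i⟩ (fun a ha b hb =>
    ⟨IsUp.mul ha.1 hb.1, fun i => by
      show (a.1 * b.1) i i = 1
      rw [ha.1.mul_diag hb.1, ha.2, hb.2, one_mul]⟩)

section Fin

variable [Fintype K]

theorem mem_B0 {g : SLn n K} : g ∈ B0 n K ↔ IsUp g.1 := Iff.rfl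

theorem mem_U0 {g : SLn n K} : g ∈ U0 n K ↔ IsUp g.1 ∧ ∀ i, g.1 i i = 1 := Iff.rfl

theorem U0_le_B0 : U0 n K ≤ B0 n K := fun _ h => h.1

/-- `U0` is normal in `B0`. -/
theorem conj_mem_U0 {m u : SLn n K} (hm : m ∈ B0 n K) (hu : u ∈ U0 n K) : m * u * m⁻¹ ∈ U0 n K := by
  have hi : m⁻¹ ∈ B0 n K := (B0 n K).inv_mem hm
  refine ⟨IsUp.mul (IsUp.mul hm hu.1) hi, fun i => ?_⟩
  show (m.1 * u.1 * (m⁻¹).1) i i = 1
  rw [(IsUp.mul hm hu.1).mul_diag hi, IsUp.mul_diag hm hu.1, hu.2, mul_one, ← IsUp.mul_diag hm hi]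
  have : m.1 * (m⁻¹).1 = 1 := by
    rw [← Matrix.SpecialLinearGroup.coe_mul, mul_inv_cancel]
    rfl
  rw [this]
  exact Matrix.one_apply_eq i

theorem rt_mem_U0 (hab' : a < b) (t : K) : rt a b hab t ∈ U0 n K := by
  constructor
  · intro i j hij
    rw [rt_apply, Matrix.one_apply_ne hij.ne', zero_add, if_neg]
    rintro ⟨rfl, rfl⟩
    exact absurd hij (not_lt.2 hab'.le)
  · intro i
    rw [rt_apply, Matrix.one_apply_eq, if_neg, add_zero]
    rintro ⟨rfl, rfl⟩
    exact hab.elim rfl

/-- `p`-power order for unitriangular matrices. -/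
theorem exists_pow_eq_one_U0 {p : ℕ} [hp : Fact p.Prime] [hc : CharP K p] (k : ℕ) (hk : n ≤ p ^ k) {u : SLn n K} (hu : u ∈ U0 n K) : u ^ p ^ k = 1 := by
  rcases Nat.eq_zero_or_pos n with rfl | hn
  · apply Subtype.ext
    ext i
    exact i.elim0
  haveI : Nonempty (Fin n) := ⟨⟨0, hn⟩⟩
  set N : Matrix (Fin n) (Fin n) K := u.1 - 1 with hN
  have hNe : ∀ i j : Fin n, j ≤ i → N i j = 0 := by
    intro i j hij
    rw [hN, Matrix.sub_apply]
    rcases eq_or_lt_of_le hij with h | h
    · rw [h, hu.2, Matrix.one_apply_eq, sub_self]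
    · rw [hu.1 i j h, Matrix.one_apply_ne h.ne', sub_self]
  have hpow : ∀ (m : ℕ) (i j : Fin n), (j : ℕ) < (i : ℕ) + m → (N ^ m) i j = 0 := by
    intro m
    induction m with
    | zero =>
      intro i j hij
      rw [pow_zero, Matrix.one_apply_ne]
      rintro rfl
      simp at hij
    | succ m ih =>
      intro i j hij
      rw [pow_succ', Matrix.mul_apply]
      refine Finset.sum_eq_zero (fun l _ => ?_)
      by_cases h : l ≤ i
      · rw [hNe i l h, zero_mul]
      · have h2 : (i : ℕ) < l := not_le.1 h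
        rw [ih l j (by omega), mul_zero]
  have h0 : N ^ p ^ k = 0 := by
    ext i j
    rw [hpow _ i j (by have := j.2; omega)]
    rfl
  apply Subtype.ext
  have e1 : ((u ^ p ^ k : SLn n K)).1 = u.1 ^ p ^ k := by
    simp [Matrix.SpecialLinearGroup.coe_pow]
  rw [e1]
  have e2 : u.1 = N + 1 := by
    rw [hN, sub_add_cancel]
  rw [e2]
  haveI : CharP (Matrix (Fin n) (Fin n) K) p := Matrix.charP p
  haveI : ExpChar (Matrix (Fin n) (Fin n) K) p := ExpChar.prime hp.out
  rw [add_pow_expChar_pow_of_commute p k (Commute.one_right N), h0, zero_add, one_pow]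
  rfl

end Fin

section Scalars

variable [Fintype K] {p : ℕ} [hp : Fact p.Prime] [hc : CharP K p]

omit [Fintype K] in
theorem field_pow_inj {k : ℕ} {x y : K} (h : x ^ p ^ k = y ^ p ^ k) : x = y := by
  haveI : ExpChar K p := ExpChar.prime hp.out
  have h1 : (x - y) ^ p ^ k = 0 := by
    rw [sub_pow_expChar_pow, h, sub_self]
  exact sub_eq_zero.1 (pow_eq_zero_iff (pow_ne_zero _ hp.out.ne_zero) |>.1 h1)

/-- Scalars in `SL_n`. -/
def zc (c : K) (h : c ^ n = 1) : SLn n K := ⟨Matrix.scalar (Fin n) c, by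
  rw [Matrix.scalar_apply, Matrix.det_diagonal]
  simp [h]⟩

theorem zc_apply {c : K} {h : c ^ n = 1} (i j : Fin n) : (zc c h).1 i j = if i = j then c else 0 := by
  show Matrix.scalar (Fin n) c i j = _
  simp [Matrix.scalar_apply, Matrix.diagonal_apply]

theorem zc_mem_center {c : K} {h : c ^ n = 1} : zc c h ∈ Subgroup.center (SLn n K) := by
  rw [Matrix.SpecialLinearGroup.mem_center_iff]
  exact ⟨c, by simpa using h, rfl⟩

theorem exists_zc_of_center {z : SLn n K} (hz : z ∈ Subgroup.center (SLn n K)) : ∃ (c : K) (h : c ^ n = 1), z = zc c h := by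
  rw [Matrix.SpecialLinearGroup.mem_center_iff] at hz
  obtain ⟨r, hr, hz⟩ := hz
  have hr' : r ^ n = 1 := by simpa using hr
  exact ⟨r, hr', Subtype.ext hz.symm⟩

omit [Fintype K] in
theorem center_pow_eq_one {z : SLn n K} (hz : z ∈ Subgroup.center (SLn n K)) {k : ℕ} (h : z ^ p ^ k = 1) : z = 1 := by
  rcases Nat.eq_zero_or_pos n with rfl | hn
  · apply Subtype.ext
    ext i
    exact i.elim0
  rw [Matrix.SpecialLinearGroup.mem_center_iff] at hz
  obtain ⟨r, hr, hz⟩ := hz
  have hr' : r ^ n = 1 := by simpa using hr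
  have h1 : r ^ p ^ k = 1 ^ p ^ k := by
    have h2 := congrArg (fun x : SLn n K => x.1 ⟨0, hn⟩ ⟨0, hn⟩) h
    simp only [Matrix.SpecialLinearGroup.coe_pow, ← hz, Matrix.SpecialLinearGroup.coe_one] at h2
    rw [one_pow]
    have h3 : (Matrix.scalar (Fin n) r) ^ p ^ k = Matrix.scalar (Fin n) (r ^ p ^ k) := by
      rw [map_pow]
    rw [h3] at h2
    simpa [Matrix.scalar_apply] using h2
  have h4 : r = 1 := field_pow_inj h1
  apply Subtype.ext
  rw [← hz, h4]
  simp

/-- Two `p`-elements in the same coset of the centre are equal. -/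
theorem eq_of_mul_center {a b : SLn n K} {k : ℕ} (ha : a ^ p ^ k = 1) (hb : b ^ p ^ k = 1) (h : a⁻¹ * b ∈ Subgroup.center (SLn n K)) : a = b := by
  have h1 : b = a * (a⁻¹ * b) := by group
  have hc : Commute a (a⁻¹ * b) := (Subgroup.mem_center_iff.1 h a)
  have h2 : (a⁻¹ * b) ^ p ^ k = 1 := by
    have h3 : b ^ p ^ k = (a * (a⁻¹ * b)) ^ p ^ k := by rw [← h1]
    rw [hc.mul_pow, ha, one_mul, hb] at h3
    exact h3.symm
  have h4 := center_pow_eq_one h h2
  rw [h1, h4, mul_one]

theorem exists_pow_U0 (u : SLn n K) (hu : u ∈ U0 n K) : u ^ p ^ n = 1 :=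
  exists_pow_eq_one_U0 n (Nat.lt_pow_self hp.out.one_lt).le hu

/-- Conjugates of unitriangular matrices that stay unitriangular modulo scalars. -/
theorem conj_eq_of_mul_center (p : ℕ) [Fact p.Prime] [CharP K p] {m u u' : SLn n K} (hu : u ∈ U0 n K) (hu' : u' ∈ U0 n K) (h : (m * u * m⁻¹)⁻¹ * u' ∈ Subgroup.center (SLn n K)) :
    m * u * m⁻¹ = u' := by
  refine eq_of_mul_center (p := p) (k := n) ?_ (exists_pow_U0 u' hu') h
  have e : (m * u * m⁻¹) ^ p ^ n = m * u ^ p ^ n * m⁻¹ := by
    rw [conj_pow]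
  rw [e, exists_pow_U0 u hu, mul_one, mul_inv_cancel]

end Scalars

section Norm

variable [Fintype K]

/-- Normalizing `U0` forces upper triangular. -/
theorem isUp_of_norm (m : SLn n K) (h : ∀ (c d : Fin n) (hcd : c < d), ∃ u ∈ U0 n K, rt c d hcd.ne 1 * m = m * u) : IsUp m.1 := by
  have key : ∀ (k : ℕ) (j i : Fin n), (j : ℕ) = k → j < i → m.1 i j = 0 := by
    intro k
    induction k using Nat.strong_induction_on with
    | _ k ih =>
      intro j i hjk hji
      obtain ⟨u, hu, he⟩ := h j i hji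
      have h1 : (rt j i hji.ne 1 * m).1 j j = (m * u).1 j j := by rw [he]
      rw [rt_mul_apply, coe_mul_apply, if_pos rfl, one_mul, Finset.sum_eq_single j] at h1
      · rw [hu.2, mul_one] at h1
        simpa using h1
      · intro l _ hl
        rcases lt_or_gt_of_ne hl with h2 | h2
        · rw [ih l (by rw [← hjk]; exact h2) l j rfl h2, zero_mul]
        · rw [hu.1 l j h2, mul_zero]
      · simp
  intro i j hij
  exact key j j i rfl hij

theorem det_of_isUp (m : Matrix (Fin n) (Fin n) K) (h : IsUp m) : m.det = ∏ i, m i i :=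
  Matrix.det_of_isUpperTriangular (fun i j hij => h i j hij)

/-- An upper triangular matrix with constant diagonal is a scalar times a unitriangular one. -/
theorem exists_zc_mul_of_const {m : SLn n K} (hm : IsUp m.1) {c : K} (hc : ∀ i, m.1 i i = c) :
    ∃ (h : c ^ n = 1) (u : SLn n K), u ∈ U0 n K ∧ m = zc c h * u ∧ ∀ i j, i ≠ j → u.1 i j = c⁻¹ * m.1 i j := by
  have h1 : c ^ n = 1 := by
    have := det_of_isUp m.1 hm
    rw [m.2] at this
    simp only [hc, Finset.prod_const, Finset.card_univ, Fintype.card_fin] at this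
    exact this.symm
  rcases Nat.eq_zero_or_pos n with rfl | hn
  · refine ⟨h1, 1, Subgroup.one_mem _, ?_, fun i => i.elim0⟩
    apply Subtype.ext
    ext i
    exact i.elim0
  have hc0 : c ≠ 0 := by
    rintro rfl
    rw [zero_pow hn.ne'] at h1
    exact zero_ne_one h1
  have h2 : (c⁻¹) ^ n = 1 := by
    rw [inv_pow, h1, inv_one]
  refine ⟨h1, zc c⁻¹ h2 * m, ?_, ?_, ?_⟩
  · have eapp : ∀ i j, (zc c⁻¹ h2 * m).1 i j = c⁻¹ * m.1 i j := by
      intro i j
      rw [coe_mul_apply, Finset.sum_eq_single i]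
      · rw [zc_apply, if_pos rfl]
      · intro l _ hl
        rw [zc_apply, if_neg hl.symm, zero_mul]
      · simp
    refine ⟨fun i j hij => ?_, fun i => ?_⟩
    · rw [eapp, hm i j hij, mul_zero]
    · rw [eapp, hc, inv_mul_cancel₀ hc0]
  · rw [← mul_assoc]
    have : zc c h1 * zc c⁻¹ h2 = 1 := by
      apply Subtype.ext
      ext i j
      rw [coe_mul_apply, Finset.sum_eq_single i]
      · rw [zc_apply, zc_apply, if_pos rfl]
        by_cases hij : i = j
        · subst hij
          simp [hc0]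
        · simp [hij]
      · intro l _ hl
        rw [zc_apply, if_neg hl.symm, zero_mul]
      · simp
    rw [this, one_mul]
  · intro i j hij
    rw [coe_mul_apply, Finset.sum_eq_single i]
    · rw [zc_apply, if_pos rfl]
    · intro l _ hl
      rw [zc_apply, if_neg hl.symm, zero_mul]
    · simp

/-- Diagonal elements. -/
def IsDg (g : SLn n K) : Prop := ∀ i j, i ≠ j → g.1 i j = 0

/-- Upper triangular = diagonal times unitriangular. -/
theorem exists_dg_mul (m : SLn n K) (hm : IsUp m.1) : ∃ d u : SLn n K, IsDg d ∧ u ∈ U0 n K ∧ m = d * u := by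
  have hdet : ∏ i, m.1 i i = 1 := by
    rw [← det_of_isUp m.1 hm]
    exact m.2
  have hne : ∀ i, m.1 i i ≠ 0 := by
    intro i h0
    have : ∏ i, m.1 i i = 0 := Finset.prod_eq_zero (Finset.mem_univ i) h0
    rw [hdet] at this
    exact one_ne_zero this
  let d : SLn n K := ⟨Matrix.diagonal (fun i => m.1 i i), by rw [Matrix.det_diagonal, hdet]⟩
  let d' : SLn n K := ⟨Matrix.diagonal (fun i => (m.1 i i)⁻¹), by rw [Matrix.det_diagonal, Finset.prod_inv_distrib, hdet, inv_one]⟩
  have hdd' : d * d' = 1 := by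
    apply Subtype.ext
    show Matrix.diagonal _ * Matrix.diagonal _ = 1
    rw [Matrix.diagonal_mul_diagonal]
    ext i j
    by_cases hij : i = j
    · subst hij
      simp [hne]
    · simp [hij, Matrix.one_apply_ne hij]
  have eapp : ∀ i j, (d' * m).1 i j = (m.1 i i)⁻¹ * m.1 i j := by
    intro i j
    show (Matrix.diagonal (fun i => (m.1 i i)⁻¹) * m.1) i j = _
    rw [Matrix.diagonal_mul]
  refine ⟨d, d' * m, fun i j hij => Matrix.diagonal_apply_ne _ hij, ⟨fun i j hij => ?_, fun i => ?_⟩, ?_⟩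
  · rw [eapp, hm i j hij, mul_zero]
  · rw [eapp, inv_mul_cancel₀ (hne i)]
  · rw [← mul_assoc, hdd', one_mul]

end Norm

section Entries

variable [Fintype K]

/-- On unitriangular matrices an adjacent entry is additive. -/
theorem U0_entry_add {a b : Fin n} (hadj : (a : ℕ) + 1 = (b : ℕ)) {g h : SLn n K} (hg : g ∈ U0 n K) (hh : h ∈ U0 n K) :
    (g * h).1 a b = g.1 a b + h.1 a b := by
  have hab : a ≠ b := by
    intro e
    rw [e] at hadj
    omega
  rw [coe_mul_apply, Finset.sum_eq_add a b hab]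
  · rw [hg.2, hh.2, one_mul, mul_one, add_comm]
  · intro l _ hl
    by_cases h1 : l < a
    · rw [hg.1 a l h1, zero_mul]
    · have h2 : b < l := by
        have h3 : (a : ℕ) ≠ l := fun e => hl.1 (Fin.ext e.symm)
        have h4 : (b : ℕ) ≠ l := fun e => hl.2 (Fin.ext e.symm)
        rw [Fin.lt_def] at h1 ⊢
        omega
      rw [hh.1 l b h2, mul_zero]
  · simp
  · simp

/-- The unipotent radical of the minimal parabolic at `(a,a+1)`. -/
def Rab (a b : Fin n) (hadj : (a : ℕ) + 1 = (b : ℕ)) : Subgroup (SLn n K) :=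
  ofClosed {g | g ∈ U0 n K ∧ g.1 a b = 0} ⟨Subgroup.one_mem _, by
    have hab : a ≠ b := by
      intro e
      rw [e] at hadj
      omega
    exact Matrix.one_apply_ne hab⟩ (fun g hg h hh => ⟨(U0 n K).mul_mem hg.1 hh.1, by
      rw [U0_entry_add hadj hg.1 hh.1, hg.2, hh.2, add_zero]⟩)

theorem mem_Rab {a b : Fin n} {hadj : (a : ℕ) + 1 = (b : ℕ)} {g : SLn n K} : g ∈ Rab a b hadj ↔ g ∈ U0 n K ∧ g.1 a b = 0 := Iff.rfl

/-- `U0` normalizes `Rab`. -/
theorem conj_mem_Rab_of_U0 {a b : Fin n} {hadj : (a : ℕ) + 1 = (b : ℕ)} {x r : SLn n K} (hx : x ∈ U0 n K) (hr : r ∈ Rab a b hadj) : x * r * x⁻¹ ∈ Rab a b hadj := by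
  have h1 : x * r * x⁻¹ ∈ U0 n K := (U0 n K).mul_mem ((U0 n K).mul_mem hx hr.1) ((U0 n K).inv_mem hx)
  refine ⟨h1, ?_⟩
  have e : (x * r * x⁻¹) * x = x * r := by group
  have h2 : ((x * r * x⁻¹) * x).1 a b = (x * r).1 a b := by rw [e]
  rw [U0_entry_add hadj h1 hx, U0_entry_add hadj hx hr.1, hr.2, add_zero] at h2
  exact add_eq_right.1 h2

/-- The opposite root element normalizes `Rab`. -/
theorem conj_mem_Rab_of_opp {a b : Fin n} {hadj : (a : ℕ) + 1 = (b : ℕ)} {hba : b ≠ a} (s : K) {r : SLn n K} (hr : r ∈ Rab a b hadj) : rt b a hba s * r * (rt b a hba s)⁻¹ ∈ Rab a b hadj := by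
  rw [rt_inv]
  have hab : a < b := by
    rw [Fin.lt_def]
    omega
  have eapp : ∀ k l, (rt b a hba s * r * rt b a hba (-s)).1 k l = r.1 k l + (if k = b then s * r.1 a l else 0) + (if l = a then (r.1 k b + (if k = b then s * r.1 a b else 0)) * (-s) else 0) := by
    intro k l
    rw [mul_rt_apply, rt_mul_apply, rt_mul_apply]
  have hr0 : r.1 a b = 0 := hr.2
  refine ⟨⟨fun k l hkl => ?_, fun k => ?_⟩, ?_⟩
  · rw [eapp, hr.1.1 k l hkl, hr0, zero_add]
    by_cases hk : k = b
    · subst hk
      by_cases hl : l = a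
      · subst hl
        simp [hr.1.2]
      · have hl2 : l < a := by
          rw [Fin.lt_def] at hkl ⊢
          have h4 : (l : ℕ) ≠ a := fun e => hl (Fin.ext e)
          omega
        simp [hl, hr.1.1 a l hl2]
    · by_cases hl : l = a
      · subst hl
        have h3 : b < k := by
          rw [Fin.lt_def] at hkl ⊢
          have h4 : (k : ℕ) ≠ b := fun e => hk (Fin.ext e)
          omega
        simp [hk, hr.1.1 k b h3]
      · simp [hk, hl]
  · rw [eapp, hr0]
    by_cases hk : k = b
    · subst hk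
      simp [hr.1.2, hba, hr0]
    · by_cases hl : k = a
      · subst hl
        simp [hr.1.2, hr0, hab.ne]
      · simp [hk, hl, hr.1.2]
  · show (rt b a hba s * r * rt b a hba (-s)).1 a b = 0
    rw [eapp, hr0]
    simp [hab.ne, hab.ne']

end Entries

section Centralizer

variable [Fintype K]

theorem commute_facts {c d : Fin n} {hcd : c ≠ d} {g : SLn n K} (h : rt c d hcd 1 * g = g * rt c d hcd 1) :
    (∀ k, k ≠ c → g.1 k c = 0) ∧ (∀ l, l ≠ d → g.1 d l = 0) ∧ g.1 d d = g.1 c c := by
  have e : ∀ k l, (if k = c then g.1 d l else 0) = (if l = d then g.1 k c else 0) := by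
    intro k l
    have h1 : (rt c d hcd 1 * g).1 k l = (g * rt c d hcd 1).1 k l := by rw [h]
    rw [rt_mul_apply, mul_rt_apply, add_right_inj] at h1
    simpa using h1
  refine ⟨fun k hk => ?_, fun l hl => ?_, ?_⟩
  · have := e k d
    simpa [hk] using this.symm
  · have := e c l
    simpa [hl] using this
  · have := e c d
    simpa using this

/-- Centralizer of `Rab` for `n ≥ 3`. -/
theorem exists_of_commute_Rab (hn : 3 ≤ n) {a b : Fin n} {hadj : (a : ℕ) + 1 = (b : ℕ)} {g : SLn n K}
    (h : ∀ (c d : Fin n) (hcd : c < d), (c, d) ≠ (a, b) → rt c d hcd.ne 1 * g = g * rt c d hcd.ne 1) :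
    ∃ z u : SLn n K, z ∈ Subgroup.center (SLn n K) ∧ u ∈ Rab a b hadj ∧ g = z * u := by
  let top : Fin n := ⟨n - 1, by omega⟩
  let bot : Fin n := ⟨0, by omega⟩
  have hle : ∀ x : Fin n, (x : ℕ) ≤ n - 1 := fun x => by have := x.2; omega
  have hF := fun (c d : Fin n) (hcd : c < d) (hne : (c, d) ≠ (a, b)) => commute_facts (h c d hcd hne)
  have hup : IsUp g.1 := by
    intro k l hlk
    have hlt : l < top := by
      rw [Fin.lt_def] at hlk ⊢
      have := hle k
      show (l : ℕ) < n - 1
      omega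
    by_cases hne : (l, top) = (a, b)
    · have hla : l = a := congrArg Prod.fst hne
      have htb : top = b := congrArg Prod.snd hne
      have hkb : k = b := by
        apply Fin.ext
        have e1 : (top : ℕ) = b := congrArg Fin.val htb
        have e2 : (l : ℕ) = a := congrArg Fin.val hla
        rw [Fin.lt_def] at hlk
        have := hle k
        show (k : ℕ) = b
        have e3 : (top : ℕ) = n - 1 := rfl
        omega
      have hbb : bot < b := by
        rw [Fin.lt_def]
        show 0 < (b : ℕ)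
        omega
      have hne2 : (bot, b) ≠ (a, b) := by
        intro e
        have e1 : bot = a := congrArg Prod.fst e
        have e2 : (bot : ℕ) = a := congrArg Fin.val e1
        have e3 : (top : ℕ) = b := congrArg Fin.val htb
        have e4 : (top : ℕ) = n - 1 := rfl
        have e5 : (bot : ℕ) = 0 := rfl
        omega
      rw [hkb]
      exact (hF bot b hbb hne2).2.1 l (by rw [← hkb]; exact hlk.ne)
    · exact (hF l top hlt hne).1 k hlk.ne'
  have hdiag : ∀ i j : Fin n, i < j → g.1 i i = g.1 j j := by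
    intro i j hij
    by_cases hne : (i, j) = (a, b)
    · have hia : i = a := congrArg Prod.fst hne
      have hjb : j = b := congrArg Prod.snd hne
      subst hia
      subst hjb
      by_cases hi0 : i = bot
      · have hjt : j < top := by
          rw [Fin.lt_def]
          have e : (i : ℕ) = 0 := congrArg Fin.val hi0
          show (j : ℕ) < n - 1
          omega
        have hit : i < top := hij.trans hjt
        have h1 := (hF i top hit (by
          intro e
          exact hjt.ne (congrArg Prod.snd e).symm)).2.2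
        have h2 := (hF j top hjt (by
          intro e
          exact hij.ne' (congrArg Prod.fst e))).2.2
        rw [← h1, h2]
      · have hbi : bot < i := by
          rw [Fin.lt_def]
          have : (i : ℕ) ≠ 0 := fun e => hi0 (Fin.ext e)
          show 0 < (i : ℕ)
          omega
        have h1 := (hF bot i hbi (by
          intro e
          exact hi0 (congrArg Prod.fst e).symm)).2.2
        have h2 := (hF bot j (hbi.trans hij) (by
          intro e
          exact hi0 (congrArg Prod.fst e).symm)).2.2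
        rw [h1, h2]
    · exact ((hF i j hij hne).2.2).symm
  have hconst : ∀ i, g.1 i i = g.1 bot bot := by
    intro i
    by_cases hi : i = bot
    · rw [hi]
    · have hbi : bot < i := by
        rw [Fin.lt_def]
        have : (i : ℕ) ≠ 0 := fun e => hi (Fin.ext e)
        show 0 < (i : ℕ)
        omega
      exact (hdiag bot i hbi).symm
  obtain ⟨h1, u, hu, hgu, huv⟩ := exists_zc_mul_of_const hup hconst
  refine ⟨zc _ h1, u, zc_mem_center, ⟨hu, ?_⟩, hgu⟩
  have hab : a ≠ b := by
    intro e
    rw [e] at hadj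
    omega
  rw [huv a b hab]
  have h0 : g.1 a b = 0 := by
    by_cases hbt : b = top
    · have hbot : bot < a := by
        rw [Fin.lt_def]
        have e : (b : ℕ) = n - 1 := congrArg Fin.val hbt
        show 0 < (a : ℕ)
        omega
      exact (hF bot a hbot (by
        intro e
        exact hbot.ne (congrArg Prod.fst e))).2.1 b hab.symm
    · have hbt' : b < top := by
        rw [Fin.lt_def]
        have := hle b
        have h5 : (b : ℕ) ≠ n - 1 := fun e => hbt (Fin.ext e)
        show (b : ℕ) < n - 1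
        omega
      exact (hF b top hbt' (by
        intro e
        exact hab (congrArg Prod.fst e).symm)).1 a hab
  rw [h0, mul_zero]

/-- The centre of `U0`. -/
theorem exists_rt_of_commute_U0 (hn : 2 ≤ n) {g : SLn n K} (hg : g ∈ U0 n K)
    (h : ∀ (c d : Fin n) (hcd : c < d), rt c d hcd.ne 1 * g = g * rt c d hcd.ne 1) :
    ∃ (hbt : (⟨0, by omega⟩ : Fin n) ≠ ⟨n - 1, by omega⟩) (s : K), g = rt _ _ hbt s := by
  let top : Fin n := ⟨n - 1, by omega⟩
  let bot : Fin n := ⟨0, by omega⟩
  have hbt : bot < top := by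
    rw [Fin.lt_def]
    show 0 < n - 1
    omega
  have hF := fun (c d : Fin n) (hcd : c < d) => commute_facts (h c d hcd)
  refine ⟨hbt.ne, g.1 bot top, ?_⟩
  apply Subtype.ext
  ext k l
  rw [rt_apply]
  by_cases hkl : k = l
  · subst hkl
    rw [hg.2, Matrix.one_apply_eq, if_neg, add_zero]
    rintro ⟨h1, h2⟩
    exact hbt.ne (h1.trans h2.symm)
  · rw [Matrix.one_apply_ne hkl, zero_add]
    by_cases hk : k = bot
    · by_cases hl : l = top
      · subst hk
        subst hl
        rw [if_pos ⟨rfl, rfl⟩]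
      · rw [if_neg (fun e => hl e.2.symm)]
        have hlt : l < top := by
          rw [Fin.lt_def]
          have := l.2
          have h5 : (l : ℕ) ≠ n - 1 := fun e => hl (Fin.ext e)
          show (l : ℕ) < n - 1
          omega
        exact (hF l top hlt).1 k hkl
    · rw [if_neg (fun e => hk e.1.symm)]
      have hbk : bot < k := by
        rw [Fin.lt_def]
        have : (k : ℕ) ≠ 0 := fun e => hk (Fin.ext e)
        show 0 < (k : ℕ)
        omega
      exact (hF bot k hbk).2.1 l (Ne.symm hkl)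

end Centralizer

end Cfsg.Agent.Lib.Fusion.PSLF
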