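/-
Generation of the unitriangular group, conjugacy of root elements, torus elements.
-/
import Cfsg.Agent.Lib.Fusion.PSLMat

set_option autoImplicit false
set_option linter.unusedSectionVars false
set_option linter.unusedVariables false
set_option linter.unusedSimpArgs false

namespace Cfsg.Agent.Lib.Fusion.PSLF

open Matrix

variable {K : Type*} [Field K] {n : ℕ} [Fintype K]

/-- Generators of the unitriangular group. -/
def Gen (n : ℕ) (K : Type*) [Field K] : Subgroup (SLn n K) :=
  Subgroup.closure {g | ∃ (c d : Fin n) (h : c < d) (t : K), g = rt c d h.ne t}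

theorem rt_mem_Gen {c d : Fin n} (h : c < d) (t : K) : rt c d h.ne t ∈ Gen n K :=
  Subgroup.subset_closure ⟨c, d, h, t, rfl⟩

theorem elim_aux (e f : ℕ) (he : 1 ≤ e) (hf : f ≤ n) (u : SLn n K) (hu : u ∈ U0 n K)
    (hZ : ∀ i j : Fin n, i < j → ((j : ℕ) - i < e ∨ ((j : ℕ) - i = e ∧ (i : ℕ) < f)) → u.1 i j = 0) : u ∈ Gen n K := by
  induction' hm : (n - e) * (n + 1) + (n - f) using Nat.strong_induction_on with m ih generalizing e f u
  by_cases hen : n ≤ e
  · have : u = 1 := by
      apply Subtype.ext
      ext i j
      rcases lt_trichotomy i j with h | h | h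
      · rw [hZ i j h (Or.inl (by have := j.2; omega)), Matrix.SpecialLinearGroup.coe_one, Matrix.one_apply_ne h.ne]
      · rw [h, hu.2]
        simp
      · rw [hu.1 i j h, Matrix.SpecialLinearGroup.coe_one, Matrix.one_apply_ne h.ne']
    rw [this]
    exact Subgroup.one_mem _
  · have hen' : e < n := not_le.1 hen
    rcases eq_or_lt_of_le hf with hfe | hfn
    · refine ih _ ?_ (e + 1) 0 (by omega) (by omega) u hu (fun i j hij h => ?_) rfl
      · obtain ⟨x, hx⟩ : ∃ x, n - e = x + 1 := ⟨n - e - 1, by omega⟩
        have hx2 : n - (e + 1) = x := by omega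
        rw [← hm, hx, hx2, hfe]
        simp only [Nat.sub_self, add_zero, Nat.sub_zero]
        nlinarith
      · rcases h with h | h
        · by_cases h2 : (j : ℕ) - i < e
          · exact hZ i j hij (Or.inl h2)
          · exact hZ i j hij (Or.inr ⟨by omega, by rw [hfe]; exact i.2⟩)
        · simp at h
    · by_cases hfe : n ≤ f + e
      · refine ih _ ?_ e (f + 1) he hfn u hu (fun i j hij h => ?_) rfl
        · rw [← hm]
          omega
        · rcases h with h | ⟨h1, h2⟩
          · exact hZ i j hij (Or.inl h)
          · have h3 : (i : ℕ) ≠ f := by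
              intro h4
              have := j.2
              omega
            exact hZ i j hij (Or.inr ⟨h1, by omega⟩)
      · have hfe' : f + e < n := not_le.1 hfe
        let a : Fin n := ⟨f, hfn⟩
        let b : Fin n := ⟨f + e, hfe'⟩
        have hab : a < b := by
          rw [Fin.lt_def]
          show f < f + e
          omega
        set s := u.1 a b with hs
        have hu' : rt a b hab.ne (-s) * u ∈ U0 n K := (U0 n K).mul_mem (rt_mem_U0 hab _) hu
        have h1 := ih _ (by rw [← hm]; omega) e (f + 1) he hfn _ hu' (fun i j hij h => ?_) rfl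
        · have e1 : u = rt a b hab.ne s * (rt a b hab.ne (-s) * u) := by
            rw [← mul_assoc, rt_mul_rt, add_neg_cancel, rt_zero, one_mul]
          rw [e1]
          exact (Gen n K).mul_mem (rt_mem_Gen hab _) h1
        · rw [rt_mul_apply]
          by_cases hia : i = a
          · rw [if_pos hia]
            have hia' : (i : ℕ) = f := congrArg Fin.val hia
            by_cases hjb : j = b
            · rw [hjb, hu.2, hia, ← hs]
              ring
            · have hjlt : (j : ℕ) - i < e := by
                have h5 : (j : ℕ) ≠ f + e := fun e5 => hjb (Fin.ext e5)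
                rcases h with h | ⟨h1, h2⟩
                · exact h
                · rw [Fin.lt_def] at hij
                  omega
              rw [hZ i j hij (Or.inl hjlt), zero_add]
              have hjb' : j < b := by
                rw [Fin.lt_def] at hij ⊢
                show (j : ℕ) < f + e
                omega
              rw [hu.1 b j hjb', mul_zero]
          · rw [if_neg hia, add_zero]
            have hia' : (i : ℕ) ≠ f := fun e5 => hia (Fin.ext e5)
            rcases h with h | ⟨h1, h2⟩
            · exact hZ i j hij (Or.inl h)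
            · exact hZ i j hij (Or.inr ⟨h1, by omega⟩)

theorem U0_le_Gen : U0 n K ≤ Gen n K := by
  intro u hu
  refine elim_aux 1 0 le_rfl (Nat.zero_le _) u hu (fun i j hij h => ?_)
  rw [Fin.lt_def] at hij
  rcases h with h | h
  · omega
  · omega

theorem Gen_le_U0 : Gen n K ≤ U0 n K := by
  rw [Gen, Subgroup.closure_le]
  rintro _ ⟨c, d, h, t, rfl⟩
  exact rt_mem_U0 h t

theorem Gen_eq_U0 : Gen n K = U0 n K := le_antisymm Gen_le_U0 U0_le_Gen

/-- Root elements are conjugate in `SL_n`, `n ≥ 3`. -/
theorem exists_conj_rt (hn : 3 ≤ n) {a b a' b' : Fin n} (hab : a ≠ b) (hab' : a' ≠ b') {t t' : K} (ht : t ≠ 0) (ht' : t' ≠ 0) :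
    ∃ G : SLn n K, G * rt a b hab t * G⁻¹ = rt a' b' hab' t' := by
  classical
  have hv : ∀ (x y : Fin n) (c : K), vecMulVec (Pi.single x c : Fin n → K) (Pi.single y (1 : K)) = Matrix.single x y c := by
    intro x y c
    ext i j
    rw [Matrix.vecMulVec_apply, Matrix.single_apply]
    by_cases h1 : x = i
    · subst h1
      by_cases h2 : y = j
      · subst h2
        simp
      · simp [h2, Pi.single_apply, Ne.symm h2]
    · simp [h1, Pi.single_apply, Ne.symm h1]
  have hne1 : ∀ (x : Fin n) (c : K), c ≠ 0 → (Pi.single x c : Fin n → K) ≠ 0 := by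
    intro x c hc h
    have := congrFun h x
    simp at this
    exact hc this
  have hdot : ∀ (x y : Fin n) (c : K), x ≠ y → (Pi.single y (1 : K) : Fin n → K) ⬝ᵥ (Pi.single x c) = 0 := by
    intro x y c hxy
    rw [dotProduct_single]
    simp [Pi.single_apply, hxy]
  obtain ⟨G, h1, h2⟩ := Cfsg.Agent.Lib.Transv.exists_SL_of_pairs (ι := Fin n) (F := K) (hne1 a t ht) (hne1 a' t' ht') (hne1 b 1 one_ne_zero) (hne1 b' 1 one_ne_zero)
    (hdot a b t hab) (hdot a' b' t' hab') (by simpa using hn)
  have h3 := Cfsg.Agent.Lib.Transv.mul_one_add_vecMulVec h1 h2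
  rw [hv, hv] at h3
  refine ⟨G, ?_⟩
  have h4 : G * rt a b hab t = rt a' b' hab' t' * G := Subtype.ext h3
  rw [h4, mul_inv_cancel_right]

/-- Torus elements. -/
def hh (a b : Fin n) (hab : a ≠ b) (t : K) (ht : t ≠ 0) : SLn n K :=
  ⟨Matrix.diagonal (fun i => if i = a then t else if i = b then t⁻¹ else 1), by
    rw [Matrix.det_diagonal, Finset.prod_eq_mul a b hab]
    · simp [hab.symm, ht]
    · intro c _ hc
      simp [hc.1, hc.2]
    · simp
    · simp⟩

theorem hh_val {a b : Fin n} {hab : a ≠ b} {t : K} {ht : t ≠ 0} : (hh a b hab t ht).1 = Matrix.diagonal (fun i => if i = a then t else if i = b then t⁻¹ else 1) := rfl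

theorem hh_mem_B0 {a b : Fin n} {hab : a ≠ b} {t : K} {ht : t ≠ 0} : hh a b hab t ht ∈ B0 n K := by
  intro i j hij
  exact Matrix.diagonal_apply_ne _ hij.ne'

theorem hh_eq (a b : Fin n) (hab : a ≠ b) (t : K) (ht : t ≠ 0) :
    hh a b hab t ht = rt a b hab t * rt b a hab.symm (-t⁻¹) * rt a b hab t * rt a b hab (-1) * rt b a hab.symm 1 * rt a b hab (-1) := by
  apply Subtype.ext
  ext i j
  simp only [mul_rt_apply, rt_apply, hh_val]
  rw [Matrix.diagonal_apply]
  by_cases h1 : i = a
  · subst h1
    by_cases h2 : j = i
    · subst h2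
      simp [hab, hab.symm, ht]
    · by_cases h3 : j = b
      · subst h3
        simp [hab, hab.symm, ht]
      · simp [hab, hab.symm, ht, h2, h3, Ne.symm h2, Ne.symm h3, Matrix.one_apply_ne (Ne.symm h2)]
  · by_cases h1' : i = b
    · subst h1'
      by_cases h2 : j = a
      · subst h2
        simp [hab, hab.symm, ht]
      · by_cases h3 : j = i
        · subst h3
          simp [hab, hab.symm, ht]
        · simp [hab, hab.symm, ht, h2, h3, Ne.symm h2, Ne.symm h3, Matrix.one_apply_ne (Ne.symm h3)]
    · by_cases h2 : j = a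
      · subst h2
        simp [hab, hab.symm, ht, h1, h1', Ne.symm h1, Ne.symm h1', Matrix.one_apply_ne h1]
      · by_cases h3 : j = b
        · subst h3
          simp [hab, hab.symm, ht, h1, h1', Ne.symm h1, Ne.symm h1', h2, Ne.symm h2, Matrix.one_apply_ne h1']
        · by_cases h4 : i = j
          · subst h4
            simp [hab, hab.symm, ht, h1, h1', Ne.symm h1, Ne.symm h1', h2, h3, Ne.symm h2, Ne.symm h3]
          · simp [hab, hab.symm, ht, h1, h1', Ne.symm h1, Ne.symm h1', h2, h3, Ne.symm h2, Ne.symm h3, h4, Matrix.one_apply_ne h4]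

/-- The subgroup of the adjacent torus elements. -/
def Dgen (n : ℕ) (K : Type*) [Field K] [Fintype K] : Subgroup (SLn n K) :=
  Subgroup.closure {g | ∃ (a b : Fin n) (hadj : (a : ℕ) + 1 = (b : ℕ)) (hab : a ≠ b) (t : K) (ht : t ≠ 0), g = hh a b hab t ht}

theorem dg_aux (k : ℕ) (g : SLn n K) (hg : IsDg g) (h1 : ∀ j : Fin n, (j : ℕ) < k → g.1 j j = 1) : g ∈ Dgen n K := by
  induction' hm : n - k using Nat.strong_induction_on with m ih generalizing k g
  have hne : ∀ i, g.1 i i ≠ 0 := by
    intro i h0
    have hdet := det_of_isUp g.1 (fun x y hxy => hg x y hxy.ne')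
    have h3 : ∏ i, g.1 i i = 0 := Finset.prod_eq_zero (Finset.mem_univ i) h0
    rw [g.2, h3] at hdet
    exact one_ne_zero hdet
  by_cases hk : n ≤ k + 1
  · have : g = 1 := by
      rcases Nat.eq_zero_or_pos n with rfl | hn
      · apply Subtype.ext
        ext i
        exact i.elim0
      let top : Fin n := ⟨n - 1, by omega⟩
      have htop : g.1 top top = 1 := by
        have hdet := det_of_isUp g.1 (fun x y hxy => hg x y hxy.ne')
        rw [g.2, Finset.prod_eq_single top] at hdet
        · exact hdet.symm
        · intro c _ hc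
          refine h1 c ?_
          have h2 : (c : ℕ) ≠ n - 1 := fun e => hc (Fin.ext e)
          have := c.2
          omega
        · simp
      apply Subtype.ext
      ext i j
      rw [Matrix.SpecialLinearGroup.coe_one]
      by_cases hij : i = j
      · subst hij
        rw [Matrix.one_apply_eq]
        by_cases hi : (i : ℕ) < k
        · exact h1 i hi
        · have : i = top := by
            apply Fin.ext
            have := i.2
            show (i : ℕ) = n - 1
            omega
          rw [this]
          exact htop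
      · rw [Matrix.one_apply_ne hij]
        exact hg i j hij
    rw [this]
    exact Subgroup.one_mem _
  · have hk' : k + 1 < n := not_le.1 hk
    let a : Fin n := ⟨k, by omega⟩
    let b : Fin n := ⟨k + 1, hk'⟩
    have hab : a ≠ b := by
      intro e
      have : k = k + 1 := congrArg Fin.val e
      omega
    set t := g.1 a a with ht
    have ht0 : t ≠ 0 := hne a
    let h' : SLn n K := hh a b hab t⁻¹ (inv_ne_zero ht0)
    have eapp : ∀ i j, (h' * g).1 i j = (if i = a then t⁻¹ else if i = b then (t⁻¹)⁻¹ else 1) * g.1 i j := by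
      intro i j
      show (Matrix.diagonal (fun i => if i = a then t⁻¹ else if i = b then (t⁻¹)⁻¹ else 1) * g.1) i j = _
      rw [Matrix.diagonal_mul]
    have hg' : IsDg (h' * g) := by
      intro i j hij
      rw [eapp, hg i j hij, mul_zero]
    have hd : h' * g ∈ Dgen n K := by
      refine ih _ ?_ (k + 1) _ hg' (fun j hj => ?_) rfl
      · omega
      · rw [eapp]
        by_cases hja : j = a
        · rw [if_pos hja, hja, ← ht, inv_mul_cancel₀ ht0]
        · have hjb : j ≠ b := by
            intro e
            have : (j : ℕ) = k + 1 := congrArg Fin.val e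
            omega
          rw [if_neg hja, if_neg hjb, one_mul]
          refine h1 j ?_
          have : (j : ℕ) ≠ k := fun e => hja (Fin.ext e)
          omega
    have hinv : h'⁻¹ = hh a b hab t ht0 := by
      apply inv_eq_of_mul_eq_one_left
      apply Subtype.ext
      show Matrix.diagonal _ * Matrix.diagonal _ = 1
      rw [Matrix.diagonal_mul_diagonal]
      ext i j
      by_cases hij : i = j
      · subst hij
        by_cases h2 : i = a
        · simp [h2, ht0]
        · by_cases h3 : i = b
          · simp [h3, hab.symm, ht0]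
          · simp [h2, h3]
      · simp [hij, Matrix.one_apply_ne hij]
    have e1 : g = h'⁻¹ * (h' * g) := by group
    rw [e1]
    refine (Dgen n K).mul_mem ?_ hd
    rw [hinv]
    exact Subgroup.subset_closure ⟨a, b, rfl, hab, t, ht0, rfl⟩

theorem dg_mem {g : SLn n K} (hg : IsDg g) : g ∈ Dgen n K :=
  dg_aux 0 g hg (fun j hj => absurd hj (Nat.not_lt_zero _))

end Cfsg.Agent.Lib.Fusion.PSLF
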