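/-
The group of permutations of a biset commuting with the right action, and its homomorphisms to abelian groups.
-/
import Cfsg.Agent.Lib.Fusion2.BisetTr

set_option autoImplicit false

namespace Cfsg.Agent.Lib.Fusion

open Cfsg.Agent.Lib.Fusion2

section Generic

/-- A product of an invariant function under a `p`-group action, with values of exponent `p`: only the fixed points count. -/
theorem prod_eq_prod_fixed {Q B A : Type*} [Group Q] [Finite Q] [MulAction Q B] [Fintype B] [CommGroup A] {p : ℕ} [hp : Fact p.Prime]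
    (hQ : IsPGroup p Q) (hexp : ∀ a : A, a ^ p = 1) (c : B → A) (hc : ∀ (v : Q) (b : B), c (v • b) = c b)
    [Fintype {b : B // ∀ v : Q, v • b = b}] :
    ∏ b, c b = ∏ b : {b : B // ∀ v : Q, v • b = b}, c b := by
  classical
  letI : Fintype (MulAction.orbitRel.Quotient Q B) := Fintype.ofFinite _
  let q : B → MulAction.orbitRel.Quotient Q B := fun b => Quotient.mk'' b
  have hq : ∀ a b : B, q a = q b ↔ a ∈ MulAction.orbit Q b := by
    intro a b
    have : q a = q b ↔ (MulAction.orbitRel Q B) a b := Quotient.eq''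
    rw [this, MulAction.orbitRel_apply]
  have e1 : ∏ b : {b : B // ∀ v : Q, v • b = b}, c b = ∏ b ∈ Finset.univ.filter (fun b : B => ∀ v : Q, v • b = b), c b := by
    exact (Finset.prod_subtype _ (fun x => by simp) c).symm
  rw [e1, ← Finset.prod_fiberwise Finset.univ q c, ← Finset.prod_fiberwise _ q c]
  refine Finset.prod_congr rfl (fun ω _ => ?_)
  induction ω using Quotient.inductionOn' with
  | h b₀ =>
  by_cases hfix : ∀ v : Q, v • b₀ = b₀
  · -- singleton fibres
    have hfib : ∀ b : B, q b = q b₀ → b = b₀ := by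
      intro b hb
      obtain ⟨v, rfl⟩ := (hq _ _).1 hb
      exact hfix v
    have e2 : Finset.univ.filter (fun b : B => q b = q b₀) = {b₀} := by
      ext b
      simp only [Finset.mem_filter, Finset.mem_univ, true_and, Finset.mem_singleton]
      exact ⟨hfib b, fun h => by rw [h]⟩
    have e3 : (Finset.univ.filter (fun b : B => ∀ v : Q, v • b = b)).filter (fun b : B => q b = q b₀) = {b₀} := by
      ext b
      simp only [Finset.mem_filter, Finset.mem_univ, true_and, Finset.mem_singleton]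
      refine ⟨fun h => hfib b h.2, fun h => ?_⟩
      rw [h]
      exact ⟨hfix, rfl⟩
    show ∏ b ∈ Finset.univ.filter (fun b : B => q b = q b₀), c b = ∏ b ∈ (Finset.univ.filter (fun b : B => ∀ v : Q, v • b = b)).filter (fun b : B => q b = q b₀), c b
    rw [e2, e3]
  · have hconst : ∀ b ∈ Finset.univ.filter (fun b : B => q b = q b₀), c b = c b₀ := by
      intro b hb
      obtain ⟨v, rfl⟩ := (hq _ _).1 (Finset.mem_filter.1 hb).2
      exact hc v b₀
    have e3 : (Finset.univ.filter (fun b : B => ∀ v : Q, v • b = b)).filter (fun b : B => q b = q b₀) = ∅ := by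
      ext b
      simp only [Finset.mem_filter, Finset.mem_univ, true_and, Finset.notMem_empty, iff_false, not_and]
      intro hb hb'
      obtain ⟨v, hv⟩ := (hq _ _).1 hb'
      have hv' : v • b₀ = b := hv
      apply hfix
      have h3 : v⁻¹ • b = b := hb v⁻¹
      have h4 : v⁻¹ • b = b₀ := by rw [← hv', inv_smul_smul]
      have h5 : b₀ = b := h4.symm.trans h3
      rw [h5]
      exact hb
    show ∏ b ∈ Finset.univ.filter (fun b : B => q b = q b₀), c b = ∏ b ∈ (Finset.univ.filter (fun b : B => ∀ v : Q, v • b = b)).filter (fun b : B => q b = q b₀), c b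
    rw [e3, Finset.prod_empty, Finset.prod_congr rfl hconst, Finset.prod_const]
    obtain ⟨n, hn⟩ := hQ.card_orbit b₀
    have hcard : (Finset.univ.filter (fun b : B => q b = q b₀)).card = Nat.card (MulAction.orbit Q b₀) := by
      rw [Nat.card_eq_fintype_card, ← Set.toFinset_card]
      congr 1
      ext b
      simp only [Finset.mem_filter, Finset.mem_univ, true_and, Set.mem_toFinset]
      exact hq _ _
    rw [hcard, hn]
    rcases Nat.eq_zero_or_pos n with rfl | hnpos
    · exfalso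
      apply hfix
      intro v
      have h1 : Nat.card (MulAction.orbit Q b₀) = 1 := by simpa using hn
      haveI := (Nat.card_eq_one_iff_unique.1 h1).1
      have : (⟨v • b₀, ⟨v, rfl⟩⟩ : MulAction.orbit Q b₀) = ⟨b₀, MulAction.mem_orbit_self b₀⟩ := Subsingleton.elim _ _
      exact congrArg Subtype.val this
    · obtain ⟨m, rfl⟩ : ∃ m, n = m + 1 := ⟨n - 1, by omega⟩
      rw [pow_succ, pow_mul']
      rw [hexp, one_pow]

end Generic

section Biset

variable (H X : Type*) [Group H] [MulAction (H × H) X]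

/-- The permutations of `X` commuting with the right action. -/
def rG : Subgroup (Equiv.Perm X) where
  carrier := {g | ∀ (x : X) (s : H), g (((1 : H), s) • x) = ((1 : H), s) • g x}
  mul_mem' := by
    intro a b ha hb x s
    show a (b _) = _ • a (b x)
    rw [hb, ha]
  one_mem' := fun _ _ => rfl
  inv_mem' := by
    intro a ha x s
    rw [Equiv.Perm.inv_eq_iff_eq, ha]
    simp

variable {H X}

/-- The left action as a homomorphism. -/
noncomputable def lH : H →* rG H X where
  toFun u := ⟨MulAction.toPerm (u, (1 : H)), fun x s => by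
    show (u, (1 : H)) • ((1 : H), s) • x = ((1 : H), s) • (u, (1 : H)) • x
    simp only [pp, one_mul, mul_one]⟩
  map_one' := by
    apply Subtype.ext
    ext x
    exact one_smul (H × H) x
  map_mul' u v := by
    apply Subtype.ext
    ext x
    show (u * v, (1 : H)) • x = (u, (1 : H)) • (v, (1 : H)) • x
    simp only [pp, one_mul]

@[simp] theorem lH_apply (u : H) (x : X) : ((lH u : rG H X) : Equiv.Perm X) x = (u, (1 : H)) • x := rfl

theorem rG_apply (g : rG H X) (x : X) (s : H) : (g : Equiv.Perm X) (((1 : H), s) • x) = ((1 : H), s) • (g : Equiv.Perm X) x := g.2 x s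

/-- The normal form of a point. -/
def nn (ξ : X → H) (x : X) : X := ((1 : H), ξ x) • x

variable {ξ : X → H} (hξ : ∀ (x : X) (s : H), ξ (((1 : H), s) • x) = ξ x * s⁻¹)

include hξ

theorem xi_nn (x : X) : ξ (nn ξ x) = 1 := by
  rw [nn, hξ, mul_inv_cancel]

omit hξ in
theorem eq_nn (x : X) : x = ((1 : H), (ξ x)⁻¹) • nn ξ x := by
  rw [nn, pp]
  simp only [one_mul, inv_mul_cancel]
  exact (one_smul (H × H) x).symm

theorem nn_smul (x : X) (s : H) : nn ξ (((1 : H), s) • x) = nn ξ x := by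
  show ((1 : H), ξ (((1 : H), s) • x)) • ((1 : H), s) • x = ((1 : H), ξ x) • x
  rw [hξ, pp]
  simp only [one_mul, inv_mul_cancel_right]

theorem nn_of_sec {b : X} (hb : ξ b = 1) : nn ξ b = b := by
  rw [nn, hb]
  exact one_smul (H × H) b

theorem xi_g (g : rG H X) (x : X) : ξ ((g : Equiv.Perm X) x) = ξ ((g : Equiv.Perm X) (nn ξ x)) * ξ x := by
  conv_lhs => rw [eq_nn (ξ := ξ) x, rG_apply, hξ, inv_inv]

theorem nn_g (g : rG H X) (x : X) : nn ξ ((g : Equiv.Perm X) x) = nn ξ ((g : Equiv.Perm X) (nn ξ x)) := by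
  conv_lhs => rw [eq_nn (ξ := ξ) x, rG_apply, nn_smul hξ]

theorem nn_inj (g : rG H X) {a b : X} (ha : ξ a = 1) (hb : ξ b = 1) (h : nn ξ ((g : Equiv.Perm X) a) = nn ξ ((g : Equiv.Perm X) b)) : a = b := by
  have h2 : ((1 : H), ξ ((g : Equiv.Perm X) a)) • (g : Equiv.Perm X) a = ((1 : H), ξ ((g : Equiv.Perm X) b)) • (g : Equiv.Perm X) b := h
  have h3 : (g : Equiv.Perm X) (((1 : H), (ξ ((g : Equiv.Perm X) b))⁻¹ * ξ ((g : Equiv.Perm X) a)) • a) = (g : Equiv.Perm X) b := by
    rw [rG_apply]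
    have h4 : ((1 : H), (ξ ((g : Equiv.Perm X) b))⁻¹) • ((1 : H), ξ ((g : Equiv.Perm X) a)) • (g : Equiv.Perm X) a =
        ((1 : H), (ξ ((g : Equiv.Perm X) b))⁻¹) • ((1 : H), ξ ((g : Equiv.Perm X) b)) • (g : Equiv.Perm X) b := by
      rw [h2]
    simp only [pp, one_mul, inv_mul_cancel] at h4
    rw [h4]
    exact one_smul (H × H) _
  have h5 := (g : Equiv.Perm X).injective h3
  have h6 := congrArg ξ h5
  rw [hξ, ha, hb, one_mul, inv_eq_one] at h6
  rw [h6] at h5
  exact (one_smul (H × H) _).symm.trans h5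

section Rho

variable {A : Type*} [CommGroup A] (χ : H →* A) [Fintype {x : X // ξ x = 1}] [Finite X]

omit [Finite X] in
/-- The homomorphism on the group `rG`. -/
theorem rho_mul (g h : rG H X) [Finite X] : ∏ b : {x : X // ξ x = 1}, χ (ξ (((g * h : rG H X) : Equiv.Perm X) b)) =
    (∏ b : {x : X // ξ x = 1}, χ (ξ ((g : Equiv.Perm X) b))) * ∏ b : {x : X // ξ x = 1}, χ (ξ ((h : Equiv.Perm X) b)) := by
  have h1 : ∀ b : {x : X // ξ x = 1}, χ (ξ (((g * h : rG H X) : Equiv.Perm X) b)) =
      χ (ξ ((g : Equiv.Perm X) (nn ξ ((h : Equiv.Perm X) b)))) * χ (ξ ((h : Equiv.Perm X) b)) := by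
    intro b
    rw [← map_mul, ← xi_g hξ]
    rfl
  rw [Finset.prod_congr rfl (fun b _ => h1 b), Finset.prod_mul_distrib]
  congr 1
  let gb : {x : X // ξ x = 1} → {x : X // ξ x = 1} := fun b => ⟨nn ξ ((h : Equiv.Perm X) b), xi_nn hξ _⟩
  have hinj : Function.Injective gb := fun a b hab => Subtype.ext (nn_inj hξ h a.2 b.2 (congrArg Subtype.val hab))
  have hbij : Function.Bijective gb := ⟨hinj, Finite.surjective_of_injective hinj⟩
  exact Function.Bijective.prod_comp hbij (fun b : {x : X // ξ x = 1} => χ (ξ ((g : Equiv.Perm X) b)))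

/-- The homomorphism attached to a homomorphism of `H` to an abelian group. -/
noncomputable def rho : rG H X →* A := MonoidHom.mk' (fun g => ∏ b : {x : X // ξ x = 1}, χ (ξ ((g : Equiv.Perm X) b))) (fun g h => rho_mul hξ χ g h)

theorem rho_apply (g : rG H X) : rho hξ χ g = ∏ b : {x : X // ξ x = 1}, χ (ξ ((g : Equiv.Perm X) b)) := rfl

/-- The value on the left action for an adapted section. -/
theorem rho_lH (ha : ∀ (u : H) (b : X), ξ b = 1 → χ (hh ξ u b) = χ u) (u : H) :
    rho hξ χ (lH u) = χ u ^ Fintype.card {x : X // ξ x = 1} := by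
  rw [rho_apply, ← Finset.card_univ, ← Finset.prod_const]
  exact Finset.prod_congr rfl (fun b _ => ha u b b.2)

/-- The value of the homomorphism on the permutations commuting with the left action of a `p`-subgroup on which
the section is trivial modulo the kernel. -/
theorem rho_eq_one_of_commute {p : ℕ} [hp : Fact p.Prime] (Q : Subgroup H) [Finite Q] (hQ : IsPGroup p Q) (hexp : ∀ a : A, a ^ p = 1)
    (hfree : ∀ (x : X) (s : H), ((1 : H), s) • x = x → s = 1) (g : rG H X)
    (hcomm : ∀ v ∈ Q, ∀ x : X, (g : Equiv.Perm X) ((v, (1 : H)) • x) = (v, (1 : H)) • (g : Equiv.Perm X) x)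
    (hQχ : ∀ v ∈ Q, ∀ b : X, ξ b = 1 → χ (hh ξ v b) = 1)
    (hC : ∀ (b : X) (w : H), ξ b = 1 → (∀ v ∈ Q, ∃ v', (v, v') • b = b ∧ w * v' = v' * w) → χ w = 1) :
    rho hξ χ g = 1 := by
  classical
  letI := secAct hξ
  letI : Fintype {b : {x : X // ξ x = 1} // ∀ v : Q, v • b = b} := Fintype.ofFinite _
  -- a permutation commuting with `v` preserves the fixed points of `(v, h)`
  have hcf : ∀ (g' : rG H X) (v h : H) (x : X), (∀ y : X, (g' : Equiv.Perm X) ((v, (1 : H)) • y) = (v, (1 : H)) • (g' : Equiv.Perm X) y) →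
      (v, h) • x = x → (v, h) • (g' : Equiv.Perm X) x = (g' : Equiv.Perm X) x := by
    intro g' v h x hg' hx
    have e1 : (v, h) • x = ((1 : H), h) • (v, (1 : H)) • x := by simp only [pp, one_mul, mul_one]
    have e2 : (v, h) • (g' : Equiv.Perm X) x = ((1 : H), h) • (v, (1 : H)) • (g' : Equiv.Perm X) x := by simp only [pp, one_mul, mul_one]
    rw [e2, ← hg', ← rG_apply, ← e1, hx]
  have hfs : ∀ (v h : H) (x : X), (v, h) • x = x → pii ξ v (nn ξ x) = nn ξ x := by
    intro v h x hx
    have h1 : (v, ξ x * h * (ξ x)⁻¹) • nn ξ x = nn ξ x := by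
      show (v, ξ x * h * (ξ x)⁻¹) • ((1 : H), ξ x) • x = ((1 : H), ξ x) • x
      have e : ((1 : H), ξ x) • x = ((1 : H), ξ x) • (v, h) • x := by rw [hx]
      refine Eq.trans ?_ e.symm
      simp only [pp, one_mul, mul_one, inv_mul_cancel_right]
    exact (hh_of_fix hξ h1 (xi_nn hξ x)).2
  -- invariance
  have hinv : ∀ (v : Q) (b : {x : X // ξ x = 1}), χ (ξ ((g : Equiv.Perm X) ((v • b : {x : X // ξ x = 1}) : X))) = χ (ξ ((g : Equiv.Perm X) b)) := by
    intro v b
    have hv : (v : H) ∈ Q := v.2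
    have e0 : ((v • b : {x : X // ξ x = 1}) : X) = pii ξ (v : H) b := rfl
    rw [e0]
    have e1 : ((v : H), (1 : H)) • (b : X) = ((1 : H), (hh ξ (v : H) b)⁻¹) • pii ξ (v : H) b := smul_eq_pii (v : H) (b : X)
    have h1 : (g : Equiv.Perm X) (((v : H), (1 : H)) • (b : X)) = ((1 : H), (hh ξ (v : H) b)⁻¹) • (g : Equiv.Perm X) (pii ξ (v : H) b) := by
      rw [e1, rG_apply]
    have h2 : ξ ((g : Equiv.Perm X) (((v : H), (1 : H)) • (b : X))) = ξ ((g : Equiv.Perm X) (pii ξ (v : H) b)) * hh ξ (v : H) b := by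
      rw [h1, hξ, inv_inv]
    have e2 : (g : Equiv.Perm X) b = ((1 : H), (ξ ((g : Equiv.Perm X) b))⁻¹) • nn ξ ((g : Equiv.Perm X) b) := eq_nn _
    have h4 : ((v : H), (1 : H)) • (g : Equiv.Perm X) b = ((1 : H), (ξ ((g : Equiv.Perm X) b))⁻¹) • ((v : H), (1 : H)) • nn ξ ((g : Equiv.Perm X) b) := by
      conv_lhs => rw [e2]
      simp only [pp, one_mul, mul_one]
    have h5 : ξ (((v : H), (1 : H)) • (g : Equiv.Perm X) b) = hh ξ (v : H) (nn ξ ((g : Equiv.Perm X) b)) * ξ ((g : Equiv.Perm X) b) := by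
      rw [h4, hξ, inv_inv]
      rfl
    have h6 := h2
    rw [hcomm _ hv, h5] at h6
    have h7 := congrArg χ h6
    rw [map_mul, map_mul, hQχ _ hv _ b.2, hQχ _ hv _ (xi_nn hξ _), one_mul, mul_one] at h7
    exact h7.symm
  rw [rho_apply]
  haveI : Finite (↥Q) := inferInstance
  have hstep := prod_eq_prod_fixed (Q := ↥Q) (B := {x : X // ξ x = 1}) (A := A) hQ hexp (fun b => χ (ξ ((g : Equiv.Perm X) b))) hinv
  rw [hstep]
  let Fx := {b : {x : X // ξ x = 1} // ∀ v : Q, v • b = b}
  let π' : Fx → Fx := fun b => ⟨⟨nn ξ ((g : Equiv.Perm X) (b : {x : X // ξ x = 1})), xi_nn hξ _⟩, fun v => by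
    apply Subtype.ext
    show pii ξ (v : H) (nn ξ ((g : Equiv.Perm X) (b : {x : X // ξ x = 1}))) = nn ξ ((g : Equiv.Perm X) (b : {x : X // ξ x = 1}))
    have h1 : pii ξ (v : H) ((b : {x : X // ξ x = 1}) : X) = b := congrArg Subtype.val (b.2 v)
    have h2 := fix_of_pii hξ h1
    exact hfs _ _ _ (hcf g _ _ _ (hcomm _ v.2) h2)⟩
  have hinj : Function.Injective π' := fun a b hab =>
    Subtype.ext (Subtype.ext (nn_inj hξ g a.1.2 b.1.2 (congrArg (fun z : Fx => ((z : {x : X // ξ x = 1}) : X)) hab)))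
  have key := prod_eq_of_cycle π' hinj (fun b : Fx => χ (ξ ((g : Equiv.Perm X) (b : {x : X // ξ x = 1})))) (fun _ => (1 : A)) (fun b => ?_)
  · rw [show (∏ b : {b : {x : X // ξ x = 1} // ∀ v : Q, v • b = b}, χ (ξ ((g : Equiv.Perm X) (b : {x : X // ξ x = 1})))) = ∏ b : Fx, χ (ξ ((g : Equiv.Perm X) (b : {x : X // ξ x = 1}))) from rfl, key]
    exact Finset.prod_const_one
  · rw [Finset.prod_const_one]
    have hit : ∀ j : ℕ, (((π'^[j] b : Fx) : {x : X // ξ x = 1}) : X) = nn ξ (((g ^ j : rG H X) : Equiv.Perm X) ((b : {x : X // ξ x = 1}) : X)) ∧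
        ∏ i ∈ Finset.range j, χ (ξ ((g : Equiv.Perm X) (π'^[i] b : Fx).1)) = χ (ξ (((g ^ j : rG H X) : Equiv.Perm X) ((b : {x : X // ξ x = 1}) : X))) := by
      intro j
      induction j with
      | zero =>
        refine ⟨?_, ?_⟩
        · show ((b : {x : X // ξ x = 1}) : X) = nn ξ ((b : {x : X // ξ x = 1}) : X)
          exact (nn_of_sec hξ b.1.2).symm
        · show (1 : A) = χ (ξ ((b : {x : X // ξ x = 1}) : X))
          rw [b.1.2, map_one]
      | succ j ih =>
        obtain ⟨ih1, ih2⟩ := ih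
        have e : ((g ^ (j + 1) : rG H X) : Equiv.Perm X) ((b : {x : X // ξ x = 1}) : X) =
            (g : Equiv.Perm X) (((g ^ j : rG H X) : Equiv.Perm X) ((b : {x : X // ξ x = 1}) : X)) := by
          rw [pow_succ']
          rfl
        refine ⟨?_, ?_⟩
        · rw [Function.iterate_succ_apply', e, nn_g hξ g, ← ih1]
        · rw [Finset.prod_range_succ, ih2, e]
          conv_rhs => rw [xi_g hξ g]
          rw [map_mul, ← ih1, mul_comm]
    set k := Function.minimalPeriod π' b with hk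
    have hper : π'^[k] b = b := Function.iterate_minimalPeriod
    obtain ⟨hk1, hk2⟩ := hit k
    rw [hk2]
    rw [hper] at hk1
    set w := ξ (((g ^ k : rG H X) : Equiv.Perm X) ((b : {x : X // ξ x = 1}) : X)) with hw
    have hgk : ((g ^ k : rG H X) : Equiv.Perm X) ((b : {x : X // ξ x = 1}) : X) = ((1 : H), w⁻¹) • ((b : {x : X // ξ x = 1}) : X) := by
      have e := eq_nn (ξ := ξ) (((g ^ k : rG H X) : Equiv.Perm X) ((b : {x : X // ξ x = 1}) : X))
      rw [← hk1] at e
      exact e
    have hcommk : ∀ (j : ℕ) (v : H), v ∈ Q → ∀ y : X, ((g ^ j : rG H X) : Equiv.Perm X) ((v, (1 : H)) • y) = (v, (1 : H)) • ((g ^ j : rG H X) : Equiv.Perm X) y := by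
      intro j v hv
      induction j with
      | zero => intro y; rfl
      | succ j ih =>
        intro y
        have e : ∀ z : X, ((g ^ (j + 1) : rG H X) : Equiv.Perm X) z = (g : Equiv.Perm X) (((g ^ j : rG H X) : Equiv.Perm X) z) := by
          intro z
          rw [pow_succ']
          rfl
        rw [e, e, ih, hcomm v hv]
    refine hC _ w b.1.2 (fun v hv => ?_)
    have h1 : pii ξ v ((b : {x : X // ξ x = 1}) : X) = b := congrArg Subtype.val (b.2 ⟨v, hv⟩)
    have h2 := fix_of_pii hξ h1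
    refine ⟨_, h2, ?_⟩
    have h3 := hcf (g ^ k) v _ _ (hcommk k v hv) h2
    rw [hgk] at h3
    have h4 : (v, w * hh ξ v ((b : {x : X // ξ x = 1}) : X) * w⁻¹) • ((b : {x : X // ξ x = 1}) : X) = b := by
      have h5 := congrArg (fun z : X => ((1 : H), w) • z) h3
      simp only [pp, one_mul, mul_one, mul_inv_cancel] at h5
      have h6 : ((1 : H), (1 : H)) • ((b : {x : X // ξ x = 1}) : X) = b := one_smul (H × H) _
      rw [h6] at h5
      rw [mul_assoc]
      exact h5
    have h7 := (hh_of_fix hξ h4 b.1.2).1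
    have h8 : w * hh ξ v ((b : {x : X // ξ x = 1}) : X) * w⁻¹ * w = hh ξ v ((b : {x : X // ξ x = 1}) : X) * w := by rw [← h7]
    simpa [mul_assoc] using h8

end Rho

end Biset

end Cfsg.Agent.Lib.Fusion
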