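/-
Direct products of saturated fusion systems are saturated.
-/
import Cfsg.Agent.Lib.Fusion.Criterion4
import Cfsg.Prelude.Def_FusionComponents

set_option autoImplicit false
set_option linter.unusedSectionVars false
set_option linter.style.haveILetI false

namespace Cfsg.Agent.Lib.Fusion

open Cfsg Cfsg.FusionSystem

variable {Ω₁ Ω₂ : Type*} [Group Ω₁] [Group Ω₂] {S₁ : Subgroup Ω₁} {S₂ : Subgroup Ω₂}
  {F₁ : FusionSystem S₁} {F₂ : FusionSystem S₂} {E : FusionSystem (S₁.prod S₂)}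

/-- The product of two functions. -/
def pf (f₁ : Ω₁ → Ω₁) (f₂ : Ω₂ → Ω₂) : Ω₁ × Ω₂ → Ω₁ × Ω₂ := fun x => (f₁ x.1, f₂ x.2)

theorem isMapOn_pf (hE : IsProductSystem F₁ F₂ E) {P : Subgroup (Ω₁ × Ω₂)} (hP : P ≤ S₁.prod S₂) {X₁ : Subgroup Ω₁} {X₂ : Subgroup Ω₂}
    {f₁ : Ω₁ → Ω₁} {f₂ : Ω₂ → Ω₂} (h₁ : IsMapOn F₁ X₁ f₁) (h₂ : IsMapOn F₂ X₂ f₂)
    (hX₁ : P.map (MonoidHom.fst Ω₁ Ω₂) ≤ X₁) (hX₂ : P.map (MonoidHom.snd Ω₁ Ω₂) ≤ X₂) : IsMapOn E P (pf f₁ f₂) := by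
  obtain ⟨φ₁, hφ₁, hv₁⟩ := h₁.mono hX₁
  obtain ⟨φ₂, hφ₂, hv₂⟩ := h₂.mono hX₂
  let φ : P →* Ω₁ × Ω₂ := MonoidHom.prod (φ₁.comp ((MonoidHom.fst Ω₁ Ω₂).subgroupMap P)) (φ₂.comp ((MonoidHom.snd Ω₁ Ω₂).subgroupMap P))
  refine ⟨φ, (hE P φ).2 ⟨hP, φ₁, hφ₁, φ₂, hφ₂, fun x _ _ => rfl⟩, fun x => ?_⟩
  exact Prod.ext (hv₁ _) (hv₂ _)

theorem exists_pf (hE : IsProductSystem F₁ F₂ E) {P : Subgroup (Ω₁ × Ω₂)} {f : Ω₁ × Ω₂ → Ω₁ × Ω₂} (h : IsMapOn E P f) :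
    ∃ f₁ f₂, IsMapOn F₁ (P.map (MonoidHom.fst Ω₁ Ω₂)) f₁ ∧ IsMapOn F₂ (P.map (MonoidHom.snd Ω₁ Ω₂)) f₂ ∧ ∀ x ∈ P, f x = pf f₁ f₂ x := by
  obtain ⟨φ, hφ, hv⟩ := h
  obtain ⟨hP, φ₁, hφ₁, φ₂, hφ₂, h3⟩ := (hE P φ).1 hφ
  refine ⟨toFun φ₁, toFun φ₂, isMapOn_toFun hφ₁, isMapOn_toFun hφ₂, fun x hx => ?_⟩
  have e₁ : x.1 ∈ P.map (MonoidHom.fst Ω₁ Ω₂) := ⟨x, hx, rfl⟩
  have e₂ : x.2 ∈ P.map (MonoidHom.snd Ω₁ Ω₂) := ⟨x, hx, rfl⟩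
  rw [← hv ⟨x, hx⟩, h3 ⟨x, hx⟩ e₁ e₂]
  show _ = (toFun φ₁ x.1, toFun φ₂ x.2)
  rw [toFun_of_mem _ e₁, toFun_of_mem _ e₂]

theorem map_fst_prod (Q₁ : Subgroup Ω₁) (Q₂ : Subgroup Ω₂) : (Q₁.prod Q₂).map (MonoidHom.fst Ω₁ Ω₂) = Q₁ := by
  ext y
  constructor
  · rintro ⟨x, hx, rfl⟩
    exact hx.1
  · intro hy
    exact ⟨(y, 1), ⟨hy, Q₂.one_mem⟩, rfl⟩

theorem map_snd_prod (Q₁ : Subgroup Ω₁) (Q₂ : Subgroup Ω₂) : (Q₁.prod Q₂).map (MonoidHom.snd Ω₁ Ω₂) = Q₂ := by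
  ext y
  constructor
  · rintro ⟨x, hx, rfl⟩
    exact hx.2
  · intro hy
    exact ⟨(1, y), ⟨Q₁.one_mem, hy⟩, rfl⟩

theorem isMapOn_pf_prod (hE : IsProductSystem F₁ F₂ E) {Q₁ : Subgroup Ω₁} {Q₂ : Subgroup Ω₂} {f₁ : Ω₁ → Ω₁} {f₂ : Ω₂ → Ω₂}
    (h₁ : IsMapOn F₁ Q₁ f₁) (h₂ : IsMapOn F₂ Q₂ f₂) : IsMapOn E (Q₁.prod Q₂) (pf f₁ f₂) :=
  isMapOn_pf hE (Subgroup.prod_mono h₁.le h₂.le) h₁ h₂ (map_fst_prod Q₁ Q₂).le (map_snd_prod Q₁ Q₂).le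

theorem exists_pf_prod (hE : IsProductSystem F₁ F₂ E) {Q₁ : Subgroup Ω₁} {Q₂ : Subgroup Ω₂} {f : Ω₁ × Ω₂ → Ω₁ × Ω₂} (h : IsMapOn E (Q₁.prod Q₂) f) :
    ∃ f₁ f₂, IsMapOn F₁ Q₁ f₁ ∧ IsMapOn F₂ Q₂ f₂ ∧ ∀ x ∈ Q₁.prod Q₂, f x = pf f₁ f₂ x := by
  obtain ⟨f₁, f₂, h₁, h₂, h3⟩ := exists_pf hE h
  rw [map_fst_prod] at h₁
  rw [map_snd_prod] at h₂
  exact ⟨f₁, f₂, h₁, h₂, h3⟩

theorem isImage_pf {Q₁ R₁ : Subgroup Ω₁} {Q₂ R₂ : Subgroup Ω₂} {f₁ : Ω₁ → Ω₁} {f₂ : Ω₂ → Ω₂} (h₁ : IsImage f₁ Q₁ R₁) (h₂ : IsImage f₂ Q₂ R₂) :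
    IsImage (pf f₁ f₂) (Q₁.prod Q₂) (R₁.prod R₂) := by
  rintro ⟨y₁, y₂⟩
  constructor
  · rintro ⟨hy₁, hy₂⟩
    obtain ⟨x₁, hx₁, e₁⟩ := h₁.exists_of_mem hy₁
    obtain ⟨x₂, hx₂, e₂⟩ := h₂.exists_of_mem hy₂
    exact ⟨(x₁, x₂), ⟨hx₁, hx₂⟩, Prod.ext e₁ e₂⟩
  · rintro ⟨⟨x₁, x₂⟩, ⟨hx₁, hx₂⟩, e⟩
    have e₁ : f₁ x₁ = y₁ := congrArg Prod.fst e
    have e₂ : f₂ x₂ = y₂ := congrArg Prod.snd e
    exact ⟨e₁ ▸ h₁.mem hx₁, e₂ ▸ h₂.mem hx₂⟩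

/-- Recover the images of the factors. -/
theorem isImage_of_pf {Q₁ R₁ : Subgroup Ω₁} {Q₂ R₂ : Subgroup Ω₂} {f₁ : Ω₁ → Ω₁} {f₂ : Ω₂ → Ω₂} (hf₁ : f₁ 1 = 1) (hf₂ : f₂ 1 = 1)
    (h : IsImage (pf f₁ f₂) (Q₁.prod Q₂) (R₁.prod R₂)) : IsImage f₁ Q₁ R₁ ∧ IsImage f₂ Q₂ R₂ := by
  constructor
  · intro y
    constructor
    · intro hy
      obtain ⟨x, hx, e⟩ := h.exists_of_mem (⟨hy, R₂.one_mem⟩ : (y, (1 : Ω₂)) ∈ R₁.prod R₂)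
      exact ⟨x.1, hx.1, congrArg Prod.fst e⟩
    · rintro ⟨x, hx, rfl⟩
      have := h.mem (⟨hx, Q₂.one_mem⟩ : (x, (1 : Ω₂)) ∈ Q₁.prod Q₂)
      exact this.1
  · intro y
    constructor
    · intro hy
      obtain ⟨x, hx, e⟩ := h.exists_of_mem (⟨R₁.one_mem, hy⟩ : ((1 : Ω₁), y) ∈ R₁.prod R₂)
      exact ⟨x.2, hx.2, congrArg Prod.snd e⟩
    · rintro ⟨x, hx, rfl⟩
      have := h.mem (⟨Q₁.one_mem, hx⟩ : ((1 : Ω₁), x) ∈ Q₁.prod Q₂)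
      exact this.2

/-- The family of products is closed under conjugation. -/
theorem isConj_prod_exists (hE : IsProductSystem F₁ F₂ E) {Q₁ : Subgroup Ω₁} {Q₂ : Subgroup Ω₂} {R : Subgroup (Ω₁ × Ω₂)} (h : E.IsConj (Q₁.prod Q₂) R) :
    ∃ (R₁ : Subgroup Ω₁) (R₂ : Subgroup Ω₂), R = R₁.prod R₂ := by
  obtain ⟨φ, hφ, rfl⟩ := h
  obtain ⟨f₁, f₂, h₁, h₂, hv⟩ := exists_pf_prod hE (isMapOn_toFun hφ)
  obtain ⟨R₁, hR₁⟩ := h₁.exists_image le_rfl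
  obtain ⟨R₂, hR₂⟩ := h₂.exists_image le_rfl
  refine ⟨R₁, R₂, ?_⟩
  have h3 := isImage_pf hR₁ hR₂
  refine IsImage.unique (f := toFun φ) (P := Q₁.prod Q₂) ?_ (h3.congr (fun x hx => (hv x hx).symm))
  intro y
  constructor
  · rintro ⟨x, rfl⟩
    exact ⟨x, x.2, toFun_coe φ x⟩
  · rintro ⟨x, hx, rfl⟩
    rw [toFun_of_mem _ hx]
    exact ⟨_, rfl⟩

theorem isConj_prod (hE : IsProductSystem F₁ F₂ E) {P₁ Q₁ : Subgroup Ω₁} {P₂ Q₂ : Subgroup Ω₂} (h₁ : F₁.IsConj P₁ Q₁) (h₂ : F₂.IsConj P₂ Q₂) :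
    E.IsConj (P₁.prod P₂) (Q₁.prod Q₂) := by
  obtain ⟨φ₁, hφ₁, rfl⟩ := h₁
  obtain ⟨φ₂, hφ₂, rfl⟩ := h₂
  obtain ⟨φ, hφ, hv⟩ := isMapOn_pf_prod hE (isMapOn_toFun hφ₁) (isMapOn_toFun hφ₂)
  refine ⟨φ, hφ, ?_⟩
  ext ⟨y₁, y₂⟩
  constructor
  · rintro ⟨x, e⟩
    rw [← e, hv]
    refine ⟨?_, ?_⟩
    · show toFun φ₁ (x : Ω₁ × Ω₂).1 ∈ _
      rw [toFun_of_mem _ x.2.1]
      exact ⟨_, rfl⟩
    · show toFun φ₂ (x : Ω₁ × Ω₂).2 ∈ _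
      rw [toFun_of_mem _ x.2.2]
      exact ⟨_, rfl⟩
  · rintro ⟨⟨x₁, e₁⟩, ⟨x₂, e₂⟩⟩
    refine ⟨⟨((x₁ : Ω₁), (x₂ : Ω₂)), x₁.2, x₂.2⟩, ?_⟩
    rw [hv]
    show (toFun φ₁ (x₁ : Ω₁), toFun φ₂ (x₂ : Ω₂)) = _
    rw [toFun_coe, toFun_coe, e₁, e₂]

/-- Generation by products. -/
theorem hom_le_of_prods (hE : IsProductSystem F₁ F₂ E) (E' : FusionSystem (S₁.prod S₂))
    (h : ∀ P ∈ {P : Subgroup (Ω₁ × Ω₂) | P ≤ S₁.prod S₂ ∧ ∃ (Q₁ : Subgroup Ω₁) (Q₂ : Subgroup Ω₂), P = Q₁.prod Q₂}, E.Hom P ⊆ E'.Hom P) : E ≤ E' := by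
  intro P φ hφ
  obtain ⟨f₁, f₂, h₁, h₂, hv⟩ := exists_pf hE (isMapOn_toFun hφ)
  have hP := le_of_hom hφ
  obtain ⟨ψ, hψ, hψv⟩ := isMapOn_pf_prod hE h₁ h₂
  have hPR : P ≤ (P.map (MonoidHom.fst Ω₁ Ω₂)).prod (P.map (MonoidHom.snd Ω₁ Ω₂)) := fun x hx => ⟨⟨x, hx, rfl⟩, ⟨x, hx, rfl⟩⟩
  have h3 := restrict_mem (h _ ⟨le_of_hom hψ, _, _, rfl⟩ hψ) hPR
  convert h3 using 1
  ext x
  · show (φ x).1 = (ψ (Subgroup.inclusion hPR x)).1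
    rw [hψv, ← toFun_coe φ x, hv x x.2]
    rfl
  · show (φ x).2 = (ψ (Subgroup.inclusion hPR x)).2
    rw [hψv, ← toFun_coe φ x, hv x x.2]
    rfl

/-- Receptive. -/
theorem receptive_prod (hE : IsProductSystem F₁ F₂ E) {Q₁ : Subgroup Ω₁} {Q₂ : Subgroup Ω₂} (h₁ : F₁.IsReceptive Q₁) (h₂ : F₂.IsReceptive Q₂) :
    E.IsReceptive (Q₁.prod Q₂) := by
  refine ⟨Subgroup.prod_mono h₁.1 h₂.1, fun P φ hφ hr => ?_⟩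
  obtain ⟨hP, φ₁, hφ₁, φ₂, hφ₂, h3⟩ := (hE P φ).1 hφ
  have hval : ∀ w : P, φ w = (φ₁ ⟨(w : Ω₁ × Ω₂).1, w, w.2, rfl⟩, φ₂ ⟨(w : Ω₁ × Ω₂).2, w, w.2, rfl⟩) := fun w => h3 w _ _
  have hr₁ : φ₁.range = Q₁ := by
    ext y
    constructor
    · rintro ⟨⟨_, w, hw, rfl⟩, rfl⟩
      have : φ ⟨w, hw⟩ ∈ φ.range := ⟨_, rfl⟩
      rw [hr, hval] at this
      exact this.1
    · intro hy
      have : (y, (1 : Ω₂)) ∈ φ.range := by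
        rw [hr]
        exact ⟨hy, Q₂.one_mem⟩
      obtain ⟨w, hw⟩ := this
      rw [hval] at hw
      exact ⟨_, congrArg Prod.fst hw⟩
  have hr₂ : φ₂.range = Q₂ := by
    ext y
    constructor
    · rintro ⟨⟨_, w, hw, rfl⟩, rfl⟩
      have : φ ⟨w, hw⟩ ∈ φ.range := ⟨_, rfl⟩
      rw [hr, hval] at this
      exact this.2
    · intro hy
      have : ((1 : Ω₁), y) ∈ φ.range := by
        rw [hr]
        exact ⟨Q₁.one_mem, hy⟩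
      obtain ⟨w, hw⟩ := this
      rw [hval] at hw
      exact ⟨_, congrArg Prod.snd hw⟩
  obtain ⟨ψ₁, hψ₁, hag₁⟩ := h₁.2 _ φ₁ hφ₁ hr₁
  obtain ⟨ψ₂, hψ₂, hag₂⟩ := h₂.2 _ φ₂ hφ₂ hr₂
  have hXle : extender (S₁.prod S₂) P φ ≤ (extender S₁ _ φ₁).prod (extender S₂ _ φ₂) := by
    refine (Subgroup.closure_le _).2 ?_
    rintro ⟨g₁, g₂⟩ ⟨hgS, hgN, ⟨h₁', h₂'⟩, hhS, hhv⟩
    have hconj : ∀ w ∈ P, (g₁, g₂) * w * (g₁, g₂)⁻¹ ∈ P := fun w hw => conj_mem_of_normalizer hgN hw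
    have hconj' : ∀ w ∈ P, (g₁, g₂)⁻¹ * w * (g₁, g₂) ∈ P := fun w hw => by
      have := conj_mem_of_normalizer (Subgroup.inv_mem _ hgN) hw
      simpa using this
    refine ⟨?_, ?_⟩
    · have hN₁ : g₁ ∈ Subgroup.normalizer ((P.map (MonoidHom.fst Ω₁ Ω₂) : Subgroup Ω₁) : Set Ω₁) := by
        rw [Subgroup.mem_normalizer_iff]
        intro y
        constructor
        · rintro ⟨w, hw, rfl⟩
          exact ⟨_, hconj w hw, rfl⟩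
        · rintro ⟨w, hw, e⟩
          refine ⟨_, hconj' w hw, ?_⟩
          have e' : w.1 = g₁ * y * g₁⁻¹ := e
          show g₁⁻¹ * w.1 * g₁ = y
          rw [e']
          group
      refine mem_extender_of (h := h₁') hgS.1 hN₁ hhS.1 ?_
      rintro ⟨_, w, hw, rfl⟩
      have h4 := hhv ⟨w, hw⟩ (hconj w hw)
      rw [hval, hval ⟨w, hw⟩] at h4
      exact congrArg Prod.fst h4
    · have hN₂ : g₂ ∈ Subgroup.normalizer ((P.map (MonoidHom.snd Ω₁ Ω₂) : Subgroup Ω₂) : Set Ω₂) := by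
        rw [Subgroup.mem_normalizer_iff]
        intro y
        constructor
        · rintro ⟨w, hw, rfl⟩
          exact ⟨_, hconj w hw, rfl⟩
        · rintro ⟨w, hw, e⟩
          refine ⟨_, hconj' w hw, ?_⟩
          have e' : w.2 = g₂ * y * g₂⁻¹ := e
          show g₂⁻¹ * w.2 * g₂ = y
          rw [e']
          group
      refine mem_extender_of (h := h₂') hgS.2 hN₂ hhS.2 ?_
      rintro ⟨_, w, hw, rfl⟩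
      have h4 := hhv ⟨w, hw⟩ (hconj w hw)
      rw [hval, hval ⟨w, hw⟩] at h4
      exact congrArg Prod.snd h4
  have hXS : extender (S₁.prod S₂) P φ ≤ S₁.prod S₂ := (extender_le_normalizerIn P φ).trans inf_le_left
  obtain ⟨ψ, hψ, hψv⟩ := isMapOn_pf hE hXS (isMapOn_toFun hψ₁) (isMapOn_toFun hψ₂)
    (by
      rintro _ ⟨x, hx, rfl⟩
      exact (hXle hx).1)
    (by
      rintro _ ⟨x, hx, rfl⟩
      exact (hXle hx).2)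
  refine ⟨ψ, hψ, fun x hP hN => ?_⟩
  rw [hψv, hval ⟨x, hP⟩]
  show (toFun ψ₁ x.1, toFun ψ₂ x.2) = _
  rw [toFun_of_mem _ (hXle hN).1, toFun_of_mem _ (hXle hN).2, hag₁ x.1 ⟨x, hP, rfl⟩ (hXle hN).1, hag₂ x.2 ⟨x, hP, rfl⟩ (hXle hN).2]

/-- The product of two automorphisms. -/
def mA (Q₁ : Subgroup Ω₁) (Q₂ : Subgroup Ω₂) : MulAut Q₁ × MulAut Q₂ →* MulAut ↥(Q₁.prod Q₂) where
  toFun a := ((Subgroup.prodEquiv Q₁ Q₂).trans (MulEquiv.prodCongr a.1 a.2)).trans (Subgroup.prodEquiv Q₁ Q₂).symm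
  map_one' := rfl
  map_mul' _ _ := rfl

theorem fn_mA {Q₁ : Subgroup Ω₁} {Q₂ : Subgroup Ω₂} (a : MulAut Q₁ × MulAut Q₂) {x : Ω₁ × Ω₂} (hx : x ∈ Q₁.prod Q₂) :
    fn (mA Q₁ Q₂ a) x = pf (fn a.1) (fn a.2) x := by
  rw [fn_of_mem _ hx]
  show _ = (fn a.1 x.1, fn a.2 x.2)
  rw [fn_of_mem a.1 hx.1, fn_of_mem a.2 hx.2]
  rfl

variable {p : ℕ} [hp : Fact p.Prime]

theorem finite_prod (S₁ : Subgroup Ω₁) (S₂ : Subgroup Ω₂) [Finite S₁] [Finite S₂] : Finite ↥(S₁.prod S₂) :=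
  Finite.of_equiv _ (Subgroup.prodEquiv S₁ S₂).symm.toEquiv

theorem isPGroup_prod (h₁ : IsPGroup p S₁) (h₂ : IsPGroup p S₂) : IsPGroup p ↥(S₁.prod S₂) := by
  rintro ⟨⟨a, b⟩, ha, hb⟩
  obtain ⟨k₁, h1⟩ := h₁ ⟨a, ha⟩
  obtain ⟨k₂, h2⟩ := h₂ ⟨b, hb⟩
  refine ⟨k₁ + k₂, Subtype.ext (Prod.ext ?_ ?_)⟩
  · have e : a ^ p ^ k₁ = 1 := congrArg Subtype.val h1
    show a ^ p ^ (k₁ + k₂) = 1
    rw [pow_add, pow_mul, e, one_pow]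
  · have e : b ^ p ^ k₂ = 1 := congrArg Subtype.val h2
    show b ^ p ^ (k₁ + k₂) = 1
    rw [pow_add, mul_comm, pow_mul, e, one_pow]

theorem fullyAutomized_prod (hE : IsProductSystem F₁ F₂ E) (hp₁ : IsPGroup p S₁) (hp₂ : IsPGroup p S₂) [Finite S₁] [Finite S₂]
    {Q₁ : Subgroup Ω₁} {Q₂ : Subgroup Ω₂} (h₁ : F₁.IsFullyAutomized p Q₁) (h₂ : F₂.IsFullyAutomized p Q₂) :
    E.IsFullyAutomized p (Q₁.prod Q₂) := by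
  have hQ₁S : Q₁ ≤ S₁ := h₁.1
  have hQ₂S : Q₂ ≤ S₂ := h₂.1
  have hQS : Q₁.prod Q₂ ≤ S₁.prod S₂ := Subgroup.prod_mono hQ₁S hQ₂S
  haveI : Finite Q₁ := finite_of_le hQ₁S
  haveI : Finite Q₂ := finite_of_le hQ₂S
  haveI : Finite ↥(S₁.prod S₂) := finite_prod S₁ S₂
  haveI : Finite ↥(Q₁.prod Q₂) := finite_of_le hQS
  have hpS := isPGroup_prod hp₁ hp₂
  have hmem : ∀ a : ↥(F₁.autGroup Q₁) × ↥(F₂.autGroup Q₂), mA Q₁ Q₂ ((a.1 : MulAut Q₁), (a.2 : MulAut Q₂)) ∈ E.autGroup (Q₁.prod Q₂) := by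
    intro a
    refine (mem_autGroup_iff hQS).2 ?_
    obtain ⟨φ, hφ, hv⟩ := isMapOn_pf_prod hE (isMapOn_fn hQ₁S a.1.2) (isMapOn_fn hQ₂S a.2.2)
    refine isIso_of_forall hφ _ (fun x => ?_)
    rw [hv, ← fn_coe, fn_mA _ x.2]
  let ν : ↥(F₁.autGroup Q₁) × ↥(F₂.autGroup Q₂) →* ↥(E.autGroup (Q₁.prod Q₂)) :=
    ((mA Q₁ Q₂).comp (MonoidHom.prodMap (F₁.autGroup Q₁).subtype (F₂.autGroup Q₂).subtype)).codRestrict _ hmem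
  have hνv : ∀ (a : ↥(F₁.autGroup Q₁) × ↥(F₂.autGroup Q₂)) {x : Ω₁ × Ω₂}, x ∈ Q₁.prod Q₂ →
      fn ((ν a : ↥(E.autGroup (Q₁.prod Q₂))) : MulAut ↥(Q₁.prod Q₂)) x = pf (fn (a.1 : MulAut Q₁)) (fn (a.2 : MulAut Q₂)) x := by
    intro a x hx
    exact fn_mA _ hx
  have hν : Function.Bijective ν := by
    constructor
    · intro a b hab
      have h3 : ∀ x ∈ Q₁.prod Q₂, pf (fn (a.1 : MulAut Q₁)) (fn (a.2 : MulAut Q₂)) x = pf (fn (b.1 : MulAut Q₁)) (fn (b.2 : MulAut Q₂)) x := by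
        intro x hx
        rw [← hνv a hx, ← hνv b hx, hab]
      refine Prod.ext (Subtype.ext (fn_ext (fun x hx => ?_))) (Subtype.ext (fn_ext (fun x hx => ?_)))
      · exact congrArg Prod.fst (h3 (x, 1) ⟨hx, Q₂.one_mem⟩)
      · exact congrArg Prod.snd (h3 (1, x) ⟨Q₁.one_mem, hx⟩)
    · rintro ⟨α, hα⟩
      obtain ⟨f₁, f₂, hm₁, hm₂, hv⟩ := exists_pf_prod hE (isMapOn_fn hQS hα)
      have him : IsImage (pf f₁ f₂) (Q₁.prod Q₂) (Q₁.prod Q₂) := (isImage_fn α).congr hv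
      obtain ⟨hi₁, hi₂⟩ := isImage_of_pf hm₁.map_one hm₂.map_one him
      obtain ⟨a₁, ha₁, hav₁⟩ := exists_aut_of_map hm₁ hi₁
      obtain ⟨a₂, ha₂, hav₂⟩ := exists_aut_of_map hm₂ hi₂
      refine ⟨(⟨a₁, ha₁⟩, ⟨a₂, ha₂⟩), Subtype.ext (fn_ext (fun x hx => ?_))⟩
      rw [hνv _ hx, hv x hx]
      exact Prod.ext (hav₁ x.1 hx.1) (hav₂ x.2 hx.2)
  have hB : (((autInducedBy S₁ Q₁).subgroupOf (F₁.autGroup Q₁)).prod ((autInducedBy S₂ Q₂).subgroupOf (F₂.autGroup Q₂))).map ν =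
      (autInducedBy (S₁.prod S₂) (Q₁.prod Q₂)).subgroupOf (E.autGroup (Q₁.prod Q₂)) := by
    ext α
    rw [Subgroup.mem_subgroupOf]
    constructor
    · rintro ⟨a, ⟨ha₁, ha₂⟩, rfl⟩
      obtain ⟨g₁, hg₁, hv₁⟩ := mem_autInducedBy_iff.1 (Subgroup.mem_subgroupOf.1 ha₁)
      obtain ⟨g₂, hg₂, hv₂⟩ := mem_autInducedBy_iff.1 (Subgroup.mem_subgroupOf.1 ha₂)
      refine mem_autInducedBy_iff.2 ⟨(g₁, g₂), ⟨hg₁, hg₂⟩, fun x => ?_⟩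
      rw [← fn_coe, hνv a x.2]
      refine Prod.ext ?_ ?_
      · show fn (a.1 : MulAut Q₁) (x : Ω₁ × Ω₂).1 = _
        rw [fn_of_mem _ x.2.1]
        exact hv₁ _
      · show fn (a.2 : MulAut Q₂) (x : Ω₁ × Ω₂).2 = _
        rw [fn_of_mem _ x.2.2]
        exact hv₂ _
    · intro h
      obtain ⟨g, hg, hv⟩ := mem_autInducedBy_iff.1 h
      obtain ⟨a, rfl⟩ := hν.2 α
      refine ⟨a, ⟨Subgroup.mem_subgroupOf.2 (mem_autInducedBy_iff.2 ⟨g.1, hg.1, fun x => ?_⟩),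
        Subgroup.mem_subgroupOf.2 (mem_autInducedBy_iff.2 ⟨g.2, hg.2, fun x => ?_⟩)⟩, rfl⟩
      · have hx : ((x : Ω₁), (1 : Ω₂)) ∈ Q₁.prod Q₂ := ⟨x.2, Q₂.one_mem⟩
        have h3 := hv ⟨_, hx⟩
        rw [← fn_coe, hνv a hx] at h3
        have h4 : fn (a.1 : MulAut Q₁) (x : Ω₁) = g.1 * x * g.1⁻¹ := congrArg Prod.fst h3
        rw [← fn_coe]
        exact h4
      · have hx : ((1 : Ω₁), (x : Ω₂)) ∈ Q₁.prod Q₂ := ⟨Q₁.one_mem, x.2⟩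
        have h3 := hv ⟨_, hx⟩
        rw [← fn_coe, hνv a hx] at h3
        have h4 : fn (a.2 : MulAut Q₂) (x : Ω₂) = g.2 * x * g.2⁻¹ := congrArg Prod.snd h3
        rw [← fn_coe]
        exact h4
  have hpB : IsPGroup p ((autInducedBy (S₁.prod S₂) (Q₁.prod Q₂)).subgroupOf (E.autGroup (Q₁.prod Q₂))) :=
    (isPGroup_autInducedBy hpS hQS).comap_subtype
  refine ⟨hQS, hpB.toSylow ?_, rfl⟩
  rw [← hB, Subgroup.index_map_of_bijective hν, Subgroup.index_prod]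
  obtain ⟨V₁, hV₁⟩ := h₁.2
  obtain ⟨V₂, hV₂⟩ := h₂.2
  rw [← hV₁, ← hV₂]
  intro hdvd
  rcases (Nat.Prime.dvd_mul hp.out).1 hdvd with h | h
  · exact V₁.not_dvd_index h
  · exact V₂.not_dvd_index h

/-- A proper normal subgroup of a `p`-group has a central element modulo it outside of it. -/
theorem exists_central_of_lt {P A : Subgroup Ω₁} [Finite P] (hAP : A ≤ P) (hn : ∀ t ∈ P, ∀ a ∈ A, t * a * t⁻¹ ∈ A) (hne : A ≠ P)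
    (hpP : IsPGroup p P) : ∃ r ∈ P, r ∉ A ∧ ∀ x ∈ P, r * x * r⁻¹ * x⁻¹ ∈ A := by
  haveI hK : (A.subgroupOf P).Normal := by
    constructor
    intro a ha t
    exact hn t t.2 a ha
  have hq : IsPGroup p (↥P ⧸ A.subgroupOf P) := hpP.of_surjective (QuotientGroup.mk' _) (QuotientGroup.mk'_surjective _)
  haveI : Nontrivial (↥P ⧸ A.subgroupOf P) := by
    refine QuotientGroup.nontrivial_iff.2 ?_ 
    intro h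
    apply hne
    refine le_antisymm hAP (fun x hx => ?_)
    have : (⟨x, hx⟩ : P) ∈ A.subgroupOf P := by
      rw [h]
      trivial
    exact this
  haveI := hq.center_nontrivial
  obtain ⟨⟨z, hz⟩, hz1⟩ := exists_ne (1 : Subgroup.center (↥P ⧸ A.subgroupOf P))
  obtain ⟨r, rfl⟩ := QuotientGroup.mk_surjective z
  refine ⟨r, r.2, fun hr => hz1 ?_, fun x hx => ?_⟩
  · apply Subtype.ext
    exact (QuotientGroup.eq_one_iff _).2 hr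
  · have h1 := Subgroup.mem_center_iff.1 hz ((⟨x, hx⟩ : P) : ↥P ⧸ A.subgroupOf P)
    have h2 : ((r * ⟨x, hx⟩ * r⁻¹ * (⟨x, hx⟩ : P)⁻¹ : P) : ↥P ⧸ A.subgroupOf P) = 1 := by
      rw [QuotientGroup.mk_mul, QuotientGroup.mk_mul, QuotientGroup.mk_mul, QuotientGroup.mk_inv, QuotientGroup.mk_inv, ← h1]
      group
    have h3 := (QuotientGroup.eq_one_iff (r * ⟨x, hx⟩ * r⁻¹ * (⟨x, hx⟩ : P)⁻¹)).1 h2
    exact h3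

theorem star_of_not_prod (hE : IsProductSystem F₁ F₂ E) (hp₁ : IsPGroup p S₁) (hp₂ : IsPGroup p S₂) [Finite S₁] [Finite S₂]
    {P : Subgroup (Ω₁ × Ω₂)} (hc : E.IsCentric P) (hne : ¬ ∃ (Q₁ : Subgroup Ω₁) (Q₂ : Subgroup Ω₂), P = Q₁.prod Q₂) :
    ¬ (autInducedBy (S₁.prod S₂) P ⊓ (pCore p ↥(E.autGroup P)).map (E.autGroup P).subtype ≤ Inn P) := by
  have hPS : P ≤ S₁.prod S₂ := hc.1
  haveI : Finite ↥(S₁.prod S₂) := finite_prod S₁ S₂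
  haveI : Finite P := finite_of_le hPS
  let P₁ : Subgroup Ω₁ := P.map (MonoidHom.fst Ω₁ Ω₂)
  let A : Subgroup Ω₁ := P.comap (MonoidHom.inl Ω₁ Ω₂)
  have hAP : A ≤ P₁ := fun a ha => ⟨(a, 1), ha, rfl⟩
  have hP₁S : P₁ ≤ S₁ := by
    rintro _ ⟨x, hx, rfl⟩
    exact (hPS hx).1
  haveI : Finite P₁ := finite_of_le hP₁S
  have hAmem : ∀ a, a ∈ A ↔ (a, (1 : Ω₂)) ∈ P := fun a => Iff.rfl
  have hn : ∀ t ∈ P₁, ∀ a ∈ A, t * a * t⁻¹ ∈ A := by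
    rintro _ ⟨w, hw, rfl⟩ a ha
    have h1 := P.mul_mem (P.mul_mem hw ha) (P.inv_mem hw)
    rw [hAmem]
    convert h1 using 1
    refine Prod.ext rfl ?_
    show (1 : Ω₂) = w.2 * 1 * w.2⁻¹
    group
  have hne' : A ≠ P₁ := by
    intro he
    apply hne
    refine ⟨P₁, P.map (MonoidHom.snd Ω₁ Ω₂), le_antisymm (fun x hx => ⟨⟨x, hx, rfl⟩, ⟨x, hx, rfl⟩⟩) ?_⟩
    rintro ⟨a, b⟩ ⟨ha, ⟨w, hw, e⟩⟩
    have h1 : (a, (1 : Ω₂)) ∈ P := (hAmem a).1 (he ▸ ha)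
    have h2 : (w.1, (1 : Ω₂)) ∈ P := (hAmem _).1 (he ▸ (⟨w, hw, rfl⟩ : w.1 ∈ P₁))
    have h3 := P.mul_mem h1 (P.mul_mem (P.inv_mem h2) hw)
    convert h3 using 1
    refine Prod.ext ?_ ?_
    · show a = a * (w.1⁻¹ * w.1)
      group
    · show b = 1 * (1⁻¹ * w.2)
      have e' : w.2 = b := e
      rw [e']
      group
  obtain ⟨r, hrP, hrA, hrc⟩ := exists_central_of_lt hAP hn hne' (hp₁.to_le hP₁S)
  have hrS : ((r, 1) : Ω₁ × Ω₂) ∈ S₁.prod S₂ := ⟨hP₁S hrP, S₂.one_mem⟩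
  -- the set of admissible `t`
  let Tt : Ω₁ → Prop := fun t => t ∈ P₁ ∧ ∀ x ∈ P₁, t * x * t⁻¹ * x⁻¹ ∈ A
  have hT1 : Tt 1 := ⟨P₁.one_mem, fun x _ => by simp [A.one_mem]⟩
  have hTmul : ∀ {t s}, Tt t → Tt s → Tt (t * s) := by
    rintro t s ⟨ht, htc⟩ ⟨hs, hsc⟩
    refine ⟨P₁.mul_mem ht hs, fun x hx => ?_⟩
    have e : t * s * x * (t * s)⁻¹ * x⁻¹ = (t * (s * x * s⁻¹ * x⁻¹) * t⁻¹) * (t * x * t⁻¹ * x⁻¹) := by group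
    rw [e]
    exact A.mul_mem (hn t ht _ (hsc x hx)) (htc x hx)
  have hTinv : ∀ {t}, Tt t → Tt t⁻¹ := by
    rintro t ⟨ht, htc⟩
    refine ⟨P₁.inv_mem ht, fun x hx => ?_⟩
    have hx' : t⁻¹ * x * t ∈ P₁ := P₁.mul_mem (P₁.mul_mem (P₁.inv_mem ht) hx) ht
    have h1 := htc _ hx'
    have e : t⁻¹ * x * t⁻¹⁻¹ * x⁻¹ = (t * (t⁻¹ * x * t) * t⁻¹ * (t⁻¹ * x * t)⁻¹)⁻¹ := by group
    rw [e]
    exact A.inv_mem h1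
  have hrN : ((r, 1) : Ω₁ × Ω₂) ∈ Subgroup.normalizer (P : Set (Ω₁ × Ω₂)) := by
    refine mem_normalizer_of_conj_mem (S := S₁.prod S₂) hPS (fun y hy => ?_)
    have h1 := (hAmem _).1 (hrc y.1 ⟨y, hy, rfl⟩)
    have h2 := P.mul_mem h1 hy
    convert h2 using 1
    refine Prod.ext ?_ ?_
    · show r * y.1 * r⁻¹ = r * y.1 * r⁻¹ * y.1⁻¹ * y.1
      group
    · show 1 * y.2 * 1⁻¹ = 1 * y.2
      group
  have hchar : ∀ (t : Ω₁), Tt t → ∀ y ∈ P, (t * y.1 * t⁻¹, y.2) ∈ P := by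
    intro t ht y hy
    have h1 := (hAmem _).1 (ht.2 y.1 ⟨y, hy, rfl⟩)
    have h2 := P.mul_mem h1 hy
    convert h2 using 1
    refine Prod.ext ?_ ?_
    · show t * y.1 * t⁻¹ = t * y.1 * t⁻¹ * y.1⁻¹ * y.1
      group
    · show y.2 = 1 * y.2
      group
  let D : Subgroup ↥(E.autGroup P) :=
    { carrier := {α | ∃ t, Tt t ∧ ∀ y ∈ P, fn (α : MulAut P) y = (t * y.1 * t⁻¹, y.2)}
      one_mem' := ⟨1, hT1, fun y hy => by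
        show fn (1 : MulAut P) y = _
        rw [fn_one hy]
        refine Prod.ext ?_ rfl
        show y.1 = 1 * y.1 * 1⁻¹
        group⟩
      mul_mem' := by
        rintro a b ⟨t, ht, hta⟩ ⟨s, hs, hsb⟩
        refine ⟨t * s, hTmul ht hs, fun y hy => ?_⟩
        show fn ((a : MulAut P) * (b : MulAut P)) y = _
        rw [fn_mul _ _ hy, hta _ (fn_mem _ hy), hsb y hy]
        refine Prod.ext ?_ rfl
        show t * (s * y.1 * s⁻¹) * t⁻¹ = t * s * y.1 * (t * s)⁻¹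
        group
      inv_mem' := by
        rintro a ⟨t, ht, hta⟩
        refine ⟨t⁻¹, hTinv ht, fun y hy => ?_⟩
        have hy' : fn ((a : MulAut P)⁻¹) y ∈ P := fn_mem _ hy
        have h1 := hta _ hy'
        rw [fn_fn_inv _ hy] at h1
        show fn ((a : MulAut P)⁻¹) y = _
        generalize fn ((a : MulAut P)⁻¹) y = y' at h1 hy'
        subst h1
        refine Prod.ext ?_ rfl
        show y'.1 = t⁻¹ * (t * y'.1 * t⁻¹) * t⁻¹⁻¹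
        group }
  have hDn : D.Normal := by
    constructor
    rintro α ⟨t, ht, htv⟩ γ
    have hγP : (γ : MulAut P) ∈ E.autGroup P := γ.2
    obtain ⟨f₁, f₂, hm₁, hm₂, hv⟩ := exists_pf hE (isMapOn_fn hPS hγP)
    obtain ⟨g₁, g₂, hg₁, hg₂, hgv⟩ := exists_pf hE (isMapOn_fn hPS (Subgroup.inv_mem _ hγP))
    have hf₁P : ∀ x ∈ P₁, f₁ x ∈ P₁ := by
      rintro _ ⟨w, hw, rfl⟩
      have h1 := fn_mem (γ : MulAut P) hw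
      rw [hv w hw] at h1
      exact ⟨_, h1, rfl⟩
    have hg₁P : ∀ x ∈ P₁, g₁ x ∈ P₁ := by
      rintro _ ⟨w, hw, rfl⟩
      have h1 := fn_mem ((γ : MulAut P)⁻¹) hw
      rw [hgv w hw] at h1
      exact ⟨_, h1, rfl⟩
    have hfg₁ : ∀ x ∈ P₁, f₁ (g₁ x) = x := by
      rintro _ ⟨w, hw, rfl⟩
      have h1 := fn_fn_inv (γ : MulAut P) hw
      rw [hv _ (fn_mem _ hw), hgv w hw] at h1
      exact congrArg Prod.fst h1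
    have hf₁A : ∀ a ∈ A, f₁ a ∈ A := by
      intro a ha
      have h1 := fn_mem (γ : MulAut P) ((hAmem a).1 ha)
      rw [hv _ ((hAmem a).1 ha)] at h1
      rw [hAmem]
      have e : pf f₁ f₂ (a, 1) = (f₁ a, 1) := Prod.ext rfl hm₂.map_one
      rwa [e] at h1
    refine ⟨f₁ t, ⟨hf₁P t ht.1, fun x hx => ?_⟩, fun y hy => ?_⟩
    · have hgx := hg₁P x hx
      have h1 := hf₁A _ (ht.2 _ hgx)
      have hm₁' : ∀ {a b}, a ∈ P₁ → b ∈ P₁ → f₁ (a * b) = f₁ a * f₁ b := fun ha hb => hm₁.map_mul ha hb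
      rw [hm₁' (P₁.mul_mem (P₁.mul_mem ht.1 hgx) (P₁.inv_mem ht.1)) (P₁.inv_mem hgx),
        hm₁' (P₁.mul_mem ht.1 hgx) (P₁.inv_mem ht.1), hm₁' ht.1 hgx, hm₁.map_inv ht.1, hm₁.map_inv hgx, hfg₁ x hx] at h1
      exact h1
    · have hy' : fn ((γ : MulAut P)⁻¹) y ∈ P := fn_mem _ hy
      have h0 := fn_fn_inv (γ : MulAut P) hy
      have h2 := hchar t ht _ hy'
      show fn ((γ : MulAut P) * (α : MulAut P) * (γ : MulAut P)⁻¹) y = _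
      rw [fn_mul _ _ hy, fn_mul _ _ hy', htv _ hy', hv _ h2]
      rw [hv _ hy'] at h0
      generalize fn ((γ : MulAut P)⁻¹) y = y' at h0 hy' h2
      subst h0
      have hy1 : y'.1 ∈ P₁ := ⟨y', hy', rfl⟩
      refine Prod.ext ?_ rfl
      show f₁ (t * y'.1 * t⁻¹) = f₁ t * f₁ y'.1 * (f₁ t)⁻¹
      rw [hm₁.map_mul (P₁.mul_mem ht.1 hy1) (P₁.inv_mem ht.1), hm₁.map_mul ht.1 hy1, hm₁.map_inv ht.1]
  have hDp : IsPGroup p D := by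
    rintro ⟨α, t, ht, htv⟩
    obtain ⟨k, hk⟩ := (hp₁.to_le hP₁S) ⟨t, ht.1⟩
    have hk' : t ^ p ^ k = 1 := congrArg Subtype.val hk
    have hpow : ∀ n : ℕ, ∀ y ∈ P, fn ((α : MulAut P) ^ n) y = (t ^ n * y.1 * (t ^ n)⁻¹, y.2) := by
      intro n
      induction n with
      | zero =>
        intro y hy
        rw [pow_zero, fn_one hy]
        refine Prod.ext ?_ rfl
        show y.1 = t ^ 0 * y.1 * (t ^ 0)⁻¹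
        simp
      | succ n ih =>
        intro y hy
        rw [pow_succ, fn_mul _ _ hy, ih _ (fn_mem _ hy), htv y hy]
        refine Prod.ext ?_ rfl
        show t ^ n * (t * y.1 * t⁻¹) * (t ^ n)⁻¹ = t ^ (n + 1) * y.1 * (t ^ (n + 1))⁻¹
        rw [pow_succ]
        group
    refine ⟨k, Subtype.ext (Subtype.ext (fn_ext (fun y hy => ?_)))⟩
    show fn ((α : MulAut P) ^ p ^ k) y = fn (1 : MulAut P) y
    rw [hpow _ y hy, hk', fn_one hy]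
    refine Prod.ext ?_ rfl
    show 1 * y.1 * 1⁻¹ = y.1
    group
  have hDle : D ≤ pCore p ↥(E.autGroup P) := Cfsg.Agent.Lib.Basic.le_pCore hDn hDp
  intro hle
  have hcA := autOfNormalizer_mem_autGroup (F := E) hPS ⟨hrS, hrN⟩
  have hcD : (⟨autOfNormalizer hrN, hcA⟩ : ↥(E.autGroup P)) ∈ D := by
    refine ⟨r, ⟨hrP, hrc⟩, fun y hy => ?_⟩
    show fn (autOfNormalizer hrN) y = _
    rw [fn_of_mem _ hy]
    refine Prod.ext rfl ?_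
    show 1 * y.2 * 1⁻¹ = y.2
    group
  have hInn := hle ⟨autOfNormalizer_mem_autInducedBy hrN hrS, ⟨_, hDle hcD, rfl⟩⟩
  obtain ⟨w, hw⟩ := hInn
  have hcent : (w : Ω₁ × Ω₂)⁻¹ * (r, 1) ∈ centralizerIn (S₁.prod S₂) P := by
    refine ⟨Subgroup.mul_mem _ (Subgroup.inv_mem _ (hPS w.2)) hrS, ?_⟩
    show _ ∈ Subgroup.centralizer (P : Set (Ω₁ × Ω₂))
    rw [Subgroup.mem_centralizer_iff]
    intro y hy
    have h1 : ((autOfNormalizer hrN ⟨y, hy⟩ : P) : Ω₁ × Ω₂) = (r, 1) * y * (r, 1)⁻¹ := rfl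
    rw [← hw] at h1
    have h2 : (w : Ω₁ × Ω₂) * y * (w : Ω₁ × Ω₂)⁻¹ = (r, 1) * y * (r, 1)⁻¹ := h1
    have h3 : y * ((w : Ω₁ × Ω₂)⁻¹ * (r, 1)) = (w : Ω₁ × Ω₂)⁻¹ * ((w : Ω₁ × Ω₂) * y * (w : Ω₁ × Ω₂)⁻¹) * (r, 1) := by group
    rw [h3, h2]
    group
  have hmemP := hc.2 P (isConj_refl hPS) hcent
  have h5 := P.mul_mem w.2 hmemP
  rw [mul_inv_cancel_left] at h5
  exact hrA h5

/-- **The product of two saturated fusion systems is saturated.** -/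
theorem isSaturated_prod [Finite S₁] [Finite S₂] (h₁ : IsPGroup p S₁) (h₂ : IsPGroup p S₂) (hF₁ : F₁.IsSaturated p) (hF₂ : F₂.IsSaturated p)
    (hE : IsProductSystem F₁ F₂ E) : E.IsSaturated p := by
  haveI : Finite ↥(S₁.prod S₂) := finite_prod S₁ S₂
  refine isSaturated_of_criterion (isPGroup_prod h₁ h₂) {P : Subgroup (Ω₁ × Ω₂) | P ≤ S₁.prod S₂ ∧ ∃ (Q₁ : Subgroup Ω₁) (Q₂ : Subgroup Ω₂), P = Q₁.prod Q₂} ?_ ?_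
    (fun E' h => hom_le_of_prods hE E' h) (fun P hc hP => ⟨P, isConj_refl hc.1, star_of_not_prod hE h₁ h₂ hc (fun h => hP ⟨hc.1, h⟩)⟩)
  · rintro P ⟨-, Q₁, Q₂, rfl⟩ R hR
    exact ⟨isConj_le_right hR, isConj_prod_exists hE hR⟩
  · rintro P ⟨hPS, Q₁, Q₂, rfl⟩
    have hQ₁ : Q₁ ≤ S₁ := fun x hx => (hPS (⟨hx, Q₂.one_mem⟩ : (x, (1 : Ω₂)) ∈ Q₁.prod Q₂)).1
    have hQ₂ : Q₂ ≤ S₂ := fun x hx => (hPS (⟨Q₁.one_mem, hx⟩ : ((1 : Ω₁), x) ∈ Q₁.prod Q₂)).2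
    obtain ⟨R₁, hc₁, ha₁, hr₁⟩ := hF₁ Q₁ hQ₁
    obtain ⟨R₂, hc₂, ha₂, hr₂⟩ := hF₂ Q₂ hQ₂
    exact ⟨R₁.prod R₂, isConj_prod hE hc₁ hc₂, fullyAutomized_prod hE h₁ h₂ ha₁ ha₂, receptive_prod hE hr₁ hr₂⟩

end Cfsg.Agent.Lib.Fusion
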