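import Cfsg.Agent.Lib.Fusion.Solv
import Cfsg.Agent.Lib.Fusion2.Inner

/-!
# The inner system of a normal subgroup is a normal subsystem; quasisimple systems are over nonabelian groups
-/

set_option autoImplicit false
set_option linter.unusedSectionVars false
set_option linter.style.haveILetI false

namespace Cfsg.Agent.Lib.Fusion.Solv

open Cfsg Cfsg.FusionSystem Cfsg.Agent.Lib.Fusion
open scoped commutatorElement

variable {Ω : Type*} [Group Ω] {S : Subgroup Ω} [Finite S] {F : FusionSystem S} {p : ℕ} [hp : Fact p.Prime]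

/-- The inner system of a subgroup normal in a saturated system is a normal subsystem. -/
theorem isNormalIn_inner (hS : IsPGroup p S) (hF : F.IsSaturated p) {T : Subgroup Ω} (hT : F.IsNormal T) :
    (innerFusionSystem T).IsNormalIn F p := by
  have hTS := hT.1
  haveI : Finite T := finite_of_le hTS
  have hsc := stronglyClosed_of_isNormal hT
  have hTn := normalizer_of_stronglyClosed hsc
  refine ⟨⟨Fusion2.inner_saturated (hS.to_le hTS), hF, ?_, hsc, ?_, ?_⟩, ?_⟩
  · rintro P φ ⟨hP, g, hg, h⟩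
    exact mem_of_conj (hP.trans hTS) (hTS hg) h
  · rintro P hPT φ ⟨-, g, hg, h⟩ α hα
    refine ⟨conjHom _ ((α ⟨g, hg⟩ : T) : Ω), ⟨?_, _, (α _).2, fun x => rfl⟩, ?_⟩
    · rintro _ ⟨t, -, rfl⟩
      exact (α t).2
    · intro x hφx hαx
      have e : (⟨φ x, hφx⟩ : T) = ⟨g, hg⟩ * ⟨x, hPT x.2⟩ * (⟨g, hg⟩ : T)⁻¹ := Subtype.ext (h x)
      rw [e, map_mul, map_mul, map_inv]
      rfl
  · intro P hPT φ hφ
    obtain ⟨ψ, hψ, h1, α, hα, hαx⟩ := Fusion2.isNormal_exists_aut hT hφ
    refine ⟨α, hα, conjHom P 1, ⟨hPT, 1, T.one_mem, fun x => rfl⟩, fun x hx => ?_⟩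
    have h2 := hαx ⟨x, hPT x.2⟩
    have h3 := h1 x
    have h4 : (Subgroup.inclusion le_sup_left x : ↥(P ⊔ T)) = Subgroup.inclusion le_sup_right (⟨x, hPT x.2⟩ : T) := rfl
    rw [h4, ← h2] at h3
    have h5 : (⟨conjHom P 1 x, hx⟩ : T) = ⟨x, hPT x.2⟩ := Subtype.ext (by
      show (1 : Ω) * x * 1⁻¹ = x
      group)
    rw [h5]
    exact h3.symm
  · intro α hα
    obtain ⟨-, g, hg, h⟩ := (mem_autGroup_iff le_rfl).1 hα
    have hC : centralizerIn S T ≤ S := inf_le_left
    have hXS : T ⊔ centralizerIn S T ≤ S := sup_le hTS hC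
    have hgn : g ∈ Subgroup.normalizer ((T ⊔ centralizerIn S T : Subgroup Ω) : Set Ω) := by
      refine mem_normalizer_of_conj_mem hXS ?_
      have hle : T ⊔ centralizerIn S T ≤ (T ⊔ centralizerIn S T).comap (MulAut.conj g).toMonoidHom := by
        refine sup_le (fun x hx => ?_) (fun x hx => ?_)
        · exact Subgroup.mem_sup_left (T.mul_mem (T.mul_mem hg hx) (T.inv_mem hg))
        · have hxc : g * x = x * g := (Subgroup.mem_centralizer_iff.1 hx.2 g hg)
          have : (MulAut.conj g).toMonoidHom x = x := by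
            show g * x * g⁻¹ = x
            rw [hxc]
            group
          rw [Subgroup.mem_comap, this]
          exact Subgroup.mem_sup_right hx
      exact fun x hx => hle hx
    refine ⟨autOfNormalizer hgn, autOfNormalizer_mem_autGroup hXS ⟨hTS hg, hgn⟩, fun x => (h x).symm, fun c hc => ?_⟩
    have hcg : g * c = c * g := Subgroup.mem_centralizer_iff.1 hc.2 g hg
    have : (c : Ω)⁻¹ * ((autOfNormalizer hgn c : ↥(T ⊔ centralizerIn S T)) : Ω) = 1 := by
      rw [autOfNormalizer_coe, hcg]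
      group
    rw [this]
    exact Subgroup.one_mem _

/-- A quasisimple system is not over an abelian group. -/
theorem not_commutative_of_quasisimple (hS : IsPGroup p S) (hq : F.Quasisimple p) : ¬ IsMulCommutative S := by
  intro hab
  obtain ⟨hF, hhyp, hsimple⟩ := hq
  have hcomm : ∀ a b : S, a * b = b * a := fun a b => hab.is_comm.comm a b
  have hZ := Fusion2.center_isCentral F
  have hZsc : F.StronglyClosed F.center := by
    refine ⟨hZ.1, fun R hR φ hφ x => ?_⟩
    rw [Fusion2.isCentral_fixed hZ hφ x (hR x.2)]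
    exact hR x.2
  let θ := QuotientGroup.mk' ((F.center).subgroupOf S)
  have hker : ∀ s : S, θ s = 1 ↔ (s : Ω) ∈ F.center := fun s => by
    rw [show θ s = ((s : S) : S ⧸ (F.center).subgroupOf S) from rfl, QuotientGroup.eq_one_iff, Subgroup.mem_subgroupOf]
  have hr : θ.range = ⊤ := MonoidHom.range_eq_top.2 (QuotientGroup.mk'_surjective _)
  obtain ⟨E, hE⟩ := exists_factorSystem hZsc hker hr
  have hEs := hsimple E hE
  have hsurj := isSurjectiveMorphism_of_factor hS hF hZsc hE
  have hpS' : IsPGroup p (⊤ : Subgroup (S ⧸ (F.center).subgroupOf S)) :=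
    (IsPGroup.to_quotient hS ((F.center).subgroupOf S)).to_subgroup ⊤
  -- The quotient is abelian.
  have hcommb : ∀ a b : S ⧸ (F.center).subgroupOf S, a * b = b * a := by
    intro a b
    induction a using QuotientGroup.induction_on with
    | H a =>
      induction b using QuotientGroup.induction_on with
      | H b =>
        rw [← QuotientGroup.mk_mul, ← QuotientGroup.mk_mul, hcomm]
  have hAn : E.IsNormal ⊤ := by
    refine isNormal_of_abelian hpS' hEs.1 stronglyClosed_top ?_
    rw [Subgroup.commutator_le]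
    intro a _ b _
    rw [commutatorElement_def, hcommb a b]
    simp
  have hin := isNormalIn_inner hpS' hEs.1 hAn
  have hinner : ∀ P : Subgroup (S ⧸ (F.center).subgroupOf S), (innerFusionSystem ⊤).Hom P = E.Hom P := by
    rcases hEs.2.2 _ _ hin with h | ⟨-, h⟩
    · exact absurd h hEs.2.1
    · exact h
  -- Each map of `F` acts trivially modulo the centre.
  have hSn : F.IsNormal S := by
    refine isNormal_of_abelian hS hF stronglyClosed_top ?_
    rw [Subgroup.commutator_le]
    intro a ha b hb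
    have := hcomm ⟨a, ha⟩ ⟨b, hb⟩
    have h2 : a * b = b * a := congrArg Subtype.val this
    rw [commutatorElement_def, h2]
    simp
  have htriv : ∀ β ∈ F.autGroup S, ∀ s : S, (s : Ω)⁻¹ * ((β s : S) : Ω) ∈ F.center := by
    intro β hβ s
    have hφ := (mem_autGroup_iff le_rfl).1 hβ
    obtain ⟨φ', hφ', h1, h2, h3, h4⟩ := hsurj.1.2 S _ hφ
    have hφ'' := (hinner _).symm ▸ hφ'
    obtain ⟨-, g, -, hg⟩ := hφ''
    have h5 := h4 s
    have h6 := hg ⟨θ ⟨s, h1 s.2⟩, h3 s⟩
    rw [h5] at h6
    have h7 : g * (θ ⟨s, h1 s.2⟩) * g⁻¹ = θ ⟨s, h1 s.2⟩ := by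
      rw [hcommb g]
      group
    rw [h7] at h6
    have h8 : θ ⟨(s : Ω)⁻¹ * ((β s : S) : Ω), S.mul_mem (S.inv_mem s.2) (β s).2⟩ = 1 := by
      have e : (⟨(s : Ω)⁻¹ * ((β s : S) : Ω), S.mul_mem (S.inv_mem s.2) (β s).2⟩ : S) =
          (⟨s, h1 s.2⟩ : S)⁻¹ * ⟨(S.subtype.comp β.toMonoidHom) s, h2 s⟩ := rfl
      rw [e, map_mul, map_inv, h6]
      group
    exact (hker _).1 h8
  have hfix : ∀ β ∈ F.autGroup S, ∀ w : S, (w : Ω) ∈ F.center → β w = w := by
    intro β hβ w hw
    have hφ := (mem_autGroup_iff le_rfl).1 hβ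
    exact Subtype.ext (Fusion2.isCentral_fixed hZ hφ w hw)
  -- The generators of `O^p` act trivially.
  have hres : ∀ (P : Subgroup Ω), P ≤ S → ∀ α : F.autGroup P, Nat.Coprime (orderOf α) p → α = 1 := by
    intro P hPS α hα
    apply Subtype.ext
    apply MulEquiv.ext
    intro x
    have hφ := (mem_autGroup_iff hPS).1 α.2
    obtain ⟨ψ, hψ, h1, β, hβ, hβx⟩ := Fusion2.isNormal_exists_aut hSn hφ
    have hag : ∀ y : P, ((β ⟨y, hPS y.2⟩ : S) : Ω) = (((α : MulAut P) y : P) : Ω) := by
      intro y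
      have h2 := hβx ⟨y, hPS y.2⟩
      have h3 := h1 y
      have h4 : (Subgroup.inclusion le_sup_left y : ↥(P ⊔ S)) = Subgroup.inclusion le_sup_right (⟨y, hPS y.2⟩ : S) := rfl
      rw [h4, ← h2] at h3
      exact h3
    have hpow : ∀ k : ℕ, ∀ y : P, (((β ^ k) ⟨y, hPS y.2⟩ : S) : Ω) = ((((α : MulAut P) ^ k) y : P) : Ω) := by
      intro k
      induction k with
      | zero => intro y; rfl
      | succ k ih =>
        intro y
        rw [pow_succ', pow_succ', MulAut.mul_apply, MulAut.mul_apply]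
        have h5 : (β ^ k) ⟨y, hPS y.2⟩ = ⟨(((α : MulAut P) ^ k) y : P), hPS (((α : MulAut P) ^ k) y : P).2⟩ :=
          Subtype.ext (ih y)
        rw [h5]
        exact hag _
    let s : S := ⟨x, hPS x.2⟩
    have hz := htriv β hβ s
    have hzS : (s : Ω)⁻¹ * ((β s : S) : Ω) ∈ S := S.mul_mem (S.inv_mem s.2) (β s).2
    let z : S := s⁻¹ * β s
    have hzfix : ∀ k : ℕ, (β ^ k) s = s * z ^ k := by
      intro k
      induction k with
      | zero => simp
      | succ k ih =>
        rw [pow_succ', MulAut.mul_apply, ih, map_mul, map_pow, hfix β hβ z hz]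
        have : β s = s * z := by
          show β s = s * (s⁻¹ * β s)
          group
        rw [this]
        rw [pow_succ']
        group
    have hm : (((α : MulAut P) ^ orderOf α)) = 1 := by
      have := pow_orderOf_eq_one α
      exact congrArg Subtype.val this
    have h1' := hpow (orderOf α) x
    rw [hm, hzfix] at h1'
    have h2' : s * z ^ orderOf α = s := Subtype.ext h1'
    have h3' : z ^ orderOf α = 1 := by
      simpa using h2'
    obtain ⟨k, hk⟩ := hS z
    have hcop : Nat.Coprime (p ^ k) (orderOf α) := (Nat.Coprime.symm hα).pow_left k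
    have h4' : z = 1 := by
      have := pow_gcd_eq_one.2 ⟨hk, h3'⟩
      rwa [Nat.Coprime.gcd_eq_one hcop, pow_one] at this
    have h5' := hag x
    have h6' : β s = s := by
      have : β s = s * z := by
        show β s = s * (s⁻¹ * β s)
        group
      rw [this, h4', mul_one]
    rw [show (β ⟨x, hPS x.2⟩) = β s from rfl, h6'] at h5'
    exact Subtype.ext h5'.symm
  have hresid : ∀ (P : Subgroup Ω), P ≤ S → pResidual p (F.autGroup P) ≤ ⊥ := by
    intro P hPS
    refine (Subgroup.closure_le _).2 fun α hα => ?_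
    exact Subgroup.mem_bot.2 (hres P hPS α hα)
  have hhb : F.hyperfocalSubgroup p ≤ ⊥ := by
    refine (Subgroup.closure_le _).2 ?_
    rintro y ⟨P, α, x, hPS, hα, rfl⟩
    have : α = 1 := Subgroup.mem_bot.1 (hresid P hPS hα)
    rw [this]
    simp
  rw [hhyp] at hhb
  apply hEs.2.1
  rw [eq_bot_iff]
  intro a _
  induction a using QuotientGroup.induction_on with
  | H a =>
    have : (a : Ω) = 1 := Subgroup.mem_bot.1 (hhb a.2)
    have ha : a = 1 := Subtype.ext this
    rw [ha]
    exact Subgroup.one_mem _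

end Cfsg.Agent.Lib.Fusion.Solv
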