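/-
The symplectic group with its positive root elements: the order of the coordinates, unitriangular and
upper triangular subgroups, root elements and block forms.
-/
import Cfsg.Agent.Lib.Fusion.CoverCrit
import Cfsg.Agent.Lib.Classical.Symp2

set_option autoImplicit false
set_option linter.unusedSectionVars false
set_option linter.unusedVariables false
set_option linter.unusedSimpArgs false
set_option linter.style.haveILetI false

namespace Cfsg.Agent.Lib.Fusion.SpF

open Matrix Cfsg.Agent.Lib.Fusion.PSLF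

variable {K : Type*} [Field K] {m : ℕ}

abbrev II (m : ℕ) := Fin m ⊕ Fin m

abbrev Sp (m : ℕ) (K : Type*) [Field K] := Matrix.symplecticGroup (Fin m) K

/-- Position of a coordinate in the flag order. -/
def pos : II m → ℕ
  | Sum.inl i => (i : ℕ)
  | Sum.inr i => 2 * m - 1 - (i : ℕ)

@[simp] theorem pos_inl (i : Fin m) : pos (Sum.inl i : II m) = i := rfl
@[simp] theorem pos_inr (i : Fin m) : pos (Sum.inr i : II m) = 2 * m - 1 - i := rfl

theorem pos_lt (x : II m) : pos x < 2 * m := by
  rcases x with i | i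
  · have := i.2
    simp only [pos_inl]
    omega
  · have := i.2
    simp only [pos_inr]
    omega

theorem pos_swap (x : II m) : pos x.swap = 2 * m - 1 - pos x := by
  rcases x with i | i
  · simp [pos_inl, pos_inr]
  · have := i.2
    simp only [Sum.swap_inr, pos_inl, pos_inr]
    omega

theorem pos_inj {x y : II m} (h : pos x = pos y) : x = y := by
  rcases x with i | i <;> rcases y with j | j
  · simp only [pos_inl] at h
    rw [Fin.ext h]
  · have := i.2
    have := j.2
    simp only [pos_inl, pos_inr] at h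
    omega
  · have := i.2
    have := j.2
    simp only [pos_inl, pos_inr] at h
    omega
  · have := i.2
    have := j.2
    simp only [pos_inr] at h
    have : i = j := Fin.ext (by omega)
    rw [this]

theorem pos_ne {x y : II m} (h : x ≠ y) : pos x ≠ pos y := fun e => h (pos_inj e)

/-- Upper triangular in the flag order. -/
def IsUpS (M : Matrix (II m) (II m) K) : Prop := ∀ x y, pos y < pos x → M x y = 0

theorem IsUpS.mul {a b : Matrix (II m) (II m) K} (ha : IsUpS a) (hb : IsUpS b) : IsUpS (a * b) := by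
  intro i j hij
  rw [Matrix.mul_apply]
  refine Finset.sum_eq_zero (fun l _ => ?_)
  by_cases h : pos l < pos i
  · rw [ha i l h, zero_mul]
  · rw [hb l j (lt_of_lt_of_le hij (not_lt.1 h)), mul_zero]

theorem IsUpS.mul_diag {a b : Matrix (II m) (II m) K} (ha : IsUpS a) (hb : IsUpS b) (i : II m) : (a * b) i i = a i i * b i i := by
  rw [Matrix.mul_apply, Finset.sum_eq_single i]
  · intro l _ hl
    rcases lt_or_gt_of_ne (pos_ne hl) with h | h
    · rw [ha i l h, zero_mul]
    · rw [hb l i h, mul_zero]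
  · simp

theorem isUpS_one : IsUpS (1 : Matrix (II m) (II m) K) := by
  intro i j hij
  exact Matrix.one_apply_ne (fun e => by rw [e] at hij; exact lt_irrefl _ hij)

theorem IsUpS.pow {a : Matrix (II m) (II m) K} (ha : IsUpS a) (k : ℕ) : IsUpS (a ^ k) := by
  induction k with
  | zero => simpa using isUpS_one
  | succ k ih =>
    rw [pow_succ]
    exact ih.mul ha

theorem IsUpS.pow_diag {a : Matrix (II m) (II m) K} (ha : IsUpS a) (k : ℕ) (i : II m) : (a ^ k) i i = a i i ^ k := by
  induction k with
  | zero => simp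
  | succ k ih =>
    rw [pow_succ, (ha.pow k).mul_diag ha, ih, pow_succ]

/-- Root matrices. -/
def rM (a b c d : II m) (s s' : K) : Matrix (II m) (II m) K :=
  1 + Matrix.single a b s + Matrix.single c d s'

theorem rM_mul_apply (a b c d : II m) (s s' : K) (M : Matrix (II m) (II m) K) (x y : II m) :
    (rM a b c d s s' * M) x y = M x y + (if x = a then s * M b y else 0) + (if x = c then s' * M d y else 0) := by
  rw [rM, add_mul, add_mul, one_mul, Matrix.add_apply, Matrix.add_apply]
  congr 1
  · congr 1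
    split_ifs with h
    · subst h
      rw [Matrix.single_mul_apply_same]
    · rw [Matrix.single_mul_apply_of_ne _ _ _ _ _ h]
  · split_ifs with h
    · subst h
      rw [Matrix.single_mul_apply_same]
    · rw [Matrix.single_mul_apply_of_ne _ _ _ _ _ h]

theorem mul_rM_apply (a b c d : II m) (s s' : K) (M : Matrix (II m) (II m) K) (x y : II m) :
    (M * rM a b c d s s') x y = M x y + (if y = b then M x a * s else 0) + (if y = d then M x c * s' else 0) := by
  rw [rM, mul_add, mul_add, mul_one, Matrix.add_apply, Matrix.add_apply]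
  congr 1
  · congr 1
    split_ifs with h
    · subst h
      rw [Matrix.mul_single_apply_same]
    · rw [Matrix.mul_single_apply_of_ne _ _ _ _ _ h]
  · split_ifs with h
    · subst h
      rw [Matrix.mul_single_apply_same]
    · rw [Matrix.mul_single_apply_of_ne _ _ _ _ _ h]

theorem rM_apply (a b c d : II m) (s s' : K) (x y : II m) :
    rM a b c d s s' x y = (1 : Matrix (II m) (II m) K) x y + (if x = a ∧ y = b then s else 0) + (if x = c ∧ y = d then s' else 0) := by
  have h := rM_mul_apply a b c d s s' 1 x y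
  rw [mul_one] at h
  rw [h]
  congr 1
  · congr 1
    by_cases h1 : x = a
    · by_cases h2 : y = b
      · subst h1 h2
        simp
      · simp [h1, h2, Matrix.one_apply_ne (Ne.symm h2)]
    · simp [h1]
  · by_cases h1 : x = c
    · by_cases h2 : y = d
      · subst h1 h2
        simp
      · simp [h1, h2, Matrix.one_apply_ne (Ne.symm h2)]
    · simp [h1]

/-! ### Block forms -/

theorem sp_mem_iff {M : Matrix (II m) (II m) K} : M ∈ Sp m K ↔ M * J (Fin m) K * Mᵀ = J (Fin m) K :=
  SymplecticGroup.mem_iff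

/-- The Levi embedding. -/
def Lev : SLn m K →* Sp m K where
  toFun A := ⟨fromBlocks A.1 0 0 (A⁻¹).1ᵀ, by
    rw [sp_mem_iff, J, fromBlocks_transpose]
    have h1 : A.1 * (A⁻¹).1 = 1 := by
      rw [← Matrix.SpecialLinearGroup.coe_mul, mul_inv_cancel]
      rfl
    have h2 : (A⁻¹).1ᵀ * A.1ᵀ = 1 := by
      rw [← Matrix.transpose_mul, h1, Matrix.transpose_one]
    simp only [transpose_zero, transpose_transpose, fromBlocks_multiply, mul_zero, zero_mul, add_zero, zero_add, mul_neg, neg_mul,
      mul_one, one_mul, h1, h2, neg_zero]⟩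
  map_one' := by
    apply Subtype.ext
    simp
  map_mul' A B := by
    apply Subtype.ext
    show fromBlocks (A * B).1 0 0 ((A * B)⁻¹).1ᵀ = fromBlocks A.1 0 0 (A⁻¹).1ᵀ * fromBlocks B.1 0 0 (B⁻¹).1ᵀ
    rw [fromBlocks_multiply, _root_.mul_inv_rev]
    simp only [Matrix.SpecialLinearGroup.coe_mul, Matrix.transpose_mul, mul_zero, zero_mul, add_zero, zero_add]

theorem Lev_val (A : SLn m K) : (Lev A).1 = fromBlocks A.1 0 0 (A⁻¹).1ᵀ := rfl

/-- Elements of the Siegel radical. -/
def xB (B : Matrix (Fin m) (Fin m) K) (h : Bᵀ = B) : Sp m K :=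
  ⟨fromBlocks 1 B 0 1, by
    rw [sp_mem_iff, J, fromBlocks_transpose, h]
    simp [fromBlocks_multiply]⟩

theorem xB_val (B : Matrix (Fin m) (Fin m) K) (h : Bᵀ = B) : (xB B h).1 = fromBlocks 1 B 0 1 := rfl

theorem xB_mul (B C : Matrix (Fin m) (Fin m) K) (h : Bᵀ = B) (h' : Cᵀ = C) (h'' : (B + C)ᵀ = B + C) :
    xB B h * xB C h' = xB (B + C) h'' := by
  apply Subtype.ext
  show fromBlocks 1 B 0 1 * fromBlocks 1 C 0 1 = _
  rw [xB_val, fromBlocks_multiply]
  simp [add_comm]

/-- The opposite Siegel radical. -/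
def yB (C : Matrix (Fin m) (Fin m) K) (h : Cᵀ = C) : Sp m K :=
  ⟨fromBlocks 1 0 C 1, by
    rw [sp_mem_iff, J, fromBlocks_transpose, h]
    simp [fromBlocks_multiply]⟩

theorem yB_val (C : Matrix (Fin m) (Fin m) K) (h : Cᵀ = C) : (yB C h).1 = fromBlocks 1 0 C 1 := rfl

/-! ### Root elements -/

theorem single_transpose_self (j : Fin m) (t : K) : (Matrix.single j j t)ᵀ = Matrix.single j j t := by
  rw [Matrix.transpose_single]

/-- The symmetric matrix of a short root. -/
def sS (j k : Fin m) (t : K) : Matrix (Fin m) (Fin m) K := Matrix.single j k t + Matrix.single k j t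

theorem sS_transpose (j k : Fin m) (t : K) : (sS j k t)ᵀ = sS j k t := by
  rw [sS, Matrix.transpose_add, Matrix.transpose_single, Matrix.transpose_single, add_comm]

/-- Long root elements. -/
def xL (j : Fin m) (t : K) : Sp m K := xB (Matrix.single j j t) (single_transpose_self j t)

/-- Short root elements. -/
def xS (j k : Fin m) (t : K) : Sp m K := xB (sS j k t) (sS_transpose j k t)

/-- Opposite long root elements. -/
def yL (j : Fin m) (t : K) : Sp m K := yB (Matrix.single j j t) (single_transpose_self j t)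

/-- Short root elements in the Levi. -/
def xE (c d : Fin m) (hcd : c ≠ d) (t : K) : Sp m K := Lev (rt c d hcd t)

theorem xL_val (j : Fin m) (t : K) : (xL j t).1 = rM (Sum.inl j) (Sum.inr j) (Sum.inl j) (Sum.inr j) t 0 := by
  show fromBlocks 1 (Matrix.single j j t) 0 1 = _
  ext x y
  rw [rM_apply]
  rcases x with x | x <;> rcases y with y | y
  · simp [Matrix.one_apply]
  · simp only [fromBlocks_apply₁₂, Matrix.one_apply, Sum.inl.injEq, reduceCtorEq, if_false, zero_add, and_false, add_zero, Matrix.single_apply]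
    by_cases h1 : j = x <;> by_cases h2 : j = y <;> simp [h1, h2, eq_comm]
  · simp [Matrix.one_apply]
  · simp [Matrix.one_apply]

theorem yL_val (j : Fin m) (t : K) : (yL j t).1 = rM (Sum.inr j) (Sum.inl j) (Sum.inr j) (Sum.inl j) t 0 := by
  show fromBlocks 1 0 (Matrix.single j j t) 1 = _
  ext x y
  rw [rM_apply]
  rcases x with x | x <;> rcases y with y | y
  · simp [Matrix.one_apply]
  · simp [Matrix.one_apply]
  · simp only [fromBlocks_apply₂₁, Matrix.one_apply, Sum.inr.injEq, Sum.inl.injEq, reduceCtorEq, if_false, zero_add, and_false, add_zero, Matrix.single_apply]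
    by_cases h1 : j = x <;> by_cases h2 : j = y <;> simp [h1, h2, eq_comm]
  · simp [Matrix.one_apply]

theorem xS_val {j k : Fin m} (hjk : j ≠ k) (t : K) : (xS j k t).1 = rM (Sum.inl j) (Sum.inr k) (Sum.inl k) (Sum.inr j) t t := by
  show fromBlocks 1 (sS j k t) 0 1 = _
  ext x y
  rw [rM_apply]
  rcases x with x | x <;> rcases y with y | y
  · simp [Matrix.one_apply]
  · simp only [fromBlocks_apply₁₂, Matrix.one_apply, Sum.inl.injEq, reduceCtorEq, if_false, zero_add, and_false, add_zero, Sum.inr.injEq, sS, Matrix.add_apply, Matrix.single_apply]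
    by_cases h1 : j = x <;> by_cases h2 : k = y <;> by_cases h3 : k = x <;> by_cases h4 : j = y <;> simp [h1, h2, h3, h4, eq_comm]
  · simp [Matrix.one_apply]
  · simp [Matrix.one_apply]

theorem xE_val {c d : Fin m} (hcd : c ≠ d) (t : K) : (xE c d hcd t).1 = rM (Sum.inl c) (Sum.inl d) (Sum.inr d) (Sum.inr c) t (-t) := by
  show fromBlocks (rt c d hcd t).1 0 0 ((rt c d hcd t)⁻¹).1ᵀ = _
  rw [rt_inv]
  ext x y
  rw [rM_apply]
  rcases x with x | x <;> rcases y with y | y
  · simp only [fromBlocks_apply₁₁, rt_apply, Matrix.one_apply, Sum.inl.injEq, reduceCtorEq, false_and, if_false, add_zero, eq_comm]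
  · simp [Matrix.one_apply]
  · simp [Matrix.one_apply]
  · simp only [fromBlocks_apply₂₂, Matrix.transpose_apply, rt_apply, Matrix.one_apply, Sum.inr.injEq, reduceCtorEq, false_and, if_false, zero_add, add_zero]
    by_cases h1 : c = y <;> by_cases h2 : d = x <;> by_cases h3 : x = y <;> simp [h1, h2, h3, eq_comm]

theorem xE_inv {c d : Fin m} (hcd : c ≠ d) (t : K) : (xE c d hcd t)⁻¹ = xE c d hcd (-t) := by
  rw [xE, xE, ← map_inv, rt_inv]

section Fin

variable [Fintype K]

/-- The upper triangular subgroup. -/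
def B0S (m : ℕ) (K : Type*) [Field K] [Fintype K] : Subgroup (Sp m K) :=
  ofClosed {g | IsUpS g.1} isUpS_one (fun a ha b hb => IsUpS.mul ha hb)

/-- The unitriangular subgroup. -/
def U0S (m : ℕ) (K : Type*) [Field K] [Fintype K] : Subgroup (Sp m K) :=
  ofClosed {g | IsUpS g.1 ∧ ∀ i, g.1 i i = 1} ⟨isUpS_one, fun i => Matrix.one_apply_eq i⟩ (fun a ha b hb =>
    ⟨IsUpS.mul ha.1 hb.1, fun i => by
      show (a.1 * b.1) i i = 1
      rw [ha.1.mul_diag hb.1, ha.2, hb.2, one_mul]⟩)

theorem mem_B0S {g : Sp m K} : g ∈ B0S m K ↔ IsUpS g.1 := Iff.rfl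

theorem mem_U0S {g : Sp m K} : g ∈ U0S m K ↔ IsUpS g.1 ∧ ∀ i, g.1 i i = 1 := Iff.rfl

theorem U0S_le_B0S : U0S m K ≤ B0S m K := fun _ h => h.1

/-- `U0S` is normal in `B0S`. -/
theorem conj_mem_U0S {g u : Sp m K} (hm : g ∈ B0S m K) (hu : u ∈ U0S m K) : g * u * g⁻¹ ∈ U0S m K := by
  have hi : g⁻¹ ∈ B0S m K := (B0S m K).inv_mem hm
  refine ⟨IsUpS.mul (IsUpS.mul hm hu.1) hi, fun i => ?_⟩
  show (g.1 * u.1 * (g⁻¹).1) i i = 1
  rw [(IsUpS.mul hm hu.1).mul_diag hi, IsUpS.mul_diag hm hu.1, hu.2, mul_one, ← IsUpS.mul_diag hm hi]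
  have : g.1 * (g⁻¹).1 = 1 := congrArg Subtype.val (mul_inv_cancel g)
  rw [this]
  exact Matrix.one_apply_eq i

theorem normalizer_of_B0S {g : Sp m K} (hm : g ∈ B0S m K) : g ∈ Subgroup.normalizer ((U0S m K : Subgroup (Sp m K)) : Set (Sp m K)) := by
  rw [Subgroup.mem_normalizer_iff]
  intro u
  refine ⟨fun hu => conj_mem_U0S hm hu, fun hu => ?_⟩
  have h1 := conj_mem_U0S ((B0S m K).inv_mem hm) hu
  have e : g⁻¹ * (g * u * g⁻¹) * g⁻¹⁻¹ = u := by group
  rwa [e] at h1

theorem isUpS_rM {a b c d : II m} (hab : pos a < pos b) (hcd : pos c < pos d) (s s' : K) : IsUpS (rM a b c d s s') := by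
  intro x y hxy
  rw [rM_apply, if_neg, if_neg, Matrix.one_apply_ne, zero_add, add_zero]
  · rintro rfl
    exact lt_irrefl _ hxy
  · rintro ⟨rfl, rfl⟩
    omega
  · rintro ⟨rfl, rfl⟩
    omega

theorem diag_rM {a b c d : II m} (hab : pos a < pos b) (hcd : pos c < pos d) (s s' : K) (x : II m) : rM a b c d s s' x x = 1 := by
  rw [rM_apply, if_neg, if_neg, Matrix.one_apply_eq, add_zero, add_zero]
  · rintro ⟨rfl, h⟩
    rw [← h] at hcd
    exact lt_irrefl _ hcd
  · rintro ⟨rfl, h⟩
    rw [← h] at hab
    exact lt_irrefl _ hab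

theorem mem_U0S_of_rM {g : Sp m K} {a b c d : II m} {s s' : K} (h : g.1 = rM a b c d s s') (hab : pos a < pos b) (hcd : pos c < pos d) : g ∈ U0S m K := by
  refine ⟨?_, fun x => ?_⟩
  · rw [h]
    exact isUpS_rM hab hcd s s'
  · rw [h]
    exact diag_rM hab hcd s s' x

theorem pos_lr (i j : Fin m) : pos (Sum.inl i : II m) < pos (Sum.inr j : II m) := by
  have := i.2
  have := j.2
  simp only [pos_inl, pos_inr]
  omega

theorem xL_mem (j : Fin m) (t : K) : xL j t ∈ U0S m K := mem_U0S_of_rM (xL_val j t) (pos_lr _ _) (pos_lr _ _)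

theorem xS_mem {j k : Fin m} (hjk : j ≠ k) (t : K) : xS j k t ∈ U0S m K := mem_U0S_of_rM (xS_val hjk t) (pos_lr _ _) (pos_lr _ _)

theorem pos_rr {i j : Fin m} (h : i < j) : pos (Sum.inr j : II m) < pos (Sum.inr i : II m) := by
  have := i.2
  have := j.2
  rw [Fin.lt_def] at h
  simp only [pos_inr]
  omega

theorem pos_ll {i j : Fin m} (h : i < j) : pos (Sum.inl i : II m) < pos (Sum.inl j : II m) := by
  rw [Fin.lt_def] at h
  simpa only [pos_inl] using h

theorem xE_mem {c d : Fin m} (hcd : c < d) (t : K) : xE c d hcd.ne t ∈ U0S m K :=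
  mem_U0S_of_rM (xE_val hcd.ne t) (pos_ll hcd) (pos_rr hcd)

theorem xB_mem (B : Matrix (Fin m) (Fin m) K) (h : Bᵀ = B) : xB B h ∈ U0S m K := by
  refine ⟨?_, fun x => ?_⟩
  · rintro (i | i) (j | j) hxy
    · show (fromBlocks 1 B 0 1 : Matrix (II m) (II m) K) _ _ = 0
      rw [fromBlocks_apply₁₁, Matrix.one_apply_ne]
      rintro rfl
      exact lt_irrefl _ hxy
    · exact absurd hxy (not_lt.2 (pos_lr i j).le)
    · rfl
    · show (fromBlocks 1 B 0 1 : Matrix (II m) (II m) K) _ _ = 0
      rw [fromBlocks_apply₂₂, Matrix.one_apply_ne]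
      rintro rfl
      exact lt_irrefl _ hxy
  · rcases x with i | i
    · show (fromBlocks 1 B 0 1 : Matrix (II m) (II m) K) _ _ = 1
      rw [fromBlocks_apply₁₁, Matrix.one_apply_eq]
    · show (fromBlocks 1 B 0 1 : Matrix (II m) (II m) K) _ _ = 1
      rw [fromBlocks_apply₂₂, Matrix.one_apply_eq]

/-- Every pair of coordinates in order carries a positive root element. -/
theorem exists_root (j i : II m) (h : pos j < pos i) :
    ∃ w ∈ U0S m K, ∀ (M : Matrix (II m) (II m) K) (z : II m), (w.1 * M) j z = M j z + M i z := by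
  rcases j with a | a <;> rcases i with b | b
  · have hab : a < b := by
      rw [Fin.lt_def]
      simpa only [pos_inl] using h
    refine ⟨_, xE_mem hab 1, fun M z => ?_⟩
    rw [xE_val, rM_mul_apply]
    simp
  · by_cases hab : a = b
    · subst hab
      refine ⟨_, xL_mem a 1, fun M z => ?_⟩
      rw [xL_val, rM_mul_apply]
      simp
    · refine ⟨_, xS_mem hab 1, fun M z => ?_⟩
      rw [xS_val hab, rM_mul_apply]
      simp [hab]
  · exfalso
    have := pos_lr b a
    omega
  · have hba : b < a := by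
      have := a.2
      have := b.2
      simp only [pos_inr] at h
      rw [Fin.lt_def]
      omega
    refine ⟨_, xE_mem hba (-1), fun M z => ?_⟩
    rw [xE_val, rM_mul_apply]
    simp

/-- Normalizing `U0S` forces upper triangular. -/
theorem isUpS_of_norm (g : Sp m K) (h : g ∈ Subgroup.normalizer ((U0S m K : Subgroup (Sp m K)) : Set (Sp m K))) : IsUpS g.1 := by
  have key : ∀ (k : ℕ) (j i : II m), pos j = k → pos j < pos i → g.1 i j = 0 := by
    intro k
    induction k using Nat.strong_induction_on with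
    | _ k ih =>
      intro j i hjk hji
      obtain ⟨w, hw, hwM⟩ := exists_root (K := K) j i hji
      have hu : g⁻¹ * w * g ∈ U0S m K := by
        have h1 := (Subgroup.mem_normalizer_iff.1 ((Subgroup.normalizer _).inv_mem h) w).1 hw
        simpa using h1
      have he : w * g = g * (g⁻¹ * w * g) := by group
      have h1 : (w.1 * g.1) j j = (g.1 * (g⁻¹ * w * g).1) j j := by
        have := congrArg Subtype.val he
        exact congrFun (congrFun this j) j
      rw [hwM, Matrix.mul_apply, Finset.sum_eq_single j] at h1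
      · rw [hu.2, mul_one] at h1
        simpa using h1
      · intro l _ hl
        rcases lt_or_gt_of_ne (pos_ne hl) with h2 | h2
        · rw [ih (pos l) (by rw [← hjk]; exact h2) l j rfl h2, zero_mul]
        · rw [hu.1 l j h2, mul_zero]
      · simp
  intro i j hij
  exact key _ j i rfl hij

end Fin

end Cfsg.Agent.Lib.Fusion.SpF
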