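/-
The symplectic group: relations among entries, centre, decomposition of unitriangular and upper
triangular elements, the radicals of the minimal parabolics.
-/
import Cfsg.Agent.Lib.Fusion.SpRoot

set_option autoImplicit false
set_option linter.unusedSectionVars false
set_option linter.unusedVariables false
set_option linter.unusedSimpArgs false
set_option linter.style.haveILetI false

namespace Cfsg.Agent.Lib.Fusion.SpF

open Matrix Cfsg.Agent.Lib.Fusion.PSLF

variable {K : Type*} [Field K] {m : ℕ}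

/-- The sign of the form. -/
def sg : II m → K
  | Sum.inl _ => -1
  | Sum.inr _ => 1

theorem J_apply (a b : II m) : J (Fin m) K a b = if b = a.swap then sg a else 0 := by
  rcases a with i | i <;> rcases b with j | j
  · simp [J]
  · by_cases h : j = i
    · subst h
      simp [J, sg]
    · simp [J, h, Matrix.one_apply_ne (Ne.symm h)]
  · by_cases h : j = i
    · subst h
      simp [J, sg]
    · simp [J, h, Matrix.one_apply_ne (Ne.symm h)]
  · simp [J]

/-- The entries of `gᵀ J g`. -/
theorem sp_entry (g : Sp m K) (x y : II m) : ∑ a, g.1 a x * sg a * g.1 a.swap y = J (Fin m) K x y := by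
  have h := SymplecticGroup.mem_iff'.1 g.2
  rw [← h]
  simp only [Matrix.mul_apply, Matrix.transpose_apply, J_apply, Finset.sum_mul]
  rw [Finset.sum_comm]
  refine Finset.sum_congr rfl (fun a _ => ?_)
  rw [Finset.sum_eq_single a.swap]
  · simp
  · intro b _ hb
    simp [hb]
  · simp

/-- The diagonal relation. -/
theorem diag_rel {g : Sp m K} (hg : IsUpS g.1) (i : Fin m) : g.1 (Sum.inl i) (Sum.inl i) * g.1 (Sum.inr i) (Sum.inr i) = 1 := by
  have h := sp_entry g (Sum.inl i) (Sum.inr i)
  rw [Finset.sum_eq_single (Sum.inl i)] at h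
  · have hJ : J (Fin m) K (Sum.inl i) (Sum.inr i) = -1 := by
      simp [J_apply, sg]
    rw [hJ] at h
    simp only [Sum.swap_inl, sg] at h
    linear_combination -h
  · intro a _ ha
    rcases lt_or_gt_of_ne (pos_ne ha) with h1 | h1
    · have h2 : pos (Sum.inr i : II m) < pos a.swap := by
        rw [pos_swap]
        have := pos_lt a
        have := i.2
        simp only [pos_inl] at h1
        simp only [pos_inr]
        omega
      rw [hg _ _ h2, mul_zero]
    · rw [hg _ _ h1, zero_mul, zero_mul]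
  · simp

/-- The adjacent relation. -/
theorem adj_rel {g : Sp m K} (hg : IsUpS g.1) (hd : ∀ x, g.1 x x = 1) {a b : Fin m} (hab : (a : ℕ) + 1 = b) :
    g.1 (Sum.inr b) (Sum.inr a) = - g.1 (Sum.inl a) (Sum.inl b) := by
  have hne : a ≠ b := by
    intro e
    rw [e] at hab
    omega
  have h := sp_entry g (Sum.inl b) (Sum.inr a)
  rw [Finset.sum_eq_add (Sum.inl a) (Sum.inl b) (by simpa using hne)] at h
  · have hJ : J (Fin m) K (Sum.inl b) (Sum.inr a) = 0 := by
      rw [J_apply, if_neg]
      simpa using hne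
    rw [hJ] at h
    simp only [Sum.swap_inl, sg, hd] at h
    linear_combination -h
  · intro c _ hc
    have h1 := pos_ne hc.1
    have h2 := pos_ne hc.2
    simp only [pos_inl] at h1 h2
    by_cases h3 : pos c < a
    · have h4 : pos (Sum.inr a : II m) < pos c.swap := by
        rw [pos_swap]
        have := pos_lt c
        have := a.2
        simp only [pos_inr]
        omega
      rw [hg _ _ h4, mul_zero]
    · have h4 : pos (Sum.inl b : II m) < pos c := by
        simp only [pos_inl]
        omega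
      rw [hg _ _ h4, zero_mul, zero_mul]
  · simp
  · simp

/-- A symplectic matrix with first row block `(1, C)` and lower left block zero. -/
theorem block_sym {C D : Matrix (Fin m) (Fin m) K} (h : fromBlocks 1 C 0 D ∈ Sp m K) : D = 1 ∧ Cᵀ = C := by
  have h1 := sp_mem_iff.1 h
  rw [J, fromBlocks_transpose] at h1
  simp only [transpose_zero, Matrix.transpose_one, fromBlocks_multiply, mul_zero, zero_mul, add_zero, zero_add, mul_neg, neg_mul,
      mul_one, one_mul, neg_zero] at h1
  rw [fromBlocks_inj] at h1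
  obtain ⟨h2, -, h3, -⟩ := h1
  refine ⟨h3, ?_⟩
  have h4 : C + -Cᵀ = 0 := by simpa using h2
  exact (add_neg_eq_zero.1 h4).symm

/-! ### Scalars -/

/-- Scalars. -/
def zS (c : K) (h : c * c = 1) : Sp m K :=
  ⟨Matrix.scalar (II m) c, by
    rw [sp_mem_iff]
    ext x y
    simp only [Matrix.scalar_apply, Matrix.mul_apply, Matrix.transpose_apply, Matrix.diagonal_apply]
    simp [Finset.sum_ite_eq, Finset.mem_univ]
    by_cases hJ : J (Fin m) K x y = 0
    · simp [hJ]
    · linear_combination (J (Fin m) K x y) * h⟩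

theorem zS_apply {c : K} {h : c * c = 1} (x y : II m) : (zS c h : Sp m K).1 x y = if x = y then c else 0 := by
  show Matrix.scalar (II m) c x y = _
  simp [Matrix.scalar_apply, Matrix.diagonal_apply]

theorem mul_zS_apply {c : K} {h : c * c = 1} (g : Sp m K) (x y : II m) : (g * zS c h).1 x y = g.1 x y * c := by
  show (g.1 * Matrix.scalar (II m) c) x y = _
  rw [Matrix.scalar_apply, Matrix.mul_diagonal]

theorem zS_mem_center {c : K} {h : c * c = 1} : (zS c h : Sp m K) ∈ Subgroup.center (Sp m K) := by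
  rw [Subgroup.mem_center_iff]
  intro g
  apply Subtype.ext
  show g.1 * Matrix.scalar (II m) c = Matrix.scalar (II m) c * g.1
  rw [(Matrix.scalar_commute (n := II m) c (fun r => mul_comm c r) g.1).eq]

section Fin

variable [Fintype K] {p : ℕ} [hp : Fact p.Prime] [hc : CharP K p]

theorem center_trivial (hm : 1 ≤ m) {z : Sp m K} (hz : z ∈ Subgroup.center (Sp m K)) {k : ℕ} (h : z ^ p ^ k = 1) : z = 1 := by
  rcases Cfsg.Agent.Lib.Classical.sp_central_one_or_neg hm z hz with h1 | h1
  · exact Subtype.ext h1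
  · have hup : IsUpS z.1 := by
      rw [h1]
      intro x y hxy
      rw [Matrix.neg_apply, Matrix.one_apply_ne (fun e => by rw [e] at hxy; exact lt_irrefl _ hxy), neg_zero]
    let x0 : II m := Sum.inl ⟨0, by omega⟩
    have h2 : (z ^ p ^ k).1 x0 x0 = 1 := by
      rw [h]
      exact Matrix.one_apply_eq x0
    have h3 : (z.1 ^ p ^ k) x0 x0 = 1 := h2
    rw [hup.pow_diag, h1, Matrix.neg_apply, Matrix.one_apply_eq] at h3
    have h4 : (-1 : K) = 1 := field_pow_inj (p := p) (k := k) (by rw [h3, one_pow])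
    apply Subtype.ext
    rw [h1]
    show -1 = (1 : Matrix (II m) (II m) K)
    ext x y
    rw [Matrix.neg_apply]
    by_cases hxy : x = y
    · subst hxy
      rw [Matrix.one_apply_eq, h4]
    · rw [Matrix.one_apply_ne hxy, neg_zero]

theorem exists_pow_U0S {e : ℕ} (he : 2 * m ≤ p ^ e) {u : Sp m K} (hu : u ∈ U0S m K) : u ^ p ^ e = 1 := by
  rcases Nat.eq_zero_or_pos m with rfl | hm
  · apply Subtype.ext
    ext i
    rcases i with i | i <;> exact i.elim0
  haveI : Nonempty (II m) := ⟨Sum.inl ⟨0, hm⟩⟩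
  set N : Matrix (II m) (II m) K := u.1 - 1 with hN
  have hNe : ∀ i j : II m, pos j ≤ pos i → N i j = 0 := by
    intro i j hij
    rw [hN, Matrix.sub_apply]
    rcases eq_or_lt_of_le hij with h | h
    · rw [pos_inj h, hu.2, Matrix.one_apply_eq, sub_self]
    · rw [hu.1 i j h, Matrix.one_apply_ne (fun e => by rw [e] at h; exact lt_irrefl _ h), sub_self]
  have hpow : ∀ (r : ℕ) (i j : II m), pos j < pos i + r → (N ^ r) i j = 0 := by
    intro r
    induction r with
    | zero =>
      intro i j hij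
      rw [pow_zero, Matrix.one_apply_ne]
      rintro rfl
      simp at hij
    | succ r ih =>
      intro i j hij
      rw [pow_succ', Matrix.mul_apply]
      refine Finset.sum_eq_zero (fun l _ => ?_)
      by_cases h : pos l ≤ pos i
      · rw [hNe i l h, zero_mul]
      · have h2 : pos i < pos l := not_le.1 h
        rw [ih l j (by omega), mul_zero]
  have h0 : N ^ p ^ e = 0 := by
    ext i j
    rw [hpow _ i j (by have := pos_lt j; omega)]
    rfl
  apply Subtype.ext
  have e1 : ((u ^ p ^ e : Sp m K)).1 = u.1 ^ p ^ e := rfl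
  rw [e1]
  have e2 : u.1 = N + 1 := by
    rw [hN, sub_add_cancel]
  rw [e2]
  haveI : CharP (Matrix (II m) (II m) K) p := Matrix.charP p
  haveI : ExpChar (Matrix (II m) (II m) K) p := ExpChar.prime hp.out
  rw [add_pow_expChar_pow_of_commute p e (Commute.one_right N), h0, zero_add, one_pow]
  rfl

theorem exists_pow_U0S' {u : Sp m K} (hu : u ∈ U0S m K) : u ^ p ^ (2 * m) = 1 :=
  exists_pow_U0S (Nat.lt_pow_self hp.out.one_lt).le hu

/-- The `p`-elements of the normalizer modulo the centre. -/
theorem exists_center_mul (hm : 1 ≤ m) {g : Sp m K} (hg : g ∈ Subgroup.normalizer ((U0S m K : Subgroup (Sp m K)) : Set (Sp m K))) {k : ℕ}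
    (hk : g ^ p ^ k ∈ Subgroup.center (Sp m K)) : ∃ z ∈ Subgroup.center (Sp m K), g * z ∈ U0S m K := by
  have hup := isUpS_of_norm g hg
  let i0 : Fin m := ⟨0, by omega⟩
  have h1 : ∀ x : II m, (g.1 x x) ^ p ^ k = (g ^ p ^ k).1 x x := by
    intro x
    rw [← hup.pow_diag]
    rfl
  have hz : ∃ ε : K, ∀ x : II m, (g ^ p ^ k).1 x x = ε := by
    rcases Cfsg.Agent.Lib.Classical.sp_central_one_or_neg hm _ hk with h2 | h2
    · exact ⟨1, fun x => by rw [h2, Matrix.one_apply_eq]⟩
    · exact ⟨-1, fun x => by rw [h2, Matrix.neg_apply, Matrix.one_apply_eq]⟩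
  obtain ⟨ε, hε⟩ := hz
  have hconst : ∀ x : II m, g.1 x x = g.1 (Sum.inl i0) (Sum.inl i0) := by
    intro x
    exact field_pow_inj (p := p) (k := k) (by rw [h1, h1, hε, hε])
  set c := g.1 (Sum.inl i0) (Sum.inl i0) with hcd
  have hcc : c * c = 1 := by
    have := diag_rel hup i0
    rwa [hconst (Sum.inr i0)] at this
  refine ⟨zS c hcc, zS_mem_center, fun x y hxy => ?_, fun x => ?_⟩
  · rw [mul_zS_apply, hup x y hxy, zero_mul]
  · rw [mul_zS_apply, hconst, hcc]

/-- Unitriangular elements decompose. -/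
theorem exists_decomp {u : Sp m K} (hu : u ∈ U0S m K) :
    ∃ (A : SLn m K) (B : Matrix (Fin m) (Fin m) K) (h : Bᵀ = B), A ∈ U0 m K ∧ u = Lev A * xB B h := by
  let A₀ : Matrix (Fin m) (Fin m) K := u.1.toBlocks₁₁
  have hup : IsUp A₀ := by
    intro i j hij
    exact hu.1 _ _ (pos_ll hij)
  have hdet : A₀.det = 1 := by
    rw [det_of_isUp A₀ hup]
    exact Finset.prod_eq_one (fun i _ => hu.2 _)
  let A : SLn m K := ⟨A₀, hdet⟩
  have hA : A ∈ U0 m K := ⟨hup, fun i => hu.2 _⟩
  have hform : u.1 = fromBlocks A.1 u.1.toBlocks₁₂ 0 u.1.toBlocks₂₂ := by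
    conv_lhs => rw [← fromBlocks_toBlocks u.1]
    congr 1
    ext i j
    exact hu.1 _ _ (pos_lr j i)
  set C := u.1.toBlocks₁₂ with hC
  set D := u.1.toBlocks₂₂ with hD
  have hv : ((Lev A)⁻¹ * u).1 = fromBlocks 1 ((A⁻¹).1 * C) 0 (A.1ᵀ * D) := by
    rw [← map_inv]
    show (Lev A⁻¹).1 * u.1 = _
    rw [Lev_val, inv_inv, hform, fromBlocks_multiply]
    have h1 : (A⁻¹).1 * A.1 = 1 := congrArg Subtype.val (inv_mul_cancel A)
    simp only [mul_zero, zero_mul, add_zero, zero_add, h1]
  have hmem : fromBlocks 1 ((A⁻¹).1 * C) 0 (A.1ᵀ * D) ∈ Sp m K := by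
    rw [← hv]
    exact ((Lev A)⁻¹ * u).2
  obtain ⟨h1, h2⟩ := block_sym hmem
  refine ⟨A, _, h2, hA, ?_⟩
  have h3 : (Lev A)⁻¹ * u = xB _ h2 := by
    apply Subtype.ext
    rw [hv, h1]
    rfl
  rw [← h3]
  group

end Fin

end Cfsg.Agent.Lib.Fusion.SpF
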