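/-
The symplectic group: radicals of the minimal parabolics, their normalizers, the torus of the long root,
centralizers, and generation of the normalizer of the unitriangular group.
-/
import Cfsg.Agent.Lib.Fusion.SpPara

set_option autoImplicit false
set_option linter.unusedSectionVars false
set_option linter.unusedVariables false
set_option linter.unusedSimpArgs false
set_option linter.style.haveILetI false

namespace Cfsg.Agent.Lib.Fusion.SpF

open Matrix Cfsg.Agent.Lib.Fusion.PSLF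

variable {K : Type*} [Field K] {m : ℕ}

section Fin

variable [Fintype K]

/-- On unitriangular matrices an adjacent entry is additive. -/
theorem U0S_entry_add {a b : II m} (hadj : pos a + 1 = pos b) {g h : Sp m K} (hg : g ∈ U0S m K) (hh : h ∈ U0S m K) :
    (g * h).1 a b = g.1 a b + h.1 a b := by
  have hab : a ≠ b := by
    intro e
    rw [e] at hadj
    omega
  show (g.1 * h.1) a b = _
  rw [Matrix.mul_apply, Finset.sum_eq_add a b hab]
  · rw [hg.2, hh.2, one_mul, mul_one, add_comm]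
  · intro l _ hl
    by_cases h1 : pos l < pos a
    · rw [hg.1 a l h1, zero_mul]
    · have h2 : pos b < pos l := by
        have h3 := pos_ne hl.1
        have h4 := pos_ne hl.2
        omega
      rw [hh.1 l b h2, mul_zero]
  · simp
  · simp

/-- The radical of the minimal parabolic at an adjacent pair. -/
def Rp (a b : II m) (hadj : pos a + 1 = pos b) : Subgroup (Sp m K) :=
  ofClosed {g | g ∈ U0S m K ∧ g.1 a b = 0} ⟨Subgroup.one_mem _, by
    have hab : a ≠ b := by
      intro e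
      rw [e] at hadj
      omega
    exact Matrix.one_apply_ne hab⟩ (fun g hg h hh => ⟨(U0S m K).mul_mem hg.1 hh.1, by
      rw [U0S_entry_add hadj hg.1 hh.1, hg.2, hh.2, add_zero]⟩)

theorem mem_Rp {a b : II m} {hadj : pos a + 1 = pos b} {g : Sp m K} : g ∈ Rp a b hadj ↔ g ∈ U0S m K ∧ g.1 a b = 0 := Iff.rfl

theorem Rp_le {a b : II m} {hadj : pos a + 1 = pos b} : Rp (K := K) a b hadj ≤ U0S m K := fun _ h => h.1

/-- `U0S` normalizes `Rp`. -/
theorem conj_mem_Rp_of_U0 {a b : II m} {hadj : pos a + 1 = pos b} {x r : Sp m K} (hx : x ∈ U0S m K) (hr : r ∈ Rp a b hadj) : x * r * x⁻¹ ∈ Rp a b hadj := by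
  have h1 : x * r * x⁻¹ ∈ U0S m K := (U0S m K).mul_mem ((U0S m K).mul_mem hx hr.1) ((U0S m K).inv_mem hx)
  refine ⟨h1, ?_⟩
  have e : (x * r * x⁻¹) * x = x * r := by group
  have h2 : ((x * r * x⁻¹) * x).1 a b = (x * r).1 a b := by rw [e]
  rw [U0S_entry_add hadj h1 hx, U0S_entry_add hadj hx hr.1, hr.2, add_zero] at h2
  exact add_eq_right.1 h2

/-- A criterion for normalizing from conjugation both ways. -/
theorem mem_norm_of_conj {G : Type*} [Group G] {A : Subgroup G} {r : G} (h1 : ∀ q ∈ A, r * q * r⁻¹ ∈ A) (h2 : ∀ q ∈ A, r⁻¹ * q * r ∈ A) :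
    r ∈ Subgroup.normalizer (A : Set G) := by
  rw [Subgroup.mem_normalizer_iff]
  intro y
  refine ⟨fun hy => h1 y hy, fun hy => ?_⟩
  have h3 := h2 _ hy
  have e : r⁻¹ * (r * y * r⁻¹) * r = y := by group
  rwa [e] at h3

theorem U0S_mem_norm_Rp {a b : II m} {hadj : pos a + 1 = pos b} {x : Sp m K} (hx : x ∈ U0S m K) :
    x ∈ Subgroup.normalizer ((Rp a b hadj : Subgroup (Sp m K)) : Set (Sp m K)) :=
  mem_norm_of_conj (fun q hq => conj_mem_Rp_of_U0 hx hq) (fun q hq => by
    have := conj_mem_Rp_of_U0 ((U0S m K).inv_mem hx) hq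
    simpa using this)

/-- Conjugating by an opposite elementary matrix. -/
theorem conj_good {a b : II m} (hadj : pos a + 1 = pos b) (s : K) {M : Matrix (II m) (II m) K} (hM : IsUpS M) (hd : ∀ x, M x x = 1) (h0 : M a b = 0) :
    IsUpS (rM b a b a s 0 * M * rM b a b a (-s) 0) ∧ (∀ x, (rM b a b a s 0 * M * rM b a b a (-s) 0) x x = 1) ∧
      (rM b a b a s 0 * M * rM b a b a (-s) 0) a b = 0 ∧
      ∀ x y, x ≠ b → y ≠ a → (rM b a b a s 0 * M * rM b a b a (-s) 0) x y = M x y := by
  have eapp : ∀ x y, (rM b a b a s 0 * M * rM b a b a (-s) 0) x y = M x y + (if x = b then s * M a y else 0) + (if y = a then M x b * (-s) else 0) := by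
    intro x y
    rw [mul_rM_apply, rM_mul_apply, rM_mul_apply, h0]
    simp
  have hab : a ≠ b := by
    intro e
    rw [e] at hadj
    omega
  refine ⟨fun x y hxy => ?_, fun x => ?_, ?_, fun x y hx hy => ?_⟩
  · rw [eapp, hM x y hxy, zero_add]
    by_cases hx : x = b
    · subst hx
      by_cases hy : y = a
      · subst hy
        simp [hd]
      · have h1 : pos y < pos a := by
          have := pos_ne hy
          omega
        simp [hy, hM a y h1]
    · by_cases hy : y = a
      · subst hy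
        have h1 : pos b < pos x := by
          have := pos_ne hx
          omega
        simp [hx, hM x b h1]
      · simp [hx, hy]
  · rw [eapp, hd]
    by_cases hx : x = b
    · subst hx
      simp [h0, hab.symm]
    · by_cases hy : x = a
      · subst hy
        simp [h0, hab]
      · simp [hx, hy]
  · rw [eapp, h0]
    simp [hab, hab.symm]
  · rw [eapp]
    simp [hx, hy]

theorem rM_split {a₁ b₁ a₂ b₂ : II m} (h : a₁ ≠ b₂) (s₁ s₂ : K) :
    rM b₁ a₁ b₂ a₂ s₁ s₂ = rM b₁ a₁ b₁ a₁ s₁ 0 * rM b₂ a₂ b₂ a₂ s₂ 0 := by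
  ext x y
  rw [rM_mul_apply, rM_apply, rM_apply, rM_apply]
  simp only [h, false_and, if_false, add_zero, zero_mul, zero_add]
  simp only [Matrix.one_apply]
  by_cases h1 : x = b₁
  · by_cases h2 : y = a₁
    · subst h1 h2
      simp <;> ring
    · simp [h1, h2, Ne.symm h2] <;> ring
  · simp [h1]

theorem rM_comm (a b c d : II m) (s s' : K) : rM a b c d s s' = rM c d a b s' s := by
  rw [rM, rM]
  abel

/-- The opposite short root elements normalize the radical. -/
theorem conj_mem_Rp_short {c d : Fin m} (hcd : (c : ℕ) + 1 = d) {hadj : pos (Sum.inl c : II m) + 1 = pos (Sum.inl d : II m)} (hdc : d ≠ c) (s : K) {r : Sp m K}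
    (hr : r ∈ Rp (Sum.inl c) (Sum.inl d) hadj) : xE d c hdc s * r * (xE d c hdc s)⁻¹ ∈ Rp (Sum.inl c) (Sum.inl d) hadj := by
  have hadj2 : pos (Sum.inr d : II m) + 1 = pos (Sum.inr c : II m) := by
    have := c.2
    have := d.2
    simp only [pos_inr]
    omega
  have hv : (xE d c hdc s).1 = rM (Sum.inl d) (Sum.inl c) (Sum.inr c) (Sum.inr d) s (-s) := xE_val hdc s
  have hvi : ((xE d c hdc s)⁻¹).1 = rM (Sum.inr c) (Sum.inr d) (Sum.inl d) (Sum.inl c) s (-s) := by
    rw [xE_inv, xE_val, neg_neg, rM_comm]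
  have h1 : (xE d c hdc s).1 = rM (Sum.inl d) (Sum.inl c) (Sum.inl d) (Sum.inl c) s 0 * rM (Sum.inr c) (Sum.inr d) (Sum.inr c) (Sum.inr d) (-s) 0 := by
    rw [hv, rM_split (by simp)]
  have h2 : ((xE d c hdc s)⁻¹).1 = rM (Sum.inr c) (Sum.inr d) (Sum.inr c) (Sum.inr d) s 0 * rM (Sum.inl d) (Sum.inl c) (Sum.inl d) (Sum.inl c) (-s) 0 := by
    rw [hvi, rM_split (by simp)]
  have hr0 : r.1 (Sum.inr d) (Sum.inr c) = 0 := by
    rw [adj_rel hr.1.1 hr.1.2 hcd, hr.2, neg_zero]
  obtain ⟨a1, a2, a3, a4⟩ := conj_good hadj2 (-s) hr.1.1 hr.1.2 hr0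
  rw [neg_neg] at a1 a2 a3 a4
  have h5 : (rM (Sum.inr c) (Sum.inr d) (Sum.inr c) (Sum.inr d) (-s) 0 * r.1 * rM (Sum.inr c) (Sum.inr d) (Sum.inr c) (Sum.inr d) s 0) (Sum.inl c) (Sum.inl d) = 0 := by
    rw [a4 _ _ (by simp) (by simp), hr.2]
  obtain ⟨b1, b2, b3, b4⟩ := conj_good hadj s a1 a2 h5
  have e : (xE d c hdc s * r * (xE d c hdc s)⁻¹).1 =
      rM (Sum.inl d) (Sum.inl c) (Sum.inl d) (Sum.inl c) s 0 * (rM (Sum.inr c) (Sum.inr d) (Sum.inr c) (Sum.inr d) (-s) 0 * r.1 * rM (Sum.inr c) (Sum.inr d) (Sum.inr c) (Sum.inr d) s 0) * rM (Sum.inl d) (Sum.inl c) (Sum.inl d) (Sum.inl c) (-s) 0 := by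
    show (xE d c hdc s).1 * r.1 * ((xE d c hdc s)⁻¹).1 = _
    rw [h1, h2]
    simp only [Matrix.mul_assoc]
  refine ⟨⟨?_, ?_⟩, ?_⟩
  · rw [e]
    exact b1
  · rw [e]
    exact b2
  · rw [e]
    exact b3

theorem xE_mem_norm_short {c d : Fin m} (hcd : (c : ℕ) + 1 = d) {hadj : pos (Sum.inl c : II m) + 1 = pos (Sum.inl d : II m)} (hdc : d ≠ c) (s : K) :
    xE d c hdc s ∈ Subgroup.normalizer ((Rp (Sum.inl c) (Sum.inl d) hadj : Subgroup (Sp m K)) : Set (Sp m K)) :=
  mem_norm_of_conj (fun q hq => conj_mem_Rp_short hcd hdc s hq) (fun q hq => by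
    have := conj_mem_Rp_short hcd hdc (-s) hq
    rw [xE_inv, neg_neg, ← xE_inv] at this
    exact this)

/-- The long opposite root elements normalize the radical. -/
theorem yL_inv (j : Fin m) (s : K) : (yL j s)⁻¹ = yL j (-s) := by
  apply inv_eq_of_mul_eq_one_right
  apply Subtype.ext
  show fromBlocks 1 0 (Matrix.single j j s) 1 * fromBlocks 1 0 (Matrix.single j j (-s)) 1 = 1
  rw [fromBlocks_multiply]
  simp only [mul_zero, zero_mul, add_zero, zero_add, mul_one, one_mul, ← Matrix.single_add, add_neg_cancel, Matrix.single_zero]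
  rw [fromBlocks_one]

theorem conj_mem_Rp_long {L : Fin m} {hadj : pos (Sum.inl L : II m) + 1 = pos (Sum.inr L : II m)} (s : K) {r : Sp m K}
    (hr : r ∈ Rp (Sum.inl L) (Sum.inr L) hadj) : yL L s * r * (yL L s)⁻¹ ∈ Rp (Sum.inl L) (Sum.inr L) hadj := by
  obtain ⟨b1, b2, b3, b4⟩ := conj_good hadj s hr.1.1 hr.1.2 hr.2
  have e : (yL L s * r * (yL L s)⁻¹).1 = rM (Sum.inr L) (Sum.inl L) (Sum.inr L) (Sum.inl L) s 0 * r.1 * rM (Sum.inr L) (Sum.inl L) (Sum.inr L) (Sum.inl L) (-s) 0 := by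
    rw [yL_inv]
    show (yL L s).1 * r.1 * (yL L (-s)).1 = _
    rw [yL_val, yL_val]
  refine ⟨⟨?_, ?_⟩, ?_⟩
  · rw [e]
    exact b1
  · rw [e]
    exact b2
  · rw [e]
    exact b3

theorem yL_mem_norm {L : Fin m} {hadj : pos (Sum.inl L : II m) + 1 = pos (Sum.inr L : II m)} (s : K) :
    yL L s ∈ Subgroup.normalizer ((Rp (Sum.inl L) (Sum.inr L) hadj : Subgroup (Sp m K)) : Set (Sp m K)) :=
  mem_norm_of_conj (fun q hq => conj_mem_Rp_long s hq) (fun q hq => by
    have := conj_mem_Rp_long (-s) hq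
    rw [← yL_inv, inv_inv] at this
    exact this)

/-! ### Powers -/

theorem pow_p_of_val {p : ℕ} [hp : Fact p.Prime] [hc : CharP K p] {g : Sp m K} {a b : II m} {s : K} (hab : a ≠ b) (h : g.1 = rM a b a b s 0) : g ^ p = 1 := by
  haveI : Nonempty (II m) := ⟨a⟩
  haveI : CharP (Matrix (II m) (II m) K) p := Matrix.charP p
  haveI : ExpChar (Matrix (II m) (II m) K) p := ExpChar.prime hp.out
  set N : Matrix (II m) (II m) K := Matrix.single a b s with hN
  have h2 : N * N = 0 := by
    rw [hN]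
    exact Matrix.single_mul_single_of_ne s a b a hab.symm s
  have h3 : N ^ p = 0 := by
    obtain ⟨k, hk⟩ : ∃ k, p = k + 2 := ⟨p - 2, by have := hp.out.two_le; omega⟩
    rw [hk, pow_add, pow_two, h2, mul_zero]
  apply Subtype.ext
  show g.1 ^ p = 1
  have e : g.1 = N + 1 := by
    rw [h, rM, Matrix.single_zero, add_zero, add_comm]
  rw [e]
  have h4 := add_pow_expChar_pow_of_commute (R := Matrix (II m) (II m) K) p 1 (Commute.one_right N)
  rw [pow_one, h3, zero_add, one_pow] at h4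
  exact h4

theorem xE_pow_p {p : ℕ} [hp : Fact p.Prime] [hc : CharP K p] {c d : Fin m} (hcd : c ≠ d) (t : K) : xE c d hcd t ^ p = 1 := by
  rw [xE, ← map_pow, rt_pow_p (p := p), map_one]

/-! ### The torus of the long root -/

/-- Block form of the `SL₂` of a long root. -/
def phi (j : Fin m) (a b c d : K) : Matrix (II m) (II m) K :=
  fromBlocks (1 + Matrix.single j j (a - 1)) (Matrix.single j j b) (Matrix.single j j c) (1 + Matrix.single j j (d - 1))

theorem phi_mul (j : Fin m) (a b c d a' b' c' d' : K) :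
    phi j a b c d * phi j a' b' c' d' = phi j (a * a' + b * c') (a * b' + b * d') (c * a' + d * c') (c * b' + d * d') := by
  rw [phi, phi, phi, fromBlocks_multiply]
  have e : ∀ x y : K, (Matrix.single j j x : Matrix (Fin m) (Fin m) K) * Matrix.single j j y = Matrix.single j j (x * y) :=
    fun x y => Matrix.single_mul_single_same _ _ _ _ _
  have hs : ∀ x y : K, (Matrix.single j j x : Matrix (Fin m) (Fin m) K) + Matrix.single j j y = Matrix.single j j (x + y) :=
    fun x y => (Matrix.single_add _ _ _ _).symm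
  congr 1
  · simp only [mul_add, add_mul, mul_one, one_mul, e, add_assoc, hs]
    congr 2
    ring
  · simp only [mul_add, add_mul, mul_one, one_mul, e, add_assoc, hs]
    congr 1
    ring
  · simp only [mul_add, add_mul, mul_one, one_mul, e, add_assoc, hs]
    congr 1
    ring
  · simp only [mul_add, add_mul, mul_one, one_mul, e]
    have h5 : (Matrix.single j j (c * b' + d * d' - 1) : Matrix (Fin m) (Fin m) K) = Matrix.single j j (c * b') + Matrix.single j j (d - 1) + Matrix.single j j (d' - 1) + Matrix.single j j ((d - 1) * (d' - 1)) := by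
      simp only [hs]
      congr 1
      ring
    rw [h5]
    abel

theorem xL_phi (j : Fin m) (t : K) : (xL j t).1 = phi j 1 t 0 1 := by
  show fromBlocks 1 (Matrix.single j j t) 0 1 = _
  rw [phi]
  simp

theorem yL_phi (j : Fin m) (t : K) : (yL j t).1 = phi j 1 0 t 1 := by
  show fromBlocks 1 0 (Matrix.single j j t) 1 = _
  rw [phi]
  simp

/-- The torus element of a long root. -/
def hLt (j : Fin m) (t : K) : Sp m K :=
  xL j t * yL j (-t⁻¹) * xL j t * xL j (-1) * yL j 1 * xL j (-1)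

theorem hLt_val (j : Fin m) {t : K} (ht : t ≠ 0) : (hLt j t).1 = phi j t 0 0 t⁻¹ := by
  show (xL j t).1 * (yL j (-t⁻¹)).1 * (xL j t).1 * (xL j (-1)).1 * (yL j 1).1 * (xL j (-1)).1 = _
  simp only [xL_phi, yL_phi, phi_mul]
  congr 1 <;> field_simp <;> ring

theorem hLt_isUpS (j : Fin m) {t : K} (ht : t ≠ 0) : IsUpS (hLt j t).1 := by
  rw [hLt_val j ht, phi]
  rintro (x | x) (y | y) hxy
  · rw [fromBlocks_apply₁₁, Matrix.add_apply, Matrix.one_apply_ne, Matrix.single_apply_of_ne, add_zero]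
    · rintro ⟨rfl, rfl⟩
      exact lt_irrefl _ hxy
    · rintro rfl
      exact lt_irrefl _ hxy
  · simp
  · simp
  · rw [fromBlocks_apply₂₂, Matrix.add_apply, Matrix.one_apply_ne, Matrix.single_apply_of_ne, add_zero]
    · rintro ⟨rfl, rfl⟩
      exact lt_irrefl _ hxy
    · rintro rfl
      exact lt_irrefl _ hxy

theorem hLt_diag (j : Fin m) {t : K} (ht : t ≠ 0) (i : Fin m) : (hLt j t).1 (Sum.inl i) (Sum.inl i) = if i = j then t else 1 := by
  rw [hLt_val j ht, phi, fromBlocks_apply₁₁, Matrix.add_apply, Matrix.one_apply_eq]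
  by_cases h : i = j
  · subst h
    simp
  · simp [Matrix.single_apply, h, Ne.symm h]

end Fin

end Cfsg.Agent.Lib.Fusion.SpF
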