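/-
The symplectic group: centralizers of the radicals of the minimal parabolics, and generation of the
normalizer of the unitriangular group.
-/
import Cfsg.Agent.Lib.Fusion.SpPara2

set_option autoImplicit false
set_option linter.unusedSectionVars false
set_option linter.unusedVariables false
set_option linter.unusedSimpArgs false
set_option linter.style.haveILetI false

namespace Cfsg.Agent.Lib.Fusion.SpF

open Matrix Cfsg.Agent.Lib.Fusion.PSLF

variable {K : Type*} [Field K] {m : ℕ}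

/-- Commuting with a root element, in entries. -/
theorem comm_entry {g y : Sp m K} {a b c d : II m} {s s' : K} (hg : g.1 = rM a b c d s s') (h : g * y = y * g) (x z : II m) :
    (if x = a then s * y.1 b z else 0) + (if x = c then s' * y.1 d z else 0) =
      (if z = b then y.1 x a * s else 0) + (if z = d then y.1 x c * s' else 0) := by
  have h1 : (g.1 * y.1) x z = (y.1 * g.1) x z := by
    have := congrArg Subtype.val h
    exact congrFun (congrFun this x) z
  rw [hg, rM_mul_apply, mul_rM_apply] at h1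
  have h2 := h1
  linear_combination h2

theorem comm_xL {j : Fin m} {y : Sp m K} (h : xL j (1 : K) * y = y * xL j (1 : K)) :
    (∀ x, x ≠ Sum.inl j → y.1 x (Sum.inl j) = 0) ∧ (∀ z, z ≠ Sum.inr j → y.1 (Sum.inr j) z = 0) ∧
      y.1 (Sum.inr j) (Sum.inr j) = y.1 (Sum.inl j) (Sum.inl j) := by
  have e := comm_entry (xL_val j 1) h
  refine ⟨fun x hx => ?_, fun z hz => ?_, ?_⟩
  · have := e x (Sum.inr j)
    simpa [hx] using this.symm
  · have := e (Sum.inl j) z
    simpa [hz] using this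
  · have := e (Sum.inl j) (Sum.inr j)
    simpa using this

theorem xL_mem_Rp_short {c d : Fin m} {hadj : pos (Sum.inl c : II m) + 1 = pos (Sum.inl d : II m)} [Fintype K] (hcd : c ≠ d) (j : Fin m) (t : K) :
    xL j t ∈ Rp (Sum.inl c) (Sum.inl d) hadj := by
  refine ⟨xL_mem j t, ?_⟩
  rw [xL_val, rM_apply, Matrix.one_apply_ne (by simpa using hcd)]
  simp

theorem xS_mem_Rp_short {c d : Fin m} {hadj : pos (Sum.inl c : II m) + 1 = pos (Sum.inl d : II m)} [Fintype K] (hcd : c ≠ d) {j k : Fin m} (hjk : j ≠ k) (t : K) :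
    xS j k t ∈ Rp (Sum.inl c) (Sum.inl d) hadj := by
  refine ⟨xS_mem hjk t, ?_⟩
  rw [xS_val hjk, rM_apply, Matrix.one_apply_ne (by simpa using hcd)]
  simp

section Fin

variable [Fintype K]

/-- The last step of the centralizer computations. -/
theorem centric_final {y : Sp m K} (hup : IsUpS y.1) {c : K} (hd : ∀ x, y.1 x x = c) (i0 : Fin m) :
    ∃ h : c * c = 1, y * zS c h ∈ U0S m K ∧ ∀ a b, (y * zS c h).1 a b = y.1 a b * c := by
  have hcc : c * c = 1 := by
    have := diag_rel hup i0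
    rwa [hd, hd] at this
  refine ⟨hcc, ⟨fun x z hxz => ?_, fun x => ?_⟩, fun a b => mul_zS_apply _ _ _⟩
  · rw [mul_zS_apply, hup x z hxz, zero_mul]
  · rw [mul_zS_apply, hd, hcc]

/-- The centralizer of the short radical. -/
theorem centric_short {c d : Fin m} {hadj : pos (Sum.inl c : II m) + 1 = pos (Sum.inl d : II m)} (hcd : c ≠ d) {y : Sp m K}
    (hy : ∀ r ∈ Rp (Sum.inl c) (Sum.inl d) hadj, r * y = y * r) :
    ∃ z ∈ Subgroup.center (Sp m K), y * z ∈ Rp (Sum.inl c) (Sum.inl d) hadj := by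
  have hL := fun j : Fin m => comm_xL (hy _ (xL_mem_Rp_short hcd j (1 : K)))
  have hS : ∀ j k : Fin m, j ≠ k → y.1 (Sum.inr k) (Sum.inr k) = y.1 (Sum.inl j) (Sum.inl j) := by
    intro j k hjk
    have := comm_entry (xS_val hjk 1) (hy _ (xS_mem_Rp_short hcd hjk (1 : K))) (Sum.inl j) (Sum.inr k)
    simpa [hjk, hjk.symm] using this
  have hup : IsUpS y.1 := by
    rintro (i | i) (j | j) hxy
    · exact (hL j).1 _ (by
        rintro h
        rw [h] at hxy
        exact lt_irrefl _ hxy)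
    · exact absurd hxy (not_lt.2 (pos_lr i j).le)
    · exact (hL j).1 _ (by simp)
    · exact (hL i).2.1 _ (by
        rintro h
        rw [h] at hxy
        exact lt_irrefl _ hxy)
  have hconst : ∀ x, y.1 x x = y.1 (Sum.inl c) (Sum.inl c) := by
    have h1 : ∀ j : Fin m, y.1 (Sum.inl j) (Sum.inl j) = y.1 (Sum.inl c) (Sum.inl c) := by
      intro j
      by_cases hj : j = c
      · rw [hj]
      · rw [← (hL c).2.2, hS j c hj]
    rintro (j | j)
    · exact h1 j
    · rw [(hL j).2.2, h1 j]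
  obtain ⟨h, h1, h2⟩ := centric_final hup hconst c
  refine ⟨zS _ h, zS_mem_center, h1, ?_⟩
  rw [h2, (hL d).1 _ (by simpa using hcd), zero_mul]

/-- The centralizer of the long radical. -/
theorem centric_long {L : Fin m} (hLm : (L : ℕ) + 1 = m) (h2m : 2 ≤ m) {hadj : pos (Sum.inl L : II m) + 1 = pos (Sum.inr L : II m)} {y : Sp m K}
    (hy : ∀ r ∈ Rp (Sum.inl L) (Sum.inr L) hadj, r * y = y * r) :
    ∃ z ∈ Subgroup.center (Sp m K), y * z ∈ Rp (Sum.inl L) (Sum.inr L) hadj := by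
  have hlt : ∀ j : Fin m, j ≠ L → j < L := by
    intro j hj
    rw [Fin.lt_def]
    have h1 : (j : ℕ) ≠ L := fun e => hj (Fin.ext e)
    have := j.2
    omega
  have m1 : ∀ j : Fin m, j ≠ L → xL j (1 : K) ∈ Rp (Sum.inl L) (Sum.inr L) hadj := by
    intro j hj
    refine ⟨xL_mem j 1, ?_⟩
    rw [xL_val, rM_apply, Matrix.one_apply_ne (by simp)]
    simp [hj.symm]
  have m2 : ∀ j : Fin m, j ≠ L → xS j L (1 : K) ∈ Rp (Sum.inl L) (Sum.inr L) hadj := by
    intro j hj
    refine ⟨xS_mem hj 1, ?_⟩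
    rw [xS_val hj, rM_apply, Matrix.one_apply_ne (by simp)]
    simp [hj, hj.symm]
  have m3 : ∀ (j : Fin m) (hj : j ≠ L), xE j L hj (1 : K) ∈ Rp (Sum.inl L) (Sum.inr L) hadj := by
    intro j hj
    refine ⟨xE_mem (hlt j hj) 1, ?_⟩
    rw [xE_val, rM_apply, Matrix.one_apply_ne (by simp)]
    simp
  have hL := fun (j : Fin m) (hj : j ≠ L) => comm_xL (hy _ (m1 j hj))
  have hS := fun (j : Fin m) (hj : j ≠ L) => comm_entry (xS_val hj 1) (hy _ (m2 j hj))
  have hE := fun (j : Fin m) (hj : j ≠ L) => comm_entry (xE_val hj 1) (hy _ (m3 j hj))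
  obtain ⟨j0, hj0⟩ : ∃ j0 : Fin m, j0 ≠ L := by
    refine ⟨⟨0, by omega⟩, fun e => ?_⟩
    have : (0 : ℕ) = L := congrArg Fin.val e
    omega
  have f1 : y.1 (Sum.inr L) (Sum.inl L) = 0 := by
    have := hS j0 hj0 (Sum.inl j0) (Sum.inl L)
    simpa [hj0] using this
  have f2 : y.1 (Sum.inl L) (Sum.inr L) = 0 := by
    have := hE j0 hj0 (Sum.inl j0) (Sum.inr L)
    simpa [hj0, hj0.symm] using this
  have f3 : ∀ j (hj : j ≠ L), y.1 (Sum.inl L) (Sum.inl L) = y.1 (Sum.inl j) (Sum.inl j) := by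
    intro j hj
    have := hE j hj (Sum.inl j) (Sum.inl L)
    simpa [hj, hj.symm] using this
  have f4 : ∀ j (hj : j ≠ L), y.1 (Sum.inr L) (Sum.inr L) = y.1 (Sum.inl j) (Sum.inl j) := by
    intro j hj
    have := hS j hj (Sum.inl j) (Sum.inr L)
    simpa [hj, hj.symm] using this
  have hup : IsUpS y.1 := by
    intro x z hxz
    rcases z with j | j
    · by_cases hj : j = L
      · subst hj
        rcases x with i | i
        · exfalso
          have hi := i.2
          simp only [pos_inl] at hxz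
          omega
        · by_cases hi : i = j
          · subst hi
            exact f1
          · exact (hL i hi).2.1 _ (by simp)
      · exact (hL j hj).1 _ (by
          rintro h
          rw [h] at hxz
          exact lt_irrefl _ hxz)
    · rcases x with i | i
      · exact absurd hxz (not_lt.2 (pos_lr i j).le)
      · have hij : i < j := by
          have h1 := i.2
          have h2 := j.2
          simp only [pos_inr] at hxz
          rw [Fin.lt_def]
          omega
        have hi : i ≠ L := by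
          rintro rfl
          have h3 := j.2
          rw [Fin.lt_def] at hij
          omega
        exact (hL i hi).2.1 _ (by
          intro h
          have : j = i := Sum.inr.inj h
          rw [this] at hij
          exact lt_irrefl _ hij)
  have hconst : ∀ x, y.1 x x = y.1 (Sum.inl L) (Sum.inl L) := by
    rintro (j | j)
    · by_cases hj : j = L
      · rw [hj]
      · rw [f3 j hj]
    · by_cases hj : j = L
      · rw [hj, f4 j0 hj0, f3 j0 hj0]
      · rw [(hL j hj).2.2, f3 j hj]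
  obtain ⟨h, h1, h2⟩ := centric_final hup hconst L
  refine ⟨zS _ h, zS_mem_center, h1, ?_⟩
  rw [h2, f2, zero_mul]

/-! ### The family of radicals and generation -/

theorem adjS {c d : Fin m} (h : (c : ℕ) + 1 = d) : pos (Sum.inl c : II m) + 1 = pos (Sum.inl d : II m) := by
  simpa only [pos_inl] using h

theorem adjL {L : Fin m} (h : (L : ℕ) + 1 = m) : pos (Sum.inl L : II m) + 1 = pos (Sum.inr L : II m) := by
  simp only [pos_inl, pos_inr]
  omega

/-- The family of radicals. -/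
def RRS (m : ℕ) (K : Type*) [Field K] [Fintype K] : Set (Subgroup (Sp m K)) :=
  {R | (∃ (c d : Fin m) (h : (c : ℕ) + 1 = d), R = Rp (Sum.inl c) (Sum.inl d) (adjS h)) ∨
    (∃ (L : Fin m) (h : (L : ℕ) + 1 = m), R = Rp (Sum.inl L) (Sum.inr L) (adjL h))}

theorem RRS_le {R : Subgroup (Sp m K)} (hR : R ∈ RRS m K) : R ≤ U0S m K := by
  rcases hR with ⟨c, d, h, rfl⟩ | ⟨L, h, rfl⟩
  · exact Rp_le
  · exact Rp_le

theorem RRS_centric (h2m : 2 ≤ m) {R : Subgroup (Sp m K)} (hR : R ∈ RRS m K) (y : Sp m K) (hy : ∀ r ∈ R, r * y = y * r) :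
    ∃ z ∈ Subgroup.center (Sp m K), y * z ∈ R := by
  rcases hR with ⟨c, d, h, rfl⟩ | ⟨L, h, rfl⟩
  · refine centric_short (fun e => ?_) hy
    rw [e] at h
    omega
  · exact centric_long h h2m hy

theorem Lev_isUpS {A : SLn m K} (hA : A ∈ B0 m K) : IsUpS (Lev A).1 := by
  have hA' : A⁻¹ ∈ B0 m K := (B0 m K).inv_mem hA
  rintro (i | i) (j | j) hxy
  · exact hA i j (by
      rw [Fin.lt_def]
      simpa only [pos_inl] using hxy)
  · rfl
  · rfl
  · have hij : i < j := by
      have h1 := i.2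
      have h2 := j.2
      simp only [pos_inr] at hxy
      rw [Fin.lt_def]
      omega
    exact hA' j i hij

theorem Lev_diag (A : SLn m K) (i : Fin m) : (Lev A).1 (Sum.inl i) (Sum.inl i) = A.1 i i := rfl

variable {p : ℕ} [hp : Fact p.Prime] [hc : CharP K p]

/-- The group generated by the elements in the criterion. -/
def WW (p : ℕ) (m : ℕ) (K : Type*) [Field K] [Fintype K] : Subgroup (Sp m K) :=
  Subgroup.closure {w | w ∈ Subgroup.normalizer ((U0S m K : Subgroup (Sp m K)) : Set (Sp m K)) ∧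
    ∃ R ∈ RRS m K, w ∈ Subgroup.closure {g | g ∈ Subgroup.normalizer ((R : Subgroup (Sp m K)) : Set (Sp m K)) ∧ ∃ j : ℕ, g ^ p ^ j = 1}}

theorem U0S_le_WW {L : Fin m} (h : (L : ℕ) + 1 = m) {u : Sp m K} (hu : u ∈ U0S m K) : u ∈ WW p m K := by
  refine Subgroup.subset_closure ⟨Subgroup.le_normalizer hu, _, Or.inr ⟨L, h, rfl⟩, Subgroup.subset_closure ⟨U0S_mem_norm_Rp hu, _, exists_pow_U0S' hu⟩⟩

theorem Lev_hh_mem {a b : Fin m} (hadj : (a : ℕ) + 1 = b) (hab : a ≠ b) {t : K} (ht : t ≠ 0) : Lev (hh a b hab t ht) ∈ WW p m K := by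
  refine Subgroup.subset_closure ⟨normalizer_of_B0S (Lev_isUpS hh_mem_B0), _, Or.inl ⟨a, b, hadj, rfl⟩, ?_⟩
  have hlt : a < b := by
    rw [Fin.lt_def]
    omega
  have h1 : ∀ s : K, xE a b hab s ∈ Subgroup.closure {g | g ∈ Subgroup.normalizer ((Rp (Sum.inl a) (Sum.inl b) (adjS hadj) : Subgroup (Sp m K)) : Set (Sp m K)) ∧ ∃ j : ℕ, g ^ p ^ j = 1} := by
    intro s
    refine Subgroup.subset_closure ⟨U0S_mem_norm_Rp (xE_mem hlt s), 1, ?_⟩
    rw [pow_one]
    exact xE_pow_p hab s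
  have h2 : ∀ s : K, xE b a hab.symm s ∈ Subgroup.closure {g | g ∈ Subgroup.normalizer ((Rp (Sum.inl a) (Sum.inl b) (adjS hadj) : Subgroup (Sp m K)) : Set (Sp m K)) ∧ ∃ j : ℕ, g ^ p ^ j = 1} := by
    intro s
    refine Subgroup.subset_closure ⟨xE_mem_norm_short hadj hab.symm s, 1, ?_⟩
    rw [pow_one]
    exact xE_pow_p hab.symm s
  rw [hh_eq, map_mul, map_mul, map_mul, map_mul, map_mul]
  exact Subgroup.mul_mem _ (Subgroup.mul_mem _ (Subgroup.mul_mem _ (Subgroup.mul_mem _ (Subgroup.mul_mem _ (h1 _) (h2 _)) (h1 _)) (h1 _)) (h2 _)) (h1 _)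

theorem Lev_Dgen_mem {A : SLn m K} (hA : A ∈ Dgen m K) : Lev A ∈ WW p m K := by
  have hle : Dgen m K ≤ (WW p m K).comap Lev := by
    rw [Dgen, Subgroup.closure_le]
    rintro _ ⟨a, b, hadj, hab, t, ht, rfl⟩
    exact Lev_hh_mem hadj hab ht
  exact hle hA

theorem hLt_mem {L : Fin m} (h : (L : ℕ) + 1 = m) {t : K} (ht : t ≠ 0) : hLt L t ∈ WW p m K := by
  refine Subgroup.subset_closure ⟨normalizer_of_B0S (hLt_isUpS L ht), _, Or.inr ⟨L, h, rfl⟩, ?_⟩
  have h1 : ∀ s : K, xL L s ∈ Subgroup.closure {g | g ∈ Subgroup.normalizer ((Rp (Sum.inl L) (Sum.inr L) (adjL h) : Subgroup (Sp m K)) : Set (Sp m K)) ∧ ∃ j : ℕ, g ^ p ^ j = 1} := by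
    intro s
    refine Subgroup.subset_closure ⟨U0S_mem_norm_Rp (xL_mem L s), 1, ?_⟩
    rw [pow_one]
    exact pow_p_of_val (by simp) (xL_val L s)
  have h2 : ∀ s : K, yL L s ∈ Subgroup.closure {g | g ∈ Subgroup.normalizer ((Rp (Sum.inl L) (Sum.inr L) (adjL h) : Subgroup (Sp m K)) : Set (Sp m K)) ∧ ∃ j : ℕ, g ^ p ^ j = 1} := by
    intro s
    refine Subgroup.subset_closure ⟨yL_mem_norm s, 1, ?_⟩
    rw [pow_one]
    exact pow_p_of_val (by simp) (yL_val L s)
  rw [hLt]
  exact Subgroup.mul_mem _ (Subgroup.mul_mem _ (Subgroup.mul_mem _ (Subgroup.mul_mem _ (Subgroup.mul_mem _ (h1 _) (h2 _)) (h1 _)) (h1 _)) (h2 _)) (h1 _)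

/-- The normalizer of `U0S` is generated as needed. -/
theorem norm_le_WW (hm : 1 ≤ m) {g : Sp m K} (hg : g ∈ Subgroup.normalizer ((U0S m K : Subgroup (Sp m K)) : Set (Sp m K))) : g ∈ WW p m K := by
  classical
  have hup := isUpS_of_norm g hg
  let L : Fin m := ⟨m - 1, by omega⟩
  have hL : (L : ℕ) + 1 = m := by
    show m - 1 + 1 = m
    omega
  let c : Fin m → K := fun i => g.1 (Sum.inl i) (Sum.inl i)
  have hne : ∀ i, c i ≠ 0 := by
    intro i h0
    have := diag_rel hup i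
    rw [show g.1 (Sum.inl i) (Sum.inl i) = 0 from h0, zero_mul] at this
    exact zero_ne_one this
  let t : K := ∏ i, c i
  have ht : t ≠ 0 := Finset.prod_ne_zero_iff.2 (fun i _ => hne i)
  let c' : Fin m → K := fun i => c i * (if i = L then t⁻¹ else 1)
  have hdet : ∏ i, c' i = 1 := by
    rw [Finset.prod_mul_distrib, Finset.prod_ite_eq']
    simp [ht, t]
  let d' : SLn m K := ⟨Matrix.diagonal c', by rw [Matrix.det_diagonal, hdet]⟩
  have hd1 : IsDg d' := fun i j hij => Matrix.diagonal_apply_ne _ hij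
  have hd2 : d' ∈ B0 m K := fun i j hij => Matrix.diagonal_apply_ne _ hij.ne'
  have hLd := Lev_Dgen_mem (p := p) (dg_mem hd1)
  have hhL := hLt_mem (p := p) hL ht
  set w := Lev d' * hLt L t with hw
  have hwU : IsUpS w.1 := (Lev_isUpS hd2).mul (hLt_isUpS L ht)
  have hwB : w ∈ B0S m K := hwU
  have hgB : g ∈ B0S m K := hup
  have hv : w⁻¹ * g ∈ B0S m K := (B0S m K).mul_mem ((B0S m K).inv_mem hwB) hgB
  have hwd : ∀ i, w.1 (Sum.inl i) (Sum.inl i) = c i := by
    intro i
    have e1 : w.1 (Sum.inl i) (Sum.inl i) = (Lev d').1 (Sum.inl i) (Sum.inl i) * (hLt L t).1 (Sum.inl i) (Sum.inl i) :=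
      (Lev_isUpS hd2).mul_diag (hLt_isUpS L ht) _
    rw [e1, Lev_diag, hLt_diag L ht]
    show Matrix.diagonal c' i i * _ = _
    rw [Matrix.diagonal_apply_eq]
    by_cases hi : i = L
    · simp only [c', hi, if_true]
      rw [mul_assoc, inv_mul_cancel₀ ht, mul_one]
    · simp only [c', hi, if_false, mul_one]
  have hvl : ∀ i, (w⁻¹ * g).1 (Sum.inl i) (Sum.inl i) = 1 := by
    intro i
    have e : g = w * (w⁻¹ * g) := by group
    have e1 : g.1 (Sum.inl i) (Sum.inl i) = w.1 (Sum.inl i) (Sum.inl i) * (w⁻¹ * g).1 (Sum.inl i) (Sum.inl i) := by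
      have e2 : g.1 = w.1 * (w⁻¹ * g).1 := congrArg Subtype.val e
      conv_lhs => rw [e2]
      exact hwU.mul_diag hv _
    rw [hwd] at e1
    exact mul_left_cancel₀ (hne i) (by rw [mul_one]; exact e1.symm)
  have hvU : w⁻¹ * g ∈ U0S m K := by
    refine ⟨hv, ?_⟩
    rintro (i | i)
    · exact hvl i
    · have := diag_rel hv i
      rw [hvl, one_mul] at this
      exact this
  have e : g = (Lev d' * hLt L t) * (w⁻¹ * g) := by
    rw [← hw]
    group
  rw [e]
  exact (WW p m K).mul_mem ((WW p m K).mul_mem hLd hhL) (U0S_le_WW hL hvU)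

end Fin

end Cfsg.Agent.Lib.Fusion.SpF
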