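/-
The symplectic group: a nontrivial subgroup of the unitriangular group closed under conjugation in the
symplectic group is everything.
-/
import Cfsg.Agent.Lib.Fusion.SpCent
import Cfsg.Agent.Lib.Basic.Nilpotent

set_option autoImplicit false
set_option linter.unusedSectionVars false
set_option linter.unusedVariables false
set_option linter.unusedSimpArgs false
set_option linter.style.haveILetI false

namespace Cfsg.Agent.Lib.Fusion.SpF

open Matrix Cfsg.Agent.Lib.Fusion.PSLF

variable {K : Type*} [Field K] {m : ℕ}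

/-! ### Conjugation of symmetric matrices -/

theorem Lev_conj_xB (A : SLn m K) (B : Matrix (Fin m) (Fin m) K) (h : Bᵀ = B) (h' : (A.1 * B * A.1ᵀ)ᵀ = A.1 * B * A.1ᵀ) :
    Lev A * xB B h * (Lev A)⁻¹ = xB (A.1 * B * A.1ᵀ) h' := by
  apply Subtype.ext
  rw [← map_inv]
  show (Lev A).1 * (xB B h).1 * (Lev A⁻¹).1 = _
  rw [Lev_val, Lev_val, xB_val, xB_val, inv_inv, fromBlocks_multiply, fromBlocks_multiply]
  have h1 : A.1 * (A⁻¹).1 = 1 := congrArg Subtype.val (mul_inv_cancel A)
  have h2 : (A⁻¹).1ᵀ * A.1ᵀ = 1 := by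
    rw [← Matrix.transpose_mul, h1, Matrix.transpose_one]
  simp only [mul_zero, zero_mul, add_zero, zero_add, mul_one, one_mul, h1, h2]

theorem sym_conj (A : SLn m K) {B : Matrix (Fin m) (Fin m) K} (h : Bᵀ = B) : (A.1 * B * A.1ᵀ)ᵀ = A.1 * B * A.1ᵀ := by
  rw [Matrix.transpose_mul, Matrix.transpose_mul, h, Matrix.transpose_transpose, Matrix.mul_assoc]

variable {a b : Fin m} {hab : a ≠ b} {τ : K}

theorem rt1_mul (M : Matrix (Fin m) (Fin m) K) (x y : Fin m) : ((rt a b hab τ).1 * M) x y = M x y + if x = a then τ * M b y else 0 := by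
  rw [rt_val, add_mul, one_mul, Matrix.add_apply]
  split_ifs with h
  · subst h
    rw [Matrix.single_mul_apply_same]
  · rw [Matrix.single_mul_apply_of_ne _ _ _ _ _ h, add_zero]

theorem mul_rt1 (M : Matrix (Fin m) (Fin m) K) (x y : Fin m) : (M * (rt a b hab τ).1) x y = M x y + if y = b then M x a * τ else 0 := by
  rw [rt_val, mul_add, mul_one, Matrix.add_apply]
  split_ifs with h
  · subst h
    rw [Matrix.mul_single_apply_same]
  · rw [Matrix.mul_single_apply_of_ne _ _ _ _ _ h, add_zero]

theorem rt_transpose : (rt a b hab τ).1ᵀ = (rt b a hab.symm τ).1 := by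
  rw [rt_val, rt_val, Matrix.transpose_add, Matrix.transpose_one, Matrix.transpose_single]

/-- The conjugation formula. -/
theorem conj_rt_apply (B : Matrix (Fin m) (Fin m) K) (x y : Fin m) :
    ((rt a b hab τ).1 * B * (rt a b hab τ).1ᵀ) x y =
      B x y + (if x = a then τ * B b y else 0) + (if y = a then (B x b + if x = a then τ * B b b else 0) * τ else 0) := by
  rw [rt_transpose, mul_rt1, rt1_mul, rt1_mul]

theorem conj_diag_apply {d : Fin m → K} (B : Matrix (Fin m) (Fin m) K) (x y : Fin m) :
    (Matrix.diagonal d * B * (Matrix.diagonal d)ᵀ) x y = d x * B x y * d y := by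
  rw [Matrix.diagonal_transpose, Matrix.mul_diagonal, Matrix.diagonal_mul]

/-- Every element of a finite field is a difference of squares. -/
theorem exists_diff_sq [Fintype K] (v : K) : ∃ s t : K, v = s ^ 2 - t ^ 2 := by
  by_cases h2 : (2 : K) = 0
  · have hc : ringChar K = 2 := CharP.ringChar_of_prime_eq_zero Nat.prime_two (by exact_mod_cast h2)
    obtain ⟨s, hs⟩ := FiniteField.isSquare_of_char_two hc v
    exact ⟨s, 0, by rw [hs]; ring⟩
  · refine ⟨(v + 1) / 2, (v - 1) / 2, ?_⟩
    field_simp
    ring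

/-! ### The Weyl element -/

section Fin2
variable [Fintype K]

/-- The Weyl element of a long root. -/
def wW (k : Fin m) : Sp m K := xL k 1 * yL k (-1) * xL k 1

theorem wW_val (k : Fin m) : (wW k : Sp m K).1 = phi k 0 1 (-1) 0 := by
  show (xL k (1 : K)).1 * (yL k (-1 : K)).1 * (xL k (1 : K)).1 = _
  rw [xL_phi, yL_phi, phi_mul, phi_mul]
  congr 1 <;> ring

section
variable {j k : Fin m} (hjk : j ≠ k)
include hjk

theorem wW_conj (s : K) : wW k * xS j k s * (wW k)⁻¹ = xE j k hjk s := by
  have key : (wW k : Sp m K) * xS j k s = xE j k hjk s * wW k := by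
    apply Subtype.ext
    show (wW k : Sp m K).1 * (xS j k s).1 = (xE j k hjk s).1 * (wW k : Sp m K).1
    have e1 : (xE j k hjk s).1 = fromBlocks (1 + Matrix.single j k s) 0 0 (1 + Matrix.single k j (-s)) := by
      show fromBlocks (rt j k hjk s).1 0 0 ((rt j k hjk s)⁻¹).1ᵀ = _
      rw [rt_inv, rt_transpose, rt_val, rt_val]
    have e2 : (xS j k s).1 = fromBlocks 1 (Matrix.single j k s + Matrix.single k j s) 0 1 := rfl
    rw [wW_val, e1, e2, phi, fromBlocks_multiply, fromBlocks_multiply]
    clear e1 e2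
    have p1 : ∀ x y : K, (Matrix.single k k y : Matrix (Fin m) (Fin m) K) * Matrix.single j k x = 0 := fun x y =>
      Matrix.single_mul_single_of_ne _ _ _ _ hjk.symm _
    have p2 : ∀ x y : K, (Matrix.single k k y : Matrix (Fin m) (Fin m) K) * Matrix.single k j x = Matrix.single k j (y * x) := fun x y => by
      rw [Matrix.single_mul_single_same]
    have p3 : ∀ x y : K, (Matrix.single j k x : Matrix (Fin m) (Fin m) K) * Matrix.single k k y = Matrix.single j k (x * y) := fun x y => by
      rw [Matrix.single_mul_single_same]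
    have p4 : ∀ x y : K, (Matrix.single k j x : Matrix (Fin m) (Fin m) K) * Matrix.single k k y = 0 := fun x y =>
      Matrix.single_mul_single_of_ne _ _ _ _ hjk _
    simp only [mul_add, add_mul, mul_one, one_mul, mul_zero, zero_mul, add_zero, zero_add, p1, p2, p3, p4]
    congr 1 <;> {
      ext x y
      simp only [Matrix.add_apply, Matrix.single_apply, Matrix.one_apply, Matrix.zero_apply]
      split_ifs <;> first | ring | (exfalso; grind) }
  rw [key]
  group

/-- The conjugation by an opposite long root element. -/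
theorem yL_conj (c s : K) (h' : (sS j k s + Matrix.single j j (s * s * c))ᵀ = sS j k s + Matrix.single j j (s * s * c)) :
    yL k c * xS j k s * (yL k c)⁻¹ = xE j k hjk (-(s * c)) * xB (sS j k s + Matrix.single j j (s * s * c)) h' := by
  have key : (yL k c : Sp m K) * xS j k s = xE j k hjk (-(s * c)) * xB (sS j k s + Matrix.single j j (s * s * c)) h' * yL k c := by
    apply Subtype.ext
    show (yL k c : Sp m K).1 * (xS j k s).1 = (xE j k hjk (-(s * c))).1 * (xB (sS j k s + Matrix.single j j (s * s * c)) h').1 * (yL k c).1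
    have e1 : (xE j k hjk (-(s * c))).1 = fromBlocks (1 + Matrix.single j k (-(s * c))) 0 0 (1 + Matrix.single k j (s * c)) := by
      show fromBlocks (rt j k hjk (-(s * c))).1 0 0 ((rt j k hjk (-(s * c)))⁻¹).1ᵀ = _
      rw [rt_inv, rt_transpose, rt_val, rt_val, neg_neg]
    have e2 : (xS j k s).1 = fromBlocks 1 (Matrix.single j k s + Matrix.single k j s) 0 1 := rfl
    have e3 : (xB (sS j k s + Matrix.single j j (s * s * c)) h').1 = fromBlocks 1 (Matrix.single j k s + Matrix.single k j s + Matrix.single j j (s * s * c)) 0 1 := rfl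
    have e4 : (yL k c).1 = fromBlocks 1 0 (Matrix.single k k c) 1 := rfl
    rw [e1, e2, e3, e4, fromBlocks_multiply, fromBlocks_multiply, fromBlocks_multiply]
    clear e1 e2 e3 e4
    have p1 : ∀ x y : K, (Matrix.single k k y : Matrix (Fin m) (Fin m) K) * Matrix.single j k x = 0 := fun x y =>
      Matrix.single_mul_single_of_ne _ _ _ _ hjk.symm _
    have p2 : ∀ x y : K, (Matrix.single k k y : Matrix (Fin m) (Fin m) K) * Matrix.single k j x = Matrix.single k j (y * x) := fun x y => by
      rw [Matrix.single_mul_single_same]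
    have p3 : ∀ x y : K, (Matrix.single j k x : Matrix (Fin m) (Fin m) K) * Matrix.single k k y = Matrix.single j k (x * y) := fun x y => by
      rw [Matrix.single_mul_single_same]
    have p4 : ∀ x y : K, (Matrix.single k j x : Matrix (Fin m) (Fin m) K) * Matrix.single k k y = 0 := fun x y =>
      Matrix.single_mul_single_of_ne _ _ _ _ hjk _
    have p5 : ∀ x y : K, (Matrix.single j j x : Matrix (Fin m) (Fin m) K) * Matrix.single k k y = 0 := fun x y =>
      Matrix.single_mul_single_of_ne _ _ _ _ hjk _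
    have p6 : ∀ x y : K, (Matrix.single j k x : Matrix (Fin m) (Fin m) K) * Matrix.single j k y = 0 := fun x y =>
      Matrix.single_mul_single_of_ne _ _ _ _ hjk.symm _
    have p7 : ∀ x y : K, (Matrix.single j k x : Matrix (Fin m) (Fin m) K) * Matrix.single k j y = Matrix.single j j (x * y) := fun x y => by
      rw [Matrix.single_mul_single_same]
    have p8 : ∀ x y : K, (Matrix.single j k x : Matrix (Fin m) (Fin m) K) * Matrix.single j j y = 0 := fun x y =>
      Matrix.single_mul_single_of_ne _ _ _ _ hjk.symm _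
    have p9 : ∀ x y : K, (Matrix.single k j y : Matrix (Fin m) (Fin m) K) * Matrix.single j k x = Matrix.single k k (y * x) := fun x y => by
      rw [Matrix.single_mul_single_same]
    simp only [mul_add, add_mul, mul_one, one_mul, mul_zero, zero_mul, add_zero, zero_add, p1, p2, p3, p4, p5, p6, p7, p8, p9]
    congr 1 <;> {
      ext x y
      simp only [Matrix.add_apply, Matrix.single_apply, Matrix.one_apply, Matrix.zero_apply]
      split_ifs <;> first | ring | (exfalso; grind) }
  rw [key]
  group

end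

/-! ### Closed subgroups -/

variable {T : Subgroup (Sp m K)}

/-- A symmetric block is in `T`. -/
def InT (T : Subgroup (Sp m K)) (B : Matrix (Fin m) (Fin m) K) : Prop := ∃ h : Bᵀ = B, xB B h ∈ T

theorem InT.add {B C : Matrix (Fin m) (Fin m) K} (hB : InT T B) (hC : InT T C) : InT T (B + C) := by
  obtain ⟨h, hx⟩ := hB
  obtain ⟨h', hx'⟩ := hC
  have h'' : (B + C)ᵀ = B + C := by rw [Matrix.transpose_add, h, h']
  refine ⟨h'', ?_⟩
  rw [← xB_mul B C h h' h'']
  exact T.mul_mem hx hx'

theorem xB_zero (h : (0 : Matrix (Fin m) (Fin m) K)ᵀ = 0) : xB 0 h = 1 := by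
  apply Subtype.ext
  show fromBlocks 1 0 0 1 = 1
  rw [fromBlocks_one]

theorem InT_zero : InT T 0 := by
  have h : (0 : Matrix (Fin m) (Fin m) K)ᵀ = 0 := Matrix.transpose_zero
  exact ⟨h, by rw [xB_zero]; exact T.one_mem⟩

theorem InT.neg {B : Matrix (Fin m) (Fin m) K} (hB : InT T B) : InT T (-B) := by
  obtain ⟨h, hx⟩ := hB
  have h' : (-B)ᵀ = -B := by rw [Matrix.transpose_neg, h]
  refine ⟨h', ?_⟩
  have h0 : (B + -B)ᵀ = B + -B := by rw [add_neg_cancel, Matrix.transpose_zero]
  have e : xB B h * xB (-B) h' = 1 := by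
    rw [xB_mul B (-B) h h' h0]
    apply Subtype.ext
    rw [xB_val, add_neg_cancel, fromBlocks_one]
    rfl
  rw [← inv_eq_of_mul_eq_one_right e]
  exact T.inv_mem hx

theorem InT.sub {B C : Matrix (Fin m) (Fin m) K} (hB : InT T B) (hC : InT T C) : InT T (B - C) := by
  rw [sub_eq_add_neg]
  exact hB.add hC.neg

variable (hTU : T ≤ U0S m K) (hcl : ∀ t ∈ T, ∀ h : Sp m K, h * t * h⁻¹ ∈ U0S m K → h * t * h⁻¹ ∈ T)

include hcl in
theorem InT.conj (A : SLn m K) {B : Matrix (Fin m) (Fin m) K} (hB : InT T B) : InT T (A.1 * B * A.1ᵀ) := by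
  obtain ⟨h, hx⟩ := hB
  have h' := sym_conj A h
  refine ⟨h', ?_⟩
  rw [← Lev_conj_xB A B h h']
  apply hcl _ hx
  rw [Lev_conj_xB A B h h']
  exact xB_mem _ _

include hcl in
/-- A short root gives a long root. -/
theorem InT_long_of_short {j k : Fin m} (hjk : j < k) {s : K} (h : InT T (sS j k s)) : InT T (Matrix.single j j (s * s * (-1))) := by
  obtain ⟨h0, hx⟩ := h
  have hx' : xS j k s ∈ T := hx
  have h1 : xE j k hjk.ne s ∈ T := by
    rw [← wW_conj hjk.ne s]
    apply hcl _ hx'
    rw [wW_conj hjk.ne s]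
    exact xE_mem hjk s
  have hsym : (sS j k s + Matrix.single j j (s * s * (-1)))ᵀ = sS j k s + Matrix.single j j (s * s * (-1)) := by
    rw [Matrix.transpose_add, sS_transpose, single_transpose_self]
  have h2 : xE j k hjk.ne (-(s * (-1))) * xB (sS j k s + Matrix.single j j (s * s * (-1))) hsym ∈ T := by
    rw [← yL_conj hjk.ne (-1) s hsym]
    apply hcl _ hx'
    rw [yL_conj hjk.ne (-1) s hsym]
    exact (U0S m K).mul_mem (xE_mem hjk _) (xB_mem _ _)
  have e : -(s * (-1)) = s := by ring
  rw [e] at h2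
  have h3 : xB (sS j k s + Matrix.single j j (s * s * (-1))) hsym ∈ T := by
    have := T.mul_mem (T.inv_mem h1) h2
    rwa [inv_mul_cancel_left] at this
  have h4 : InT T (sS j k s + Matrix.single j j (s * s * (-1))) := ⟨hsym, h3⟩
  have h5 : InT T (sS j k s) := ⟨h0, hx⟩
  have := h4.sub h5
  rwa [add_sub_cancel_left] at this

include hcl in
/-- Scaling a long root. -/
theorem InT_scale {j k : Fin m} (hjk : j ≠ k) {s : K} (h : InT T (Matrix.single j j s)) (c : K) : InT T (Matrix.single j j (c * c * s)) := by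
  by_cases hc : c = 0
  · subst hc
    rw [zero_mul, zero_mul, Matrix.single_zero]
    exact InT_zero
  have := InT.conj hcl (hh j k hjk c hc) h
  convert this using 1
  rw [hh_val]
  ext x y
  rw [conj_diag_apply, Matrix.single_apply, Matrix.single_apply]
  by_cases h1 : j = x ∧ j = y
  · obtain ⟨rfl, rfl⟩ := h1
    simp only [and_self, if_true]
    ring
  · simp only [h1, if_false, mul_zero, zero_mul]

include hcl in
/-- All multiples of a long root. -/
theorem InT_all {j k : Fin m} (hjk : j ≠ k) {s : K} (hs : s ≠ 0) (h : InT T (Matrix.single j j s)) (v : K) : InT T (Matrix.single j j v) := by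
  obtain ⟨a, b, hab⟩ := exists_diff_sq (v / s)
  have e : (Matrix.single j j v : Matrix (Fin m) (Fin m) K) = Matrix.single j j (a * a * s) - Matrix.single j j (b * b * s) := by
    have h3 : v = a * a * s - b * b * s := by
      have : v = (v / s) * s := by field_simp
      rw [this, hab]
      ring
    rw [h3, sub_eq_add_neg, Matrix.single_add, ← Matrix.single_neg, ← sub_eq_add_neg]
  rw [e]
  exact (InT_scale hcl hjk h a).sub (InT_scale hcl hjk h b)

include hcl in
/-- Moving a long root. -/
theorem InT_move {j k : Fin m} (hjk : j ≠ k) {t : K} (h : InT T (Matrix.single j j t)) : InT T (Matrix.single k k t) := by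
  have := InT.conj hcl (rt j k hjk (-1)) (InT.conj hcl (rt k j hjk.symm 1) h)
  convert this using 1
  ext x y
  simp only [conj_rt_apply]
  have hxc : x = j ∨ x = k ∨ (x ≠ j ∧ x ≠ k) := by tauto
  have hyc : y = j ∨ y = k ∨ (y ≠ j ∧ y ≠ k) := by tauto
  rcases hxc with rfl | rfl | ⟨hx1, hx2⟩ <;> rcases hyc with rfl | rfl | ⟨hy1, hy2⟩ <;>
    simp [Matrix.single_apply, hjk, hjk.symm, Ne.symm, *]

include hcl in
/-- Short roots from long roots. -/
theorem InT_short {j k : Fin m} (hjk : j ≠ k) {t : K} (h1 : InT T (Matrix.single j j t)) (h2 : InT T (Matrix.single k k t)) : InT T (sS j k t) := by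
  have := ((InT.conj hcl (rt j k hjk 1) h2).sub h2).sub h1
  convert this using 1
  ext x y
  simp only [Matrix.sub_apply, conj_rt_apply, sS, Matrix.add_apply]
  have hxc : x = j ∨ x = k ∨ (x ≠ j ∧ x ≠ k) := by tauto
  have hyc : y = j ∨ y = k ∨ (y ≠ j ∧ y ≠ k) := by tauto
  rcases hxc with rfl | rfl | ⟨hx1, hx2⟩ <;> rcases hyc with rfl | rfl | ⟨hy1, hy2⟩ <;>
    simp [Matrix.single_apply, hjk, hjk.symm, Ne.symm, *]

include hTU hcl in
/-- A central element of `U0S` in `T`. -/
theorem exists_central_mem (p : ℕ) [hp : Fact p.Prime] [hc : CharP K p] (hne : T ≠ ⊥) : ∃ z ∈ T, z ≠ 1 ∧ ∀ u ∈ U0S m K, u * z = z * u := by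
  have hpU : IsPGroup p (U0S m K) := fun u => ⟨2 * m, Subtype.ext (exists_pow_U0S' u.2)⟩
  haveI : Group.IsNilpotent (U0S m K) := hpU.isNilpotent
  let N : Subgroup (U0S m K) := T.subgroupOf (U0S m K)
  haveI hNn : N.Normal := by
    constructor
    intro b hb g
    show ((g * b * g⁻¹ : U0S m K) : Sp m K) ∈ T
    exact hcl _ hb _ (g * b * g⁻¹).2
  have hNne : N ≠ ⊥ := by
    intro h
    apply hne
    rw [eq_bot_iff]
    intro x hx
    have : (⟨x, hTU hx⟩ : U0S m K) ∈ N := hx
    rw [h, Subgroup.mem_bot] at this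
    have h2 := congrArg Subtype.val this
    simpa using h2
  have h1 := Cfsg.Agent.Lib.Basic.normal_inf_center_ne_bot N hNne
  rcases Subgroup.bot_or_exists_ne_one (N ⊓ Subgroup.center (U0S m K)) with h2 | ⟨z, hz, hz1⟩
  · exact absurd h2 h1
  · refine ⟨z.1, hz.1, fun e => hz1 (Subtype.ext e), fun u hu => ?_⟩
    have := (Subgroup.mem_center_iff.1 hz.2) ⟨u, hu⟩
    exact congrArg Subtype.val this

/-- A central element of `U0S` is a Siegel element of special shape. -/
theorem central_form {z : Sp m K} (hzU : z ∈ U0S m K) (hcomm : ∀ u ∈ U0S m K, u * z = z * u) :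
    ∃ (C : Matrix (Fin m) (Fin m) K) (h : Cᵀ = C), z = xB C h ∧ (∀ a b : Fin m, a < b → ∀ y, y ≠ a → C b y = 0) ∧
      ∀ a b : Fin m, a < b → C b a = -C a b := by
  have hA : ∀ (j : Fin m) x, x ≠ Sum.inl j → z.1 x (Sum.inl j) = 0 := fun j => (comm_xL (hcomm _ (xL_mem j 1))).1
  have hD : ∀ (j : Fin m) w, w ≠ Sum.inr j → z.1 (Sum.inr j) w = 0 := fun j => (comm_xL (hcomm _ (xL_mem j 1))).2.1
  have h1 : ∀ x, z.1 x x = 1 := hzU.2
  let C : Matrix (Fin m) (Fin m) K := z.1.toBlocks₁₂
  have e : z.1 = fromBlocks 1 C 0 1 := by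
    ext (x | x) (y | y)
    · rw [fromBlocks_apply₁₁]
      by_cases hxy : x = y
      · subst hxy
        rw [h1, Matrix.one_apply_eq]
      · rw [Matrix.one_apply_ne hxy]
        exact hA y _ (by simpa using hxy)
    · rfl
    · rw [fromBlocks_apply₂₁]
      exact hA y _ (by simp)
    · rw [fromBlocks_apply₂₂]
      by_cases hxy : x = y
      · subst hxy
        rw [h1, Matrix.one_apply_eq]
      · rw [Matrix.one_apply_ne hxy]
        exact hD x _ (by simpa using Ne.symm hxy)
  have hmem : fromBlocks 1 C 0 (1 : Matrix (Fin m) (Fin m) K) ∈ Sp m K := e ▸ z.2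
  have hsym : Cᵀ = C := (block_sym hmem).2
  have hz : z = xB C hsym := Subtype.ext e
  have key : ∀ a b : Fin m, a < b → ∀ y, C b y = if y = a then C a b * (-1) else 0 := by
    intro a b hab y
    have h2 := comm_entry (xE_val hab.ne (1 : K)) (hcomm _ (xE_mem hab 1)) (Sum.inl a) (Sum.inr y)
    simp only [if_true, one_mul, reduceCtorEq, if_false, add_zero, zero_add, Sum.inr.injEq] at h2
    exact h2
  refine ⟨C, hsym, hz, fun a b hab y hy => ?_, fun a b hab => ?_⟩
  · rw [key a b hab y, if_neg hy]
  · rw [key a b hab a, if_pos rfl]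
    ring

/-- The shape of a central Siegel element. -/
theorem central_shape (hm : 2 ≤ m) {C : Matrix (Fin m) (Fin m) K} (h : Cᵀ = C) (hC1 : ∀ a b : Fin m, a < b → ∀ y, y ≠ a → C b y = 0)
    (hC2 : ∀ a b : Fin m, a < b → C b a = -C a b) (i0 i1 : Fin m) (h0 : (i0 : ℕ) = 0) (h1 : (i1 : ℕ) = 1) :
    ∃ α β : K, C = Matrix.single i0 i0 α + sS i0 i1 β ∧ β + β = 0 := by
  have h01 : i0 < i1 := by
    rw [Fin.lt_def]
    omega
  have hsym : ∀ x y, C x y = C y x := fun x y => by
    have := congrFun (congrFun h y) x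
    rw [Matrix.transpose_apply] at this
    exact this
  have hbig : ∀ x y : Fin m, 2 ≤ (x : ℕ) → C x y = 0 := by
    intro x y hx
    by_cases hy : y = i0
    · refine hC1 i1 x ?_ y ?_
      · rw [Fin.lt_def]
        omega
      · rw [hy]
        exact h01.ne
    · refine hC1 i0 x ?_ y hy
      rw [Fin.lt_def]
      omega
  have h1y : ∀ y, y ≠ i0 → C i1 y = 0 := hC1 i0 i1 h01
  have hcases : ∀ x : Fin m, x = i0 ∨ x = i1 ∨ 2 ≤ (x : ℕ) := by
    intro x
    by_cases hx0 : (x : ℕ) = 0
    · left
      exact Fin.ext (by omega)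
    · by_cases hx1 : (x : ℕ) = 1
      · right
        left
        exact Fin.ext (by omega)
      · right
        right
        omega
  have hne0 : ∀ x : Fin m, 2 ≤ (x : ℕ) → x ≠ i0 := fun x hx e => by
    rw [e] at hx
    omega
  have hne1 : ∀ x : Fin m, 2 ≤ (x : ℕ) → x ≠ i1 := fun x hx e => by
    rw [e] at hx
    omega
  refine ⟨C i0 i0, C i0 i1, ?_, ?_⟩
  · ext x y
    rw [Matrix.add_apply, sS, Matrix.add_apply]
    have e01 : i0 ≠ i1 := h01.ne
    rcases hcases x with rfl | rfl | hx
    · rcases hcases y with rfl | rfl | hy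
      · simp [Matrix.single_apply, e01, e01.symm]
      · simp [Matrix.single_apply, e01, e01.symm]
      · rw [hsym, hbig _ _ hy]
        simp [Matrix.single_apply, e01, e01.symm, (hne0 y hy).symm, (hne1 y hy).symm]
    · rcases hcases y with rfl | rfl | hy
      · rw [hsym]
        simp [Matrix.single_apply, e01, e01.symm]
      · rw [h1y _ e01.symm]
        simp [Matrix.single_apply, e01, e01.symm]
      · rw [h1y _ (hne0 y hy)]
        simp [Matrix.single_apply, e01, e01.symm, (hne0 y hy).symm, (hne1 y hy).symm]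
    · rw [hbig _ _ hx]
      simp [Matrix.single_apply, (hne0 x hx).symm, (hne1 x hx).symm]
  · have h3 : C i0 i1 = - C i0 i1 := by
      have := hC2 i0 i1 h01
      rwa [hsym] at this
    linear_combination h3

include hTU hcl in
/-- A nontrivial closed subgroup contains a long root element. -/
theorem exists_long (p : ℕ) [hp : Fact p.Prime] [hc : CharP K p] (hm : 2 ≤ m) (hex : m = 2 → 3 ≤ Fintype.card K) (hne : T ≠ ⊥) :
    ∃ (j : Fin m) (s : K), s ≠ 0 ∧ InT T (Matrix.single j j s) := by
  classical
  obtain ⟨z, hzT, hz1, hcomm⟩ := exists_central_mem hTU hcl p hne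
  obtain ⟨C, h, rfl, hC1, hC2⟩ := central_form (hTU hzT) hcomm
  have hInT : InT T C := ⟨h, hzT⟩
  have hC0 : C ≠ 0 := fun e => hz1 (by subst e; exact xB_zero _)
  let i0 : Fin m := ⟨0, by omega⟩
  let i1 : Fin m := ⟨1, by omega⟩
  have h01 : i0 < i1 := by
    rw [Fin.lt_def]
    show 0 < 1
    omega
  obtain ⟨α, β, hform, h2β⟩ := central_shape hm h hC1 hC2 i0 i1 rfl rfl
  subst hform
  by_cases hβ : β = 0
  · subst hβ
    have e : sS i0 i1 (0 : K) = 0 := by simp [sS]
    rw [e, add_zero] at hInT hC0
    refine ⟨i0, α, fun hα => hC0 ?_, hInT⟩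
    rw [hα, Matrix.single_zero]
  · have h2 : (2 : K) = 0 := by
      have : (2 : K) * β = 0 := by linear_combination h2β
      exact (mul_eq_zero.1 this).resolve_right hβ
    by_cases hα : α = 0
    · subst hα
      rw [Matrix.single_zero, zero_add] at hInT
      exact ⟨i0, β * β * (-1), by simp [hβ], InT_long_of_short hcl h01 hInT⟩
    · by_cases h3 : 3 ≤ m
      · let i2 : Fin m := ⟨2, by omega⟩
        have h02 : i0 < i2 := by
          rw [Fin.lt_def]
          show 0 < 2
          omega
        have h12 : i1 < i2 := by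
          rw [Fin.lt_def]
          show 1 < 2
          omega
        have hS := (InT.conj hcl (rt i2 i1 h12.ne' 1) hInT).sub hInT
        have e : (rt i2 i1 h12.ne' 1).1 * (Matrix.single i0 i0 α + sS i0 i1 β) * (rt i2 i1 h12.ne' 1).1ᵀ - (Matrix.single i0 i0 α + sS i0 i1 β) = sS i0 i2 β := by
          ext x y
          rw [Matrix.sub_apply, conj_rt_apply]
          simp only [sS, Matrix.add_apply]
          have hxc : x = i0 ∨ x = i1 ∨ x = i2 ∨ (x ≠ i0 ∧ x ≠ i1 ∧ x ≠ i2) := by tauto
          have hyc : y = i0 ∨ y = i1 ∨ y = i2 ∨ (y ≠ i0 ∧ y ≠ i1 ∧ y ≠ i2) := by tauto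
          have e1 := h01.ne
          have e2 := h02.ne
          have e3 := h12.ne
          clear_value i0 i1 i2
          rcases hxc with rfl | rfl | rfl | ⟨hx1, hx2, hx3⟩ <;> rcases hyc with rfl | rfl | rfl | ⟨hy1, hy2, hy3⟩ <;>
            simp [Matrix.single_apply, e1, e2, e3, e1.symm, e2.symm, e3.symm, Ne.symm, *]
        rw [e] at hS
        exact ⟨i0, β * β * (-1), by simp [hβ], InT_long_of_short hcl h02 hS⟩
      · have hm2 : m = 2 := by omega
        have hcard := hex hm2
        obtain ⟨c, -, hc'⟩ := Finset.exists_mem_notMem_of_card_lt_card (s := ({0, 1} : Finset K)) (t := Finset.univ) (by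
          have : ({0, 1} : Finset K).card ≤ 2 := Finset.card_le_two
          rw [Finset.card_univ]
          omega)
        simp only [Finset.mem_insert, Finset.mem_singleton, not_or] at hc'
        obtain ⟨hc0, hc1⟩ := hc'
        have hS := (InT.conj hcl (hh i0 i1 h01.ne c hc0) hInT).sub hInT
        have e : (hh i0 i1 h01.ne c hc0).1 * (Matrix.single i0 i0 α + sS i0 i1 β) * (hh i0 i1 h01.ne c hc0).1ᵀ - (Matrix.single i0 i0 α + sS i0 i1 β) = Matrix.single i0 i0 ((c * c - 1) * α) := by
          ext x y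
          rw [Matrix.sub_apply, hh_val, conj_diag_apply]
          simp only [sS, Matrix.add_apply]
          have hxc : x = i0 ∨ x = i1 ∨ (x ≠ i0 ∧ x ≠ i1) := by tauto
          have hyc : y = i0 ∨ y = i1 ∨ (y ≠ i0 ∧ y ≠ i1) := by tauto
          have e1 := h01.ne
          clear_value i0 i1
          rcases hxc with rfl | rfl | ⟨hx1, hx2⟩ <;> rcases hyc with rfl | rfl | ⟨hy1, hy2⟩ <;>
            simp [Matrix.single_apply, e1, e1.symm, Ne.symm, *] <;> first | ring1 | (field_simp; done) | (field_simp; ring1)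
        rw [e] at hS
        refine ⟨i0, (c * c - 1) * α, mul_ne_zero ?_ hα, hS⟩
        intro h4
        have h5 : (c - 1) * (c - 1) = 0 := by linear_combination h4 + (1 - c) * h2
        have h6 : c - 1 = 0 := by simpa using h5
        exact hc1 (sub_eq_zero.1 h6)

/-- A symmetric matrix as a sum of long and short root blocks. -/
theorem sym_decomp {B : Matrix (Fin m) (Fin m) K} (h : Bᵀ = B) :
    B = ∑ j, ∑ k, (if j < k then sS j k (B j k) else if j = k then Matrix.single j j (B j j) else 0) := by
  classical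
  set F : Fin m → Fin m → Matrix (Fin m) (Fin m) K := fun j k => if j < k then sS j k (B j k) else if j = k then Matrix.single j j (B j j) else 0 with hF
  have hsym : ∀ x y, B x y = B y x := fun x y => by
    have := congrFun (congrFun h y) x
    rw [Matrix.transpose_apply] at this
    exact this
  have hFs : ∀ j k x y, F j k x y = F j k y x := by
    intro j k x y
    simp only [hF]
    split_ifs with h1 h2
    · exact (congrFun (congrFun (sS_transpose j k (B j k)) y) x)
    · subst h2
      exact (congrFun (congrFun (single_transpose_self j (B j j)) y) x)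
    · rfl
  have hle : ∀ x y, x ≤ y → (∑ j, ∑ k, F j k x y) = B x y := by
    intro x y hxy
    rw [Finset.sum_eq_single x, Finset.sum_eq_single y]
    · simp only [hF]
      rcases lt_or_eq_of_le hxy with h1 | h1
      · rw [if_pos h1]
        simp [sS, Matrix.single_apply, h1.ne, h1.ne']
      · subst h1
        simp
    · intro k _ hk
      simp only [hF]
      split_ifs with h1 h2
      · simp [sS, Matrix.single_apply, hk, Ne.symm hk, h1.ne, h1.ne']
      · subst h2
        simp [Matrix.single_apply, hk, Ne.symm hk]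
      · rfl
    · simp
    · intro j _ hj
      apply Finset.sum_eq_zero
      intro k _
      simp only [hF]
      split_ifs with h1 h2
      · simp only [sS, Matrix.add_apply, Matrix.single_apply]
        rw [if_neg (fun e => hj e.1), if_neg (fun e : k = x ∧ j = y => by
          rw [e.1, e.2] at h1
          exact absurd h1 (not_lt.2 hxy)), add_zero]
      · subst h2
        simp [Matrix.single_apply, hj]
      · rfl
    · simp
  ext x y
  rw [Matrix.sum_apply]
  simp only [Matrix.sum_apply]
  show B x y = ∑ j, ∑ k, F j k x y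
  rcases le_total x y with hxy | hxy
  · rw [hle x y hxy]
  · rw [hsym, ← hle y x hxy]
    simp only [hFs _ _ x y]

include hTU hcl in
/-- A nontrivial closed subgroup is everything. -/
theorem U0S_le_of_closed (p : ℕ) [hp : Fact p.Prime] [hc : CharP K p] (hm : 2 ≤ m) (hex : m = 2 → 3 ≤ Fintype.card K) (hne : T ≠ ⊥) :
    U0S m K ≤ T := by
  classical
  obtain ⟨j, s, hs, hj⟩ := exists_long hTU hcl p hm hex hne
  have hex2 : ∃ k, k ≠ j := by
    by_cases h0 : (j : ℕ) = 0
    · exact ⟨⟨1, by omega⟩, fun e => by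
        have := congrArg Fin.val e
        simp at this
        omega⟩
    · exact ⟨⟨0, by omega⟩, fun e => by
        have := congrArg Fin.val e
        simp at this
        omega⟩
  obtain ⟨k0, hk0⟩ := hex2
  have hL : ∀ k t, InT T (Matrix.single k k t) := by
    intro k t
    have h1 := InT_all hcl hk0.symm hs hj t
    by_cases hk : k = j
    · rw [hk]
      exact h1
    · exact InT_move hcl (Ne.symm hk) h1
  have hS : ∀ j k : Fin m, j ≠ k → ∀ t : K, InT T (sS j k t) := fun j k hjk t => InT_short hcl hjk (hL j t) (hL k t)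
  have hE : ∀ (c d : Fin m) (h : c < d) (t : K), xE c d h.ne t ∈ T := by
    intro c d h t
    obtain ⟨h0, hx⟩ := hS c d h.ne t
    have hx' : xS c d t ∈ T := hx
    rw [← wW_conj h.ne t]
    apply hcl _ hx'
    rw [wW_conj h.ne t]
    exact xE_mem h t
  have hLev : ∀ A ∈ U0 m K, Lev A ∈ T := by
    intro A hA
    have h1 : Gen m K ≤ T.comap Lev := by
      rw [Gen, Subgroup.closure_le]
      rintro g ⟨c, d, h, t, rfl⟩
      exact hE c d h t
    exact h1 (U0_le_Gen hA)
  have hB : ∀ (B : Matrix (Fin m) (Fin m) K), Bᵀ = B → InT T B := by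
    intro B h
    rw [sym_decomp h]
    refine Finset.sum_induction _ (InT T) (fun a b ha hb => ha.add hb) InT_zero (fun j _ => ?_)
    refine Finset.sum_induction _ (InT T) (fun a b ha hb => ha.add hb) InT_zero (fun k _ => ?_)
    split_ifs with h1 h2
    · exact hS j k h1.ne _
    · exact hL _ _
    · exact InT_zero
  intro u hu
  obtain ⟨A, B, h, hA, rfl⟩ := exists_decomp hu
  obtain ⟨h', hx⟩ := hB B h
  exact T.mul_mem (hLev A hA) hx

omit hTU hcl in
theorem U0S_ne_bot (hm : 2 ≤ m) : U0S m K ≠ ⊥ := by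
  intro h
  let i0 : Fin m := ⟨0, by omega⟩
  have h1 : xL i0 (1 : K) ∈ U0S m K := xL_mem _ _
  rw [h, Subgroup.mem_bot] at h1
  have h2 := congrArg Subtype.val h1
  have h3 := congrFun (congrFun h2 (Sum.inl i0)) (Sum.inr i0)
  rw [xL_val, rM_apply] at h3
  simp at h3

end Fin2

end Cfsg.Agent.Lib.Fusion.SpF
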