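/-
The special unitary group of the antidiagonal Hermitian form on `Fin r ⊕ (M ⊕ Fin r)` with `M` empty or a point:
the coordinates and their order, parabolic subgroups and their radicals, root elements.
-/
import Cfsg.Agent.Lib.Fusion.CoverCrit

set_option autoImplicit false
set_option linter.unusedSectionVars false
set_option linter.unusedVariables false
set_option linter.unusedSimpArgs false
set_option linter.style.haveILetI false

namespace Cfsg.Agent.Lib.Fusion.SUF

open Matrix Cfsg.Agent.Lib.Fusion.PSLF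

variable {K : Type*} [Field K] {r : ℕ} {M : Type} [Fintype M] [DecidableEq M]

/-- The index type. -/
abbrev IU (r : ℕ) (M : Type) := Fin r ⊕ (M ⊕ Fin r)

/-- The order-reversing involution. -/
def rv : IU r M → IU r M
  | Sum.inl i => Sum.inr (Sum.inr i)
  | Sum.inr (Sum.inl m) => Sum.inr (Sum.inl m)
  | Sum.inr (Sum.inr i) => Sum.inl i

@[simp] theorem rv_rv (x : IU r M) : rv (rv x) = x := by
  rcases x with i | m | i <;> rfl

theorem rv_inj {x y : IU r M} (h : rv x = rv y) : x = y := by
  rw [← rv_rv x, h, rv_rv]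

theorem rv_eq_iff {x y : IU r M} : rv x = y ↔ x = rv y := by
  constructor
  · rintro rfl
    rw [rv_rv]
  · rintro rfl
    rw [rv_rv]

/-- Position of a coordinate. -/
def pos : IU r M → ℕ
  | Sum.inl i => i
  | Sum.inr (Sum.inl m) => r
  | Sum.inr (Sum.inr i) => r + Fintype.card M + (r - 1 - i)

@[simp] theorem pos_l (i : Fin r) : pos (Sum.inl i : IU r M) = i := rfl
@[simp] theorem pos_m (m : M) : pos (Sum.inr (Sum.inl m) : IU r M) = r := rfl
@[simp] theorem pos_r (i : Fin r) : pos (Sum.inr (Sum.inr i) : IU r M) = r + Fintype.card M + (r - 1 - i) := rfl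

/-- The total number of coordinates. -/
abbrev NN (r : ℕ) (M : Type) [Fintype M] : ℕ := 2 * r + Fintype.card M

section Sub
variable [Subsingleton M]

theorem card_m (m : M) : Fintype.card M = 1 := by
  have h1 : Fintype.card M ≤ 1 := Fintype.card_le_one_iff_subsingleton.2 inferInstance
  have h2 : 0 < Fintype.card M := Fintype.card_pos_iff.2 ⟨m⟩
  omega

theorem pos_lt (x : IU r M) : pos x < NN r M := by
  rcases x with i | m | i
  · have := i.2
    simp only [pos_l, NN]
    omega
  · have := card_m m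
    simp only [pos_m, NN]
    omega
  · have := i.2
    simp only [pos_r, NN]
    omega

theorem pos_rv (x : IU r M) : pos (rv x) = NN r M - 1 - pos x := by
  rcases x with i | m | i
  · have := i.2
    show r + Fintype.card M + (r - 1 - i) = _
    simp only [pos_l, NN]
    omega
  · have := card_m m
    show r = _
    simp only [pos_m, NN]
    omega
  · have := i.2
    show (i : ℕ) = _
    simp only [pos_r, NN]
    omega

theorem pos_inj {x y : IU r M} (h : pos x = pos y) : x = y := by
  rcases x with i | m | i <;> rcases y with j | m' | j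
  · exact congrArg _ (Fin.ext (by simpa using h))
  · have := i.2
    simp only [pos_l, pos_m] at h
    omega
  · have := i.2
    have := j.2
    simp only [pos_l, pos_r] at h
    omega
  · have := j.2
    simp only [pos_l, pos_m] at h
    omega
  · rw [Subsingleton.elim m m']
  · have := card_m m
    have := j.2
    simp only [pos_m, pos_r] at h
    omega
  · have := i.2
    have := j.2
    simp only [pos_l, pos_r] at h
    omega
  · have := card_m m'
    have := i.2
    simp only [pos_m, pos_r] at h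
    omega
  · have := i.2
    have := j.2
    simp only [pos_r] at h
    have : i = j := Fin.ext (by omega)
    rw [this]

theorem pos_ne {x y : IU r M} (h : x ≠ y) : pos x ≠ pos y := fun e => h (pos_inj e)

end Sub

/-! ### Block conditions -/

/-- A matrix compatible with a block map. -/
def IsPar (c : IU r M → ℕ) (A : Matrix (IU r M) (IU r M) K) : Prop := ∀ x y, c y < c x → A x y = 0

/-- A matrix with trivial diagonal blocks. -/
def IsRad (c : IU r M → ℕ) (A : Matrix (IU r M) (IU r M) K) : Prop :=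
  IsPar c A ∧ ∀ x y, c x = c y → A x y = (1 : Matrix (IU r M) (IU r M) K) x y

variable {c : IU r M → ℕ}

theorem IsPar.mul {a b : Matrix (IU r M) (IU r M) K} (ha : IsPar c a) (hb : IsPar c b) : IsPar c (a * b) := by
  intro i j hij
  rw [Matrix.mul_apply]
  refine Finset.sum_eq_zero (fun l _ => ?_)
  by_cases h : c l < c i
  · rw [ha i l h, zero_mul]
  · rw [hb l j (lt_of_lt_of_le hij (not_lt.1 h)), mul_zero]

theorem isPar_one : IsPar c (1 : Matrix (IU r M) (IU r M) K) := by
  intro i j hij
  exact Matrix.one_apply_ne (fun e => by rw [e] at hij; exact lt_irrefl _ hij)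

theorem isRad_one : IsRad c (1 : Matrix (IU r M) (IU r M) K) := ⟨isPar_one, fun _ _ _ => rfl⟩

theorem IsRad.mul {a b : Matrix (IU r M) (IU r M) K} (ha : IsRad c a) (hb : IsRad c b) : IsRad c (a * b) := by
  refine ⟨ha.1.mul hb.1, fun x y hxy => ?_⟩
  rw [Matrix.mul_apply, Finset.sum_eq_single y]
  · rw [ha.2 x y hxy, hb.2 y y rfl, Matrix.one_apply_eq, mul_one]
  · intro l _ hl
    rcases lt_trichotomy (c l) (c x) with h | h | h
    · rw [ha.1 x l h, zero_mul]
    · rw [hb.2 l y (by rw [h, hxy]), Matrix.one_apply_ne hl, mul_zero]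
    · rw [hb.1 l y (by rw [← hxy]; exact h), mul_zero]
  · simp

/-- The radical is normal in the parabolic. -/
theorem isRad_conj {g g' u : Matrix (IU r M) (IU r M) K} (hg : IsPar c g) (hg' : IsPar c g') (hu : IsRad c u) (h1 : g * g' = 1) :
    IsRad c (g * u * g') := by
  refine ⟨(hg.mul hu.1).mul hg', fun x y hxy => ?_⟩
  have key : ∀ l, (g * u) x l * g' l y = g x l * g' l y := by
    intro l
    rcases lt_trichotomy (c l) (c x) with h | h | h
    · rw [(hg.mul hu.1) x l h, hg x l h]
    · congr 1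
      rw [Matrix.mul_apply, Finset.sum_eq_single l]
      · rw [hu.2 l l rfl, Matrix.one_apply_eq, mul_one]
      · intro k _ hk
        rcases lt_trichotomy (c k) (c x) with h2 | h2 | h2
        · rw [hg x k h2, zero_mul]
        · rw [hu.2 k l (by rw [h2, h]), Matrix.one_apply_ne hk, mul_zero]
        · rw [hu.1 k l (by rw [h]; exact h2), mul_zero]
      · simp
    · rw [hg' l y (by rw [← hxy]; exact h), mul_zero, mul_zero]
  rw [Matrix.mul_apply, Finset.sum_congr rfl (fun l _ => key l), ← Matrix.mul_apply, h1]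

/-- Upper triangular. -/
abbrev IsUpU (A : Matrix (IU r M) (IU r M) K) : Prop := IsPar pos A

section Sub2
variable [Subsingleton M]

theorem IsUpU.mul_diag {a b : Matrix (IU r M) (IU r M) K} (ha : IsUpU a) (hb : IsUpU b) (i : IU r M) : (a * b) i i = a i i * b i i := by
  rw [Matrix.mul_apply, Finset.sum_eq_single i]
  · intro l _ hl
    rcases lt_or_gt_of_ne (pos_ne hl) with h | h
    · rw [ha i l h, zero_mul]
    · rw [hb l i h, mul_zero]
  · simp

theorem IsUpU.pow {a : Matrix (IU r M) (IU r M) K} (ha : IsUpU a) (k : ℕ) : IsUpU (a ^ k) := by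
  induction k with
  | zero => simpa using (isPar_one : IsUpU (1 : Matrix (IU r M) (IU r M) K))
  | succ k ih =>
    rw [pow_succ]
    exact ih.mul ha

theorem IsUpU.pow_diag {a : Matrix (IU r M) (IU r M) K} (ha : IsUpU a) (k : ℕ) (i : IU r M) : (a ^ k) i i = a i i ^ k := by
  induction k with
  | zero => simp
  | succ k ih =>
    rw [pow_succ, (ha.pow k).mul_diag ha, ih, pow_succ]

/-- Radicals for `pos`. -/
theorem isRad_pos_iff {A : Matrix (IU r M) (IU r M) K} : IsRad pos A ↔ IsUpU A ∧ ∀ x, A x x = 1 := by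
  constructor
  · intro h
    exact ⟨h.1, fun x => by rw [h.2 x x rfl, Matrix.one_apply_eq]⟩
  · intro h
    refine ⟨h.1, fun x y hxy => ?_⟩
    rw [pos_inj hxy, h.2, Matrix.one_apply_eq]

end Sub2

/-- Monotone block maps. -/
def IsMono (c : IU r M → ℕ) : Prop := ∀ x y, pos x ≤ pos y → c x ≤ c y

theorem IsUpU.isPar (hc : IsMono c) {A : Matrix (IU r M) (IU r M) K} (hA : IsUpU A) : IsPar c A := by
  intro x y hxy
  apply hA
  by_contra h
  exact absurd (hc x y (not_lt.1 h)) (not_le.2 hxy)

theorem IsRad.isUp [Subsingleton M] (hc : IsMono c) {A : Matrix (IU r M) (IU r M) K} (hA : IsRad c A) : IsRad pos A := by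
  rw [isRad_pos_iff]
  refine ⟨fun x y hxy => ?_, fun x => by rw [hA.2 x x rfl, Matrix.one_apply_eq]⟩
  have h1 := hc y x hxy.le
  rcases lt_or_eq_of_le h1 with h2 | h2
  · exact hA.1 x y h2
  · rw [hA.2 x y h2.symm, Matrix.one_apply_ne]
    rintro rfl
    exact lt_irrefl _ hxy

/-! ### The form -/

/-- The form matrix. -/
def Jm (r : ℕ) (M : Type) [DecidableEq M] (K : Type*) [Field K] : Matrix (IU r M) (IU r M) K :=
  Matrix.of fun x y => if y = rv x then 1 else 0

theorem Jm_apply (x y : IU r M) : Jm r M K x y = if y = rv x then 1 else 0 := rfl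

/-- The conjugate transpose. -/
def cT (σ : K →+* K) {m n : Type*} (A : Matrix m n K) : Matrix n m K := (A.map σ)ᵀ

theorem cT_apply (σ : K →+* K) {m n : Type*} (A : Matrix m n K) (x : n) (y : m) : cT σ A x y = σ (A y x) := rfl

theorem cT_mul (σ : K →+* K) {l m n : Type*} [Fintype m] (A : Matrix l m K) (B : Matrix m n K) : cT σ (A * B) = cT σ B * cT σ A := by
  rw [cT, cT, cT, Matrix.map_mul, Matrix.transpose_mul]

theorem cT_one (σ : K →+* K) {m : Type*} [DecidableEq m] : cT σ (1 : Matrix m m K) = 1 := by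
  ext x y
  rw [cT_apply, Matrix.one_apply, Matrix.one_apply]
  by_cases h : x = y
  · subst h
    simp
  · rw [if_neg h, if_neg (Ne.symm h), map_zero]

theorem cT_add (σ : K →+* K) {m n : Type*} (A B : Matrix m n K) : cT σ (A + B) = cT σ A + cT σ B := by
  ext x y
  simp only [cT_apply, Matrix.add_apply, map_add]

theorem cT_neg (σ : K →+* K) {m n : Type*} (A : Matrix m n K) : cT σ (-A) = - cT σ A := by
  ext x y
  simp only [cT_apply, Matrix.neg_apply, map_neg]

theorem cT_zero (σ : K →+* K) {m n : Type*} : cT σ (0 : Matrix m n K) = 0 := by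
  ext x y
  simp only [cT_apply, Matrix.zero_apply, map_zero]

theorem cT_cT {σ : K →+* K} (hσ : ∀ a, σ (σ a) = a) {m n : Type*} (A : Matrix m n K) : cT σ (cT σ A) = A := by
  ext x y
  simp only [cT_apply, hσ]

theorem cT_single (σ : K →+* K) {m n : Type*} [DecidableEq m] [DecidableEq n] (i : m) (j : n) (s : K) :
    cT σ (Matrix.single i j s) = Matrix.single j i (σ s) := by
  ext x y
  rw [cT_apply, Matrix.single_apply, Matrix.single_apply]
  by_cases h : i = y ∧ j = x
  · rw [if_pos h, if_pos h.symm]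
  · rw [if_neg h, if_neg (fun e => h e.symm), map_zero]

/-- The isometry condition. -/
def IsU (σ : K →+* K) (A : Matrix (IU r M) (IU r M) K) : Prop := A * Jm r M K * cT σ A = Jm r M K

theorem mul_Jm_apply (A : Matrix (IU r M) (IU r M) K) (x l : IU r M) : (A * Jm r M K) x l = A x (rv l) := by
  rw [Matrix.mul_apply, Finset.sum_eq_single (rv l)]
  · rw [Jm_apply, rv_rv, if_pos rfl, mul_one]
  · intro k _ hk
    rw [Jm_apply, if_neg (fun e => hk (by rw [e, rv_rv])), mul_zero]
  · simp

theorem u_entry_iff (σ : K →+* K) {A : Matrix (IU r M) (IU r M) K} :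
    IsU σ A ↔ ∀ x y, ∑ l, A x (rv l) * σ (A y l) = if y = rv x then 1 else 0 := by
  constructor
  · intro h x y
    have := congrFun (congrFun h x) y
    rw [Matrix.mul_apply] at this
    simpa only [mul_Jm_apply, cT_apply, Jm_apply] using this
  · intro h
    ext x y
    rw [Matrix.mul_apply]
    simpa only [mul_Jm_apply, cT_apply, Jm_apply] using h x y

theorem IsU.mul {σ : K →+* K} {A B : Matrix (IU r M) (IU r M) K} (hA : IsU σ A) (hB : IsU σ B) : IsU σ (A * B) := by
  rw [IsU, cT_mul]
  calc A * B * Jm r M K * (cT σ B * cT σ A) = A * (B * Jm r M K * cT σ B) * cT σ A := by simp only [Matrix.mul_assoc]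
    _ = Jm r M K := by rw [hB, hA]

theorem isU_one (σ : K →+* K) : IsU σ (1 : Matrix (IU r M) (IU r M) K) := by
  rw [IsU, cT_one, one_mul, mul_one]

variable [Fintype K]

instance : Finite (Matrix.SpecialLinearGroup (IU r M) K) := inferInstance

/-- The special unitary group of the form. -/
def GJ (σ : K →+* K) (r : ℕ) (M : Type) [Fintype M] [DecidableEq M] : Subgroup (Matrix.SpecialLinearGroup (IU r M) K) :=
  ofClosed {g | IsU σ g.1} (by
    show IsU σ (1 : Matrix (IU r M) (IU r M) K)
    exact isU_one σ) (fun a ha b hb => IsU.mul ha hb)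

/-- The group. -/
abbrev GG (σ : K →+* K) (r : ℕ) (M : Type) [Fintype M] [DecidableEq M] := ↥(GJ σ r M)

variable {σ : K →+* K}

/-- The matrix of an element. -/
abbrev mt (g : GG σ r M) : Matrix (IU r M) (IU r M) K := g.1.1

theorem mt_mul (g h : GG σ r M) : mt (g * h) = mt g * mt h := rfl

theorem mt_one : mt (1 : GG σ r M) = 1 := rfl

theorem mt_pow (g : GG σ r M) (k : ℕ) : mt (g ^ k) = mt g ^ k := by
  induction k with
  | zero => rfl
  | succ k ih =>
    rw [pow_succ, mt_mul, ih, pow_succ]

theorem mt_inv_mul (g : GG σ r M) : mt g⁻¹ * mt g = 1 := by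
  rw [← mt_mul, inv_mul_cancel, mt_one]

theorem mul_mt_inv (g : GG σ r M) : mt g * mt g⁻¹ = 1 := by
  rw [← mt_mul, mul_inv_cancel, mt_one]

theorem mt_ext {g h : GG σ r M} (e : mt g = mt h) : g = h :=
  Subtype.ext (Subtype.ext e)

theorem mem_GJ (g : GG σ r M) : IsU σ (mt g) := g.2

theorem u_entry (g : GG σ r M) (x y : IU r M) : ∑ l, mt g x (rv l) * σ (mt g y l) = if y = rv x then 1 else 0 :=
  (u_entry_iff σ).1 (mem_GJ g) x y

/-- The parabolic subgroup. -/
def Par (σ : K →+* K) (c : IU r M → ℕ) : Subgroup (GG σ r M) :=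
  ofClosed {g | IsPar c (mt g)} isPar_one (fun a ha b hb => IsPar.mul ha hb)

/-- The radical of a parabolic subgroup. -/
def Rad (σ : K →+* K) (c : IU r M → ℕ) : Subgroup (GG σ r M) :=
  ofClosed {g | IsRad c (mt g)} isRad_one (fun a ha b hb => IsRad.mul ha hb)

theorem mem_Par {g : GG σ r M} : g ∈ Par σ c ↔ IsPar c (mt g) := Iff.rfl

theorem mem_Rad {g : GG σ r M} : g ∈ Rad σ c ↔ IsRad c (mt g) := Iff.rfl

theorem conj_mem_Rad {g u : GG σ r M} (hg : g ∈ Par σ c) (hu : u ∈ Rad σ c) : g * u * g⁻¹ ∈ Rad σ c :=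
  isRad_conj hg ((Par σ c).inv_mem hg) hu (mul_mt_inv g)

theorem Par_le_norm {g : GG σ r M} (hg : g ∈ Par σ c) : g ∈ Subgroup.normalizer ((Rad σ c : Subgroup (GG σ r M)) : Set (GG σ r M)) := by
  rw [Subgroup.mem_normalizer_iff]
  intro y
  refine ⟨fun hy => conj_mem_Rad hg hy, fun hy => ?_⟩
  have h3 := conj_mem_Rad ((Par σ c).inv_mem hg) hy
  have e : g⁻¹ * (g * y * g⁻¹) * g⁻¹⁻¹ = y := by group
  rwa [e] at h3

/-- The unitriangular subgroup. -/
abbrev U0U (σ : K →+* K) (r : ℕ) (M : Type) [Fintype M] [DecidableEq M] : Subgroup (GG σ r M) := Rad σ pos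

/-- The upper triangular subgroup. -/
abbrev B0U (σ : K →+* K) (r : ℕ) (M : Type) [Fintype M] [DecidableEq M] : Subgroup (GG σ r M) := Par σ pos

section Sub3
variable [Subsingleton M]

theorem mem_U0U {g : GG σ r M} : g ∈ U0U σ r M ↔ IsUpU (mt g) ∧ ∀ x, mt g x x = 1 := isRad_pos_iff

theorem Rad_le_U0U (hc : IsMono c) : Rad σ c ≤ U0U σ r M := fun _ h => IsRad.isUp hc h

theorem U0U_le_B0U : U0U σ r M ≤ B0U σ r M := fun _ h => h.1

theorem B0U_le_Par (hc : IsMono c) : B0U σ r M ≤ Par σ c := fun _ h => IsUpU.isPar hc h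

theorem diag_rel {g : GG σ r M} (hg : IsUpU (mt g)) (x : IU r M) : mt g x x * σ (mt g (rv x) (rv x)) = 1 := by
  have h1 := u_entry g x (rv x)
  rw [if_pos rfl, Finset.sum_eq_single (rv x), rv_rv] at h1
  · exact h1
  · intro l _ hl
    rcases lt_or_gt_of_ne (pos_ne hl) with h | h
    · have h2 : pos l < pos (rv x) := h
      rw [hg (rv x) l h2, map_zero, mul_zero]
    · have h2 : pos (rv l) < pos x := by
        rw [pos_rv] at h ⊢
        have := pos_lt x
        have := pos_lt l
        omega
      rw [hg x (rv l) h2, zero_mul]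
  · simp

end Sub3

end Cfsg.Agent.Lib.Fusion.SUF
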