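/-
Root elements of the special unitary group of the antidiagonal form.
-/
import Cfsg.Agent.Lib.Fusion.UBase

set_option autoImplicit false
set_option linter.unusedSectionVars false
set_option linter.unusedVariables false
set_option linter.unusedSimpArgs false
set_option linter.style.haveILetI false

namespace Cfsg.Agent.Lib.Fusion.SUF

open Matrix Cfsg.Agent.Lib.Fusion.PSLF

variable {K : Type*} [Field K] {r : ℕ} {M : Type} [Fintype M] [DecidableEq M]

/-- Root matrices. -/
def XM (σ : K →+* K) (i j : IU r M) (s b : K) : Matrix (IU r M) (IU r M) K :=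
  1 + Matrix.single i j s + Matrix.single (rv j) (rv i) (-σ s) + Matrix.single i (rv i) b

variable {σ : K →+* K} {i j : IU r M} {s b : K}

theorem XM_mul_apply (N : Matrix (IU r M) (IU r M) K) (x y : IU r M) :
    (XM σ i j s b * N) x y = N x y + (if x = i then s * N j y + b * N (rv i) y else 0) + (if x = rv j then -σ s * N (rv i) y else 0) := by
  rw [XM, add_mul, add_mul, add_mul, one_mul]
  simp only [Matrix.add_apply]
  by_cases h1 : x = i
  · subst h1
    rw [Matrix.single_mul_apply_same, Matrix.single_mul_apply_same, if_pos rfl]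
    by_cases h2 : x = rv j
    · rw [if_pos h2, h2, Matrix.single_mul_apply_same]
      ring
    · rw [if_neg h2, Matrix.single_mul_apply_of_ne _ _ _ _ _ h2]
      ring
  · rw [Matrix.single_mul_apply_of_ne _ _ _ _ _ h1, Matrix.single_mul_apply_of_ne _ _ _ _ _ h1, if_neg h1]
    by_cases h2 : x = rv j
    · rw [if_pos h2, h2, Matrix.single_mul_apply_same]
      ring
    · rw [if_neg h2, Matrix.single_mul_apply_of_ne _ _ _ _ _ h2]
      ring

theorem mul_XM_apply (N : Matrix (IU r M) (IU r M) K) (x y : IU r M) :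
    (N * XM σ i j s b) x y = N x y + (if y = j then N x i * s else 0) + (if y = rv i then N x (rv j) * (-σ s) + N x i * b else 0) := by
  rw [XM, mul_add, mul_add, mul_add, mul_one]
  simp only [Matrix.add_apply]
  by_cases h1 : y = j
  · subst h1
    rw [Matrix.mul_single_apply_same, if_pos rfl]
    by_cases h2 : y = rv i
    · rw [if_pos h2, h2, Matrix.mul_single_apply_same, Matrix.mul_single_apply_same, ← h2]
      ring
    · rw [if_neg h2, Matrix.mul_single_apply_of_ne _ _ _ _ _ h2, Matrix.mul_single_apply_of_ne _ _ _ _ _ h2]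
      ring
  · rw [Matrix.mul_single_apply_of_ne _ _ _ _ _ h1, if_neg h1]
    by_cases h2 : y = rv i
    · rw [if_pos h2, h2, Matrix.mul_single_apply_same, Matrix.mul_single_apply_same]
      ring
    · rw [if_neg h2, Matrix.mul_single_apply_of_ne _ _ _ _ _ h2, Matrix.mul_single_apply_of_ne _ _ _ _ _ h2]
      ring

theorem XM_apply (x y : IU r M) :
    XM σ i j s b x y = (1 : Matrix (IU r M) (IU r M) K) x y + (if x = i ∧ y = j then s else 0) + (if x = rv j ∧ y = rv i then -σ s else 0) + (if x = i ∧ y = rv i then b else 0) := by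
  rw [XM]
  simp only [Matrix.add_apply, Matrix.single_apply]
  congr 1
  · congr 1
    · congr 1
      by_cases h : x = i ∧ y = j
      · rw [if_pos h, if_pos ⟨h.1.symm, h.2.symm⟩]
      · rw [if_neg h, if_neg (fun e => h ⟨e.1.symm, e.2.symm⟩)]
    · by_cases h : x = rv j ∧ y = rv i
      · rw [if_pos h, if_pos ⟨h.1.symm, h.2.symm⟩]
      · rw [if_neg h, if_neg (fun e => h ⟨e.1.symm, e.2.symm⟩)]
  · by_cases h : x = i ∧ y = rv i
    · rw [if_pos h, if_pos ⟨h.1.symm, h.2.symm⟩]
    · rw [if_neg h, if_neg (fun e => h ⟨e.1.symm, e.2.symm⟩)]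

/-- The admissible data of a root element. -/
structure ROK (σ : K →+* K) (i j : IU r M) (s b : K) : Prop where
  hσ : ∀ a, σ (σ a) = a
  hij : i ≠ j
  hji : j ≠ rv i
  hii : i ≠ rv i
  htr : b + σ b + (if j = rv j then s * σ s else 0) = 0

theorem cT_XM (hσ : ∀ a, σ (σ a) = a) :
    cT σ (XM σ i j s b) = 1 + Matrix.single j i (σ s) + Matrix.single (rv i) (rv j) (-s) + Matrix.single (rv i) i (σ b) := by
  rw [XM, cT_add, cT_add, cT_add, cT_one, cT_single, cT_single, cT_single, map_neg, hσ]

theorem isU_XM (h : ROK σ i j s b) : IsU σ (XM σ i j s b) := by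
  have hij := h.hij
  have hji := h.hji
  have hii := h.hii
  have htr := h.htr
  have hσ := h.hσ
  rw [IsU, cT_XM hσ]
  have eN : ∀ x y, (XM σ i j s b * Jm r M K) x y = XM σ i j s b x (rv y) := fun x y => mul_Jm_apply _ x y
  have e1 : ∀ x, XM σ i j s b x (rv j) = (1 : Matrix (IU r M) (IU r M) K) x (rv j) + (if x = i ∧ j = rv j then s else 0) := by
    intro x
    rw [XM_apply]
    have c1 : ¬ (rv j = rv i) := fun e => hij (rv_inj e).symm
    have c2 : (x = i ∧ rv j = j) ↔ (x = i ∧ j = rv j) := ⟨fun e => ⟨e.1, e.2.symm⟩, fun e => ⟨e.1, e.2.symm⟩⟩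
    rw [if_neg (fun e : x = rv j ∧ rv j = rv i => c1 e.2), if_neg (fun e : x = i ∧ rv j = rv i => c1 e.2)]
    simp only [add_zero, c2]
  have e2 : ∀ x, XM σ i j s b x i = (1 : Matrix (IU r M) (IU r M) K) x i := by
    intro x
    rw [XM_apply, if_neg (fun e : x = i ∧ i = j => hij e.2), if_neg (fun e : x = rv j ∧ i = rv i => hii e.2), if_neg (fun e : x = i ∧ i = rv i => hii e.2)]
    simp
  ext x y
  rw [mul_add, mul_add, mul_add, mul_one]
  simp only [Matrix.add_apply]
  rw [eN, XM_apply]
  have a1 : ∀ (c : K), ((XM σ i j s b * Jm r M K) * Matrix.single j i c) x y = if y = i then XM σ i j s b x (rv j) * c else 0 := by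
    intro c
    by_cases hy : y = i
    · rw [if_pos hy, hy, Matrix.mul_single_apply_same, eN]
    · rw [if_neg hy, Matrix.mul_single_apply_of_ne _ _ _ _ _ hy]
  have a2 : ∀ (c : K), ((XM σ i j s b * Jm r M K) * Matrix.single (rv i) (rv j) c) x y = if y = rv j then XM σ i j s b x i * c else 0 := by
    intro c
    by_cases hy : y = rv j
    · rw [if_pos hy, hy, Matrix.mul_single_apply_same, eN, rv_rv]
    · rw [if_neg hy, Matrix.mul_single_apply_of_ne _ _ _ _ _ hy]
  have a3 : ∀ (c : K), ((XM σ i j s b * Jm r M K) * Matrix.single (rv i) i c) x y = if y = i then XM σ i j s b x i * c else 0 := by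
    intro c
    by_cases hy : y = i
    · rw [if_pos hy, hy, Matrix.mul_single_apply_same, eN, rv_rv]
    · rw [if_neg hy, Matrix.mul_single_apply_of_ne _ _ _ _ _ hy]
  rw [a1, a2, a3, e1, e2, Jm_apply]
  have e3 : (1 : Matrix (IU r M) (IU r M) K) x (rv y) = if y = rv x then 1 else 0 := by
    rw [Matrix.one_apply]
    by_cases hy : y = rv x
    · rw [if_pos hy, if_pos (by rw [hy, rv_rv])]
    · rw [if_neg hy, if_neg (fun e => hy (by rw [e, rv_rv]))]
  rw [e3]
  have hc1 : (rv y = j) ↔ (y = rv j) := rv_eq_iff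
  have hc2 : (rv y = rv i) ↔ (y = i) := ⟨rv_inj, fun e => by rw [e]⟩
  simp only [hc1, hc2]
  by_cases hy : y = i
  · subst hy
    by_cases hx : x = y
    · subst hx
      have n1 : x ≠ rv j := fun e => hji (by rw [e, rv_rv])
      have n2 : (x = x ∧ x = rv j) = False := by simp [n1]
      simp only [n2, if_false, true_and, and_true, if_true, Matrix.one_apply_eq, Matrix.one_apply_ne n1, hii, n1, false_and, add_zero, zero_add, and_self]
      by_cases hjj : j = rv j
      · rw [if_pos hjj] at htr ⊢
        linear_combination htr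
      · rw [if_neg hjj] at htr ⊢
        linear_combination htr
    · by_cases hxj : x = rv j
      · subst hxj
        have n1 : rv j ≠ y := hx
        simp [n1, hij.symm, Matrix.one_apply_ne n1]
      · simp [hx, hxj, Matrix.one_apply_ne hx, Matrix.one_apply_ne hxj, Ne.symm hx]
  · by_cases hyj : y = rv j
    · subst hyj
      have n1 : rv j ≠ i := fun e => hji (by rw [← e, rv_rv])
      by_cases hx : x = i
      · subst hx
        simp [Matrix.one_apply_eq, hy]
      · simp [hx, hy, Matrix.one_apply_ne hx, n1]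
    · simp [hy, hyj]

theorem det_XM (h : ROK σ i j s b) : (XM σ i j s b).det = 1 := by
  have hij := h.hij
  have hji := h.hji
  have hii := h.hii
  have c1 : rv j ≠ rv i := fun e => hij (rv_inj e).symm
  set c : K := b + (if j = rv j then s * σ s else 0) with hc
  have e : XM σ i j s b = Matrix.transvection i j s * Matrix.transvection (rv j) (rv i) (-σ s) * Matrix.transvection i (rv i) c := by
    simp only [Matrix.transvection, XM]
    have p1 : (Matrix.single i j s : Matrix (IU r M) (IU r M) K) * Matrix.single i (rv i) c = 0 := Matrix.single_mul_single_of_ne _ _ _ _ hij.symm _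
    have p2 : (Matrix.single (rv j) (rv i) (-σ s) : Matrix (IU r M) (IU r M) K) * Matrix.single i (rv i) c = 0 := Matrix.single_mul_single_of_ne _ _ _ _ hii.symm _
    have p3 : (Matrix.single i j s : Matrix (IU r M) (IU r M) K) * Matrix.single (rv j) (rv i) (-σ s) = if j = rv j then Matrix.single i (rv i) (s * (-σ s)) else 0 := by
      by_cases hjj : j = rv j
      · rw [if_pos hjj]
        rw [← hjj, Matrix.single_mul_single_same]
      · rw [if_neg hjj]
        exact Matrix.single_mul_single_of_ne _ _ _ _ hjj _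
    simp only [mul_add, add_mul, mul_one, one_mul, p1, p2, p3]
    by_cases hjj : j = rv j
    · simp only [if_pos hjj, hc] at *
      have p4 : (Matrix.single i (rv i) (s * (-σ s)) : Matrix (IU r M) (IU r M) K) * Matrix.single i (rv i) (b + s * σ s) = 0 :=
        Matrix.single_mul_single_of_ne _ _ _ _ hii.symm _
      rw [p4]
      have p5 : (Matrix.single i (rv i) (b + s * σ s) : Matrix (IU r M) (IU r M) K) = Matrix.single i (rv i) b + Matrix.single i (rv i) (s * σ s) := Matrix.single_add _ _ _ _
      have p6 : (Matrix.single i (rv i) (s * (-σ s)) : Matrix (IU r M) (IU r M) K) = - Matrix.single i (rv i) (s * σ s) := by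
        rw [Matrix.single_neg, mul_neg]
      rw [p5, p6]
      abel
    · simp only [if_neg hjj, hc, zero_mul, add_zero] at *
  rw [e, Matrix.det_mul, Matrix.det_mul, Matrix.det_transvection_of_ne _ _ hij, Matrix.det_transvection_of_ne _ _ c1, Matrix.det_transvection_of_ne _ _ hii]
  simp

section Fin
variable [Fintype K]

/-- The root element. -/
def Xg (h : ROK σ i j s b) : GG σ r M := ⟨⟨XM σ i j s b, det_XM h⟩, isU_XM h⟩

@[simp] theorem mt_Xg (h : ROK σ i j s b) : mt (Xg h) = XM σ i j s b := rfl

/-- Commuting with a root element, in entries. -/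
theorem comm_X (h : ROK σ i j s b) {y : GG σ r M} (hc : Xg h * y = y * Xg h) (x z : IU r M) :
    (if x = i then s * mt y j z + b * mt y (rv i) z else 0) + (if x = rv j then -σ s * mt y (rv i) z else 0) =
      (if z = j then mt y x i * s else 0) + (if z = rv i then mt y x (rv j) * (-σ s) + mt y x i * b else 0) := by
  have h1 : (XM σ i j s b * mt y) x z = (mt y * XM σ i j s b) x z := by
    have := congrArg mt hc
    exact congrFun (congrFun this x) z
  rw [XM_mul_apply, mul_XM_apply] at h1
  linear_combination h1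

theorem X_mem_Par (h : ROK σ i j s b) {c : IU r M → ℕ} (hs : s ≠ 0 → ¬ c j < c i ∧ ¬ c (rv i) < c (rv j)) (hb : b ≠ 0 → ¬ c (rv i) < c i) :
    Xg h ∈ Par σ c := by
  intro x y hxy
  show XM σ i j s b x y = 0
  rw [XM_apply, Matrix.one_apply_ne (fun e => by rw [e] at hxy; exact lt_irrefl _ hxy)]
  have a1 : (if x = i ∧ y = j then s else 0) = 0 := by
    by_cases h1 : x = i ∧ y = j
    · rw [if_pos h1]
      by_contra h2
      rw [h1.1, h1.2] at hxy
      exact (hs h2).1 hxy
    · rw [if_neg h1]
  have a2 : (if x = rv j ∧ y = rv i then -σ s else 0) = 0 := by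
    by_cases h1 : x = rv j ∧ y = rv i
    · rw [if_pos h1]
      by_contra h2
      have h3 : s ≠ 0 := by
        rintro rfl
        simp at h2
      rw [h1.1, h1.2] at hxy
      exact (hs h3).2 hxy
    · rw [if_neg h1]
  have a3 : (if x = i ∧ y = rv i then b else 0) = 0 := by
    by_cases h1 : x = i ∧ y = rv i
    · rw [if_pos h1]
      by_contra h2
      rw [h1.1, h1.2] at hxy
      exact hb h2 hxy
    · rw [if_neg h1]
  rw [a1, a2, a3]
  simp

theorem X_mem_Rad (h : ROK σ i j s b) {c : IU r M → ℕ} (hs : s ≠ 0 → c i < c j ∧ c (rv j) < c (rv i)) (hb : b ≠ 0 → c i < c (rv i)) :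
    Xg h ∈ Rad σ c := by
  refine ⟨X_mem_Par h (fun hs' => ⟨(hs hs').1.not_gt, (hs hs').2.not_gt⟩) (fun hb' => (hb hb').not_gt), fun x y hxy => ?_⟩
  show XM σ i j s b x y = _
  rw [XM_apply]
  have a1 : (if x = i ∧ y = j then s else 0) = 0 := by
    by_cases h1 : x = i ∧ y = j
    · rw [if_pos h1]
      by_contra h2
      rw [h1.1, h1.2] at hxy
      exact (hs h2).1.ne hxy
    · rw [if_neg h1]
  have a2 : (if x = rv j ∧ y = rv i then -σ s else 0) = 0 := by
    by_cases h1 : x = rv j ∧ y = rv i
    · rw [if_pos h1]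
      by_contra h2
      have h3 : s ≠ 0 := by
        rintro rfl
        simp at h2
      rw [h1.1, h1.2] at hxy
      exact (hs h3).2.ne hxy
    · rw [if_neg h1]
  have a3 : (if x = i ∧ y = rv i then b else 0) = 0 := by
    by_cases h1 : x = i ∧ y = rv i
    · rw [if_pos h1]
      by_contra h2
      rw [h1.1, h1.2] at hxy
      exact (hb h2).ne hxy
    · rw [if_neg h1]
  rw [a1, a2, a3]
  simp

/-- Root elements have `p`-power order. -/
theorem Xg_pow (p : ℕ) [hp : Fact p.Prime] [hc : CharP K p] (h : ROK σ i j s b) : Xg h ^ p ^ 2 = 1 := by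
  have hij := h.hij
  have hii := h.hii
  set A : Matrix (IU r M) (IU r M) K := XM σ i j s b - 1 with hA
  have eA : XM σ i j s b = A + 1 := by rw [hA, sub_add_cancel]
  have c1 : ∀ N : Matrix (IU r M) (IU r M) K, ∀ x y, (A * N) x y = (if x = i then s * N j y + b * N (rv i) y else 0) + (if x = rv j then -σ s * N (rv i) y else 0) := by
    intro N x y
    have := XM_mul_apply (σ := σ) (i := i) (j := j) (s := s) (b := b) N x y
    rw [hA, sub_mul, one_mul, Matrix.sub_apply, this]
    ring
  have r1 : ∀ (N : Matrix (IU r M) (IU r M) K) (y : IU r M), (A * N) (rv i) y = 0 := by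
    intro N y
    rw [c1, if_neg hii.symm, if_neg (fun e => hij (rv_inj e))]
    simp
  have r2 : ∀ (N : Matrix (IU r M) (IU r M) K) (y : IU r M), (A * (A * N)) j y = 0 := by
    intro N y
    rw [c1, if_neg hij.symm, r1]
    by_cases hjj : j = rv j
    · rw [if_pos hjj]
      ring
    · rw [if_neg hjj]
      ring
  have h3 : A ^ 3 = 0 := by
    have e : A ^ 3 = A * (A * (A * 1)) := by
      rw [pow_succ, pow_two, mul_one, Matrix.mul_assoc]
    rw [e]
    ext x y
    rw [c1, r1, r2]
    simp
  have h0 : A ^ p ^ 2 = 0 := by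
    have hle : 3 ≤ p ^ 2 := by
      have := hp.out.two_le
      nlinarith
    exact pow_eq_zero_of_le hle h3
  apply mt_ext
  rw [mt_pow, mt_Xg, eA, mt_one]
  haveI : Nonempty (IU r M) := ⟨i⟩
  haveI : CharP (Matrix (IU r M) (IU r M) K) p := Matrix.charP p
  haveI : ExpChar (Matrix (IU r M) (IU r M) K) p := ExpChar.prime hp.out
  rw [add_pow_expChar_pow_of_commute p 2 (Commute.one_right A), h0, zero_add, one_pow]

end Fin

end Cfsg.Agent.Lib.Fusion.SUF
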