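/-
The centre, the exponent of the unitriangular group and the normalizer of the unitriangular group.
-/
import Cfsg.Agent.Lib.Fusion.URoot
import Cfsg.Agent.Lib.Classical.HermWitt

set_option autoImplicit false
set_option linter.unusedSectionVars false
set_option linter.unusedVariables false
set_option linter.unusedSimpArgs false
set_option linter.style.haveILetI false

namespace Cfsg.Agent.Lib.Fusion.SUF

open Matrix Cfsg.Agent.Lib.Fusion.PSLF

variable {K : Type*} [Field K] {r : ℕ} {M : Type} [Fintype M] [DecidableEq M] [Subsingleton M]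

theorem rv_fix_unique {x y : IU r M} (hx : x = rv x) (hy : y = rv y) : x = y := by
  apply pos_inj
  have h1 := congrArg pos hx
  have h2 := congrArg pos hy
  rw [pos_rv] at h1 h2
  have := pos_lt x
  have := pos_lt y
  omega

theorem inl_ne_rv (a b : Fin r) : (Sum.inl a : IU r M) ≠ rv (Sum.inl b) := by
  intro e
  cases e

theorem exists_j (hr : 2 ≤ r) (i : IU r M) : ∃ j : IU r M, j ≠ i ∧ j ≠ rv i := by
  let i0 : IU r M := Sum.inl ⟨0, by omega⟩
  let i1 : IU r M := Sum.inl ⟨1, by omega⟩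
  have h01 : i0 ≠ i1 := by
    intro e
    have := Sum.inl.inj e
    simp at this
  have h0r : i0 ≠ rv i1 := inl_ne_rv _ _
  have h1r : i1 ≠ rv i0 := inl_ne_rv _ _
  by_cases h1 : i = i0
  · exact ⟨i1, by rw [h1]; exact h01.symm, by rw [h1]; exact h1r⟩
  · by_cases h2 : i = rv i0
    · exact ⟨i1, by rw [h2]; exact h1r, by rw [h2, rv_rv]; exact h01.symm⟩
    · exact ⟨i0, Ne.symm h1, fun e => h2 (by rw [e, rv_rv] )⟩

section Inv

variable {σ : K →+* K}

theorem exists_tau (hσ : ∀ a, σ (σ a) = a) (hσ1 : σ ≠ RingHom.id K) : ∃ τ : K, τ ≠ 0 ∧ τ + σ τ = 0 := by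
  obtain ⟨c, hc⟩ : ∃ c, σ c ≠ c := by
    by_contra h
    push Not at h
    apply hσ1
    ext a
    simpa using h a
  refine ⟨c - σ c, sub_ne_zero.2 (Ne.symm hc), ?_⟩
  rw [map_sub, hσ]
  ring

theorem exists_rok [Finite K] (hσ : ∀ a, σ (σ a) = a) (hσ1 : σ ≠ RingHom.id K) {i j : IU r M} (hij : i ≠ j) (hji : j ≠ rv i) (hii : i ≠ rv i) (s : K) :
    ∃ b, ROK σ i j s b ∧ (j ≠ rv j → b = 0) := by
  by_cases hjj : j = rv j
  · obtain ⟨κ, hκ⟩ := Cfsg.Agent.Lib.Classical.exists_trace_eq σ hσ1 hσ (-(s * σ s)) (by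
      rw [map_neg, map_mul, hσ, mul_comm])
    refine ⟨κ, ⟨hσ, hij, hji, hii, ?_⟩, fun h => absurd hjj h⟩
    rw [if_pos hjj, hκ]
    ring
  · refine ⟨0, ⟨hσ, hij, hji, hii, ?_⟩, fun _ => rfl⟩
    rw [if_neg hjj, map_zero]
    ring

end Inv

section Fin
variable [Fintype K] {σ : K →+* K}

/-- Commuting with a long root element. -/
theorem comm_L {i j : IU r M} {τ : K} (h : ROK σ i j 0 τ) (hτ : τ ≠ 0) {y : GG σ r M} (hc : Xg h * y = y * Xg h) :
    (∀ x, x ≠ i → mt y x i = 0) ∧ (∀ z, z ≠ rv i → mt y (rv i) z = 0) ∧ mt y (rv i) (rv i) = mt y i i := by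
  have e := comm_X h hc
  simp only [zero_mul, map_zero, neg_zero, mul_zero, zero_add, add_zero, ite_self] at e
  refine ⟨fun x hx => ?_, fun z hz => ?_, ?_⟩
  · have := e x (rv i)
    rw [if_neg hx, if_pos rfl] at this
    exact (mul_eq_zero.1 this.symm).resolve_right hτ
  · have := e i z
    rw [if_pos rfl, if_neg hz] at this
    exact (mul_eq_zero.1 this).resolve_left hτ
  · have := e i (rv i)
    rw [if_pos rfl, if_pos rfl] at this
    exact mul_left_cancel₀ hτ (by rw [this]; ring)

/-- Elements commuting with all root elements are scalar. -/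
theorem center_form (hσ : ∀ a, σ (σ a) = a) (hσ1 : σ ≠ RingHom.id K) (hr : 2 ≤ r) {z : GG σ r M} (hz : z ∈ Subgroup.center (GG σ r M)) :
    (∀ x y, x ≠ y → mt z x y = 0) ∧ ∀ x y, mt z x x = mt z y y := by
  obtain ⟨τ, hτ0, hτ⟩ := exists_tau hσ hσ1
  have hL : ∀ i : IU r M, i ≠ rv i → (∀ x, x ≠ i → mt z x i = 0) ∧ (∀ w, w ≠ rv i → mt z (rv i) w = 0) ∧ mt z (rv i) (rv i) = mt z i i := by
    intro i hii
    obtain ⟨j, hj1, hj2⟩ := exists_j hr i
    have h : ROK σ i j 0 τ := ⟨hσ, Ne.symm hj1, hj2, hii, by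
      simp only [zero_mul, ite_self, add_zero]
      exact hτ⟩
    exact comm_L h hτ0 ((Subgroup.mem_center_iff.1 hz) _)
  have hoff : ∀ x y, x ≠ y → mt z x y = 0 := by
    intro x y hxy
    by_cases hy : y = rv y
    · have hx : x ≠ rv x := fun e => hxy (rv_fix_unique e hy)
      have h1 := (hL (rv x) (by rw [rv_rv]; exact Ne.symm hx)).2.1 y (by rw [rv_rv]; exact Ne.symm hxy)
      rwa [rv_rv] at h1
    · exact (hL y hy).1 x hxy
  refine ⟨hoff, ?_⟩
  have hstep : ∀ i j : IU r M, i ≠ j → j ≠ rv i → i ≠ rv i → mt z j j = mt z i i := by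
    intro i j hij hji hii
    obtain ⟨b, hb, -⟩ := exists_rok hσ hσ1 hij hji hii (1 : K)
    have e := comm_X hb ((Subgroup.mem_center_iff.1 hz) _) i j
    rw [if_pos rfl, if_neg (fun e => hji (by rw [e, rv_rv])), if_pos rfl, if_neg hji, hoff (rv i) j (Ne.symm hji)] at e
    simpa using e
  let i0 : IU r M := Sum.inl ⟨0, by omega⟩
  have hi0 : i0 ≠ rv i0 := inl_ne_rv _ _
  have hall : ∀ x, mt z x x = mt z i0 i0 := by
    intro x
    by_cases h1 : x = i0
    · rw [h1]
    · by_cases h2 : x = rv i0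
      · rw [h2]
        exact (hL i0 hi0).2.2
      · exact hstep i0 x (Ne.symm h1) h2 hi0
  exact fun x y => by rw [hall x, hall y]

theorem isU_scalar {c : K} (h : c * σ c = 1) : IsU σ (c • (1 : Matrix (IU r M) (IU r M) K)) := by
  rw [u_entry_iff]
  intro x y
  have e1 : ∀ a b : IU r M, (c • (1 : Matrix (IU r M) (IU r M) K)) a b = if a = b then c else 0 := by
    intro a b
    rw [Matrix.smul_apply, Matrix.one_apply]
    by_cases e : a = b
    · rw [if_pos e, if_pos e, smul_eq_mul, mul_one]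
    · rw [if_neg e, if_neg e, smul_eq_mul, mul_zero]
  rw [Finset.sum_eq_single (rv x)]
  · rw [e1, e1, rv_rv, if_pos rfl]
    by_cases e : y = rv x
    · rw [if_pos e, if_pos e, h]
    · rw [if_neg e, if_neg e, map_zero, mul_zero]
  · intro l _ hl
    rw [e1, if_neg (fun e => hl (by rw [e, rv_rv])), zero_mul]
  · simp

/-- Scalars. -/
def zU (c : K) (h : c * σ c = 1) (h' : c ^ NN r M = 1) : GG σ r M :=
  ⟨⟨c • 1, by
    rw [Matrix.det_smul, Matrix.det_one, mul_one]
    have : Fintype.card (IU r M) = NN r M := by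
      simp [NN, Fintype.card_sum]
      ring
    rw [this, h']⟩, isU_scalar h⟩

theorem mt_zU {c : K} {h : c * σ c = 1} {h' : c ^ NN r M = 1} : mt (zU c h h' : GG σ r M) = c • 1 := rfl

theorem mul_zU_apply {c : K} {h : c * σ c = 1} {h' : c ^ NN r M = 1} (g : GG σ r M) (x y : IU r M) : mt (g * zU c h h') x y = mt g x y * c := by
  rw [mt_mul, mt_zU, Matrix.mul_smul, mul_one, Matrix.smul_apply, smul_eq_mul, mul_comm]

theorem zU_mem_center {c : K} {h : c * σ c = 1} {h' : c ^ NN r M = 1} : (zU c h h' : GG σ r M) ∈ Subgroup.center (GG σ r M) := by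
  rw [Subgroup.mem_center_iff]
  intro g
  apply mt_ext
  rw [mt_mul, mt_mul, mt_zU, Matrix.smul_mul, Matrix.mul_smul, one_mul, mul_one]

variable {p : ℕ} [hp : Fact p.Prime] [hc : CharP K p]

/-- The exponent of the unitriangular group. -/
theorem exists_pow_U0U {e : ℕ} (he : NN r M ≤ p ^ e) {u : GG σ r M} (hu : u ∈ U0U σ r M) : u ^ p ^ e = 1 := by
  obtain ⟨hu1, hu2⟩ := mem_U0U.1 hu
  set N : Matrix (IU r M) (IU r M) K := mt u - 1 with hN
  have hNe : ∀ i j : IU r M, pos j ≤ pos i → N i j = 0 := by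
    intro i j hij
    rw [hN, Matrix.sub_apply]
    rcases eq_or_lt_of_le hij with h | h
    · rw [pos_inj h, hu2, Matrix.one_apply_eq, sub_self]
    · rw [hu1 i j h, Matrix.one_apply_ne (fun e => by rw [e] at h; exact lt_irrefl _ h), sub_self]
  have hpow : ∀ (s : ℕ) (i j : IU r M), pos j < pos i + s → (N ^ s) i j = 0 := by
    intro s
    induction s with
    | zero =>
      intro i j hij
      rw [pow_zero, Matrix.one_apply_ne]
      rintro rfl
      simp at hij
    | succ s ih =>
      intro i j hij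
      rw [pow_succ', Matrix.mul_apply]
      refine Finset.sum_eq_zero (fun l _ => ?_)
      by_cases h : pos l ≤ pos i
      · rw [hNe i l h, zero_mul]
      · have h2 : pos i < pos l := not_le.1 h
        rw [ih l j (by omega), mul_zero]
  have h0 : N ^ p ^ e = 0 := by
    ext i j
    rw [hpow _ i j (by have := pos_lt j; omega)]
    rfl
  apply mt_ext
  rw [mt_pow]
  have e2 : mt u = N + 1 := by
    rw [hN, sub_add_cancel]
  rw [e2, mt_one]
  by_cases hne : Nonempty (IU r M)
  · haveI : CharP (Matrix (IU r M) (IU r M) K) p := Matrix.charP p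
    haveI : ExpChar (Matrix (IU r M) (IU r M) K) p := ExpChar.prime hp.out
    rw [add_pow_expChar_pow_of_commute p e (Commute.one_right N), h0, zero_add, one_pow]
  · haveI : IsEmpty (IU r M) := not_nonempty_iff.1 hne
    exact Subsingleton.elim _ _

theorem exists_pow_U0U' {u : GG σ r M} (hu : u ∈ U0U σ r M) : u ^ p ^ (NN r M) = 1 :=
  exists_pow_U0U (Nat.lt_pow_self hp.out.one_lt).le hu

/-- The centre has no `p`-elements. -/
theorem center_trivial (hσ : ∀ a, σ (σ a) = a) (hσ1 : σ ≠ RingHom.id K) (hr : 2 ≤ r) {z : GG σ r M} (hz : z ∈ Subgroup.center (GG σ r M)) {k : ℕ} (h : z ^ p ^ k = 1) : z = 1 := by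
  obtain ⟨h1, h2⟩ := center_form hσ hσ1 hr hz
  have hup : IsUpU (mt z) := fun x y hxy => h1 x y (fun e => by rw [e] at hxy; exact lt_irrefl _ hxy)
  apply mt_ext
  ext x y
  by_cases hxy : x = y
  · subst hxy
    have h3 : mt z x x ^ p ^ k = 1 := by
      rw [← hup.pow_diag, ← mt_pow, h, mt_one, Matrix.one_apply_eq]
    have h4 : mt z x x = 1 := field_pow_inj (p := p) (k := k) (by rw [h3, one_pow])
    rw [h4, mt_one, Matrix.one_apply_eq]
  · rw [h1 x y hxy, mt_one, Matrix.one_apply_ne hxy]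

/-- Positive root elements reach all positions: the self-paired coordinates. -/
theorem exists_rootA (hσ : ∀ a, σ (σ a) = a) (hσ1 : σ ≠ RingHom.id K) (hr : 2 ≤ r) (j : IU r M) (h : pos j < pos (rv j)) :
    ∃ w ∈ U0U σ r M, ∃ τ : K, τ ≠ 0 ∧ ∀ (N : Matrix (IU r M) (IU r M) K) (z : IU r M), (mt w * N) j z = N j z + τ * N (rv j) z := by
  obtain ⟨τ, hτ0, hτ⟩ := exists_tau hσ hσ1
  obtain ⟨l, hl1, hl2⟩ := exists_j hr j
  have hjj : j ≠ rv j := fun e => by
    rw [← e] at h
    exact lt_irrefl _ h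
  have hok : ROK σ j l 0 τ := ⟨hσ, Ne.symm hl1, hl2, hjj, by
    simp only [zero_mul, ite_self, add_zero]
    exact hτ⟩
  refine ⟨Xg hok, X_mem_Rad hok (fun h0 => absurd rfl h0) (fun _ => h), τ, hτ0, fun N z => ?_⟩
  rw [mt_Xg, XM_mul_apply, if_pos rfl]
  simp

/-- Positive root elements reach all positions. -/
theorem exists_rootB (hσ : ∀ a, σ (σ a) = a) (hσ1 : σ ≠ RingHom.id K) (j i : IU r M) (h : pos j < pos i) (hne : i ≠ rv j) :
    ∃ w ∈ U0U σ r M, ∃ c d : K, c ≠ 0 ∧ (∀ (N : Matrix (IU r M) (IU r M) K) (z : IU r M), (mt w * N) j z = N j z + c * N i z + d * N (rv j) z) ∧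
      (d ≠ 0 → pos j < pos (rv j)) := by
  have hji : j ≠ i := fun e => by
    rw [e] at h
    exact lt_irrefl _ h
  have hrev : pos (rv i) < pos (rv j) := by
    rw [pos_rv, pos_rv]
    have := pos_lt i
    have := pos_lt j
    omega
  by_cases hjj : j = rv j
  · -- `j` is the middle coordinate
    have hi : i ≠ rv i := fun e => hji (rv_fix_unique hjj e)
    have hii : rv i ≠ rv (rv i) := by
      rw [rv_rv]
      exact hi.symm
    have hj' : rv j = j := hjj.symm
    have hn : rv i ≠ j := fun e => hji (by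
      have := congrArg rv e
      rw [rv_rv] at this
      rw [this]
      exact hjj)
    obtain ⟨b, hb, -⟩ := exists_rok hσ hσ1 (i := rv i) (j := j) hn (by rw [rv_rv]; exact hji) hii (1 : K)
    rw [hj'] at hrev
    refine ⟨Xg hb, X_mem_Rad hb (fun _ => ?_) (fun hb0 => ?_), -1, 0, by simp, fun N z => ?_, fun h0 => absurd rfl h0⟩
    · rw [rv_rv, hj']
      exact ⟨hrev, h⟩
    · rw [rv_rv]
      omega
    · rw [mt_Xg, XM_mul_apply, if_neg (Ne.symm hn), if_pos hjj, rv_rv]
      simp
  · obtain ⟨b, hb, hb0⟩ := exists_rok hσ hσ1 (i := j) (j := i) hji hne hjj (1 : K)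
    refine ⟨Xg hb, X_mem_Rad hb (fun _ => ⟨h, hrev⟩) (fun h0 => ?_), 1, b, one_ne_zero, fun N z => ?_, fun h0 => ?_⟩
    · have hm : i = rv i := by
        by_contra h1
        exact h0 (hb0 h1)
      have h1 := congrArg pos hm
      rw [pos_rv] at h1 hrev
      rw [pos_rv]
      have := pos_lt j
      have := pos_lt i
      omega
    · rw [mt_Xg, XM_mul_apply, if_pos rfl, if_neg (fun e => hne (by rw [e, rv_rv]))]
      ring
    · have hm : i = rv i := by
        by_contra h1
        exact h0 (hb0 h1)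
      have h1 := congrArg pos hm
      rw [pos_rv] at h1 hrev
      rw [pos_rv]
      have := pos_lt j
      have := pos_lt i
      omega

/-- Normalizing the unitriangular group forces upper triangular. -/
theorem isUp_of_norm (hσ : ∀ a, σ (σ a) = a) (hσ1 : σ ≠ RingHom.id K) (hr : 2 ≤ r) (g : GG σ r M)
    (h : g ∈ Subgroup.normalizer ((U0U σ r M : Subgroup (GG σ r M)) : Set (GG σ r M))) : IsUpU (mt g) := by
  have key : ∀ (k : ℕ) (j i : IU r M), pos j = k → pos j < pos i → mt g i j = 0 := by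
    intro k
    induction k using Nat.strong_induction_on with
    | _ k ih =>
      intro j i hjk hji
      have step : ∀ (w : GG σ r M), w ∈ U0U σ r M → mt g j j = (mt w * mt g) j j := by
        intro w hw
        have hu : g⁻¹ * w * g ∈ U0U σ r M := by
          have h1 := (Subgroup.mem_normalizer_iff.1 ((Subgroup.normalizer _).inv_mem h) w).1 hw
          simpa using h1
        obtain ⟨hu1, hu2⟩ := mem_U0U.1 hu
        have he : w * g = g * (g⁻¹ * w * g) := by group
        have h1 : (mt w * mt g) j j = (mt g * mt (g⁻¹ * w * g)) j j := by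
          have := congrArg mt he
          exact congrFun (congrFun this j) j
        rw [h1, Matrix.mul_apply, Finset.sum_eq_single j]
        · rw [hu2, mul_one]
        · intro l _ hl
          rcases lt_or_gt_of_ne (pos_ne hl) with h2 | h2
          · rw [ih (pos l) (by rw [← hjk]; exact h2) l j rfl h2, zero_mul]
          · rw [hu1 l j h2, mul_zero]
        · simp
      have hA : pos j < pos (rv j) → mt g (rv j) j = 0 := by
        intro h0
        obtain ⟨w, hw, τ, hτ, hf⟩ := exists_rootA hσ hσ1 hr j h0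
        have h1 := step w hw
        rw [hf] at h1
        have h2 : τ * mt g (rv j) j = 0 := by linear_combination -h1
        exact (mul_eq_zero.1 h2).resolve_left hτ
      by_cases hne : i = rv j
      · rw [hne]
        exact hA (by rw [← hne]; exact hji)
      · obtain ⟨w, hw, c, d, hc0, hf, hd⟩ := exists_rootB hσ hσ1 j i hji hne
        have h1 := step w hw
        rw [hf] at h1
        have h3 : d * mt g (rv j) j = 0 := by
          by_cases hd0 : d = 0
          · rw [hd0, zero_mul]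
          · rw [hA (hd hd0), mul_zero]
        have h2 : c * mt g i j = 0 := by linear_combination -h1 - h3
        exact (mul_eq_zero.1 h2).resolve_left hc0
  intro i j hij
  exact key _ j i rfl hij

/-- The determinant of an upper triangular matrix. -/
theorem det_up {A : Matrix (IU r M) (IU r M) K} (hA : IsUpU A) : A.det = ∏ x, A x x := by
  letI : LinearOrder (IU r M) := LinearOrder.lift' pos (fun _ _ h => pos_inj h)
  exact Matrix.det_of_isUpperTriangular (fun x y hxy => hA x y hxy)

/-- The `p`-elements of the normalizer modulo the centre. -/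
theorem exists_center_mul (hσ : ∀ a, σ (σ a) = a) (hσ1 : σ ≠ RingHom.id K) (hr : 2 ≤ r) {g : GG σ r M}
    (hg : g ∈ Subgroup.normalizer ((U0U σ r M : Subgroup (GG σ r M)) : Set (GG σ r M))) {k : ℕ}
    (hk : g ^ p ^ k ∈ Subgroup.center (GG σ r M)) : ∃ z ∈ Subgroup.center (GG σ r M), g * z ∈ U0U σ r M := by
  have hup := isUp_of_norm hσ hσ1 hr g hg
  let i0 : IU r M := Sum.inl ⟨0, by omega⟩
  have h1 : ∀ x : IU r M, (mt g x x) ^ p ^ k = mt (g ^ p ^ k) x x := by
    intro x
    rw [← hup.pow_diag, mt_pow]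
  have hconst : ∀ x : IU r M, mt g x x = mt g i0 i0 := by
    intro x
    exact field_pow_inj (p := p) (k := k) (by rw [h1, h1, (center_form hσ hσ1 hr hk).2 x i0])
  set c := mt g i0 i0 with hcd
  have hcc : c * σ c = 1 := by
    have := diag_rel hup i0
    rwa [hconst (rv i0)] at this
  have hc0 : c ≠ 0 := by
    rintro h0
    rw [h0, zero_mul] at hcc
    exact zero_ne_one hcc
  have hdet : c ^ NN r M = 1 := by
    have h2 : (mt g).det = 1 := g.1.2
    rw [det_up hup, Finset.prod_congr rfl (fun x _ => hconst x), Finset.prod_const, Finset.card_univ] at h2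
    have : Fintype.card (IU r M) = NN r M := by
      simp [NN, Fintype.card_sum]
      ring
    rwa [this] at h2
  have hcc' : c⁻¹ * σ c⁻¹ = 1 := by
    rw [map_inv₀, ← mul_inv, hcc, inv_one]
  have hdet' : c⁻¹ ^ NN r M = 1 := by
    rw [inv_pow, hdet, inv_one]
  refine ⟨zU c⁻¹ hcc' hdet', zU_mem_center, ?_⟩
  rw [mem_U0U]
  refine ⟨fun x y hxy => ?_, fun x => ?_⟩
  · rw [mul_zU_apply, hup x y hxy, zero_mul]
  · rw [mul_zU_apply, hconst, mul_inv_cancel₀ hc0]

end Fin

end Cfsg.Agent.Lib.Fusion.SUF
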