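/-
The radicals of the minimal parabolic subgroups are centric.
-/
import Cfsg.Agent.Lib.Fusion.UNorm

set_option autoImplicit false
set_option linter.unusedSectionVars false
set_option linter.unusedVariables false
set_option linter.unusedSimpArgs false
set_option linter.style.haveILetI false

namespace Cfsg.Agent.Lib.Fusion.SUF

open Matrix Cfsg.Agent.Lib.Fusion.PSLF

variable {K : Type*} [Field K] {r : ℕ} {M : Type} [Fintype M] [DecidableEq M] [Subsingleton M]

theorem mid_ne_rv (m : M) (i : Fin r) : (Sum.inr (Sum.inl m) : IU r M) ≠ rv (Sum.inl i) := by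
  intro e
  cases e

theorem inl_ne_mid (i : Fin r) (m : M) : (Sum.inl i : IU r M) ≠ Sum.inr (Sum.inl m) := by
  intro e
  cases e

/-- The block map on positions. -/
def fA (N a n : ℕ) : ℕ :=
  if n = a + 1 then a else if n = N - 1 - a then (if N - 1 - a = a + 2 then a else N - 2 - a) else n

/-- The block map of a minimal parabolic. -/
def cA (r : ℕ) (M : Type) [Fintype M] (a : ℕ) (x : IU r M) : ℕ := fA (NN r M) a (pos x)

theorem cA_mono {a : ℕ} (ha : a < r) : IsMono (cA r M a) := by
  intro x y hxy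
  have h1 := pos_lt x
  have h2 := pos_lt y
  simp only [cA, fA, NN] at *
  split_ifs <;> omega

theorem fA_zero {N a r : ℕ} (ha : a < r) (hN : 2 * r ≤ N) : fA N a 0 = 0 := by
  rw [fA, if_neg (by omega), if_neg (by omega)]

theorem fA_last {N a r : ℕ} (ha : a < r) (ha1 : 1 ≤ a) (hN : 2 * r ≤ N) : fA N a (N - 1) = N - 1 := by
  simp only [fA]
  split_ifs <;> omega

theorem fA_pos {N a r n : ℕ} (ha : a < r) (ha1 : 1 ≤ a) (hN : 2 * r ≤ N) (h0 : n ≠ 0) (hn : n < N) : 1 ≤ fA N a n := by
  simp only [fA]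
  split_ifs <;> omega

theorem fA_le {N a r n : ℕ} (ha : a < r) (ha1 : 1 ≤ a) (hN : 2 * r ≤ N) (h0 : n ≠ N - 1) (hn : n < N) : fA N a n ≤ N - 2 := by
  simp only [fA]
  split_ifs <;> omega

theorem fA_lt_r {N a r n : ℕ} (ha : a + 1 < r) (hN : 2 * r ≤ N) (hn : n < r) : fA N a n < r := by
  simp only [fA]
  split_ifs <;> omega

theorem fA_ge_r {N a r n : ℕ} (ha : a + 1 < r) (hN : 2 * r ≤ N) (hr : r ≤ n) (hn : n < N) : r ≤ fA N a n := by
  simp only [fA]
  split_ifs <;> omega

theorem fA_mid {N a r : ℕ} (ha : a + 1 < r) (hN : N = 2 * r + 1) : fA N a r = r := by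
  simp only [fA]
  split_ifs <;> omega

theorem fA_gt_mid {N a r n : ℕ} (ha : a + 1 < r) (hN : N = 2 * r + 1) (hr : r < n) (hn : n < N) : r + 1 ≤ fA N a n := by
  simp only [fA]
  split_ifs <;> omega

theorem fA_last' {N a r : ℕ} (ha : a + 1 < r) (hN : N = 2 * r + 1) : r < fA N a (N - 1) := by
  simp only [fA]
  split_ifs <;> omega

section Fin
variable [Fintype K] {σ : K →+* K}

/-- The final form of the centric argument. -/
theorem rad_of_form {c : IU r M → ℕ} (hcm : IsMono c) {y : GG σ r M} (hup : IsUpU (mt y)) {ε : K} (hd : ∀ x, mt y x x = ε)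
    (hb : ∀ x w, c x = c w → x ≠ w → mt y x w = 0) (x0 : IU r M) : ∃ z ∈ Subgroup.center (GG σ r M), y * z ∈ Rad σ c := by
  have hcc : ε * σ ε = 1 := by
    have := diag_rel hup x0
    rwa [hd, hd] at this
  have hc0 : ε ≠ 0 := by
    rintro h0
    rw [h0, zero_mul] at hcc
    exact zero_ne_one hcc
  have hdet : ε ^ NN r M = 1 := by
    have h2 : (mt y).det = 1 := y.1.2
    rw [det_up hup, Finset.prod_congr rfl (fun x _ => hd x), Finset.prod_const, Finset.card_univ] at h2
    have : Fintype.card (IU r M) = NN r M := by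
      simp [NN, Fintype.card_sum]
      ring
    rwa [this] at h2
  have hcc' : ε⁻¹ * σ ε⁻¹ = 1 := by
    rw [map_inv₀, ← mul_inv, hcc, inv_one]
  have hdet' : ε⁻¹ ^ NN r M = 1 := by
    rw [inv_pow, hdet, inv_one]
  refine ⟨zU ε⁻¹ hcc' hdet', zU_mem_center, ?_⟩
  have hup' : IsUpU (mt (y * zU ε⁻¹ hcc' hdet')) := by
    intro x w hxw
    rw [mul_zU_apply, hup x w hxw, zero_mul]
  refine ⟨IsUpU.isPar hcm hup', fun x w hxw => ?_⟩
  rw [mul_zU_apply]
  by_cases hne : x = w
  · subst hne
    rw [hd, mul_inv_cancel₀ hc0, Matrix.one_apply_eq]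
  · rw [hb x w hxw hne, zero_mul, Matrix.one_apply_ne hne]

/-- The centric property when the block does not meet the first and last coordinates. -/
theorem centric_B (hσ : ∀ a, σ (σ a) = a) (hσ1 : σ ≠ RingHom.id K) (hr : 2 ≤ r) {a : ℕ} (ha : a < r) (ha1 : 1 ≤ a) {y : GG σ r M}
    (hy : ∀ q ∈ Rad σ (cA r M a), q * y = y * q) : ∃ z ∈ Subgroup.center (GG σ r M), y * z ∈ Rad σ (cA r M a) := by
  have hN : 2 * r ≤ NN r M := by
    simp only [NN]
    omega
  let i0 : IU r M := Sum.inl ⟨0, by omega⟩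
  let i1 : IU r M := Sum.inl ⟨1, by omega⟩
  have hi0 : pos i0 = 0 := rfl
  have hlast : pos (rv i0) = NN r M - 1 := by
    rw [pos_rv, hi0]
    omega
  have h00 : i0 ≠ rv i0 := inl_ne_rv _ _
  have hc0 : cA r M a i0 = 0 := by
    show fA (NN r M) a (pos i0) = 0
    rw [hi0]
    exact fA_zero ha hN
  have hclast : cA r M a (rv i0) = NN r M - 1 := by
    show fA (NN r M) a (pos (rv i0)) = _
    rw [hlast]
    exact fA_last ha ha1 hN
  have hcpos : ∀ x : IU r M, x ≠ i0 → 1 ≤ cA r M a x := by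
    intro x hx
    have h1 : pos x ≠ 0 := fun e => hx (pos_inj (by rw [e, hi0]))
    exact fA_pos ha ha1 hN h1 (pos_lt x)
  have hcle : ∀ x : IU r M, x ≠ rv i0 → cA r M a x ≤ NN r M - 2 := by
    intro x hx
    have h1 : pos x ≠ NN r M - 1 := fun e => hx (pos_inj (by rw [e, hlast]))
    exact fA_le ha ha1 hN h1 (pos_lt x)
  have hNm : 1 ≤ NN r M - 1 := by omega
  obtain ⟨τ, hτ0, hτ⟩ := exists_tau hσ hσ1
  have hL : ROK σ i0 i1 0 τ := ⟨hσ, by
      intro e
      have := Sum.inl.inj e
      simp at this, inl_ne_rv _ _, h00, by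
      simp only [zero_mul, ite_self, add_zero]
      exact hτ⟩
  have hLm : Xg hL ∈ Rad σ (cA r M a) := X_mem_Rad hL (fun h0 => absurd rfl h0) (fun _ => by
    rw [hc0, hclast]
    omega)
  obtain ⟨h1, h2, h3⟩ := comm_L hL hτ0 (hy _ hLm)
  have hT : ∀ j : IU r M, j ≠ i0 → j ≠ rv i0 → (∀ w, w ≠ j → w ≠ rv i0 → mt y j w = 0) ∧ mt y j j = mt y i0 i0 := by
    intro j hj1 hj2
    obtain ⟨b, hb, -⟩ := exists_rok hσ hσ1 (i := i0) (j := j) (Ne.symm hj1) hj2 h00 (1 : K)
    have hm : Xg hb ∈ Rad σ (cA r M a) := X_mem_Rad hb (fun _ => by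
      constructor
      · rw [hc0]
        exact hcpos j hj1
      · rw [hclast]
        have := hcle (rv j) (fun e => hj1 (rv_inj e))
        omega) (fun _ => by
      rw [hc0, hclast]
      omega)
    have e := comm_X hb (hy _ hm)
    have h0 : i0 ≠ rv j := fun e => hj2 (by rw [e, rv_rv])
    constructor
    · intro w hw hw2
      have := e i0 w
      rw [if_pos rfl, if_neg h0, if_neg hw, if_neg hw2, h2 w hw2] at this
      simpa using this
    · have := e i0 j
      rw [if_pos rfl, if_neg h0, if_pos rfl, if_neg hj2, h2 j hj2] at this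
      simpa using this
  have hup : IsUpU (mt y) := by
    intro x w hxw
    by_cases hx1 : x = rv i0
    · rw [hx1]
      exact h2 w (fun e => by
        rw [e, hx1] at hxw
        exact lt_irrefl _ hxw)
    · by_cases hx0 : x = i0
      · rw [hx0, hi0] at hxw
        omega
      · refine (hT x hx0 hx1).1 w (fun e => by
          rw [e] at hxw
          exact lt_irrefl _ hxw) (fun e => ?_)
        rw [e, hlast] at hxw
        have := pos_lt x
        omega
  refine rad_of_form (cA_mono ha) hup (ε := mt y i0 i0) (fun x => ?_) (fun x w hxw hne => ?_) i0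
  · by_cases hx1 : x = rv i0
    · rw [hx1]
      exact h3
    · by_cases hx0 : x = i0
      · rw [hx0]
      · exact (hT x hx0 hx1).2
  · have hx0 : x ≠ i0 := by
      rintro rfl
      rw [hc0] at hxw
      have := hcpos w (Ne.symm hne)
      omega
    have hx1 : x ≠ rv i0 := by
      rintro rfl
      rw [hclast] at hxw
      have := hcle w (Ne.symm hne)
      omega
    have hw1 : w ≠ rv i0 := by
      rintro rfl
      rw [hclast] at hxw
      have := hcle x hx1
      omega
    exact (hT x hx0 hx1).1 w (Ne.symm hne) hw1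

/-- The centric property for a block in the first half. -/
theorem centric_A (hσ : ∀ a, σ (σ a) = a) (hσ1 : σ ≠ RingHom.id K) (hr : 2 ≤ r) {a : ℕ} (ha : a + 1 < r) {y : GG σ r M}
    (hy : ∀ q ∈ Rad σ (cA r M a), q * y = y * q) : ∃ z ∈ Subgroup.center (GG σ r M), y * z ∈ Rad σ (cA r M a) := by
  have hN : 2 * r ≤ NN r M := by
    simp only [NN]
    omega
  have hNd : NN r M = 2 * r + Fintype.card M := rfl
  let i0 : Fin r := ⟨0, by omega⟩
  have hcl : ∀ k : Fin r, cA r M a (Sum.inl k) < r := fun k => fA_lt_r ha hN k.2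
  have hcr : ∀ k : Fin r, r ≤ cA r M a (Sum.inr (Sum.inr k)) := by
    intro k
    have h2 := pos_lt (Sum.inr (Sum.inr k) : IU r M)
    have := k.2
    refine fA_ge_r ha hN ?_ h2
    simp only [pos_r]
    omega
  obtain ⟨τ, hτ0, hτ⟩ := exists_tau hσ hσ1
  have hLk : ∀ k : Fin r, (∀ x, x ≠ Sum.inl k → mt y x (Sum.inl k) = 0) ∧ (∀ w, w ≠ Sum.inr (Sum.inr k) → mt y (Sum.inr (Sum.inr k)) w = 0) ∧
      mt y (Sum.inr (Sum.inr k)) (Sum.inr (Sum.inr k)) = mt y (Sum.inl k) (Sum.inl k) := by
    intro k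
    obtain ⟨j, hj1, hj2⟩ := exists_j hr (Sum.inl k : IU r M)
    have hL : ROK σ (Sum.inl k : IU r M) j 0 τ := ⟨hσ, Ne.symm hj1, hj2, inl_ne_rv _ _, by
      simp only [zero_mul, ite_self, add_zero]
      exact hτ⟩
    have hLm : Xg hL ∈ Rad σ (cA r M a) := X_mem_Rad hL (fun h0 => absurd rfl h0) (fun _ =>
      lt_of_lt_of_le (hcl k) (hcr k))
    exact comm_L hL hτ0 (hy _ hLm)
  have hS : ∀ i j : Fin r, i ≠ j → mt y (Sum.inr (Sum.inr j)) (Sum.inr (Sum.inr j)) = mt y (Sum.inl i) (Sum.inl i) := by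
    intro i j hij
    have hne : (Sum.inr (Sum.inr j) : IU r M) ≠ rv (Sum.inl i) := fun e => hij (by
      have : (Sum.inr j : M ⊕ Fin r) = Sum.inr i := Sum.inr.inj e
      exact (Sum.inr.inj this).symm)
    obtain ⟨b, hb, hb0⟩ := exists_rok hσ hσ1 (i := (Sum.inl i : IU r M)) (j := Sum.inr (Sum.inr j)) (by
      intro e
      cases e) hne (inl_ne_rv _ _) (1 : K)
    have hb00 : b = 0 := hb0 (by
      intro e
      cases e)
    have hm : Xg hb ∈ Rad σ (cA r M a) := X_mem_Rad hb (fun _ => ⟨lt_of_lt_of_le (hcl i) (hcr j), lt_of_lt_of_le (hcl j) (hcr i)⟩) (fun h0 => absurd hb00 h0)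
    have e := comm_X hb (hy _ hm) (Sum.inl i) (Sum.inr (Sum.inr j))
    rw [if_pos rfl, if_neg (show ¬ (Sum.inl i : IU r M) = rv (Sum.inr (Sum.inr j)) from fun e => hij (Sum.inl.inj e)), if_pos rfl, if_neg hne, hb00] at e
    simpa using e
  let x00 : IU r M := Sum.inl i0
  have hdiagl : ∀ k : Fin r, mt y (Sum.inl k) (Sum.inl k) = mt y x00 x00 := by
    intro k
    by_cases hk : k = i0
    · rw [hk]
    · rw [← hS k i0 hk]
      exact (hLk i0).2.2
  have hdiagr : ∀ k : Fin r, mt y (Sum.inr (Sum.inr k)) (Sum.inr (Sum.inr k)) = mt y x00 x00 := by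
    intro k
    rw [(hLk k).2.2, hdiagl]
  have hdiagm : ∀ m : M, mt y (Sum.inr (Sum.inl m)) (Sum.inr (Sum.inl m)) = mt y x00 x00 := by
    intro m
    have hm1 := card_m m
    have hN1 : NN r M = 2 * r + 1 := by
      simp only [NN]
      omega
    have hne : (Sum.inr (Sum.inl m) : IU r M) ≠ rv x00 := mid_ne_rv m i0
    obtain ⟨b, hb, -⟩ := exists_rok hσ hσ1 (i := x00) (j := Sum.inr (Sum.inl m)) (inl_ne_mid i0 m) hne (inl_ne_rv _ _) (1 : K)
    have hpx : pos x00 = 0 := rfl
    have hc1 : cA r M a x00 < cA r M a (Sum.inr (Sum.inl m)) := by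
      show fA (NN r M) a (pos x00) < fA (NN r M) a r
      rw [hpx, fA_zero (by omega) hN, fA_mid ha hN1]
      omega
    have hc2 : cA r M a (Sum.inr (Sum.inl m)) < cA r M a (rv x00) := by
      have e2 : pos (rv x00) = NN r M - 1 := by
        rw [pos_rv, hpx]
        omega
      show fA (NN r M) a r < fA (NN r M) a (pos (rv x00))
      rw [e2, fA_mid ha hN1]
      exact fA_last' ha hN1
    have hm' : Xg hb ∈ Rad σ (cA r M a) := X_mem_Rad hb (fun _ => ⟨hc1, hc2⟩) (fun _ => lt_trans hc1 hc2)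
    have e := comm_X hb (hy _ hm') x00 (Sum.inr (Sum.inl m))
    rw [if_pos rfl, if_neg (show ¬ x00 = rv (Sum.inr (Sum.inl m)) from inl_ne_mid i0 m), if_pos rfl, if_neg hne] at e
    have h0 := (hLk i0).2.1 (Sum.inr (Sum.inl m)) (by intro e; cases e)
    have h0' : mt y (rv x00) (Sum.inr (Sum.inl m)) = 0 := h0
    rw [h0'] at e
    simpa using e
  have hup : IsUpU (mt y) := by
    intro x w hxw
    rcases w with l | m | l
    · exact (hLk l).1 x (fun e => by
        rw [e] at hxw
        exact lt_irrefl _ hxw)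
    · rcases x with k | m' | k
      · have := k.2
        simp only [pos_l, pos_m] at hxw
        omega
      · simp only [pos_m] at hxw
        omega
      · exact (hLk k).2.1 _ (by intro e; cases e)
    · rcases x with k | m' | k
      · have := k.2
        have := l.2
        simp only [pos_l, pos_r] at hxw
        omega
      · have := l.2
        simp only [pos_m, pos_r] at hxw
        omega
      · exact (hLk k).2.1 _ (fun e => by
          rw [e] at hxw
          exact lt_irrefl _ hxw)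
  refine rad_of_form (cA_mono (by omega)) hup (ε := mt y x00 x00) (fun x => ?_) (fun x w hxw hne => ?_) x00
  · rcases x with k | m | k
    · exact hdiagl k
    · exact hdiagm m
    · exact hdiagr k
  · rcases w with l | m | l
    · exact (hLk l).1 x hne
    · rcases x with k | m' | k
      · exfalso
        have hm1 := card_m m
        have := hcl k
        have h2 : cA r M a (Sum.inr (Sum.inl m)) = r := fA_mid (r := r) ha (by simp only [NN]; omega)
        rw [h2] at hxw
        omega
      · exact absurd (by rw [Subsingleton.elim m m']) hne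
      · exact (hLk k).2.1 _ (Ne.symm hne)
    · rcases x with k | m' | k
      · exfalso
        have := hcl k
        have := hcr l
        omega
      · exfalso
        have hm1 := card_m m'
        have hN1 : NN r M = 2 * r + 1 := by
          simp only [NN]
          omega
        have h2 : cA r M a (Sum.inr (Sum.inl m')) = r := fA_mid ha hN1
        have h3 : r + 1 ≤ cA r M a (Sum.inr (Sum.inr l)) := by
          have h4 := pos_lt (Sum.inr (Sum.inr l) : IU r M)
          have := l.2
          refine fA_gt_mid ha hN1 ?_ h4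
          simp only [pos_r]
          omega
        omega
      · exact (hLk k).2.1 _ (Ne.symm hne)

/-- The family of radicals. -/
def RRU (σ : K →+* K) (r : ℕ) (M : Type) [Fintype M] [DecidableEq M] : Set (Subgroup (GG σ r M)) :=
  {R | ∃ a : ℕ, a < r ∧ R = Rad σ (cA r M a)}

theorem RRU_le {R : Subgroup (GG σ r M)} (hR : R ∈ RRU σ r M) : R ≤ U0U σ r M := by
  obtain ⟨a, ha, rfl⟩ := hR
  exact Rad_le_U0U (cA_mono ha)

theorem RRU_centric (hσ : ∀ a, σ (σ a) = a) (hσ1 : σ ≠ RingHom.id K) (hr : 2 ≤ r) {R : Subgroup (GG σ r M)} (hR : R ∈ RRU σ r M) (y : GG σ r M)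
    (hy : ∀ q ∈ R, q * y = y * q) : ∃ z ∈ Subgroup.center (GG σ r M), y * z ∈ R := by
  obtain ⟨a, ha, rfl⟩ := hR
  by_cases h : a + 1 < r
  · exact centric_A hσ hσ1 hr h hy
  · exact centric_B hσ hσ1 hr ha (by omega) hy

end Fin

end Cfsg.Agent.Lib.Fusion.SUF
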