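/-
Block matrices, the Levi subgroup and the unipotent radical of the stabilizer of a maximal isotropic subspace.
-/
import Cfsg.Agent.Lib.Fusion.UCent

set_option autoImplicit false
set_option linter.unusedSectionVars false
set_option linter.unusedVariables false
set_option linter.unusedSimpArgs false
set_option linter.style.haveILetI false

namespace Cfsg.Agent.Lib.Fusion.SUF

open Matrix Cfsg.Agent.Lib.Fusion.PSLF

variable {K : Type*} [Field K] {r : ℕ} {M : Type} [Fintype M] [DecidableEq M]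

/-- Three by three block matrices. -/
def bk (a : Matrix (Fin r) (Fin r) K) (b : Matrix (Fin r) M K) (c : Matrix (Fin r) (Fin r) K)
    (d : Matrix M (Fin r) K) (e : Matrix M M K) (f : Matrix M (Fin r) K)
    (g : Matrix (Fin r) (Fin r) K) (h : Matrix (Fin r) M K) (i : Matrix (Fin r) (Fin r) K) : Matrix (IU r M) (IU r M) K :=
  Matrix.of fun x y => match x, y with
    | Sum.inl x, Sum.inl y => a x y
    | Sum.inl x, Sum.inr (Sum.inl y) => b x y
    | Sum.inl x, Sum.inr (Sum.inr y) => c x y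
    | Sum.inr (Sum.inl x), Sum.inl y => d x y
    | Sum.inr (Sum.inl x), Sum.inr (Sum.inl y) => e x y
    | Sum.inr (Sum.inl x), Sum.inr (Sum.inr y) => f x y
    | Sum.inr (Sum.inr x), Sum.inl y => g x y
    | Sum.inr (Sum.inr x), Sum.inr (Sum.inl y) => h x y
    | Sum.inr (Sum.inr x), Sum.inr (Sum.inr y) => i x y

variable {a a' c c' g g' i i' : Matrix (Fin r) (Fin r) K} {b b' h h' : Matrix (Fin r) M K} {d d' f f' : Matrix M (Fin r) K} {e e' : Matrix M M K}

theorem bk_mul : bk a b c d e f g h i * bk a' b' c' d' e' f' g' h' i' =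
    bk (a * a' + b * d' + c * g') (a * b' + b * e' + c * h') (a * c' + b * f' + c * i')
      (d * a' + e * d' + f * g') (d * b' + e * e' + f * h') (d * c' + e * f' + f * i')
      (g * a' + h * d' + i * g') (g * b' + h * e' + i * h') (g * c' + h * f' + i * i') := by
  ext (x | x | x) (y | y | y) <;>
  simp [Matrix.mul_apply, Fintype.sum_sum_type, bk, Matrix.add_apply, add_assoc]

theorem cT_bk (σ : K →+* K) : cT σ (bk a b c d e f g h i) =
    bk (cT σ a) (cT σ d) (cT σ g) (cT σ b) (cT σ e) (cT σ h) (cT σ c) (cT σ f) (cT σ i) := by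
  ext (x | x | x) (y | y | y) <;> rfl

theorem Jm_eq : Jm r M K = bk 0 0 1 0 1 0 1 0 0 := by
  ext (x | x | x) (y | y | y)
  · simp [Jm_apply, rv, bk]
  · simp [Jm_apply, rv, bk]
  · simp [Jm_apply, rv, bk, Matrix.one_apply, eq_comm]
  · simp [Jm_apply, rv, bk]
  · simp [Jm_apply, rv, bk, Matrix.one_apply, eq_comm]
  · simp [Jm_apply, rv, bk]
  · simp [Jm_apply, rv, bk, Matrix.one_apply, eq_comm]
  · simp [Jm_apply, rv, bk]
  · simp [Jm_apply, rv, bk]

theorem one_eq_bk : (1 : Matrix (IU r M) (IU r M) K) = bk 1 0 0 0 1 0 0 0 1 := by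
  ext (x | x | x) (y | y | y) <;> simp [bk, Matrix.one_apply]

variable {σ : K →+* K}

/-- The dual of a Levi matrix. -/
def Ast (σ : K →+* K) (A : SLn r K) : Matrix (Fin r) (Fin r) K := cT σ (A⁻¹).1

theorem Ast_mul (A B : SLn r K) : Ast σ (A * B) = Ast σ A * Ast σ B := by
  rw [Ast, _root_.mul_inv_rev, Matrix.SpecialLinearGroup.coe_mul, cT_mul]
  rfl

theorem Ast_one : Ast σ (1 : SLn r K) = 1 := by
  rw [Ast, inv_one, Matrix.SpecialLinearGroup.coe_one, cT_one]

theorem mul_inv_val (A : SLn r K) : A.1 * (A⁻¹).1 = 1 := congrArg Subtype.val (mul_inv_cancel A)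

theorem inv_mul_val (A : SLn r K) : (A⁻¹).1 * A.1 = 1 := congrArg Subtype.val (inv_mul_cancel A)

theorem det_Ast (A : SLn r K) : (Ast σ A).det = 1 := by
  rw [Ast, cT, Matrix.det_transpose, ← RingHom.mapMatrix_apply, ← RingHom.map_det, (A⁻¹).2, map_one]

/-- The matrix of a Levi element. -/
def LevM (σ : K →+* K) (A : SLn r K) : Matrix (IU r M) (IU r M) K := bk A.1 0 0 0 1 0 0 0 (Ast σ A)

theorem LevM_mul (A B : SLn r K) : LevM (M := M) σ (A * B) = LevM σ A * LevM σ B := by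
  rw [LevM, LevM, LevM, bk_mul, Ast_mul]
  simp

theorem LevM_one : LevM (M := M) σ (1 : SLn r K) = 1 := by
  rw [LevM, Ast_one, one_eq_bk]
  rfl

theorem det_LevM (A : SLn r K) : (LevM (M := M) σ A).det = 1 := by
  have e : LevM (M := M) σ A = Matrix.fromBlocks A.1 0 0 (Matrix.fromBlocks 1 0 0 (Ast σ A)) := by
    ext (x | x | x) (y | y | y) <;> rfl
  rw [e, Matrix.det_fromBlocks_zero₂₁, Matrix.det_fromBlocks_zero₂₁, det_Ast, Matrix.det_one, A.2]
  simp

theorem isU_LevM (hσ : ∀ a, σ (σ a) = a) (A : SLn r K) : IsU σ (LevM (M := M) σ A) := by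
  rw [IsU, LevM, cT_bk, Jm_eq, bk_mul, bk_mul]
  have e1 : Ast σ A * cT σ A.1 = 1 := by
    rw [Ast, ← cT_mul, mul_inv_val, cT_one]
  have e2 : A.1 * cT σ (Ast σ A) = 1 := by
    rw [Ast, cT_cT hσ, mul_inv_val]
  simp [cT_zero, cT_one, e1, e2]

section Fin
variable [Fintype K]

/-- The Levi homomorphism. -/
def Lev (hσ : ∀ a, σ (σ a) = a) : SLn r K →* GG σ r M where
  toFun A := ⟨⟨LevM σ A, det_LevM A⟩, isU_LevM hσ A⟩
  map_one' := by
    apply mt_ext
    exact LevM_one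
  map_mul' A B := by
    apply mt_ext
    exact LevM_mul A B

theorem mt_Lev (hσ : ∀ a, σ (σ a) = a) (A : SLn r K) : mt (Lev (M := M) hσ A) = LevM σ A := rfl

/-- The matrix of an element of the radical. -/
def XV (a : Matrix (Fin r) M K) (B : Matrix (Fin r) (Fin r) K) : Matrix (IU r M) (IU r M) K :=
  bk 1 a B 0 1 (- cT σ a) 0 0 1

/-- The condition on the data of an element of the radical. -/
def VOK (σ : K →+* K) (a : Matrix (Fin r) M K) (B : Matrix (Fin r) (Fin r) K) : Prop :=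
  B + cT σ B + a * cT σ a = 0

theorem XV_mul (A A' : Matrix (Fin r) M K) (B B' : Matrix (Fin r) (Fin r) K) :
    XV (σ := σ) A B * XV (σ := σ) A' B' = XV (σ := σ) (A + A') (B + B' - A * cT σ A') := by
  rw [XV, XV, XV, bk_mul, cT_add, neg_add]
  simp only [Matrix.mul_zero, Matrix.zero_mul, Matrix.mul_one, Matrix.one_mul, Matrix.mul_neg, Matrix.neg_mul, add_zero, zero_add, neg_zero]
  congr 1 <;> abel

variable [Subsingleton M]

theorem isUp_XV (A : Matrix (Fin r) M K) (B : Matrix (Fin r) (Fin r) K) : IsRad pos (XV (σ := σ) A B) := by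
  rw [isRad_pos_iff]
  constructor
  · rintro (x | x | x) (y | y | y) hxy
    · simp only [pos_l] at hxy
      exact Matrix.one_apply_ne (fun e => by
        rw [e] at hxy
        exact lt_irrefl _ hxy)
    · simp only [pos_l, pos_m] at hxy
      have := x.2
      omega
    · simp only [pos_l, pos_r] at hxy
      have := x.2
      have := y.2
      omega
    · rfl
    · simp only [pos_m] at hxy
      omega
    · simp only [pos_m, pos_r] at hxy
      have := y.2
      omega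
    · rfl
    · rfl
    · simp only [pos_r] at hxy
      refine Matrix.one_apply_ne (fun e => ?_)
      rw [e] at hxy
      exact lt_irrefl _ hxy
  · rintro (x | x | x)
    · exact Matrix.one_apply_eq _
    · exact Matrix.one_apply_eq _
    · exact Matrix.one_apply_eq _

theorem det_XV (A : Matrix (Fin r) M K) (B : Matrix (Fin r) (Fin r) K) : (XV (σ := σ) A B).det = 1 := by
  have h := isRad_pos_iff.1 (isUp_XV (σ := σ) A B)
  rw [det_up h.1]
  exact Finset.prod_eq_one (fun x _ => h.2 x)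

theorem isU_XV (hσ : ∀ a, σ (σ a) = a) {A : Matrix (Fin r) M K} {B : Matrix (Fin r) (Fin r) K} (h : VOK σ A B) : IsU σ (XV (σ := σ) A B) := by
  rw [IsU, XV, cT_bk, Jm_eq, bk_mul, bk_mul, cT_neg, cT_cT hσ]
  simp only [cT_zero, cT_one, Matrix.mul_zero, Matrix.zero_mul, Matrix.mul_one, Matrix.one_mul, Matrix.mul_neg, Matrix.neg_mul, add_zero, zero_add, neg_zero]
  rw [VOK] at h
  have e1 : B + A * cT σ A + cT σ B = 0 := by
    rw [← h]
    abel
  rw [e1]
  simp

/-- An element of the radical. -/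
def xV (hσ : ∀ a, σ (σ a) = a) (A : Matrix (Fin r) M K) (B : Matrix (Fin r) (Fin r) K) (h : VOK σ A B) : GG σ r M :=
  ⟨⟨XV A B, det_XV A B⟩, isU_XV hσ h⟩

theorem mt_xV (hσ : ∀ a, σ (σ a) = a) {A : Matrix (Fin r) M K} {B : Matrix (Fin r) (Fin r) K} (h : VOK σ A B) : mt (xV hσ A B h) = XV (σ := σ) A B := rfl

theorem xV_mem (hσ : ∀ a, σ (σ a) = a) {A : Matrix (Fin r) M K} {B : Matrix (Fin r) (Fin r) K} (h : VOK σ A B) : xV hσ A B h ∈ U0U σ r M :=
  isUp_XV A B

theorem xV_mul (hσ : ∀ a, σ (σ a) = a) {A A' : Matrix (Fin r) M K} {B B' : Matrix (Fin r) (Fin r) K} (h : VOK σ A B) (h' : VOK σ A' B')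
    (h'' : VOK σ (A + A') (B + B' - A * cT σ A')) : xV hσ A B h * xV hσ A' B' h' = xV hσ (A + A') (B + B' - A * cT σ A') h'' :=
  mt_ext (XV_mul A A' B B')

theorem vok_conj (hσ : ∀ a, σ (σ a) = a) (C : SLn r K) {A : Matrix (Fin r) M K} {B : Matrix (Fin r) (Fin r) K} (h : VOK σ A B) :
    VOK σ (C.1 * A) (C.1 * B * cT σ C.1) := by
  rw [VOK] at h ⊢
  have e1 : cT σ (C.1 * B * cT σ C.1) = C.1 * cT σ B * cT σ C.1 := by
    rw [cT_mul, cT_cT hσ, cT_mul, Matrix.mul_assoc]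
  have e2 : C.1 * A * cT σ (C.1 * A) = C.1 * (A * cT σ A) * cT σ C.1 := by
    rw [cT_mul]
    simp only [Matrix.mul_assoc]
  have e3 : C.1 * B * cT σ C.1 + C.1 * cT σ B * cT σ C.1 + C.1 * (A * cT σ A) * cT σ C.1 = C.1 * (B + cT σ B + A * cT σ A) * cT σ C.1 := by
    simp only [Matrix.mul_add, Matrix.add_mul]
  rw [e1, e2, e3, h]
  simp

theorem Lev_conj_xV (hσ : ∀ a, σ (σ a) = a) (C : SLn r K) {A : Matrix (Fin r) M K} {B : Matrix (Fin r) (Fin r) K} (h : VOK σ A B) (h' : VOK σ (C.1 * A) (C.1 * B * cT σ C.1)) :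
    Lev hσ C * xV hσ A B h * (Lev hσ C)⁻¹ = xV hσ (C.1 * A) (C.1 * B * cT σ C.1) h' := by
  apply mt_ext
  rw [← map_inv, mt_mul, mt_mul, mt_Lev, mt_Lev, mt_xV, mt_xV, LevM, LevM, XV, XV, bk_mul, bk_mul]
  have e1 : Ast σ C⁻¹ = cT σ C.1 := by
    rw [Ast, inv_inv]
  have e2 : Ast σ C * cT σ C.1 = 1 := by
    rw [Ast, ← cT_mul, mul_inv_val, cT_one]
  rw [e1]
  simp only [Matrix.mul_zero, Matrix.zero_mul, Matrix.mul_one, Matrix.one_mul, Matrix.mul_neg, Matrix.neg_mul, add_zero, zero_add, neg_zero, e2, mul_inv_val, cT_mul]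

theorem bk_inj {a a' c c' g g' i i' : Matrix (Fin r) (Fin r) K} {b b' h h' : Matrix (Fin r) M K} {d d' f f' : Matrix M (Fin r) K} {e e' : Matrix M M K}
    (H : bk a b c d e f g h i = bk a' b' c' d' e' f' g' h' i') :
    a = a' ∧ b = b' ∧ c = c' ∧ d = d' ∧ e = e' ∧ f = f' ∧ g = g' ∧ h = h' ∧ i = i' := by
  refine ⟨?_, ?_, ?_, ?_, ?_, ?_, ?_, ?_, ?_⟩ <;> ext x y
  · exact congrFun (congrFun H (Sum.inl x)) (Sum.inl y)
  · exact congrFun (congrFun H (Sum.inl x)) (Sum.inr (Sum.inl y))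
  · exact congrFun (congrFun H (Sum.inl x)) (Sum.inr (Sum.inr y))
  · exact congrFun (congrFun H (Sum.inr (Sum.inl x))) (Sum.inl y)
  · exact congrFun (congrFun H (Sum.inr (Sum.inl x))) (Sum.inr (Sum.inl y))
  · exact congrFun (congrFun H (Sum.inr (Sum.inl x))) (Sum.inr (Sum.inr y))
  · exact congrFun (congrFun H (Sum.inr (Sum.inr x))) (Sum.inl y)
  · exact congrFun (congrFun H (Sum.inr (Sum.inr x))) (Sum.inr (Sum.inl y))
  · exact congrFun (congrFun H (Sum.inr (Sum.inr x))) (Sum.inr (Sum.inr y))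

/-- A unitary block matrix with trivial first and second diagonal blocks lies in the radical. -/
theorem block_xV (hσ : ∀ a, σ (σ a) = a) {C : Matrix (Fin r) (Fin r) K} {a : Matrix (Fin r) M K} {c : Matrix M (Fin r) K} {D : Matrix (Fin r) (Fin r) K}
    (H : IsU σ (bk 1 a C 0 1 c 0 0 D)) : D = 1 ∧ c = - cT σ a ∧ VOK σ a C := by
  rw [IsU, cT_bk, Jm_eq, bk_mul, bk_mul] at H
  simp only [cT_zero, cT_one, Matrix.mul_zero, Matrix.zero_mul, Matrix.mul_one, Matrix.one_mul, Matrix.mul_neg, Matrix.neg_mul, add_zero, zero_add, neg_zero] at H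
  obtain ⟨h1, -, -, h4, -, -, h7, -, -⟩ := bk_inj H
  refine ⟨h7, ?_, ?_⟩
  · exact eq_neg_of_add_eq_zero_left h4
  · rw [VOK, ← h1]
    abel

/-- Unitriangular elements decompose. -/
theorem exists_decomp (hσ : ∀ a, σ (σ a) = a) {u : GG σ r M} (hu : u ∈ U0U σ r M) :
    ∃ (A : SLn r K) (a : Matrix (Fin r) M K) (B : Matrix (Fin r) (Fin r) K) (h : VOK σ a B), A ∈ U0 r K ∧ u = Lev hσ A * xV hσ a B h := by
  obtain ⟨hu1, hu2⟩ := mem_U0U.1 hu
  let A₀ : Matrix (Fin r) (Fin r) K := fun x y => mt u (Sum.inl x) (Sum.inl y)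
  have hup : IsUp A₀ := by
    intro x y hxy
    exact hu1 _ _ hxy
  have hdet : A₀.det = 1 := by
    rw [det_of_isUp A₀ hup]
    exact Finset.prod_eq_one (fun i _ => hu2 _)
  let A : SLn r K := ⟨A₀, hdet⟩
  have hA : A ∈ U0 r K := ⟨hup, fun i => hu2 _⟩
  let u12 : Matrix (Fin r) M K := fun x y => mt u (Sum.inl x) (Sum.inr (Sum.inl y))
  let u13 : Matrix (Fin r) (Fin r) K := fun x y => mt u (Sum.inl x) (Sum.inr (Sum.inr y))
  let u23 : Matrix M (Fin r) K := fun x y => mt u (Sum.inr (Sum.inl x)) (Sum.inr (Sum.inr y))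
  let u33 : Matrix (Fin r) (Fin r) K := fun x y => mt u (Sum.inr (Sum.inr x)) (Sum.inr (Sum.inr y))
  have hform : mt u = bk A.1 u12 u13 0 1 u23 0 0 u33 := by
    ext (x | x | x) (y | y | y)
    · rfl
    · rfl
    · rfl
    · exact hu1 _ _ (by
        have := y.2
        simp only [pos_l, pos_m]
        omega)
    · show mt u _ _ = (1 : Matrix M M K) x y
      rw [Subsingleton.elim x y, hu2, Matrix.one_apply_eq]
    · rfl
    · exact hu1 _ _ (by
        have := x.2
        have := y.2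
        simp only [pos_l, pos_r]
        omega)
    · exact hu1 _ _ (by
        have := x.2
        have := card_m y
        simp only [pos_m, pos_r]
        omega)
    · rfl
  have hv : mt ((Lev hσ A)⁻¹ * u) = bk 1 ((A⁻¹).1 * u12) ((A⁻¹).1 * u13) 0 1 u23 0 0 (Ast σ A⁻¹ * u33) := by
    rw [← map_inv, mt_mul, mt_Lev, hform, LevM, bk_mul]
    simp only [Matrix.mul_zero, Matrix.zero_mul, Matrix.mul_one, Matrix.one_mul, Matrix.mul_neg, Matrix.neg_mul, add_zero, zero_add, neg_zero, inv_mul_val]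
  have hmem : IsU σ (bk 1 ((A⁻¹).1 * u12) ((A⁻¹).1 * u13) 0 1 u23 0 0 (Ast σ A⁻¹ * u33)) := by
    rw [← hv]
    exact mem_GJ _
  obtain ⟨h1, h2, h3⟩ := block_xV hσ hmem
  refine ⟨A, _, _, h3, hA, ?_⟩
  have h4 : (Lev hσ A)⁻¹ * u = xV hσ _ _ h3 := by
    apply mt_ext
    rw [hv, h1, h2, mt_xV]
    rfl
  rw [← h4]
  group

end Fin

end Cfsg.Agent.Lib.Fusion.SUF
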