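/-
The torus: monomial elements as products of root elements, and the generation of the normalizer of the
unitriangular group.
-/
import Cfsg.Agent.Lib.Fusion.ULev
import Cfsg.Agent.Lib.Classical.HermBasis

set_option autoImplicit false
set_option linter.unusedSectionVars false
set_option linter.unusedVariables false
set_option linter.unusedSimpArgs false
set_option linter.style.haveILetI false

namespace Cfsg.Agent.Lib.Fusion.SUF

open Matrix Cfsg.Agent.Lib.Fusion.PSLF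

variable {K : Type*} [Field K] {r : ℕ} {M : Type} [Fintype M] [DecidableEq M] {σ : K →+* K}

/-- Monomial matrices. -/
def monM (σ : K →+* K) (i j : IU r M) (b : K) : Matrix (IU r M) (IU r M) K :=
  1 + Matrix.single i i (-1) + Matrix.single (rv i) (rv i) (-1) + Matrix.single i (rv i) b + Matrix.single (rv i) i (σ b)⁻¹ +
    Matrix.single j j (-(σ b / b) - 1)

theorem monM_apply (i j : IU r M) (b : K) (x y : IU r M) :
    monM σ i j b x y = (1 : Matrix (IU r M) (IU r M) K) x y + (if x = i ∧ y = i then -1 else 0) + (if x = rv i ∧ y = rv i then -1 else 0) +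
      (if x = i ∧ y = rv i then b else 0) + (if x = rv i ∧ y = i then (σ b)⁻¹ else 0) + (if x = j ∧ y = j then -(σ b / b) - 1 else 0) := by
  have e : ∀ (a c d : IU r M) (t : K), (Matrix.single a c t : Matrix (IU r M) (IU r M) K) x y = if x = a ∧ y = c then t else 0 := by
    intro a c d t
    rw [Matrix.single_apply]
    by_cases h : x = a ∧ y = c
    · rw [if_pos h, if_pos ⟨h.1.symm, h.2.symm⟩]
    · rw [if_neg h, if_neg (fun e => h ⟨e.1.symm, e.2.symm⟩)]
  simp only [monM, Matrix.add_apply, e i i i, e (rv i) (rv i) i, e i (rv i) i, e (rv i) i i, e j j i]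

theorem W_val_odd (hσ : ∀ a, σ (σ a) = a) {i j : IU r M} (hii : i ≠ rv i) (hij : i ≠ j) (hji : j ≠ rv i) (hjj : j = rv j) {a b : K} (hb0 : b ≠ 0)
    (htr : b + σ b + a * σ a = 0) :
    XM σ (rv i) j (-a / σ b) (σ b)⁻¹ * XM σ i j a b * XM σ (rv i) j (-a / b) (σ b)⁻¹ = monM σ i j b := by
  have hσb : σ b ≠ 0 := (map_ne_zero σ).2 hb0
  have hj' : rv j = j := hjj.symm
  have s1 : σ (-a / σ b) = -σ a / b := by
    rw [map_div₀, map_neg, hσ]
  have s3 : σ (-a / b) = -σ a / σ b := by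
    rw [map_div₀, map_neg]
  have h0 : 1 + (-(-a / σ b * σ a) + (σ b)⁻¹ * b) = 0 := by
    field_simp
    linear_combination htr
  have h6 : 1 + -(-σ a / b * a) = -(σ b / b) := by
    field_simp
    linear_combination htr
  ext x y
  rw [mul_XM_apply]
  simp only [XM_mul_apply, XM_apply, rv_rv, hj', monM_apply, s1, s3]
  have hxc : x = i ∨ x = rv i ∨ x = j ∨ (x ≠ i ∧ x ≠ rv i ∧ x ≠ j) := by tauto
  have hyc : y = i ∨ y = rv i ∨ y = j ∨ (y ≠ i ∧ y ≠ rv i ∧ y ≠ j) := by tauto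
  have n1 : rv i ≠ i := hii.symm
  have n2 : j ≠ i := hij.symm
  have n3 : rv i ≠ j := hji.symm
  clear hjj
  rcases hxc with rfl | rfl | rfl | ⟨hx1, hx2, hx3⟩ <;> rcases hyc with rfl | rfl | rfl | ⟨hy1, hy2, hy3⟩ <;>
    (try have hx1' := Ne.symm hx1) <;> (try have hx2' := Ne.symm hx2) <;> (try have hx3' := Ne.symm hx3) <;>
    (try have hy1' := Ne.symm hy1) <;> (try have hy2' := Ne.symm hy2) <;> (try have hy3' := Ne.symm hy3) <;>
    simp [Matrix.one_apply, hii, hij, hji, n1, n2, n3, *]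
  all_goals first | (rw [h0]; ring1) | (rw [h6]; field_simp; ring1) | (field_simp; ring1) | (field_simp; linear_combination htr) | exact h0 | exact h6 | (left; ring1)

theorem W_val_even (hσ : ∀ a, σ (σ a) = a) {i j : IU r M} (hii : i ≠ rv i) {b : K} (hb0 : b ≠ 0) (htr : σ b = -b) :
    XM σ (rv i) j 0 (σ b)⁻¹ * XM σ i j 0 b * XM σ (rv i) j 0 (σ b)⁻¹ = monM σ i j b := by
  have hσb : σ b ≠ 0 := (map_ne_zero σ).2 hb0
  have h0 : -(σ b / b) - 1 = 0 := by
    rw [htr]
    field_simp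
    ring
  ext x y
  rw [mul_XM_apply]
  simp only [XM_mul_apply, XM_apply, rv_rv, monM_apply, map_zero, neg_zero, h0, mul_zero, zero_mul, add_zero, zero_add, ite_self]
  rw [htr]
  have hxc : x = i ∨ x = rv i ∨ (x ≠ i ∧ x ≠ rv i) := by tauto
  have hyc : y = i ∨ y = rv i ∨ (y ≠ i ∧ y ≠ rv i) := by tauto
  have n1 : rv i ≠ i := hii.symm
  rcases hxc with rfl | rfl | ⟨hx1, hx2⟩ <;> rcases hyc with rfl | rfl | ⟨hy1, hy2⟩ <;>
    (try have hx1' := Ne.symm hx1) <;> (try have hx2' := Ne.symm hx2) <;>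
    (try have hy1' := Ne.symm hy1) <;> (try have hy2' := Ne.symm hy2) <;>
    simp [Matrix.one_apply, hii, n1, *] <;> field_simp <;> ring

section Fin
variable [Fintype K]

theorem rok1 {i j : IU r M} {a b : K} (h : ROK σ i j a b) (hb0 : b ≠ 0) (hj : j = rv j ∨ a = 0) : ROK σ (rv i) j (-a / σ b) (σ b)⁻¹ := by
  have hσ := h.hσ
  have hσb : σ b ≠ 0 := (map_ne_zero σ).2 hb0
  refine ⟨hσ, h.hji.symm, by rw [rv_rv]; exact h.hij.symm, by rw [rv_rv]; exact h.hii.symm, ?_⟩
  have htr := h.htr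
  rw [map_inv₀, hσ]
  by_cases hjj : j = rv j
  · rw [if_pos hjj] at htr ⊢
    rw [map_div₀, map_neg, hσ]
    field_simp
    linear_combination htr
  · rw [if_neg hjj] at htr ⊢
    field_simp
    linear_combination htr

theorem rok3 {i j : IU r M} {a b : K} (h : ROK σ i j a b) (hb0 : b ≠ 0) (hj : j = rv j ∨ a = 0) : ROK σ (rv i) j (-a / b) (σ b)⁻¹ := by
  have hσ := h.hσ
  have hσb : σ b ≠ 0 := (map_ne_zero σ).2 hb0
  refine ⟨hσ, h.hji.symm, by rw [rv_rv]; exact h.hij.symm, by rw [rv_rv]; exact h.hii.symm, ?_⟩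
  have htr := h.htr
  rw [map_inv₀, hσ]
  by_cases hjj : j = rv j
  · rw [if_pos hjj] at htr ⊢
    rw [map_div₀, map_neg]
    field_simp
    linear_combination htr
  · rw [if_neg hjj] at htr ⊢
    field_simp
    linear_combination htr

variable {p : ℕ} [hp : Fact p.Prime] [hc : CharP K p] [Subsingleton M]

/-- Monomial elements from root elements. -/
theorem W_mem {i j : IU r M} {a b : K} (h : ROK σ i j a b) (hb0 : b ≠ 0) (hj : j = rv j ∨ a = 0) {c : IU r M → ℕ}
    (hc1 : c i = c (rv i)) (hc2 : a ≠ 0 → c j = c i) :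
    ∃ w ∈ Subgroup.closure {g : GG σ r M | g ∈ Subgroup.normalizer ((Rad σ c : Subgroup (GG σ r M)) : Set (GG σ r M)) ∧ ∃ e : ℕ, g ^ p ^ e = 1},
      mt w = monM σ i j b := by
  have hσ := h.hσ
  have hσb : σ b ≠ 0 := (map_ne_zero σ).2 hb0
  have hmid : a ≠ 0 → j = rv j := fun h0 => hj.resolve_right h0
  have hok1 : Xg (rok1 h hb0 hj) ∈ Par σ c := X_mem_Par _ (fun hs => by
      have ha : a ≠ 0 := by
        rintro rfl
        simp at hs
      have h1 := hc2 ha
      have h2 := hmid ha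
      rw [rv_rv, ← h2, h1, ← hc1]
      exact ⟨lt_irrefl _, lt_irrefl _⟩) (fun _ => by
      rw [rv_rv, hc1]
      exact lt_irrefl _)
  have hok3 : Xg (rok3 h hb0 hj) ∈ Par σ c := X_mem_Par _ (fun hs => by
      have ha : a ≠ 0 := by
        rintro rfl
        simp at hs
      have h1 := hc2 ha
      have h2 := hmid ha
      rw [rv_rv, ← h2, h1, ← hc1]
      exact ⟨lt_irrefl _, lt_irrefl _⟩) (fun _ => by
      rw [rv_rv, hc1]
      exact lt_irrefl _)
  have hok2 : Xg h ∈ Par σ c := X_mem_Par _ (fun ha => by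
      have h1 := hc2 ha
      have h2 := hmid ha
      rw [← h2, h1, ← hc1]
      exact ⟨lt_irrefl _, lt_irrefl _⟩) (fun _ => by
      rw [hc1]
      exact lt_irrefl _)
  have hS : ∀ g : GG σ r M, g ∈ Par σ c → g ^ p ^ 2 = 1 → g ∈ Subgroup.closure {g : GG σ r M | g ∈ Subgroup.normalizer ((Rad σ c : Subgroup (GG σ r M)) : Set (GG σ r M)) ∧ ∃ e : ℕ, g ^ p ^ e = 1} :=
    fun g hg hg2 => Subgroup.subset_closure ⟨Par_le_norm hg, 2, hg2⟩
  refine ⟨Xg (rok1 h hb0 hj) * Xg h * Xg (rok3 h hb0 hj), Subgroup.mul_mem _ (Subgroup.mul_mem _ (hS _ hok1 (Xg_pow p _)) (hS _ hok2 (Xg_pow p _))) (hS _ hok3 (Xg_pow p _)), ?_⟩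
  rw [mt_mul, mt_mul, mt_Xg, mt_Xg, mt_Xg]
  by_cases hjj : j = rv j
  · have htr := h.htr
    rw [if_pos hjj] at htr
    exact W_val_odd hσ h.hii h.hij h.hji hjj hb0 htr
  · have ha := hj.resolve_left hjj
    subst ha
    have htr := h.htr
    rw [if_neg hjj] at htr
    have e : σ b = -b := by linear_combination htr
    simp only [neg_zero, zero_div]
    exact W_val_even hσ h.hii hb0 e

/-- The permutation of a monomial matrix. -/
def swp (i x : IU r M) : IU r M := if x = i then rv i else if x = rv i then i else x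

theorem swp_swp {i : IU r M} (hii : i ≠ rv i) (x : IU r M) : swp i (swp i x) = x := by
  unfold swp
  by_cases h1 : x = i
  · rw [if_pos h1, if_neg hii.symm, if_pos rfl, h1]
  · rw [if_neg h1]
    by_cases h2 : x = rv i
    · rw [if_pos h2, if_pos rfl, h2]
    · rw [if_neg h2, if_neg h1, if_neg h2]

/-- The values of a monomial matrix. -/
def wM (σ : K →+* K) (i j : IU r M) (b : K) (x : IU r M) : K :=
  if x = i then b else if x = rv i then (σ b)⁻¹ else if x = j then -(σ b / b) else 1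

theorem monM_eq {i j : IU r M} (hii : i ≠ rv i) (hij : i ≠ j) (hji : j ≠ rv i) {b : K} (hb : b ≠ 0) (x k : IU r M) :
    monM σ i j b x k = if k = swp i x then wM σ i j b x else 0 := by
  have n1 : rv i ≠ i := hii.symm
  have n2 : j ≠ i := hij.symm
  have n3 : rv i ≠ j := hji.symm
  have hxc : x = i ∨ x = rv i ∨ x = j ∨ (x ≠ i ∧ x ≠ rv i ∧ x ≠ j) := by tauto
  have hyc : k = i ∨ k = rv i ∨ k = j ∨ (k ≠ i ∧ k ≠ rv i ∧ k ≠ j) := by tauto
  rw [monM_apply]
  rcases hxc with rfl | rfl | rfl | ⟨hx1, hx2, hx3⟩ <;> rcases hyc with rfl | rfl | rfl | ⟨hy1, hy2, hy3⟩ <;>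
    (try have hx1' := Ne.symm hx1) <;> (try have hx2' := Ne.symm hx2) <;> (try have hx3' := Ne.symm hx3) <;>
    (try have hy1' := Ne.symm hy1) <;> (try have hy2' := Ne.symm hy2) <;> (try have hy3' := Ne.symm hy3) <;>
    simp [swp, wM, Matrix.one_apply, hii, hij, hji, n1, n2, n3, *]
  all_goals first | ring1 | exact if_congr eq_comm rfl rfl

theorem monM_mul_apply {i j : IU r M} (hii : i ≠ rv i) (hij : i ≠ j) (hji : j ≠ rv i) {b b' : K} (hb : b ≠ 0) (hb' : b' ≠ 0) (x y : IU r M) :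
    (monM σ i j b * monM σ i j b') x y = if x = y then wM σ i j b x * wM σ i j b' (swp i x) else 0 := by
  rw [Matrix.mul_apply, Finset.sum_eq_single (swp i x)]
  · rw [monM_eq hii hij hji hb, if_pos rfl, monM_eq hii hij hji hb', swp_swp hii]
    by_cases h : x = y
    · rw [if_pos h.symm, if_pos h]
    · rw [if_neg (Ne.symm h), if_neg h, mul_zero]
  · intro k _ hk
    rw [monM_eq hii hij hji hb, if_neg hk, zero_mul]
  · simp

/-- The subgroup generated as needed. -/
def WWU (p : ℕ) (σ : K →+* K) (r : ℕ) (M : Type) [Fintype M] [DecidableEq M] : Subgroup (GG σ r M) :=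
  Subgroup.closure {w | w ∈ Subgroup.normalizer ((U0U σ r M : Subgroup (GG σ r M)) : Set (GG σ r M)) ∧ ∃ R ∈ RRU σ r M,
    w ∈ Subgroup.closure {g | g ∈ Subgroup.normalizer ((R : Subgroup (GG σ r M)) : Set (GG σ r M)) ∧ ∃ e : ℕ, g ^ p ^ e = 1}}

theorem B0U_le_norm {g : GG σ r M} (hg : g ∈ B0U σ r M) : g ∈ Subgroup.normalizer ((U0U σ r M : Subgroup (GG σ r M)) : Set (GG σ r M)) :=
  Par_le_norm hg

theorem U0U_le_WWU (hr : 1 ≤ r) {u : GG σ r M} (hu : u ∈ U0U σ r M) : u ∈ WWU p σ r M := by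
  refine Subgroup.subset_closure ⟨B0U_le_norm (U0U_le_B0U hu), Rad σ (cA r M 0), ⟨0, by omega, rfl⟩, Subgroup.subset_closure ⟨?_, NN r M, exists_pow_U0U' hu⟩⟩
  exact Par_le_norm (B0U_le_Par (cA_mono (by omega)) (U0U_le_B0U hu))

/-- Levi root elements. -/
theorem rokL (hσ : ∀ a, σ (σ a) = a) {a b : Fin r} (hab : a ≠ b) (t : K) : ROK σ (Sum.inl a : IU r M) (Sum.inl b) t 0 := by
  refine ⟨hσ, fun e => hab (Sum.inl.inj e), inl_ne_rv _ _, inl_ne_rv _ _, ?_⟩
  rw [if_neg (inl_ne_rv _ _), map_zero]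
  ring

theorem Ast_rt {a b : Fin r} (hab : a ≠ b) (t : K) : Ast σ (rt a b hab t) = 1 + Matrix.single b a (-σ t) := by
  rw [Ast, rt_inv, rt_val, cT_add, cT_one, cT_single, map_neg]

theorem Lev_rt (hσ : ∀ a, σ (σ a) = a) {a b : Fin r} (hab : a ≠ b) (t : K) : Lev (M := M) hσ (rt a b hab t) = Xg (rokL hσ hab t) := by
  apply mt_ext
  rw [mt_Lev, mt_Xg, LevM, Ast_rt, rt_val]
  ext (x | x | x) (y | y | y) <;> simp [XM_apply, bk, Matrix.one_apply, Matrix.single_apply, rv, eq_comm, and_comm]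

theorem Lev_isUp (hσ : ∀ a, σ (σ a) = a) {A : SLn r K} (hA : A ∈ B0 r K) : IsUpU (mt (Lev (M := M) hσ A)) := by
  have hA' : A⁻¹ ∈ B0 r K := (B0 r K).inv_mem hA
  rintro (x | x | x) (y | y | y) hxy
  · exact hA x y hxy
  · rfl
  · rfl
  · rfl
  · simp only [pos_m] at hxy
    omega
  · rfl
  · rfl
  · rfl
  · show σ ((A⁻¹).1 y x) = 0
    have h1 := x.2
    have h2 := y.2
    simp only [pos_r] at hxy
    rw [hA' y x (Fin.lt_def.2 (by omega)), map_zero]

theorem Lev_diag (hσ : ∀ a, σ (σ a) = a) (A : SLn r K) (i : Fin r) : mt (Lev (M := M) hσ A) (Sum.inl i) (Sum.inl i) = A.1 i i := rfl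

theorem fA_a {N a : ℕ} (hN : 2 * a + 2 ≤ N) : fA N a a = a := by
  rw [fA, if_neg (by omega), if_neg (by omega)]

theorem fA_a1 {N a : ℕ} : fA N a (a + 1) = a := by
  rw [fA, if_pos rfl]

theorem fA_d1 {N a : ℕ} (hN : 2 * a + 4 ≤ N) : fA N a (N - 1 - a) = N - 2 - a := by
  rw [fA, if_neg (by omega), if_pos rfl, if_neg (by omega)]

theorem fA_d2 {N a : ℕ} (hN : 2 * a + 4 ≤ N) : fA N a (N - 2 - a) = N - 2 - a := by
  rw [fA, if_neg (by omega), if_neg (by omega)]

/-- The Levi torus generators. -/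
theorem Lev_hh_mem (hσ : ∀ a, σ (σ a) = a) {a b : Fin r} (hadj : (a : ℕ) + 1 = b) (hab : a ≠ b) {t : K} (ht : t ≠ 0) : Lev (M := M) hσ (hh a b hab t ht) ∈ WWU p σ r M := by
  have hb := b.2
  have ha := a.2
  have hN : 2 * r ≤ NN r M := by
    simp only [NN]
    omega
  have h1 : ∀ s : K, Lev (M := M) hσ (rt a b hab s) ∈ Subgroup.closure {g : GG σ r M | g ∈ Subgroup.normalizer ((Rad σ (cA r M a) : Subgroup (GG σ r M)) : Set (GG σ r M)) ∧ ∃ e : ℕ, g ^ p ^ e = 1} := by
    intro s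
    rw [Lev_rt]
    refine Subgroup.subset_closure ⟨Par_le_norm ?_, 2, Xg_pow p _⟩
    refine X_mem_Par _ (fun _ => ?_) (fun h0 => absurd rfl h0)
    have hm := cA_mono (M := M) ha
    constructor
    · exact not_lt.2 (hm _ _ (by simp only [pos_l]; omega))
    · refine not_lt.2 (hm _ _ ?_)
      rw [pos_rv, pos_rv]
      simp only [pos_l, NN]
      omega
  have h2 : ∀ s : K, Lev (M := M) hσ (rt b a hab.symm s) ∈ Subgroup.closure {g : GG σ r M | g ∈ Subgroup.normalizer ((Rad σ (cA r M a) : Subgroup (GG σ r M)) : Set (GG σ r M)) ∧ ∃ e : ℕ, g ^ p ^ e = 1} := by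
    intro s
    rw [Lev_rt]
    refine Subgroup.subset_closure ⟨Par_le_norm ?_, 2, Xg_pow p _⟩
    refine X_mem_Par _ (fun _ => ?_) (fun h0 => absurd rfl h0)
    constructor
    · have e1 : cA r M a (Sum.inl a) = a := fA_a (by omega)
      have e2 : cA r M a (Sum.inl b) = a := by
        show fA (NN r M) a (b : ℕ) = a
        rw [← hadj]
        exact fA_a1
      rw [e1, e2]
      exact lt_irrefl _
    · have e1 : cA r M a (rv (Sum.inl a)) = NN r M - 2 - a := by
        show fA (NN r M) a (pos (rv (Sum.inl a : IU r M))) = _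
        rw [pos_rv]
        exact fA_d1 (by omega)
      have e2 : cA r M a (rv (Sum.inl b)) = NN r M - 2 - a := by
        show fA (NN r M) a (pos (rv (Sum.inl b : IU r M))) = _
        rw [pos_rv]
        have e3 : NN r M - 1 - pos (Sum.inl b : IU r M) = NN r M - 2 - a := by
          simp only [pos_l]
          omega
        rw [e3]
        exact fA_d2 (by omega)
      rw [e1, e2]
      exact lt_irrefl _
  refine Subgroup.subset_closure ⟨B0U_le_norm (Lev_isUp hσ hh_mem_B0), Rad σ (cA r M a), ⟨a, ha, rfl⟩, ?_⟩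
  rw [hh_eq, map_mul, map_mul, map_mul, map_mul, map_mul]
  exact Subgroup.mul_mem _ (Subgroup.mul_mem _ (Subgroup.mul_mem _ (Subgroup.mul_mem _ (Subgroup.mul_mem _ (h1 _) (h2 _)) (h1 _)) (h1 _)) (h2 _)) (h1 _)

theorem Lev_Dgen_mem (hσ : ∀ a, σ (σ a) = a) {A : SLn r K} (hA : A ∈ Dgen r K) : Lev (M := M) hσ A ∈ WWU p σ r M := by
  have : Dgen r K ≤ (WWU p σ r M).comap (Lev (M := M) hσ) := by
    rw [Dgen, Subgroup.closure_le]
    rintro g ⟨a, b, hadj, hab, t, ht, rfl⟩
    exact Lev_hh_mem hσ hadj hab ht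
  exact this hA

/-- Norm equations. -/
theorem exists_a (hσ : ∀ a, σ (σ a) = a) (hσ1 : σ ≠ RingHom.id K) (b : K) : ∃ a, b + σ b + a * σ a = 0 := by
  by_cases h0 : b + σ b = 0
  · exact ⟨0, by rw [h0]; simp⟩
  · obtain ⟨l, hl⟩ := Cfsg.Agent.Lib.Classical.exists_norm_eq σ hσ1 hσ (-(b + σ b)) (neg_ne_zero.2 h0) (by
      rw [map_neg, map_add, hσ, add_comm])
    exact ⟨l, by rw [hl]; ring⟩

/-- The last torus element. -/
theorem exists_hLt (hσ : ∀ a, σ (σ a) = a) (hσ1 : σ ≠ RingHom.id K) (hr : 2 ≤ r) (L : Fin r) (hL : (L : ℕ) + 1 = r) {t : K} (ht : t ≠ 0) (hcase : Nonempty M ∨ σ t = t) :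
    ∃ h ∈ WWU p σ r M, IsUpU (mt h) ∧ ∀ i : Fin r, mt h (Sum.inl i) (Sum.inl i) = if i = L then t else 1 := by
  let i : IU r M := Sum.inl L
  have hii : i ≠ rv i := inl_ne_rv _ _
  have hc1 : cA r M L i = cA r M L (rv i) := by
    have e1 : cA r M L i = L := fA_a (by
      simp only [NN]
      omega)
    have e2 : cA r M L (rv i) = L := by
      show fA (NN r M) L (pos (rv i)) = L
      have e3 : pos (rv i) = NN r M - 1 - L := pos_rv i
      rw [e3, fA]
      by_cases hc : Fintype.card M = 0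
      · rw [if_pos (by simp only [NN]; omega)]
      · have hc1 : Fintype.card M ≤ 1 := Fintype.card_le_one_iff_subsingleton.2 inferInstance
        rw [if_neg (by simp only [NN]; omega), if_pos rfl, if_pos (by simp only [NN]; omega)]
    rw [e1, e2]
  have key : ∀ (b b' : K) (j : IU r M) (a a' : K) (hb0 : b ≠ 0) (hb'0 : b' ≠ 0) (h1 : ROK σ i j a b) (h2 : ROK σ i j a' b') (hj : j = rv j ∨ a = 0) (hj' : j = rv j ∨ a' = 0)
      (hc2 : a ≠ 0 → cA r M L j = cA r M L i) (hc2' : a' ≠ 0 → cA r M L j = cA r M L i)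
      (hv : ∀ x : Fin r, wM σ i j b (Sum.inl x) * wM σ i j b' (swp i (Sum.inl x)) = if x = L then t else 1), 
      ∃ h ∈ WWU p σ r M, IsUpU (mt h) ∧ ∀ i : Fin r, mt h (Sum.inl i) (Sum.inl i) = if i = L then t else 1 := by
    intro b b' j a a' hb0 hb'0 h1 h2 hj hj' hc2 hc2' hv
    obtain ⟨w1, hw1, hw1m⟩ := W_mem (p := p) h1 hb0 hj (c := cA r M L) hc1 hc2
    obtain ⟨w2, hw2, hw2m⟩ := W_mem (p := p) h2 hb'0 hj' (c := cA r M L) hc1 hc2'
    have hup : IsUpU (mt (w1 * w2)) := by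
      intro x y hxy
      rw [mt_mul, hw1m, hw2m, monM_mul_apply h1.hii h1.hij h1.hji hb0 hb'0, if_neg]
      rintro rfl
      exact lt_irrefl _ hxy
    refine ⟨w1 * w2, Subgroup.subset_closure ⟨B0U_le_norm hup, Rad σ (cA r M L), ⟨L, L.2, rfl⟩, Subgroup.mul_mem _ hw1 hw2⟩, hup, fun x => ?_⟩
    rw [mt_mul, hw1m, hw2m, monM_mul_apply h1.hii h1.hij h1.hji hb0 hb'0, if_pos rfl]
    exact hv x
  have hNe : ∀ x : Fin r, x ≠ L → (Sum.inl x : IU r M) ≠ i := fun x hx e => hx (Sum.inl.inj e)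
  have hNr : ∀ x : Fin r, (Sum.inl x : IU r M) ≠ rv i := fun x => inl_ne_rv _ _
  have hs : ∀ x : Fin r, x ≠ L → swp i (Sum.inl x : IU r M) = Sum.inl x := fun x hx => by
    rw [swp, if_neg (hNe x hx), if_neg (hNr x)]
  have hsL : swp i i = rv i := by
    rw [swp, if_pos rfl]
  by_cases hMn : Nonempty M
  · obtain ⟨m⟩ := hMn
    let j : IU r M := Sum.inr (Sum.inl m)
    have hjj : j = rv j := rfl
    have hij : i ≠ j := inl_ne_mid _ _
    have hji : j ≠ rv i := mid_ne_rv _ _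
    obtain ⟨a, ha⟩ := exists_a hσ hσ1 t
    obtain ⟨a', ha'⟩ := exists_a hσ hσ1 (1 : K)
    have h1 : ROK σ i j a t := ⟨hσ, hij, hji, hii, by rw [if_pos hjj]; exact ha⟩
    have h2 : ROK σ i j a' 1 := ⟨hσ, hij, hji, hii, by rw [if_pos hjj]; exact ha'⟩
    have hci : cA r M L i = L := fA_a (by
      simp only [NN]
      omega)
    have hcj : cA r M L j = L := by
      show fA (NN r M) L r = L
      have h3 := fA_a1 (N := NN r M) (a := (L : ℕ))
      rwa [hL] at h3
    refine key t 1 j a a' ht one_ne_zero h1 h2 (Or.inl hjj) (Or.inl hjj) (fun _ => by rw [hcj, hci]) (fun _ => by rw [hcj, hci]) (fun x => ?_)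
    by_cases hx : x = L
    · subst hx
      rw [if_pos rfl]
      show wM σ i j t i * wM σ i j 1 (swp i i) = t
      rw [hsL, wM, if_pos rfl, wM, if_neg hii.symm, if_pos rfl, map_one, inv_one, mul_one]
    · have hxj : (Sum.inl x : IU r M) ≠ j := inl_ne_mid _ _
      rw [if_neg hx, hs x hx, wM, wM, if_neg (hNe x hx), if_neg (hNr x), if_neg hxj, if_neg (hNe x hx), if_neg (hNr x), if_neg hxj, one_mul]
  · have hst : σ t = t := hcase.resolve_left hMn
    obtain ⟨τ, hτ0, hτ⟩ := exists_tau hσ hσ1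
    obtain ⟨j, hj1, hj2⟩ := exists_j (M := M) hr i
    have hστ : σ τ = -τ := by linear_combination hτ
    have h1 : ROK σ i j 0 (t * τ) := ⟨hσ, Ne.symm hj1, hj2, hii, by
      rw [map_mul, hst, hστ]
      simp⟩
    have h2 : ROK σ i j 0 (σ τ) := ⟨hσ, Ne.symm hj1, hj2, hii, by
      rw [hσ, hστ]
      simp⟩
    have hb0 : t * τ ≠ 0 := mul_ne_zero ht hτ0
    have hb1 : σ τ ≠ 0 := (map_ne_zero σ).2 hτ0
    refine key (t * τ) (σ τ) j 0 0 hb0 hb1 h1 h2 (Or.inr rfl) (Or.inr rfl) (fun h0 => absurd rfl h0) (fun h0 => absurd rfl h0) (fun x => ?_)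
    by_cases hx : x = L
    · subst hx
      rw [if_pos rfl]
      show wM σ i j (t * τ) i * wM σ i j (σ τ) (swp i i) = t
      rw [hsL, wM, if_pos rfl, wM, if_neg hii.symm, if_pos rfl, hσ]
      field_simp
    · rw [if_neg hx, hs x hx, wM, wM, if_neg (hNe x hx), if_neg (hNr x), if_neg (hNe x hx), if_neg (hNr x)]
      by_cases hxj : (Sum.inl x : IU r M) = j
      · rw [if_pos hxj, if_pos hxj, map_mul, hst, hσ, hστ]
        field_simp
      · rw [if_neg hxj, if_neg hxj, one_mul]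

/-- The normalizer of the unitriangular group is generated as needed. -/
theorem norm_le_WWU (hσ : ∀ a, σ (σ a) = a) (hσ1 : σ ≠ RingHom.id K) (hr : 2 ≤ r) {g : GG σ r M}
    (hg : g ∈ Subgroup.normalizer ((U0U σ r M : Subgroup (GG σ r M)) : Set (GG σ r M))) : g ∈ WWU p σ r M := by
  classical
  have hup := isUp_of_norm hσ hσ1 hr g hg
  let L : Fin r := ⟨r - 1, by omega⟩
  have hL : (L : ℕ) + 1 = r := by
    show r - 1 + 1 = r
    omega
  let c : Fin r → K := fun i => mt g (Sum.inl i) (Sum.inl i)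
  have hne : ∀ i, c i ≠ 0 := by
    intro i h0
    have := diag_rel hup (Sum.inl i)
    rw [show mt g (Sum.inl i) (Sum.inl i) = 0 from h0, zero_mul] at this
    exact zero_ne_one this
  have hrr : ∀ i : Fin r, mt g (Sum.inr (Sum.inr i)) (Sum.inr (Sum.inr i)) = (σ (c i))⁻¹ := by
    intro i
    have h1 := diag_rel hup (Sum.inl i)
    have h2 := congrArg σ h1
    rw [map_mul, hσ, map_one] at h2
    exact eq_inv_of_mul_eq_one_right h2
  let t : K := ∏ i, c i
  have ht : t ≠ 0 := Finset.prod_ne_zero_iff.2 (fun i _ => hne i)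
  let c' : Fin r → K := fun i => c i * (if i = L then t⁻¹ else 1)
  have hdet : ∏ i, c' i = 1 := by
    rw [Finset.prod_mul_distrib, Finset.prod_ite_eq']
    simp [ht, t]
  let d' : SLn r K := ⟨Matrix.diagonal c', by rw [Matrix.det_diagonal, hdet]⟩
  have hd1 : IsDg d' := fun i j hij => Matrix.diagonal_apply_ne _ hij
  have hd2 : d' ∈ B0 r K := fun i j hij => Matrix.diagonal_apply_ne _ hij.ne'
  have hLd := Lev_Dgen_mem (M := M) (p := p) hσ (dg_mem hd1)
  have hcase : Nonempty M ∨ σ t = t := by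
    by_cases hMn : Nonempty M
    · exact Or.inl hMn
    · right
      haveI : IsEmpty M := not_nonempty_iff.1 hMn
      have h1 : (mt g).det = 1 := g.1.2
      rw [det_up hup, Fintype.prod_sum_type, Fintype.prod_sum_type] at h1
      simp only [Finset.univ_eq_empty, Finset.prod_empty, one_mul] at h1
      have h2 : ∏ i : Fin r, mt g (Sum.inr (Sum.inr i)) (Sum.inr (Sum.inr i)) = (σ t)⁻¹ := by
        rw [Finset.prod_congr rfl (fun i _ => hrr i), Finset.prod_inv_distrib, map_prod]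
      rw [h2] at h1
      have hst : σ t ≠ 0 := (map_ne_zero σ).2 ht
      have h3 : t * (σ t)⁻¹ = 1 := h1
      field_simp at h3
      exact h3.symm
  obtain ⟨h, hhW, hhU, hhd⟩ := exists_hLt (M := M) (p := p) hσ hσ1 hr L hL ht hcase
  set w := Lev (M := M) hσ d' * h with hw
  have hwU : IsUpU (mt w) := (Lev_isUp hσ hd2).mul hhU
  have hwB : w ∈ B0U σ r M := hwU
  have hgB : g ∈ B0U σ r M := hup
  have hv : w⁻¹ * g ∈ B0U σ r M := (B0U σ r M).mul_mem ((B0U σ r M).inv_mem hwB) hgB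
  have hwd : ∀ i : Fin r, mt w (Sum.inl i) (Sum.inl i) = c i := by
    intro i
    have e1 : mt w (Sum.inl i) (Sum.inl i) = mt (Lev (M := M) hσ d') (Sum.inl i) (Sum.inl i) * mt h (Sum.inl i) (Sum.inl i) :=
      (Lev_isUp hσ hd2).mul_diag hhU _
    rw [e1, Lev_diag, hhd]
    show Matrix.diagonal c' i i * _ = _
    rw [Matrix.diagonal_apply_eq]
    by_cases hi : i = L
    · simp only [c', hi, if_true]
      rw [mul_assoc, inv_mul_cancel₀ ht, mul_one]
    · simp only [c', hi, if_false, mul_one]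
  have hvl : ∀ i : Fin r, mt (w⁻¹ * g) (Sum.inl i) (Sum.inl i) = 1 := by
    intro i
    have e : g = w * (w⁻¹ * g) := by group
    have e1 : mt g (Sum.inl i) (Sum.inl i) = mt w (Sum.inl i) (Sum.inl i) * mt (w⁻¹ * g) (Sum.inl i) (Sum.inl i) := by
      have e2 : mt g = mt w * mt (w⁻¹ * g) := congrArg mt e
      conv_lhs => rw [e2]
      exact hwU.mul_diag hv _
    rw [hwd] at e1
    exact mul_left_cancel₀ (hne i) (by rw [mul_one]; exact e1.symm)
  have hvr : ∀ i : Fin r, mt (w⁻¹ * g) (Sum.inr (Sum.inr i)) (Sum.inr (Sum.inr i)) = 1 := by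
    intro i
    have h1 := diag_rel hv (Sum.inl i)
    rw [hvl, one_mul] at h1
    have h2 := congrArg σ h1
    rw [hσ, map_one] at h2
    exact h2
  have hvU : w⁻¹ * g ∈ U0U σ r M := by
    rw [mem_U0U]
    refine ⟨hv, ?_⟩
    rintro (i | m | i)
    · exact hvl i
    · have h1 : (mt (w⁻¹ * g)).det = 1 := (w⁻¹ * g).1.2
      rw [det_up hv, Fintype.prod_sum_type, Fintype.prod_sum_type, Fintype.prod_subsingleton _ m] at h1
      simp only [hvl, hvr, Finset.prod_const_one, one_mul, mul_one] at h1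
      exact h1
    · exact hvr i
  have e : g = (Lev (M := M) hσ d' * h) * (w⁻¹ * g) := by
    rw [← hw]
    group
  rw [e]
  exact (WWU p σ r M).mul_mem ((WWU p σ r M).mul_mem hLd hhW) (U0U_le_WWU (by omega) hvU)

end Fin

end Cfsg.Agent.Lib.Fusion.SUF
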