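/-
A nontrivial subgroup of the unitriangular group closed under conjugation in the special unitary group is everything.
-/
import Cfsg.Agent.Lib.Fusion.UTorus
import Cfsg.Agent.Lib.Basic.Nilpotent

set_option autoImplicit false
set_option linter.unusedSectionVars false
set_option linter.unusedVariables false
set_option linter.unusedSimpArgs false
set_option linter.style.haveILetI false

namespace Cfsg.Agent.Lib.Fusion.SUF

open Matrix Cfsg.Agent.Lib.Fusion.PSLF

variable {K : Type*} [Field K] {r : ℕ} {M : Type} [Fintype M] [DecidableEq M] {σ : K →+* K}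

variable {a b : Fin r} {hab : a ≠ b} {τ : K}

theorem rt1_mul (B : Matrix (Fin r) (Fin r) K) (x y : Fin r) : ((rt a b hab τ).1 * B) x y = B x y + if x = a then τ * B b y else 0 := by
  rw [rt_val, add_mul, one_mul, Matrix.add_apply]
  split_ifs with h
  · subst h
    rw [Matrix.single_mul_apply_same]
  · rw [Matrix.single_mul_apply_of_ne _ _ _ _ _ h, add_zero]

theorem mul_rt1 (B : Matrix (Fin r) (Fin r) K) (x y : Fin r) : (B * (rt a b hab τ).1) x y = B x y + if y = b then B x a * τ else 0 := by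
  rw [rt_val, mul_add, mul_one, Matrix.add_apply]
  split_ifs with h
  · subst h
    rw [Matrix.mul_single_apply_same]
  · rw [Matrix.mul_single_apply_of_ne _ _ _ _ _ h, add_zero]

theorem rt_cT : cT σ (rt a b hab τ).1 = (rt b a hab.symm (σ τ)).1 := by
  rw [rt_val, rt_val, cT_add, cT_one, cT_single]

/-- The conjugation formula. -/
theorem conj_rt_apply (B : Matrix (Fin r) (Fin r) K) (x y : Fin r) :
    ((rt a b hab τ).1 * B * cT σ (rt a b hab τ).1) x y =
      B x y + (if x = a then τ * B b y else 0) + (if y = a then (B x b + if x = a then τ * B b b else 0) * σ τ else 0) := by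
  rw [rt_cT, mul_rt1, rt1_mul, rt1_mul]

theorem cT_diagonal {d : Fin r → K} : cT σ (Matrix.diagonal d) = Matrix.diagonal (fun i => σ (d i)) := by
  ext x y
  rw [cT_apply]
  by_cases h : x = y
  · subst h
    simp
  · rw [Matrix.diagonal_apply_ne _ (Ne.symm h), Matrix.diagonal_apply_ne _ h, map_zero]

theorem conj_diag_apply {d : Fin r → K} (B : Matrix (Fin r) (Fin r) K) (x y : Fin r) :
    (Matrix.diagonal d * B * cT σ (Matrix.diagonal d)) x y = d x * B x y * σ (d y) := by
  rw [cT_diagonal, Matrix.mul_diagonal, Matrix.diagonal_mul]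

section Fin
variable [Fintype K] [Subsingleton M]

theorem vok0_iff {B : Matrix (Fin r) (Fin r) K} : VOK σ (0 : Matrix (Fin r) M K) B ↔ B + cT σ B = 0 := by
  rw [VOK, cT_zero, Matrix.zero_mul, add_zero]

variable {T : Subgroup (GG σ r M)}

/-- A block is in `T`. -/
def InT (hσ : ∀ a, σ (σ a) = a) (T : Subgroup (GG σ r M)) (B : Matrix (Fin r) (Fin r) K) : Prop :=
  ∃ h : VOK σ (0 : Matrix (Fin r) M K) B, xV hσ 0 B h ∈ T

variable {hσ : ∀ a, σ (σ a) = a}

theorem xB_mul {B C : Matrix (Fin r) (Fin r) K} (h : VOK σ (0 : Matrix (Fin r) M K) B) (h' : VOK σ (0 : Matrix (Fin r) M K) C) (h'' : VOK σ (0 : Matrix (Fin r) M K) (B + C)) :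
    xV hσ 0 B h * xV hσ 0 C h' = xV hσ 0 (B + C) h'' := by
  apply mt_ext
  rw [mt_mul, mt_xV, mt_xV, mt_xV, XV_mul]
  simp

theorem InT.add {B C : Matrix (Fin r) (Fin r) K} (hB : InT hσ T B) (hC : InT hσ T C) : InT hσ T (B + C) := by
  obtain ⟨h, hx⟩ := hB
  obtain ⟨h', hx'⟩ := hC
  have h'' : VOK σ (0 : Matrix (Fin r) M K) (B + C) := by
    rw [vok0_iff] at h h' ⊢
    rw [cT_add]
    calc B + C + (cT σ B + cT σ C) = (B + cT σ B) + (C + cT σ C) := by abel
      _ = 0 := by rw [h, h', add_zero]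
  refine ⟨h'', ?_⟩
  rw [← xB_mul h h' h'']
  exact T.mul_mem hx hx'

theorem xB_zero (h : VOK σ (0 : Matrix (Fin r) M K) 0) : xV hσ 0 0 h = 1 := by
  apply mt_ext
  rw [mt_xV, XV, cT_zero, neg_zero, mt_one, one_eq_bk]

theorem InT_zero : InT hσ T 0 := by
  have h : VOK σ (0 : Matrix (Fin r) M K) 0 := by
    rw [vok0_iff, cT_zero, add_zero]
  exact ⟨h, by rw [xB_zero]; exact T.one_mem⟩

theorem InT.neg {B : Matrix (Fin r) (Fin r) K} (hB : InT hσ T B) : InT hσ T (-B) := by
  obtain ⟨h, hx⟩ := hB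
  have h' : VOK σ (0 : Matrix (Fin r) M K) (-B) := by
    rw [vok0_iff] at h ⊢
    rw [cT_neg, ← neg_add, h, neg_zero]
  refine ⟨h', ?_⟩
  have h0 : VOK σ (0 : Matrix (Fin r) M K) (B + -B) := by
    rw [vok0_iff, add_neg_cancel, cT_zero, add_zero]
  have e : xV hσ 0 B h * xV hσ 0 (-B) h' = 1 := by
    rw [xB_mul h h' h0]
    apply mt_ext
    rw [mt_xV, add_neg_cancel, XV, cT_zero, neg_zero, mt_one, one_eq_bk]
  rw [← inv_eq_of_mul_eq_one_right e]
  exact T.inv_mem hx

theorem InT.sub {B C : Matrix (Fin r) (Fin r) K} (hB : InT hσ T B) (hC : InT hσ T C) : InT hσ T (B - C) := by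
  rw [sub_eq_add_neg]
  exact hB.add hC.neg

variable (hTU : T ≤ U0U σ r M) (hcl : ∀ t ∈ T, ∀ h : GG σ r M, h * t * h⁻¹ ∈ U0U σ r M → h * t * h⁻¹ ∈ T)

include hcl in
theorem InT.conj (C : SLn r K) {B : Matrix (Fin r) (Fin r) K} (hB : InT hσ T B) : InT hσ T (C.1 * B * cT σ C.1) := by
  obtain ⟨h, hx⟩ := hB
  have h1 := vok_conj hσ C h
  rw [Matrix.mul_zero] at h1
  refine ⟨h1, ?_⟩
  have e : Lev hσ C * xV hσ 0 B h * (Lev hσ C)⁻¹ = xV hσ 0 (C.1 * B * cT σ C.1) h1 := by
    have h2 := vok_conj hσ C h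
    rw [Lev_conj_xV hσ C h h2]
    apply mt_ext
    rw [mt_xV, mt_xV, Matrix.mul_zero]
  rw [← e]
  apply hcl _ hx
  rw [e]
  exact xV_mem _ _

include hcl in
/-- Scaling a long root. -/
theorem InT_scale {j k : Fin r} (hjk : j ≠ k) {s : K} (h : InT hσ T (Matrix.single j j s)) {c : K} (hc : c ≠ 0) : InT hσ T (Matrix.single j j (c * σ c * s)) := by
  have := InT.conj hcl (hh j k hjk c hc) h
  convert this using 1
  rw [hh_val]
  ext x y
  rw [conj_diag_apply, Matrix.single_apply, Matrix.single_apply]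
  by_cases h1 : j = x ∧ j = y
  · obtain ⟨rfl, rfl⟩ := h1
    simp only [and_self, if_true]
    ring
  · simp only [h1, if_false, mul_zero, zero_mul]

include hcl in
/-- All multiples of a long root. -/
theorem InT_all (hσ1 : σ ≠ RingHom.id K) {j k : Fin r} (hjk : j ≠ k) {s : K} (hs : s ≠ 0) (hss : σ s = -s) (h : InT hσ T (Matrix.single j j s)) {v : K} (hv : σ v = -v) : InT hσ T (Matrix.single j j v) := by
  by_cases hv0 : v = 0
  · rw [hv0, Matrix.single_zero]
    exact InT_zero
  obtain ⟨l, hl⟩ := Cfsg.Agent.Lib.Classical.exists_norm_eq σ hσ1 hσ (v / s) (div_ne_zero hv0 hs) (by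
    rw [map_div₀, hv, hss]
    field_simp)
  have hl0 : l ≠ 0 := by
    rintro rfl
    rw [zero_mul] at hl
    exact (div_ne_zero hv0 hs) hl.symm
  have := InT_scale hcl hjk h hl0
  rwa [hl, div_mul_cancel₀ _ hs] at this

include hcl in
/-- Moving a long root. -/
theorem InT_move {j k : Fin r} (hjk : j ≠ k) {t : K} (h : InT hσ T (Matrix.single j j t)) : InT hσ T (Matrix.single k k t) := by
  have := InT.conj hcl (rt j k hjk (-1)) (InT.conj hcl (rt k j hjk.symm 1) h)
  convert this using 1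
  ext x y
  simp only [conj_rt_apply, map_neg, map_one]
  have hxc : x = j ∨ x = k ∨ (x ≠ j ∧ x ≠ k) := by tauto
  have hyc : y = j ∨ y = k ∨ (y ≠ j ∧ y ≠ k) := by tauto
  rcases hxc with rfl | rfl | ⟨hx1, hx2⟩ <;> rcases hyc with rfl | rfl | ⟨hy1, hy2⟩ <;>
    simp [Matrix.single_apply, hjk, hjk.symm, Ne.symm, *]

/-- Short root matrices. -/
def sP (σ : K →+* K) (j k : Fin r) (v : K) : Matrix (Fin r) (Fin r) K := Matrix.single j k v + Matrix.single k j (-σ v)

include hcl in
/-- Short roots from long roots. -/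
theorem InT_short (hσ1 : σ ≠ RingHom.id K) {j k : Fin r} (hjk : j ≠ k) (hL : ∀ (i : Fin r) (t : K), σ t = -t → InT hσ T (Matrix.single i i t)) (v : K) : InT hσ T (sP σ j k v) := by
  obtain ⟨t, ht0, ht⟩ := exists_tau hσ hσ1
  have hst : σ t = -t := by linear_combination ht
  obtain ⟨s, hv⟩ : ∃ s : K, s * t = v := ⟨v / t, div_mul_cancel₀ v ht0⟩
  subst hv
  have h1 : σ (t * s * σ s) = -(t * s * σ s) := by
    rw [map_mul, map_mul, hst, hσ]
    ring
  have := ((InT.conj hcl (rt j k hjk s) (hL k t hst)).sub (hL k t hst)).sub (hL j _ h1)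
  convert this using 1
  ext x y
  simp only [Matrix.sub_apply, conj_rt_apply, sP, Matrix.add_apply]
  have hσv : -σ (s * t) = t * σ s := by
    rw [map_mul, hst]
    ring
  rw [hσv]
  have hxc : x = j ∨ x = k ∨ (x ≠ j ∧ x ≠ k) := by tauto
  have hyc : y = j ∨ y = k ∨ (y ≠ j ∧ y ≠ k) := by tauto
  rcases hxc with rfl | rfl | ⟨hx1, hx2⟩ <;> rcases hyc with rfl | rfl | ⟨hy1, hy2⟩ <;>
    simp [Matrix.single_apply, hjk, hjk.symm, Ne.symm, *]
  all_goals ring

include hTU hcl in
/-- A central element of `U0U` in `T`. -/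
theorem exists_central_mem (p : ℕ) [hp : Fact p.Prime] [hc : CharP K p] (hne : T ≠ ⊥) : ∃ z ∈ T, z ≠ 1 ∧ ∀ u ∈ U0U σ r M, u * z = z * u := by
  have hpU : IsPGroup p (U0U σ r M) := fun u => ⟨NN r M, Subtype.ext (exists_pow_U0U' u.2)⟩
  haveI : Group.IsNilpotent (U0U σ r M) := hpU.isNilpotent
  let N : Subgroup (U0U σ r M) := T.subgroupOf (U0U σ r M)
  haveI hNn : N.Normal := by
    constructor
    intro b hb g
    show ((g * b * g⁻¹ : U0U σ r M) : GG σ r M) ∈ T
    exact hcl _ hb _ (g * b * g⁻¹).2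
  have hNne : N ≠ ⊥ := by
    intro h
    apply hne
    rw [eq_bot_iff]
    intro x hx
    have : (⟨x, hTU hx⟩ : U0U σ r M) ∈ N := hx
    rw [h, Subgroup.mem_bot] at this
    have h2 := congrArg Subtype.val this
    simpa using h2
  have h1 := Cfsg.Agent.Lib.Basic.normal_inf_center_ne_bot N hNne
  rcases Subgroup.bot_or_exists_ne_one (N ⊓ Subgroup.center (U0U σ r M)) with h2 | ⟨z, hz, hz1⟩
  · exact absurd h2 h1
  · refine ⟨z.1, hz.1, fun e => hz1 (Subtype.ext e), fun u hu => ?_⟩
    have := (Subgroup.mem_center_iff.1 hz.2) ⟨u, hu⟩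
    exact congrArg Subtype.val this

/-- A central element of `U0U` is a long root element. -/
theorem central_form (hσ1 : σ ≠ RingHom.id K) (hr : 2 ≤ r) (i0 : Fin r) (hi0 : (i0 : ℕ) = 0) {z : GG σ r M} (hzU : z ∈ U0U σ r M) (hcomm : ∀ u ∈ U0U σ r M, u * z = z * u) :
    ∃ (α : K) (h : VOK σ (0 : Matrix (Fin r) M K) (Matrix.single i0 i0 α)), z = xV hσ 0 (Matrix.single i0 i0 α) h := by
  obtain ⟨hz1, hz2⟩ := mem_U0U.1 hzU
  let x0 : IU r M := Sum.inl i0
  have hx0 : x0 ≠ rv x0 := inl_ne_rv _ _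
  have hNN : 2 * r ≤ NN r M := by
    simp only [NN]
    omega
  have hpx0 : pos x0 = 0 := hi0
  have hpl : pos (rv x0) = NN r M - 1 := by
    rw [pos_rv, hpx0]
    omega
  obtain ⟨τ, hτ0, hτ⟩ := exists_tau hσ hσ1
  have hlast : ∀ w, w ≠ rv x0 → mt z (rv x0) w = 0 := by
    intro w hw
    obtain ⟨j, hj1, hj2⟩ := exists_j hr x0
    have hL : ROK σ x0 j 0 τ := ⟨hσ, Ne.symm hj1, hj2, hx0, by
      simp only [zero_mul, ite_self, add_zero]
      exact hτ⟩
    have hm : Xg hL ∈ U0U σ r M := X_mem_Rad hL (fun h0 => absurd rfl h0) (fun _ => by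
      rw [hpx0, hpl]
      omega)
    exact (comm_L hL hτ0 (hcomm _ hm)).2.1 w hw
  have hroot : ∀ (j : IU r M) (hj1 : j ≠ x0) (hj2 : j ≠ rv x0) (s : K) (b : K) (hb : ROK σ x0 j s b) (w : IU r M),
      s * mt z j w + b * mt z (rv x0) w = (if w = j then s else 0) + (if w = rv x0 then mt z x0 (rv j) * (-σ s) + b else 0) := by
    intro j hj1 hj2 s b hb w
    have hm : Xg hb ∈ U0U σ r M := X_mem_Rad hb (fun _ => by
      have h1 : pos j ≠ 0 := fun e => hj1 (pos_inj (by rw [e, hpx0]))
      have h2 : pos j ≠ NN r M - 1 := fun e => hj2 (pos_inj (by rw [e, hpl]))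
      have h3 := pos_lt j
      constructor
      · omega
      · rw [pos_rv j, hpl]
        omega) (fun _ => by
      rw [hpx0, hpl]
      omega)
    have e := comm_X hb (hcomm _ hm) x0 w
    rw [if_pos rfl, if_neg (fun e => hj2 (by rw [e, rv_rv])), hz2 x0] at e
    simp only [one_mul, add_zero, mul_one] at e
    exact e
  have hrow : ∀ (j : IU r M), j ≠ x0 → j ≠ rv x0 → ∀ w, w ≠ j → w ≠ rv x0 → mt z j w = 0 := by
    intro j hj1 hj2 w hw1 hw2
    obtain ⟨b, hb, -⟩ := exists_rok hσ hσ1 (Ne.symm hj1) hj2 hx0 (1 : K)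
    have e := hroot j hj1 hj2 1 b hb w
    rw [hlast w hw2, if_neg hw1, if_neg hw2] at e
    simpa using e
  obtain ⟨s0, hs0⟩ : ∃ c, σ c ≠ c := by
    by_contra h
    push Not at h
    apply hσ1
    ext a
    simpa using h a
  have hcol : ∀ (j : IU r M), j ≠ x0 → j ≠ rv x0 → mt z x0 (rv j) = 0 ∧ mt z j (rv x0) = 0 := by
    intro j hj1 hj2
    have hlz : mt z (rv x0) (rv x0) = 1 := hz2 _
    obtain ⟨b, hb, -⟩ := exists_rok hσ hσ1 (Ne.symm hj1) hj2 hx0 (1 : K)
    obtain ⟨b', hb', -⟩ := exists_rok hσ hσ1 (Ne.symm hj1) hj2 hx0 s0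
    have e1 := hroot j hj1 hj2 1 b hb (rv x0)
    have e2 := hroot j hj1 hj2 s0 b' hb' (rv x0)
    rw [hlz, if_neg (Ne.symm hj2), if_pos rfl] at e1 e2
    rw [map_one] at e1
    have e3 : mt z j (rv x0) = - mt z x0 (rv j) := by linear_combination e1
    rw [e3] at e2
    have e4 : (σ s0 - s0) * mt z x0 (rv j) = 0 := by
      linear_combination e2
    have e5 : mt z x0 (rv j) = 0 := (mul_eq_zero.1 e4).resolve_left (sub_ne_zero.2 hs0)
    exact ⟨e5, by rw [e3, e5, neg_zero]⟩
  set α := mt z x0 (rv x0) with hα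
  have hn1 : rv x0 ≠ x0 := Ne.symm hx0
  have hform : ∀ x y, mt z x y = (1 : Matrix (IU r M) (IU r M) K) x y + if x = x0 ∧ y = rv x0 then α else 0 := by
    intro x y
    by_cases hx0' : x = x0
    · rw [hx0']
      by_cases hy1 : y = x0
      · rw [hy1, hz2, Matrix.one_apply_eq, if_neg (fun e => hx0 e.2), add_zero]
      · by_cases hy2 : y = rv x0
        · rw [hy2, if_pos ⟨rfl, rfl⟩, Matrix.one_apply_ne hx0, zero_add]
        · have h1 := (hcol (rv y) (fun e => hy2 (by rw [← e, rv_rv])) (fun e => hy1 (rv_inj e))).1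
          rw [rv_rv] at h1
          rw [h1, Matrix.one_apply_ne (Ne.symm hy1), if_neg (fun e => hy2 e.2), zero_add]
    · by_cases hx1 : x = rv x0
      · rw [hx1]
        by_cases hy : y = rv x0
        · rw [hy, hz2, Matrix.one_apply_eq, if_neg (fun e => hn1 e.1), add_zero]
        · rw [hlast y hy, Matrix.one_apply_ne (Ne.symm hy), if_neg (fun e => hy e.2), zero_add]
      · by_cases hyx : y = x
        · rw [hyx, hz2, Matrix.one_apply_eq, if_neg (fun e => hx0' e.1), add_zero]
        · by_cases hy2 : y = rv x0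
          · rw [hy2, (hcol x hx0' hx1).2, Matrix.one_apply_ne hx1, if_neg (fun e => hx0' e.1), zero_add]
          · rw [hrow x hx0' hx1 y hyx hy2, Matrix.one_apply_ne (Ne.symm hyx), if_neg (fun e => hx0' e.1), zero_add]
  have hbk : mt z = bk 1 0 (Matrix.single i0 i0 α) 0 1 0 0 0 1 := by
    ext (x | x | x) (y | y | y) <;> rw [hform]
    · have : ¬ ((Sum.inl x : IU r M) = x0 ∧ (Sum.inl y : IU r M) = rv x0) := fun e => by cases e.2
      rw [if_neg this, add_zero]
      simp [bk, Matrix.one_apply]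
    · have : ¬ ((Sum.inl x : IU r M) = x0 ∧ (Sum.inr (Sum.inl y) : IU r M) = rv x0) := fun e => by cases e.2
      rw [if_neg this, add_zero]
      simp [bk, Matrix.one_apply]
    · rw [Matrix.one_apply_ne (by intro e; cases e), zero_add]
      show _ = Matrix.single i0 i0 α x y
      rw [Matrix.single_apply]
      by_cases h1 : x = i0 ∧ y = i0
      · obtain ⟨rfl, rfl⟩ := h1
        rw [if_pos ⟨rfl, rfl⟩, if_pos ⟨rfl, rfl⟩]
      · rw [if_neg (fun e => h1 ⟨Sum.inl.inj e.1, by
          have h2 : (Sum.inr (Sum.inr y) : IU r M) = Sum.inr (Sum.inr i0) := e.2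
          exact Sum.inr.inj (Sum.inr.inj h2)⟩), if_neg (fun e => h1 ⟨e.1.symm, e.2.symm⟩)]
    · have : ¬ ((Sum.inr (Sum.inl x) : IU r M) = x0 ∧ (Sum.inl y : IU r M) = rv x0) := fun e => by cases e.2
      rw [if_neg this, add_zero]
      simp [bk, Matrix.one_apply]
    · have : ¬ ((Sum.inr (Sum.inl x) : IU r M) = x0 ∧ (Sum.inr (Sum.inl y) : IU r M) = rv x0) := fun e => by cases e.2
      rw [if_neg this, add_zero]
      simp [bk, Matrix.one_apply]
    · have : ¬ ((Sum.inr (Sum.inl x) : IU r M) = x0 ∧ (Sum.inr (Sum.inr y) : IU r M) = rv x0) := fun e => Sum.inl_ne_inr.symm e.1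
      rw [if_neg this, add_zero]
      simp [bk, Matrix.one_apply]
    · have : ¬ ((Sum.inr (Sum.inr x) : IU r M) = x0 ∧ (Sum.inl y : IU r M) = rv x0) := fun e => Sum.inl_ne_inr.symm e.1
      rw [if_neg this, add_zero]
      simp [bk, Matrix.one_apply]
    · have : ¬ ((Sum.inr (Sum.inr x) : IU r M) = x0 ∧ (Sum.inr (Sum.inl y) : IU r M) = rv x0) := fun e => Sum.inl_ne_inr.symm e.1
      rw [if_neg this, add_zero]
      simp [bk, Matrix.one_apply]
    · have : ¬ ((Sum.inr (Sum.inr x) : IU r M) = x0 ∧ (Sum.inr (Sum.inr y) : IU r M) = rv x0) := fun e => Sum.inl_ne_inr.symm e.1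
      rw [if_neg this, add_zero]
      simp [bk, Matrix.one_apply]
  have H : IsU σ (bk 1 0 (Matrix.single i0 i0 α) 0 1 0 0 0 1) := hbk ▸ mem_GJ z
  obtain ⟨-, -, h3⟩ := block_xV hσ H
  refine ⟨α, h3, mt_ext ?_⟩
  rw [hbk, mt_xV, XV, cT_zero, neg_zero]

/-- Conjugation by a monomial element. -/
theorem mon_conj {i l j0 : IU r M} (hii : i ≠ rv i) (hl1 : l ≠ i) (hl2 : l ≠ rv i) (hl3 : l ≠ rv l) {t : K} (ht : t ≠ 0) (hst : σ t = -t) (v : K) :
    monM σ i j0 t * XM σ l (rv i) v 0 = XM σ l i (v / t) 0 * monM σ i j0 t := by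
  have hst0 : σ t ≠ 0 := (map_ne_zero σ).2 ht
  have h0 : -(σ t / t) - 1 = 0 := by
    rw [hst]
    field_simp
    ring
  have hsv : σ (v / t) = σ v / σ t := map_div₀ σ v t
  ext x y
  rw [mul_XM_apply, XM_mul_apply, rv_rv]
  simp only [monM_apply, h0, ite_self, add_zero, hsv, zero_mul, mul_zero]
  have n1 : rv i ≠ i := hii.symm
  have n2 : i ≠ l := hl1.symm
  have n3 : rv i ≠ l := hl2.symm
  have n4 : rv l ≠ i := fun e => hl2 (by rw [← e, rv_rv])
  have n5 : i ≠ rv l := n4.symm
  have n6 : rv l ≠ rv i := fun e => hl1 (rv_inj e)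
  have n7 : rv i ≠ rv l := n6.symm
  have n8 : rv l ≠ l := hl3.symm
  have hxc : x = i ∨ x = rv i ∨ x = l ∨ x = rv l ∨ (x ≠ i ∧ x ≠ rv i ∧ x ≠ l ∧ x ≠ rv l) := by tauto
  have hyc : y = i ∨ y = rv i ∨ y = l ∨ y = rv l ∨ (y ≠ i ∧ y ≠ rv i ∧ y ≠ l ∧ y ≠ rv l) := by tauto
  rcases hxc with rfl | rfl | rfl | rfl | ⟨hx1, hx2, hx3, hx4⟩ <;> rcases hyc with rfl | rfl | rfl | rfl | ⟨hy1, hy2, hy3, hy4⟩ <;>
    (try have hx1' := Ne.symm hx1) <;> (try have hx2' := Ne.symm hx2) <;> (try have hx3' := Ne.symm hx3) <;> (try have hx4' := Ne.symm hx4) <;>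
    (try have hy1' := Ne.symm hy1) <;> (try have hy2' := Ne.symm hy2) <;> (try have hy3' := Ne.symm hy3) <;> (try have hy4' := Ne.symm hy4) <;>
    simp [Matrix.one_apply, *]
  all_goals first | ring1 | (field_simp; done) | (field_simp; ring1)

/-- The matrix of an element of the radical with a short root block. -/
theorem XV_sP {j k : Fin r} (hjk : j ≠ k) (v : K) : XV (σ := σ) (0 : Matrix (Fin r) M K) (sP σ j k v) = XM σ (Sum.inl j : IU r M) (rv (Sum.inl k)) v 0 := by
  ext (x | x | x) (y | y | y) <;>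
  simp [XV, bk, XM_apply, sP, cT_zero, Matrix.one_apply, Matrix.single_apply, rv, eq_comm, and_comm]

theorem vok_sP (hσ : ∀ a, σ (σ a) = a) (j k : Fin r) (v : K) : VOK σ (0 : Matrix (Fin r) M K) (sP σ j k v) := by
  rw [vok0_iff, sP, cT_add, cT_single, cT_single, map_neg, hσ]
  rw [← Matrix.single_neg, ← Matrix.single_neg]
  abel

/-- A symmetric decomposition. -/
theorem anti_decomp (hσ : ∀ a, σ (σ a) = a) {B : Matrix (Fin r) (Fin r) K} (h : B + cT σ B = 0) :
    B = ∑ j, ∑ k, (if j < k then sP σ j k (B j k) else if j = k then Matrix.single j j (B j j) else 0) := by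
  classical
  set F : Fin r → Fin r → Matrix (Fin r) (Fin r) K := fun j k => if j < k then sP σ j k (B j k) else if j = k then Matrix.single j j (B j j) else 0 with hF
  have hanti : ∀ x y, B x y + σ (B y x) = 0 := fun x y => by
    have := congrFun (congrFun h x) y
    rw [Matrix.add_apply, cT_apply] at this
    exact this
  have hle : ∀ x y, x ≤ y → (∑ j, ∑ k, F j k x y) = B x y := by
    intro x y hxy
    rw [Finset.sum_eq_single x, Finset.sum_eq_single y]
    · simp only [hF]
      rcases lt_or_eq_of_le hxy with h1 | h1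
      · rw [if_pos h1]
        simp [sP, Matrix.single_apply, h1.ne, h1.ne']
      · subst h1
        simp
    · intro k _ hk
      simp only [hF]
      split_ifs with h1 h2
      · simp [sP, Matrix.single_apply, hk, Ne.symm hk, h1.ne, h1.ne']
      · subst h2
        simp [Matrix.single_apply, hk, Ne.symm hk]
      · rfl
    · simp
    · intro j _ hj
      apply Finset.sum_eq_zero
      intro k _
      simp only [hF]
      split_ifs with h1 h2
      · simp only [sP, Matrix.add_apply, Matrix.single_apply]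
        rw [if_neg (fun e => hj e.1), if_neg (fun e : k = x ∧ j = y => by
          rw [e.1, e.2] at h1
          exact absurd h1 (not_lt.2 hxy)), add_zero]
      · subst h2
        simp [Matrix.single_apply, hj]
      · rfl
    · simp
  have hgt : ∀ x y, y < x → (∑ j, ∑ k, F j k x y) = B x y := by
    intro x y hxy
    rw [Finset.sum_eq_single y, Finset.sum_eq_single x]
    · simp only [hF]
      rw [if_pos hxy]
      have e : (sP σ y x (B y x)) x y = -σ (B y x) := by
        simp [sP, Matrix.single_apply, hxy.ne, hxy.ne']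
      rw [e]
      linear_combination -hanti x y
    · intro k _ hk
      simp only [hF]
      split_ifs with h1 h2
      · simp [sP, Matrix.single_apply, hxy.ne, hxy.ne', hk]
      · subst h2
        simp [Matrix.single_apply, hxy.ne]
      · rfl
    · simp
    · intro j _ hj
      apply Finset.sum_eq_zero
      intro k _
      simp only [hF]
      split_ifs with h1 h2
      · simp only [sP, Matrix.add_apply, Matrix.single_apply]
        rw [if_neg (fun e : j = x ∧ k = y => by
          rw [e.1, e.2] at h1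
          exact absurd h1 (not_lt.2 hxy.le)), if_neg (fun e : k = x ∧ j = y => hj e.2), add_zero]
      · subst h2
        simp only [Matrix.single_apply]
        rw [if_neg (fun e : j = x ∧ j = y => hj e.2)]
      · rfl
    · simp
  ext x y
  rw [Matrix.sum_apply]
  simp only [Matrix.sum_apply]
  show B x y = ∑ j, ∑ k, F j k x y
  rcases le_or_gt x y with hxy | hxy
  · rw [hle x y hxy]
  · rw [hgt x y hxy]

section Last

include hTU hcl in
/-- All long and short root blocks and all Levi root elements. -/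
theorem closed_levi (p : ℕ) [hp : Fact p.Prime] [hc : CharP K p] (hσ1 : σ ≠ RingHom.id K) (hr : 2 ≤ r) (hne : T ≠ ⊥) :
    (∀ B : Matrix (Fin r) (Fin r) K, B + cT σ B = 0 → InT hσ T B) ∧ ∀ A ∈ U0 r K, Lev (M := M) hσ A ∈ T := by
  classical
  let i0 : Fin r := ⟨0, by omega⟩
  let i1 : Fin r := ⟨1, by omega⟩
  have h01 : i0 ≠ i1 := by
    intro e
    have := congrArg Fin.val e
    simp [i0, i1] at this
  obtain ⟨z, hzT, hz1, hcomm⟩ := exists_central_mem hTU hcl p hne
  obtain ⟨α, h, rfl⟩ := central_form (hσ := hσ) hσ1 hr i0 rfl (hTU hzT) hcomm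
  have hα0 : α ≠ 0 := by
    rintro rfl
    apply hz1
    apply mt_ext
    rw [mt_xV, mt_one, Matrix.single_zero, XV, cT_zero, neg_zero, one_eq_bk]
  have hIn : InT hσ T (Matrix.single i0 i0 α) := ⟨h, hzT⟩
  have hαs : σ α = -α := by
    rw [vok0_iff, cT_single] at h
    have h1 := congrFun (congrFun h i0) i0
    simp only [Matrix.add_apply, Matrix.single_apply_same, Matrix.zero_apply] at h1
    linear_combination h1
  have hex2 : ∀ j : Fin r, ∃ k, k ≠ j := by
    intro j
    by_cases h0 : j = i0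
    · exact ⟨i1, by rw [h0]; exact h01.symm⟩
    · exact ⟨i0, Ne.symm h0⟩
  have hL : ∀ (k : Fin r) (t : K), σ t = -t → InT hσ T (Matrix.single k k t) := by
    intro k t ht
    obtain ⟨k0, hk0⟩ := hex2 i0
    have h1 := InT_all hcl hσ1 hk0.symm hα0 hαs hIn ht
    by_cases hk : k = i0
    · rw [hk]
      exact h1
    · exact InT_move hcl (Ne.symm hk) h1
  have hS : ∀ j k : Fin r, j ≠ k → ∀ v : K, InT hσ T (sP σ j k v) := fun j k hjk v => InT_short hcl hσ1 hjk hL v
  refine ⟨?_, ?_⟩
  · intro B h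
    rw [anti_decomp hσ h]
    refine Finset.sum_induction _ (InT hσ T) (fun a b ha hb => ha.add hb) InT_zero (fun j _ => ?_)
    refine Finset.sum_induction _ (InT hσ T) (fun a b ha hb => ha.add hb) InT_zero (fun k _ => ?_)
    split_ifs with h1 h2
    · exact hS j k h1.ne _
    · have h3 := congrFun (congrFun h j) j
      rw [Matrix.add_apply, cT_apply] at h3
      exact hL _ _ (by
        simp only [Matrix.zero_apply] at h3
        linear_combination h3)
    · exact InT_zero
  · obtain ⟨t, ht0, ht⟩ := exists_tau hσ hσ1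
    have hst : σ t = -t := by linear_combination ht
    have hE : ∀ (c d : Fin r) (h : c < d) (v : K), Lev (M := M) hσ (rt c d h.ne v) ∈ T := by
      intro c d hcd v
      obtain ⟨h0, hx⟩ := hS c d hcd.ne (v * t)
      let i : IU r M := Sum.inl d
      have hii : i ≠ rv i := inl_ne_rv _ _
      obtain ⟨j, hj1, hj2⟩ := exists_j (M := M) hr i
      have hrok : ROK σ i j 0 t := ⟨hσ, Ne.symm hj1, hj2, hii, by
        simp only [zero_mul, ite_self, add_zero]
        exact ht⟩
      obtain ⟨W, -, hW⟩ := W_mem (p := p) (c := fun _ => 0) hrok ht0 (Or.inr rfl) rfl (fun _ => rfl)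
      have hl1 : (Sum.inl c : IU r M) ≠ i := fun e => hcd.ne (Sum.inl.inj e)
      have hl2 : (Sum.inl c : IU r M) ≠ rv i := inl_ne_rv _ _
      have hl3 : (Sum.inl c : IU r M) ≠ rv (Sum.inl c) := inl_ne_rv _ _
      have key := mon_conj (j0 := j) hii hl1 hl2 hl3 ht0 hst (v * t)
      have e1 : W * xV hσ 0 (sP σ c d (v * t)) h0 = Lev (M := M) hσ (rt c d hcd.ne v) * W := by
        apply mt_ext
        rw [mt_mul, mt_mul, hW, mt_xV, XV_sP hcd.ne, Lev_rt, mt_Xg, key]
        congr 2
        field_simp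
      have e2 : W * xV hσ 0 (sP σ c d (v * t)) h0 * W⁻¹ = Lev (M := M) hσ (rt c d hcd.ne v) := by
        rw [e1]
        group
      rw [← e2]
      apply hcl _ hx
      rw [e2, Lev_rt]
      refine X_mem_Rad _ (fun _ => ?_) (fun h0 => absurd rfl h0)
      have hcd' : (c : ℕ) < d := hcd
      constructor
      · exact hcd'
      · rw [pos_rv, pos_rv]
        have := pos_lt (Sum.inl d : IU r M)
        simp only [pos_l] at *
        omega
    intro A hA
    have h1 : Gen r K ≤ T.comap (Lev (M := M) hσ) := by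
      rw [Gen, Subgroup.closure_le]
      rintro g ⟨c, d, h, t, rfl⟩
      exact hE c d h t
    exact h1 (U0_le_Gen hA)

end Last

end Fin

end Cfsg.Agent.Lib.Fusion.SUF
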