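/-
A nontrivial subgroup of the unitriangular group closed under conjugation contains the whole group: the middle part.
-/
import Cfsg.Agent.Lib.Fusion.UClosed

set_option autoImplicit false
set_option linter.unusedSectionVars false
set_option linter.unusedVariables false
set_option linter.unusedSimpArgs false
set_option linter.style.haveILetI false

namespace Cfsg.Agent.Lib.Fusion.SUF

open Matrix Cfsg.Agent.Lib.Fusion.PSLF

variable {K : Type*} [Field K] {r : ℕ} {M : Type} [Fintype M] [DecidableEq M] {σ : K →+* K}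

variable [Fintype K] [Subsingleton M]

variable {T : Subgroup (GG σ r M)} {hσ : ∀ a, σ (σ a) = a}

/-- A middle part is in `T`. -/
def InV (hσ : ∀ a, σ (σ a) = a) (T : Subgroup (GG σ r M)) (a : Matrix (Fin r) M K) : Prop :=
  ∃ B, ∃ h : VOK σ a B, xV hσ a B h ∈ T

variable {a a' : Matrix (Fin r) M K} {B B' : Matrix (Fin r) (Fin r) K}

theorem vok_add (hσ : ∀ a, σ (σ a) = a) (h : VOK σ a B) (h' : VOK σ a' B') : VOK σ (a + a') (B + B' - a * cT σ a') := by
  rw [VOK] at *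
  have e : cT σ (B + B' - a * cT σ a') = cT σ B + cT σ B' - a' * cT σ a := by
    rw [sub_eq_add_neg, cT_add, cT_add, cT_neg, cT_mul, cT_cT hσ, ← sub_eq_add_neg]
  rw [e, cT_add, Matrix.add_mul, Matrix.mul_add, Matrix.mul_add]
  have e2 : B + B' - a * cT σ a' + (cT σ B + cT σ B' - a' * cT σ a) + (a * cT σ a + a * cT σ a' + (a' * cT σ a + a' * cT σ a')) = (B + cT σ B + a * cT σ a) + (B' + cT σ B' + a' * cT σ a') := by
    abel
  rw [e2, h, h', add_zero]

theorem vok_neg (hσ : ∀ a, σ (σ a) = a) (h : VOK σ a B) : VOK σ (-a) (cT σ B) := by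
  rw [VOK] at *
  rw [cT_cT hσ, cT_neg, Matrix.neg_mul, Matrix.mul_neg, neg_neg]
  rw [← h]
  abel

theorem xV_inv (h : VOK σ a B) (h' : VOK σ (-a) (cT σ B)) : (xV hσ a B h)⁻¹ = xV hσ (-a) (cT σ B) h' := by
  apply inv_eq_of_mul_eq_one_right
  apply mt_ext
  rw [mt_mul, mt_xV, mt_xV, XV_mul, mt_one, cT_neg, Matrix.mul_neg, sub_neg_eq_add, h, add_neg_cancel]
  rw [XV, cT_zero, neg_zero, one_eq_bk]

theorem InV.add (ha : InV hσ T a) (ha' : InV hσ T a') : InV hσ T (a + a') := by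
  obtain ⟨B, h, hx⟩ := ha
  obtain ⟨B', h', hx'⟩ := ha'
  refine ⟨_, vok_add hσ h h', ?_⟩
  rw [← xV_mul hσ h h']
  exact T.mul_mem hx hx'

theorem InV.neg (ha : InV hσ T a) : InV hσ T (-a) := by
  obtain ⟨B, h, hx⟩ := ha
  refine ⟨_, vok_neg hσ h, ?_⟩
  rw [← xV_inv h]
  exact T.inv_mem hx

theorem InV.sub (ha : InV hσ T a) (ha' : InV hσ T a') : InV hσ T (a - a') := by
  rw [sub_eq_add_neg]
  exact ha.add ha'.neg

theorem vok_zero : VOK σ (0 : Matrix (Fin r) M K) 0 := by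
  rw [VOK, cT_zero]
  simp

theorem InV_zero : InV hσ T 0 := by
  refine ⟨0, vok_zero, ?_⟩
  rw [xB_zero]
  exact T.one_mem

variable (hTU : T ≤ U0U σ r M) (hcl : ∀ t ∈ T, ∀ h : GG σ r M, h * t * h⁻¹ ∈ U0U σ r M → h * t * h⁻¹ ∈ T)

include hcl in
theorem InV.conj (C : SLn r K) (ha : InV hσ T a) : InV hσ T (C.1 * a) := by
  obtain ⟨B, h, hx⟩ := ha
  refine ⟨_, vok_conj hσ C h, ?_⟩
  rw [← Lev_conj_xV hσ C h]
  apply hcl _ hx
  rw [Lev_conj_xV hσ C h (vok_conj hσ C h)]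
  exact xV_mem _ _

theorem vok_base (hσ1 : σ ≠ RingHom.id K) (hσ : ∀ a, σ (σ a) = a) (j : Fin r) (m : M) : ∃ κ, VOK σ (Matrix.single j m (1 : K)) (Matrix.single j j κ) := by
  obtain ⟨κ, hκ⟩ := Cfsg.Agent.Lib.Classical.exists_trace_eq σ hσ1 hσ (-1) (by simp)
  refine ⟨κ, ?_⟩
  rw [VOK, cT_single, cT_single, map_one, Matrix.single_mul_single_same, mul_one, ← Matrix.single_add, ← Matrix.single_add, hκ]
  simp

include hTU hcl in
theorem InV_base (hlev : ∀ A ∈ U0 r K, Lev (M := M) hσ A ∈ T) (hσ1 : σ ≠ RingHom.id K) {i j : Fin r} (hij : i < j) (m : M) (s : K) :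
    InV hσ T (Matrix.single i m s) := by
  obtain ⟨κ, hκ⟩ := vok_base hσ1 hσ j m
  set a₁ : Matrix (Fin r) M K := Matrix.single j m 1 with ha₁
  set B₁ : Matrix (Fin r) (Fin r) K := Matrix.single j j κ with hB₁
  set C : SLn r K := rt i j hij.ne s with hC
  have hg : Lev (M := M) hσ C ∈ T := hlev _ (rt_mem_U0 hij s)
  set u := xV hσ a₁ B₁ hκ with hu
  have h1 : u * (Lev (M := M) hσ C)⁻¹ * u⁻¹ ∈ T := by
    apply hcl _ (T.inv_mem hg)
    have h2 : u ∈ U0U σ r M := xV_mem _ _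
    exact (U0U σ r M).mul_mem ((U0U σ r M).mul_mem h2 ((U0U σ r M).inv_mem (hTU hg))) ((U0U σ r M).inv_mem h2)
  have h3 := T.mul_mem hg h1
  have hv1 := vok_conj hσ C hκ
  have hv2 := vok_neg hσ hκ
  have hv3 := vok_add hσ hv1 hv2
  have h4 : Lev (M := M) hσ C * (u * (Lev (M := M) hσ C)⁻¹ * u⁻¹) = xV hσ _ _ hv3 := by
    rw [← xV_mul hσ hv1 hv2, ← Lev_conj_xV hσ C hκ hv1, ← xV_inv hκ hv2]
    group
    rfl
  rw [h4] at h3
  have h5 : C.1 * a₁ + -a₁ = Matrix.single i m s := by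
    rw [hC, rt_val, Matrix.add_mul, Matrix.one_mul, ha₁, Matrix.single_mul_single_same, mul_one]
    abel
  rw [← h5]
  exact ⟨_, hv3, h3⟩

include hTU hcl in
theorem InV_all (hlev : ∀ A ∈ U0 r K, Lev (M := M) hσ A ∈ T) (hσ1 : σ ≠ RingHom.id K) (hr : 2 ≤ r) (a : Matrix (Fin r) M K) : InV hσ T a := by
  let i0 : Fin r := ⟨0, by omega⟩
  let i1 : Fin r := ⟨1, by omega⟩
  have h01 : i0 < i1 := by
    show (0 : ℕ) < 1
    omega
  have hb : ∀ (m : M) (s : K), InV hσ T (Matrix.single i0 m s) := fun m s => InV_base hTU hcl hlev hσ1 h01 m s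
  have hb' : ∀ (i : Fin r) (m : M) (s : K), InV hσ T (Matrix.single i m s) := by
    intro i m s
    by_cases hi : i = i0
    · rw [hi]
      exact hb m s
    · have h1 := (hb m s).conj hcl (rt i i0 hi (1 : K))
      have h2 := h1.sub (hb m s)
      have h3 : (rt i i0 hi (1 : K)).1 * Matrix.single i0 m s - Matrix.single i0 m s = Matrix.single i m s := by
        rw [rt_val, Matrix.add_mul, Matrix.one_mul, Matrix.single_mul_single_same, one_mul]
        abel
      rw [h3] at h2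
      exact h2
  rw [Matrix.matrix_eq_sum_single a]
  refine Finset.sum_induction _ (InV hσ T) (fun a b ha hb => ha.add hb) InV_zero (fun j _ => ?_)
  refine Finset.sum_induction _ (InV hσ T) (fun a b ha hb => ha.add hb) InV_zero (fun k _ => ?_)
  exact hb' _ _ _

include hTU hcl in
/-- The main theorem on closed subgroups. -/
theorem U0U_le_of_closed (hσ : ∀ a, σ (σ a) = a) (p : ℕ) [hp : Fact p.Prime] [hc : CharP K p] (hσ1 : σ ≠ RingHom.id K) (hr : 2 ≤ r) (hne : T ≠ ⊥) :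
    U0U σ r M ≤ T := by
  obtain ⟨hB, hL⟩ := closed_levi (hσ := hσ) hTU hcl p hσ1 hr hne
  intro u hu
  obtain ⟨A, a, B, h, hA, rfl⟩ := exists_decomp hσ hu
  refine T.mul_mem (hL A hA) ?_
  obtain ⟨B', h', hx⟩ := InV_all (hσ := hσ) hTU hcl hL hσ1 hr a
  have hC : B - B' + cT σ (B - B') = 0 := by
    rw [VOK] at h h'
    rw [sub_eq_add_neg, cT_add, cT_neg]
    have e : B + -B' + (cT σ B + -cT σ B') = (B + cT σ B + a * cT σ a) - (B' + cT σ B' + a * cT σ a) := by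
      abel
    rw [e, h, h', sub_zero]
  obtain ⟨h0, hx0⟩ := hB _ hC
  have e : xV hσ a B h = xV hσ a B' h' * xV hσ 0 (B - B') h0 := by
    apply mt_ext
    rw [mt_mul, mt_xV, mt_xV, mt_xV, XV_mul]
    simp [cT_zero]
  rw [e]
  exact T.mul_mem hx hx0

theorem U0U_ne_bot (hσ : ∀ a, σ (σ a) = a) (hσ1 : σ ≠ RingHom.id K) (hr : 2 ≤ r) : U0U σ r M ≠ ⊥ := by
  obtain ⟨t, ht0, ht⟩ := exists_tau hσ hσ1
  let i0 : Fin r := ⟨0, by omega⟩
  have hv : VOK σ (0 : Matrix (Fin r) M K) (Matrix.single i0 i0 t) := by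
    rw [vok0_iff, cT_single, ← Matrix.single_add, ht]
    simp
  intro h
  have h1 : xV hσ 0 _ hv ∈ U0U σ r M := xV_mem _ _
  rw [h, Subgroup.mem_bot] at h1
  have h2 := congrArg mt h1
  rw [mt_xV, mt_one] at h2
  have h3 := congrFun (congrFun h2 (Sum.inl i0)) (Sum.inr (Sum.inr i0))
  have h4 : XV (σ := σ) (0 : Matrix (Fin r) M K) (Matrix.single i0 i0 t) (Sum.inl i0) (Sum.inr (Sum.inr i0)) = t := by
    show (Matrix.single i0 i0 t) i0 i0 = t
    simp
  rw [h4, Matrix.one_apply_ne (by simp)] at h3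
  exact ht0 h3

end Cfsg.Agent.Lib.Fusion.SUF
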