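/-
The special unitary group of the antidiagonal form is isomorphic to the special unitary group of the standard form.
-/
import Cfsg.Agent.Lib.Fusion.UClosed2
import Cfsg.Agent.Lib.Classical.Herm

set_option autoImplicit false
set_option linter.unusedSectionVars false
set_option linter.unusedVariables false
set_option linter.unusedSimpArgs false
set_option linter.style.haveILetI false

namespace Cfsg.Agent.Lib.Fusion.SUF

open Matrix Cfsg.Agent.Lib.Fusion.PSLF Cfsg.Agent.Lib.Classical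

variable {K : Type*} [Field K] {r : ℕ} {M : Type} [Fintype M] [DecidableEq M] {σ : K →+* K}

theorem Jm_mul_Jm : Jm r M K * Jm r M K = 1 := by
  ext x y
  rw [mul_Jm_apply, Jm_apply, Matrix.one_apply]
  by_cases h : x = y
  · rw [if_pos h, if_pos (by rw [h])]
  · rw [if_neg h, if_neg (fun e => h (rv_inj e).symm)]

theorem Jm_transpose : (Jm r M K)ᵀ = Jm r M K := by
  ext x y
  rw [Matrix.transpose_apply, Jm_apply, Jm_apply]
  by_cases h : x = rv y
  · rw [if_pos h, if_pos (rv_eq_iff.2 h).symm]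
  · rw [if_neg h, if_neg (fun e => h (by rw [e, rv_rv]))]

theorem isU_iff_dual {A : Matrix (IU r M) (IU r M) K} : IsU σ A ↔ cT σ A * Jm r M K * A = Jm r M K := by
  rw [IsU]
  constructor
  · intro h
    have h1 : A * (Jm r M K * cT σ A * Jm r M K) = 1 := by
      simp only [← Matrix.mul_assoc]
      rw [h, Jm_mul_Jm]
    have h2 := mul_eq_one_comm.1 h1
    calc cT σ A * Jm r M K * A = Jm r M K * (Jm r M K * cT σ A * Jm r M K * A) := by
          simp only [← Matrix.mul_assoc]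
          rw [Jm_mul_Jm, Matrix.one_mul]
      _ = Jm r M K := by rw [h2, Matrix.mul_one]
  · intro h
    have h1 : (Jm r M K * cT σ A * Jm r M K) * A = 1 := by
      simp only [Matrix.mul_assoc]
      rw [← Matrix.mul_assoc (cT σ A) (Jm r M K) A, h, Jm_mul_Jm]
    have h2 := mul_eq_one_comm.1 h1
    calc A * Jm r M K * cT σ A = (A * (Jm r M K * cT σ A * Jm r M K)) * Jm r M K := by
          simp only [Matrix.mul_assoc]
          rw [Jm_mul_Jm, Matrix.mul_one]
      _ = Jm r M K := by rw [h2, Matrix.one_mul]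

/-- The form of the antidiagonal matrix. -/
def Fm (σ : K →+* K) (u v : IU r M → K) : K := ∑ x, u x * σ (v (rv x))

/-- The conjugate of a vector. -/
def cV (σ : K →+* K) (v : IU r M → K) : IU r M → K := fun x => σ (v x)

theorem Jm_mulVec (w : IU r M → K) (x : IU r M) : (Jm r M K *ᵥ w) x = w (rv x) := by
  simp only [Matrix.mulVec, dotProduct, Jm_apply]
  simp

theorem Fm_eq (u v : IU r M → K) : Fm σ u v = u ⬝ᵥ (Jm r M K *ᵥ cV σ v) := by
  simp only [Fm, dotProduct, Jm_mulVec, cV]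

theorem cV_mulVec (A : Matrix (IU r M) (IU r M) K) (v : IU r M → K) : cV σ (A *ᵥ v) = A.map σ *ᵥ cV σ v := by
  ext x
  simp only [cV, Matrix.mulVec, dotProduct, map_sum, map_mul, Matrix.map_apply]

theorem Fm_mulVec (A : Matrix (IU r M) (IU r M) K) (u v : IU r M → K) :
    Fm σ (A *ᵥ u) (A *ᵥ v) = u ⬝ᵥ ((Aᵀ * Jm r M K * A.map σ) *ᵥ cV σ v) := by
  rw [Fm_eq, cV_mulVec, Matrix.mulVec_mulVec]
  rw [← Matrix.vecMul_transpose, ← Matrix.dotProduct_mulVec, Matrix.mulVec_mulVec, Matrix.mul_assoc]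

theorem transpose_dual (A : Matrix (IU r M) (IU r M) K) : (cT σ A * Jm r M K * A)ᵀ = Aᵀ * Jm r M K * A.map σ := by
  rw [Matrix.transpose_mul, Matrix.transpose_mul, Jm_transpose, cT, Matrix.transpose_transpose, Matrix.mul_assoc]

theorem Fm_of_isU {A : Matrix (IU r M) (IU r M) K} (h : IsU σ A) (u v : IU r M → K) : Fm σ (A *ᵥ u) (A *ᵥ v) = Fm σ u v := by
  rw [Fm_mulVec, ← transpose_dual, isU_iff_dual.1 h, Jm_transpose, Fm_eq]

theorem isU_of_Fm (hσ : ∀ a, σ (σ a) = a) {A : Matrix (IU r M) (IU r M) K} (h : ∀ u v, Fm σ (A *ᵥ u) (A *ᵥ v) = Fm σ u v) : IsU σ A := by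
  rw [isU_iff_dual, ← Matrix.transpose_inj, transpose_dual, Jm_transpose]
  ext k l
  have h1 := h (Pi.single k 1) (cV σ (Pi.single l 1))
  have e : cV σ (cV σ (Pi.single l (1 : K))) = (Pi.single l 1 : IU r M → K) := by
    funext x
    simp only [cV, hσ]
  rw [Fm_mulVec, Fm_eq, e, single_one_dotProduct, single_one_dotProduct, Matrix.mulVec_single_one, Matrix.mulVec_single_one] at h1
  exact h1

variable {q : ℕ} [Fintype K]

/-- The sesquilinear map of the form. -/
noncomputable def Bm (hF : Fintype.card K = q ^ 2) : (IU r M → K) →ₛₗ[frobQ hF] (IU r M → K) →ₗ[K] K :=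
  LinearMap.mk₂'ₛₗ (frobQ hF) (RingHom.id K) (fun u v => Fm (frobQ hF) v u)
    (fun u u' v => by
      simp only [Fm, Pi.add_apply, map_add, mul_add, Finset.sum_add_distrib])
    (fun c u v => by
      simp only [Fm, Pi.smul_apply, smul_eq_mul, map_mul, Finset.mul_sum]
      refine Finset.sum_congr rfl (fun x _ => ?_)
      ring)
    (fun u v v' => by
      simp only [Fm, Pi.add_apply, add_mul, Finset.sum_add_distrib])
    (fun c u v => by
      simp only [Fm, Pi.smul_apply, smul_eq_mul, RingHom.id_apply, Finset.mul_sum, mul_assoc])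

theorem Bm_apply (hF : Fintype.card K = q ^ 2) (u v : IU r M → K) : Bm hF u v = Fm (frobQ hF) v u := rfl

theorem Fm_sum_rv (f : IU r M → K) : ∑ x, f (rv x) = ∑ x, f x := by
  refine Fintype.sum_equiv ⟨rv, rv, rv_rv, rv_rv⟩ _ _ (fun x => rfl)

theorem exists_isometry (hF : Fintype.card K = q ^ 2) (n : ℕ) (hn : n = NN r M) :
    ∃ f : (Fin n → K) ≃ₗ[K] (IU r M → K), ∀ u v, Fm (frobQ hF) (f u) (f v) = Cfsg.hermForm n K q u v := by
  have hσ := frobQ_frobQ hF
  have hS : (Bm (r := r) (M := M) hF).IsSymm := by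
    refine ⟨fun x y => ?_⟩
    simp only [Bm_apply, Fm, map_sum, map_mul, hσ]
    rw [← Fm_sum_rv]
    refine Finset.sum_congr rfl (fun z _ => ?_)
    rw [rv_rv, mul_comm]
  have hnd : (Bm (r := r) (M := M) hF).Nondegenerate := by
    constructor
    · intro x hx
      funext z
      have h1 := hx (Pi.single (rv z) 1)
      rw [Bm_apply, Fm] at h1
      rw [Finset.sum_eq_single (rv z)] at h1
      · rw [Pi.single_eq_same, one_mul, rv_rv] at h1
        simpa using h1
      · intro b _ hb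
        rw [Pi.single_eq_of_ne hb, zero_mul]
      · simp
    · intro y hy
      funext z
      have h1 := hy (Pi.single (rv z) 1)
      rw [Bm_apply, Fm] at h1
      rw [Finset.sum_eq_single z] at h1
      · rw [Pi.single_eq_same, map_one, mul_one] at h1
        exact h1
      · intro b _ hb
        rw [Pi.single_eq_of_ne (fun e => hb (rv_inj e)), map_zero, mul_zero]
      · simp
  obtain ⟨b, hb⟩ := exists_orthonormal_basis (frobQ hF) (frobQ_ne_id hF) (frobQ_frobQ hF) n (IU r M → K) (Bm hF) hS hnd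
    (by
      rw [Module.finrank_fintype_fun_eq_card, hn, Fintype.card_sum, Fintype.card_sum, Fintype.card_fin]
      show _ = 2 * r + Fintype.card M
      omega)
  let g : (Fin n → K) ≃ₗ[K] (IU r M → K) := (Pi.basisFun K (Fin n)).equiv b (Equiv.refl _)
  have hg : ∀ x : Fin n → K, g x = ∑ i, x i • b i := by
    intro x
    have h1 : x = ∑ i, x i • Pi.single i 1 := by
      have := (Pi.basisFun K (Fin n)).sum_repr x
      simpa using this.symm
    conv_lhs => rw [h1]
    rw [map_sum]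
    refine Finset.sum_congr rfl (fun i _ => ?_)
    rw [map_smul]
    have h2 := (Pi.basisFun K (Fin n)).equiv_apply i b (Equiv.refl _)
    simp only [Pi.basisFun_apply, Equiv.refl_apply] at h2
    rw [h2]
  refine ⟨g, fun u v => ?_⟩
  rw [← Bm_apply, hg, hg]
  simp only [map_sum, LinearMap.map_smulₛₗ, LinearMap.sum_apply, LinearMap.smul_apply, smul_eq_mul, hb, frobQ_apply hF]
  rw [Cfsg.hermForm]
  refine Finset.sum_congr rfl (fun i _ => ?_)
  rw [Finset.sum_eq_single i]
  · simp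
  · intro j _ hj
    simp [hj]
  · simp

/-- The matrix of a linear equivalence. -/
noncomputable def Pm {n : ℕ} (f : (Fin n → K) ≃ₗ[K] (IU r M → K)) : Matrix (IU r M) (Fin n) K :=
  LinearMap.toMatrix' f.toLinearMap

/-- The matrix of the inverse of a linear equivalence. -/
noncomputable def Qm {n : ℕ} (f : (Fin n → K) ≃ₗ[K] (IU r M → K)) : Matrix (Fin n) (IU r M) K :=
  LinearMap.toMatrix' f.symm.toLinearMap

variable {n : ℕ} (f : (Fin n → K) ≃ₗ[K] (IU r M → K))

theorem Pm_mulVec (u : Fin n → K) : Pm f *ᵥ u = f u := LinearMap.toMatrix'_mulVec _ _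

theorem Qm_mulVec (u : IU r M → K) : Qm f *ᵥ u = f.symm u := LinearMap.toMatrix'_mulVec _ _

theorem Pm_mul_Qm : Pm f * Qm f = 1 := by
  rw [Pm, Qm, ← LinearMap.toMatrix'_comp]
  have : f.toLinearMap ∘ₗ f.symm.toLinearMap = LinearMap.id := by
    ext x
    simp
  rw [this, LinearMap.toMatrix'_id]

theorem Qm_mul_Pm : Qm f * Pm f = 1 := by
  rw [Pm, Qm, ← LinearMap.toMatrix'_comp]
  have : f.symm.toLinearMap ∘ₗ f.toLinearMap = LinearMap.id := by
    ext x
    simp
  rw [this, LinearMap.toMatrix'_id]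

variable {hF : Fintype.card K = q ^ 2} (hf : ∀ u v, Fm (frobQ hF) (f u) (f v) = Cfsg.hermForm n K q u v)

/-- The isomorphism of the two unitary groups. -/
noncomputable def uEquiv : GG (frobQ hF) r M ≃* ↥(Cfsg.SU n K q) where
  toFun g := ⟨⟨Qm f * mt g * Pm f, by
      rw [Matrix.det_conj_of_mul_eq_one (Qm_mul_Pm f) (Pm_mul_Qm f)]
      exact g.1.2⟩, by
      intro u v
      show Cfsg.hermForm n K q ((Qm f * mt g * Pm f) *ᵥ u) ((Qm f * mt g * Pm f) *ᵥ v) = _
      have h1 : ∀ x, f ((Qm f * mt g * Pm f) *ᵥ x) = mt g *ᵥ (f x) := by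
        intro x
        rw [← Pm_mulVec, ← Pm_mulVec, Matrix.mulVec_mulVec, Matrix.mulVec_mulVec]
        simp only [← Matrix.mul_assoc]
        rw [Pm_mul_Qm, Matrix.one_mul]
      rw [← hf, ← hf, h1, h1, Fm_of_isU (mem_GJ g)]⟩
  invFun A := ⟨⟨Pm f * A.1.1 * Qm f, by
      rw [Matrix.det_conj_of_mul_eq_one (Pm_mul_Qm f) (Qm_mul_Pm f)]
      exact A.1.2⟩, by
      apply isU_of_Fm (frobQ_frobQ hF)
      intro x y
      have h0 : ∀ w : Fin n → K, (A.1.1 : Matrix (Fin n) (Fin n) K) *ᵥ w = (Cfsg.slToMat n K A.1) *ᵥ w := fun w => rfl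
      have h1 : ∀ w, (Pm f * A.1.1 * Qm f) *ᵥ (f w) = f (A.1.1 *ᵥ w) := by
        intro w
        rw [← Pm_mulVec, ← Pm_mulVec, Matrix.mulVec_mulVec, Matrix.mulVec_mulVec]
        simp only [Matrix.mul_assoc]
        rw [Qm_mul_Pm, Matrix.mul_one]
      obtain ⟨u, rfl⟩ := f.surjective x
      obtain ⟨v, rfl⟩ := f.surjective y
      rw [h1, h1, hf, hf, h0, h0]
      exact A.2 u v⟩
  left_inv g := by
    apply mt_ext
    show Pm f * (Qm f * mt g * Pm f) * Qm f = mt g
    simp only [Matrix.mul_assoc]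
    rw [Pm_mul_Qm, Matrix.mul_one, ← Matrix.mul_assoc, Pm_mul_Qm, Matrix.one_mul]
  right_inv A := by
    apply Subtype.ext
    apply Subtype.ext
    show Qm f * (Pm f * A.1.1 * Qm f) * Pm f = A.1.1
    simp only [Matrix.mul_assoc]
    rw [Qm_mul_Pm, Matrix.mul_one, ← Matrix.mul_assoc, Qm_mul_Pm, Matrix.one_mul]
  map_mul' g h := by
    apply Subtype.ext
    apply Subtype.ext
    show Qm f * (mt g * mt h) * Pm f = Qm f * mt g * Pm f * (Qm f * mt h * Pm f)
    have e : Qm f * mt g * Pm f * (Qm f * mt h * Pm f) = Qm f * mt g * (Pm f * Qm f) * mt h * Pm f := by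
      simp only [Matrix.mul_assoc]
    rw [e, Pm_mul_Qm, Matrix.mul_one]
    simp only [Matrix.mul_assoc]

section Transport

open Cfsg Cfsg.FusionSystem

/-- The cover criterion through an isomorphism. -/
theorem isSimple_of_cover_equiv {G' G : Type*} [Group G'] [Group G] [Finite G'] [Finite G] {p : ℕ} [hp : Fact p.Prime] (φ : G' ≃* G)
    (U₀ : Subgroup G') (hU1 : U₀ ≠ ⊥) {e : ℕ} (hUe : ∀ u ∈ U₀, u ^ p ^ e = 1)
    (hZp : ∀ z ∈ Subgroup.center G', ∀ k : ℕ, z ^ p ^ k = 1 → z = 1)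
    (hNp : ∀ m ∈ Subgroup.normalizer (U₀ : Set G'), ∀ k : ℕ, m ^ p ^ k ∈ Subgroup.center G' →
      ∃ z ∈ Subgroup.center G', m * z ∈ U₀)
    (RR : Set (Subgroup G')) (hR : ∀ R ∈ RR, R ≤ U₀)
    (hRc : ∀ R ∈ RR, ∀ y, (∀ r ∈ R, r * y = y * r) → ∃ z ∈ Subgroup.center G', y * z ∈ R)
    (hK : ∀ m ∈ Subgroup.normalizer (U₀ : Set G'), m ∈ Subgroup.closure {w | w ∈ Subgroup.normalizer (U₀ : Set G') ∧
      ∃ R ∈ RR, w ∈ Subgroup.closure {g | g ∈ Subgroup.normalizer (R : Set G') ∧ ∃ j : ℕ, g ^ p ^ j = 1}})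
    (hcl : ∀ T : Subgroup G', T ≤ U₀ → T ≠ ⊥ → (∀ t ∈ T, ∀ h, h * t * h⁻¹ ∈ U₀ → h * t * h⁻¹ ∈ T) → U₀ ≤ T)
    (S : Sylow p (G ⧸ Subgroup.center G)) :
    (groupFusionSystem (S : Subgroup (G ⧸ Subgroup.center G))).IsSimple p := by
  classical
  let ψ : G' →* G := φ.toMonoidHom
  have hψ : ∀ x, ψ x = φ x := fun _ => rfl
  have hm : ∀ (A : Subgroup G') (x : G'), ψ x ∈ A.map ψ ↔ x ∈ A := by
    intro A x
    constructor
    · rintro ⟨y, hy, e⟩
      rwa [← φ.injective e]
    · intro h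
      exact ⟨x, h, rfl⟩
  have hcen : ∀ x, ψ x ∈ Subgroup.center G ↔ x ∈ Subgroup.center G' := by
    intro x
    rw [Subgroup.mem_center_iff, Subgroup.mem_center_iff]
    constructor
    · intro h g
      apply φ.injective
      have := h (φ g)
      rw [map_mul, map_mul]
      exact this
    · intro h g
      obtain ⟨g', rfl⟩ := φ.surjective g
      have := congrArg φ (h g')
      rw [map_mul, map_mul] at this
      exact this
  have hnorm : ∀ (A : Subgroup G') (x : G'), ψ x ∈ Subgroup.normalizer ((A.map ψ : Subgroup G) : Set G) ↔ x ∈ Subgroup.normalizer (A : Set G') := by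
    intro A x
    rw [Subgroup.mem_normalizer_iff, Subgroup.mem_normalizer_iff]
    constructor
    · intro h y
      have := h (ψ y)
      have e : ψ x * ψ y * (ψ x)⁻¹ = ψ (x * y * x⁻¹) := by
        rw [map_mul, map_mul, map_inv]
      rw [e, hm, hm] at this
      exact this
    · intro h y
      obtain ⟨y', rfl⟩ := φ.surjective y
      have := h y'
      have e : ψ x * φ y' * (ψ x)⁻¹ = ψ (x * y' * x⁻¹) := by
        rw [map_mul, map_mul, map_inv]
        rfl
      rw [e]
      show ψ y' ∈ (A.map ψ : Subgroup G) ↔ ψ (x * y' * x⁻¹) ∈ (A.map ψ : Subgroup G)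
      rw [hm, hm]
      exact this
  refine isSimple_of_cover (p := p) (U₀.map ψ) ?_ (e := e) ?_ ?_ ?_ ((fun R => R.map ψ) '' RR) ?_ ?_ ?_ ?_ S
  · intro h
    apply hU1
    rw [eq_bot_iff]
    intro x hx
    have h1 : ψ x ∈ U₀.map ψ := (hm _ _).2 hx
    rw [h, Subgroup.mem_bot] at h1
    rw [Subgroup.mem_bot]
    apply φ.injective
    rw [map_one]
    exact h1
  · rintro _ ⟨u, hu, rfl⟩
    rw [← map_pow, hUe u hu, map_one]
  · intro z hz k hk
    obtain ⟨z', rfl⟩ := φ.surjective z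
    have h1 := hZp z' ((hcen z').1 hz) k (by
      apply φ.injective
      rw [map_pow, hk, map_one])
    rw [h1, map_one]
  · intro m hm1 k hk
    obtain ⟨m', rfl⟩ := φ.surjective m
    obtain ⟨z, hz, hz2⟩ := hNp m' ((hnorm _ m').1 hm1) k ((hcen _).1 (by
      rw [hψ, map_pow]
      exact hk))
    refine ⟨φ z, (hcen z).2 hz, ?_⟩
    rw [← map_mul]
    exact (hm _ _).2 hz2
  · rintro _ ⟨R, hR1, rfl⟩
    exact Subgroup.map_mono (hR R hR1)
  · rintro _ ⟨R, hR1, rfl⟩ y hy
    obtain ⟨y', rfl⟩ := φ.surjective y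
    obtain ⟨z, hz, hz2⟩ := hRc R hR1 y' (by
      intro r hr
      apply φ.injective
      rw [map_mul, map_mul]
      exact hy (φ r) ((hm _ _).2 hr))
    refine ⟨φ z, (hcen z).2 hz, ?_⟩
    rw [← map_mul]
    exact (hm _ _).2 hz2
  · intro m hm1
    obtain ⟨m', rfl⟩ := φ.surjective m
    have h1 := hK m' ((hnorm _ m').1 hm1)
    have hle : Subgroup.closure {w | w ∈ Subgroup.normalizer ((U₀ : Subgroup G') : Set G') ∧
      ∃ R ∈ RR, w ∈ Subgroup.closure {g | g ∈ Subgroup.normalizer (R : Set G') ∧ ∃ j : ℕ, g ^ p ^ j = 1}} ≤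
        (Subgroup.closure {w | w ∈ Subgroup.normalizer ((U₀.map ψ : Subgroup G) : Set G) ∧
      ∃ R ∈ ((fun R : Subgroup G' => (R.map ψ : Subgroup G)) '' RR : Set (Subgroup G)), w ∈ Subgroup.closure {g | g ∈ Subgroup.normalizer (R : Set G) ∧ ∃ j : ℕ, g ^ p ^ j = 1}}).comap ψ := by
      rw [Subgroup.closure_le]
      rintro w ⟨hw1, R, hR1, hw2⟩
      apply Subgroup.subset_closure
      refine ⟨(hnorm _ w).2 hw1, R.map ψ, ⟨R, hR1, rfl⟩, ?_⟩
      have hle2 : Subgroup.closure {g | g ∈ Subgroup.normalizer (R : Set G') ∧ ∃ j : ℕ, g ^ p ^ j = 1} ≤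
          (Subgroup.closure {g | g ∈ Subgroup.normalizer ((R.map ψ : Subgroup G) : Set G) ∧ ∃ j : ℕ, g ^ p ^ j = 1}).comap ψ := by
        rw [Subgroup.closure_le]
        rintro g ⟨hg1, j, hj⟩
        apply Subgroup.subset_closure
        refine ⟨(hnorm _ g).2 hg1, j, ?_⟩
        rw [← map_pow, hj, map_one]
      exact hle2 hw2
    exact hle h1
  · intro T hT hne hcl2
    have hle := hcl (T.comap ψ) (by
      intro x hx
      exact (hm _ _).1 (hT hx)) (by
      intro h
      apply hne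
      rw [eq_bot_iff]
      intro x hx
      obtain ⟨x', rfl⟩ := φ.surjective x
      have h1 : x' ∈ T.comap ψ := hx
      rw [h, Subgroup.mem_bot] at h1
      rw [Subgroup.mem_bot, h1, map_one]) (by
      intro t ht h hh
      show ψ _ ∈ T
      have e : ψ (h * t * h⁻¹) = ψ h * ψ t * (ψ h)⁻¹ := by
        rw [map_mul, map_mul, map_inv]
      rw [e]
      apply hcl2 _ ht
      rw [← e]
      exact (hm _ _).2 hh)
    rintro _ ⟨u, hu, rfl⟩
    exact hle hu

end Transport

section Final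

open Cfsg Cfsg.FusionSystem

variable {K : Type*} [Field K] [Fintype K]

/-- The main theorem. -/
theorem psu_simple (p q : ℕ) [hp : Fact p.Prime] [CharP K p] (hK : Fintype.card K = q ^ 2) (r : ℕ) (M : Type) [Fintype M] [DecidableEq M] [Subsingleton M]
    (hr : 2 ≤ r) (n : ℕ) (hn : n = NN r M) (S : Sylow p (Cfsg.PSU n K q)) :
    (Cfsg.groupFusionSystem (S : Subgroup (Cfsg.PSU n K q))).IsSimple p := by
  classical
  obtain ⟨f, hf⟩ := exists_isometry (r := r) (M := M) hK n hn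
  have hσ := frobQ_frobQ hK
  have hσ1 := frobQ_ne_id hK
  haveI : Finite (GG (frobQ hK) r M) := inferInstance
  haveI : Finite (Cfsg.SU n K q) := inferInstance
  exact isSimple_of_cover_equiv (p := p) (uEquiv f hf) (U0U (frobQ hK) r M) (U0U_ne_bot hσ hσ1 hr) (e := NN r M)
    (fun u hu => exists_pow_U0U' hu)
    (fun z hz k h => center_trivial hσ hσ1 hr hz h)
    (fun g hg k hk => exists_center_mul hσ hσ1 hr hg hk)
    (RRU (frobQ hK) r M)
    (fun R hR => RRU_le hR)
    (fun R hR y hy => RRU_centric hσ hσ1 hr hR y hy)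
    (fun g hg => norm_le_WWU hσ hσ1 hr hg)
    (fun T hT hne hcl => U0U_le_of_closed hT hcl hσ p hσ1 hr hne) S

end Final

end Cfsg.Agent.Lib.Fusion.SUF
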